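import Cfsg.Agent.Fusion.EssentialPair
import Cfsg.Agent.PGroup.ExtraspecialIndex

/-!
Groups with a unique abelian subgroup of index `p`, and their essential subgroups.
-/

set_option autoImplicit false
set_option linter.style.haveILetI false

open Cfsg

namespace CfsgLib.Fusion

open Cfsg.FusionSystem

variable {Ω : Type*} [Group Ω] {S : Subgroup Ω} {A : Subgroup Ω} {p : ℕ}

/-- `A` is the unique abelian subgroup of index `p` of the nonabelian group `S`. -/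
structure AIP (S A : Subgroup Ω) (p : ℕ) : Prop where
  le : A ≤ S
  comm : ∀ a ∈ A, ∀ b ∈ A, a * b = b * a
  index : (A.subgroupOf S).index = p
  nonab : ¬ ∀ a ∈ S, ∀ b ∈ S, a * b = b * a
  uniq : ∀ B : Subgroup Ω, B ≤ S → (∀ a ∈ B, ∀ b ∈ B, a * b = b * a) → (B.subgroupOf S).index = p → B = A

/-- The second centre, inside the ambient group. -/
def zTwo (S : Subgroup Ω) : Subgroup Ω := (Subgroup.upperCentralSeries ↥S 2).map S.subtype

open scoped commutatorElement in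
lemma mem_zTwo {s : Ω} : s ∈ zTwo S ↔ s ∈ S ∧ ∀ t ∈ S, s * t * s⁻¹ * t⁻¹ ∈ centralizerIn S S := by
  constructor
  · rintro ⟨s, hs, rfl⟩
    refine ⟨s.2, fun t ht => ?_⟩
    have h1 := Subgroup.mem_upperCentralSeries_succ_iff.1 hs ⟨t, ht⟩
    rw [Subgroup.upperCentralSeries_one] at h1
    exact ⟨(⁅s, (⟨t, ht⟩ : S)⁆).2, Subgroup.mem_centralizer_iff.2 fun u hu =>
      congrArg Subtype.val (Subgroup.mem_center_iff.1 h1 ⟨u, hu⟩)⟩
  · rintro ⟨hs, h⟩
    refine ⟨⟨s, hs⟩, Subgroup.mem_upperCentralSeries_succ_iff.2 fun t => ?_, rfl⟩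
    rw [Subgroup.upperCentralSeries_one]
    refine Subgroup.mem_center_iff.2 fun u => Subtype.ext ?_
    exact Subgroup.mem_centralizer_iff.1 (h t t.2).2 u u.2

lemma mem_centerIn {z : Ω} : z ∈ centralizerIn S S ↔ z ∈ S ∧ ∀ s ∈ S, s * z = z * s :=
  ⟨fun h => ⟨h.1, fun s hs => Subgroup.mem_centralizer_iff.1 h.2 s hs⟩,
    fun h => ⟨h.1, Subgroup.mem_centralizer_iff.2 h.2⟩⟩

/-- Counting through a homomorphism defined on a subgroup. -/
lemma card_eq_ker_mul_map [Finite A] (f : ↥A →* Ω) {M : Subgroup Ω} (hM : M ≤ A) :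
    Nat.card M = Nat.card ↥(M ⊓ f.ker.map A.subtype) * Nat.card ↥((M.subgroupOf A).map f) := by
  set g := f.comp (Subgroup.inclusion hM) with hg
  have h1 : g.range = (M.subgroupOf A).map f := by
    ext y
    constructor
    · rintro ⟨x, rfl⟩; exact ⟨_, x.2, rfl⟩
    · rintro ⟨x, hx, rfl⟩; exact ⟨⟨x, hx⟩, rfl⟩
  have h2 : g.ker.map M.subtype = M ⊓ f.ker.map A.subtype := by
    ext y
    constructor
    · rintro ⟨x, hx, rfl⟩; exact ⟨x.2, ⟨_, hx, rfl⟩⟩
    · rintro ⟨hy, a, ha, rfl⟩; exact ⟨⟨a, hy⟩, ha, rfl⟩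
  rw [← g.ker.card_mul_index, Subgroup.index_ker, h1, ← h2,
    Subgroup.card_map_of_injective M.subtype_injective]

namespace AIP

variable [Finite S] [Fact p.Prime] (h : AIP S A p)
include h

lemma nontrivial_of_nonab (hS : IsPGroup p S) : A < S := by
  refine lt_of_le_of_ne h.le fun e => ?_
  have h1 := h.index
  rw [e, Subgroup.subgroupOf_self, Subgroup.index_top] at h1
  exact (Fact.out : p.Prime).ne_one h1.symm

lemma conj_mem (hS : IsPGroup p S) {s a : Ω} (hs : s ∈ S) (ha : a ∈ A) : s * a * s⁻¹ ∈ A :=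
  (CfsgLib.Extraspecial.normal_of_index_eq hS h.index).1.conj_mem ⟨a, h.le ha⟩ ha ⟨s, hs⟩

lemma decomp (hS : IsPGroup p S) {x : Ω} (hx : x ∈ S) (hxA : x ∉ A) {s : Ω} (hs : s ∈ S) :
    ∃ a ∈ A, ∃ i : ℤ, s = a * x ^ i := by
  obtain ⟨hn, hco⟩ := CfsgLib.Extraspecial.normal_of_index_eq hS h.index
  haveI := hn
  have htop : A.subgroupOf S ⊔ Subgroup.zpowers (⟨x, hx⟩ : S) = ⊤ :=
    hco.2 _ (lt_of_le_of_ne le_sup_left fun e => hxA (Subgroup.mem_subgroupOf.1
      (e.symm ▸ Subgroup.mem_sup_right (Subgroup.mem_zpowers _) : (⟨x, hx⟩ : S) ∈ A.subgroupOf S)))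
  have h1 : (⟨s, hs⟩ : S) ∈ A.subgroupOf S ⊔ Subgroup.zpowers (⟨x, hx⟩ : S) := htop ▸ Subgroup.mem_top _
  obtain ⟨a, ha, y, ⟨i, rfl⟩, e⟩ := Subgroup.mem_sup_of_normal_left.1 h1
  exact ⟨a, ha, i, (congrArg Subtype.val e).symm⟩

lemma commute_mem (hS : IsPGroup p S) {x a : Ω} (hx : x ∈ S) (hxA : x ∉ A) (ha : a ∈ A) (hc : x * a = a * x) :
    a ∈ centralizerIn S S := by
  refine mem_centerIn.2 ⟨h.le ha, fun s hs => ?_⟩
  obtain ⟨b, hb, i, rfl⟩ := h.decomp hS hx hxA hs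
  have h1 : Commute (x ^ i) a := Commute.zpow_left hc i
  calc b * x ^ i * a = b * (a * x ^ i) := by rw [mul_assoc, h1.eq]
    _ = a * (b * x ^ i) := by rw [← mul_assoc, h.comm b hb a ha, mul_assoc]

lemma center_le (hS : IsPGroup p S) : centralizerIn S S ≤ A := by
  intro z hz
  by_contra hzA
  have hz' := mem_centerIn.1 hz
  refine h.nonab fun s hs t ht => ?_
  obtain ⟨a, ha, i, rfl⟩ := h.decomp hS hz'.1 hzA hs
  obtain ⟨b, hb, j, rfl⟩ := h.decomp hS hz'.1 hzA ht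
  have ca : Commute a (z ^ j) := (show Commute a z from hz'.2 a (h.le ha)).zpow_right j
  have cb : Commute (z ^ i) b := ((show Commute b z from hz'.2 b (h.le hb)).zpow_right i).symm
  have cz : Commute (z ^ i) (z ^ j) := (Commute.refl z).zpow_zpow i j
  exact (((show Commute a b from h.comm a ha b hb).mul_right ca).mul_left (cb.mul_right cz)).eq

/-- `a ↦ [x, a]` on `A`. -/
def kappa (hS : IsPGroup p S) {x : Ω} (hx : x ∈ S) : ↥A →* Ω where
  toFun a := x * a * x⁻¹ * (a : Ω)⁻¹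
  map_one' := by simp
  map_mul' a b := by
    have h1 : x * b * x⁻¹ ∈ A := h.conj_mem hS hx b.2
    have e := h.comm _ (A.mul_mem h1 (A.inv_mem b.2)) _ (A.inv_mem a.2)
    show x * (a * b : Ω) * x⁻¹ * ((a * b : Ω))⁻¹ = _
    calc x * (a * b : Ω) * x⁻¹ * ((a * b : Ω))⁻¹ = x * a * x⁻¹ * ((x * b * x⁻¹ * (b : Ω)⁻¹) * (a : Ω)⁻¹) := by group
      _ = _ := by rw [e]; group

lemma kappa_apply (hS : IsPGroup p S) {x : Ω} (hx : x ∈ S) (a : A) :
    h.kappa hS hx a = x * a * x⁻¹ * (a : Ω)⁻¹ := rfl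

lemma kappa_mem (hS : IsPGroup p S) {x : Ω} (hx : x ∈ S) (a : A) : h.kappa hS hx a ∈ A :=
  A.mul_mem (h.conj_mem hS hx a.2) (A.inv_mem a.2)

lemma kappa_ker (hS : IsPGroup p S) {x : Ω} (hx : x ∈ S) (hxA : x ∉ A) :
    (h.kappa hS hx).ker.map A.subtype = centralizerIn S S := by
  ext z
  constructor
  · rintro ⟨a, ha, rfl⟩
    exact h.commute_mem hS hx hxA a.2 (mul_inv_eq_iff_eq_mul.1 (mul_inv_eq_one.1 (MonoidHom.mem_ker.1 ha)))
  · intro hz
    refine ⟨⟨z, h.center_le hS hz⟩, MonoidHom.mem_ker.2 ?_, rfl⟩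
    show x * z * x⁻¹ * z⁻¹ = 1
    rw [(mem_centerIn.1 hz).2 x hx]
    group

lemma mem_zTwo_iff (hS : IsPGroup p S) {x a : Ω} (hx : x ∈ S) (hxA : x ∉ A) (ha : a ∈ A) :
    a ∈ zTwo S ↔ x * a * x⁻¹ * a⁻¹ ∈ centralizerIn S S := by
  constructor
  · intro ha2
    have h1 := (centralizerIn S S).inv_mem ((mem_zTwo.1 ha2).2 x hx)
    rwa [show (a * x * a⁻¹ * x⁻¹)⁻¹ = x * a * x⁻¹ * a⁻¹ by group] at h1
  · intro hxa
    refine mem_zTwo.2 ⟨h.le ha, ?_⟩
    let W : Subgroup Ω :=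
      { carrier := {t | t ∈ S ∧ a * t * a⁻¹ * t⁻¹ ∈ centralizerIn S S}
        one_mem' := ⟨S.one_mem, by simp [Subgroup.one_mem]⟩
        mul_mem' := fun {s t} ⟨hs, hs'⟩ ⟨ht, ht'⟩ => ⟨S.mul_mem hs ht, by
          rw [show a * (s * t) * a⁻¹ * (s * t)⁻¹ = (a * s * a⁻¹ * s⁻¹) * (s * (a * t * a⁻¹ * t⁻¹) * s⁻¹) by group,
            (mem_centerIn.1 ht').2 s hs, mul_inv_cancel_right]
          exact Subgroup.mul_mem _ hs' ht'⟩
        inv_mem' := fun {s} ⟨hs, hs'⟩ => ⟨S.inv_mem hs, by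
          have hh := (centralizerIn S S).inv_mem hs'
          rw [show a * s⁻¹ * a⁻¹ * s⁻¹⁻¹ = s⁻¹ * (a * s * a⁻¹ * s⁻¹)⁻¹ * s⁻¹⁻¹ by group,
            (mem_centerIn.1 hh).2 _ (S.inv_mem hs), mul_inv_cancel_right]
          exact hh⟩ }
    intro t ht
    obtain ⟨b, hb, i, rfl⟩ := h.decomp hS hx hxA ht
    refine (W.mul_mem (?_ : b ∈ W) (W.zpow_mem (?_ : x ∈ W) i)).2
    · refine ⟨h.le hb, ?_⟩
      rw [h.comm a ha b hb]
      simp [Subgroup.one_mem]
    · refine ⟨hx, ?_⟩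
      rw [show a * x * a⁻¹ * x⁻¹ = (x * a * x⁻¹ * a⁻¹)⁻¹ by group]
      exact Subgroup.inv_mem _ hxa

lemma center_le_zTwo : centralizerIn S S ≤ zTwo S := fun z hz => mem_zTwo.2 ⟨hz.1, fun t ht => by
  rw [← (mem_centerIn.1 hz).2 t ht]; simp [Subgroup.one_mem]⟩

/-- The centre has index more than `p` in `A`. -/
lemma center_card_lt (hS : IsPGroup p S) (hle : Nat.card A ≤ p * Nat.card (centralizerIn S S)) : False := by
  have hAS := h.nontrivial_of_nonab hS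
  obtain ⟨x, hx, hxA⟩ := SetLike.exists_of_lt hAS
  set Z := centralizerIn S S
  set B := Z ⊔ Subgroup.zpowers x
  have hBS : B ≤ S := sup_le inf_le_left (Subgroup.zpowers_le.2 hx)
  have hBc : ∀ a ∈ B, ∀ b ∈ B, a * b = b * a := by
    have hgen : ((Z : Set Ω) ∪ {x}) ⊆ (S : Set Ω) :=
      Set.union_subset inf_le_left (Set.singleton_subset_iff.2 hx)
    have hcl : B = Subgroup.closure ((Z : Set Ω) ∪ {x}) := by
      rw [Subgroup.closure_union, Subgroup.closure_eq, ← Subgroup.zpowers_eq_closure]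
    haveI := Subgroup.isMulCommutative_closure (k := (Z : Set Ω) ∪ {x}) (by
      rintro a (ha | rfl) b (hb | rfl)
      · exact (mem_centerIn.1 hb).2 a (inf_le_left (a := S) ha)
      · exact ((mem_centerIn.1 ha).2 b hx).symm
      · exact (mem_centerIn.1 hb).2 a hx
      · rfl)
    intro a ha b hb
    rw [hcl] at ha hb
    exact congrArg Subtype.val (IsMulCommutative.is_comm.comm (⟨a, ha⟩ : Subgroup.closure ((Z : Set Ω) ∪ {x})) ⟨b, hb⟩)
  have hBA : B ≠ A := fun e => hxA (e ▸ Subgroup.mem_sup_right (Subgroup.mem_zpowers x))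
  have hcard : (A.subgroupOf S).index * Nat.card A = Nat.card S := by
    rw [← Nat.card_congr (Subgroup.subgroupOfEquivOfLe h.le).toEquiv, mul_comm]
    exact Subgroup.card_mul_index _
  rw [h.index] at hcard
  have hBcard : (B.subgroupOf S).index * Nat.card B = Nat.card S := by
    rw [← Nat.card_congr (Subgroup.subgroupOfEquivOfLe hBS).toEquiv, mul_comm]
    exact Subgroup.card_mul_index _
  obtain ⟨k, hk⟩ := hS.index (B.subgroupOf S)
  rw [hk] at hBcard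
  haveI : Finite B := finite_of_le hBS
  have hZB : Nat.card Z < Nat.card B := by
    refine lt_of_le_of_ne (Subgroup.card_le_of_le le_sup_left) fun e => ?_
    exact hxA (h.center_le hS ((Subgroup.eq_of_le_of_card_ge le_sup_left e.ge).symm ▸
      Subgroup.mem_sup_right (Subgroup.mem_zpowers x) : x ∈ Z))
  have hp := (Fact.out : p.Prime)
  have hk2 : k < 2 := by
    by_contra hk2
    have : p ^ 2 ≤ p ^ k := Nat.pow_le_pow_right hp.pos (by omega)
    nlinarith [hp.pos]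
  rcases Nat.lt_or_ge k 1 with h0 | h1
  · have e : B = S := by
      refine Subgroup.eq_of_le_of_card_ge hBS ?_
      rw [show k = 0 by omega, pow_zero, one_mul] at hBcard
      exact hBcard.ge
    exact h.nonab fun a ha b hb => hBc a (e ▸ ha) b (e ▸ hb)
  · refine hBA (h.uniq B hBS hBc ?_)
    rw [hk, show k = 1 by omega, pow_one]

end AIP

end CfsgLib.Fusion
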