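import Cfsg.Agent.Fusion.AbelianIndexPReflection
import Cfsg.Agent.Fusion.AlperinCor

/-!
The centre of `S` when the abelian subgroup of index `p` is not essential and the core is trivial.
-/

set_option autoImplicit false
set_option linter.style.haveILetI false

open Cfsg

namespace CfsgLib.Fusion

open Cfsg.FusionSystem
open scoped commutatorElement

variable {Ω : Type*} [Group Ω] {S : Subgroup Ω} {A : Subgroup Ω} {p : ℕ} [Finite S] [Fact p.Prime]
variable {F : Cfsg.FusionSystem S} {P : Subgroup Ω}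

omit [Finite S] in
/-- Automorphisms of `S` preserve its centre and its derived subgroup. -/
lemma aut_mem_center (β : MulAut S) {z : S} (hz : (z : Ω) ∈ centralizerIn S S) :
    ((β z : S) : Ω) ∈ centralizerIn S S := by
  refine mem_centerIn.2 ⟨(β z).2, fun s hs => ?_⟩
  obtain ⟨u, hu⟩ := β.surjective ⟨s, hs⟩
  have h3 : u * z = z * u := Subtype.ext ((mem_centerIn.1 hz).2 u u.2)
  have h4 := congrArg (fun w : S => ((β w : S) : Ω)) h3
  simp only [map_mul, hu] at h4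
  exact h4

omit [Finite S] in
lemma aut_mem_commutator (β : MulAut S) {z : S} (hz : (z : Ω) ∈ ⁅S, S⁆) : ((β z : S) : Ω) ∈ ⁅S, S⁆ := by
  rw [← Subgroup.map_subtype_commutator] at hz ⊢
  obtain ⟨w, hw, hwz⟩ := hz
  obtain rfl : w = z := Subtype.ext hwz
  refine ⟨β w, ?_, rfl⟩
  have h : (commutator ↥S).map β.toMonoidHom ≤ commutator ↥S := by
    rw [commutator_def, Subgroup.map_commutator]
    exact Subgroup.commutator_mono le_top le_top
  exact h ⟨w, hw, rfl⟩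

/-- Some power of an element of `Aut_F(S)`, prime to `p`, is inner. -/
lemma exists_pow_conj (hS : IsPGroup p S) (hF : F.IsSaturated p) {δ : MulAut S} (hδ : δ ∈ F.autGroup S) :
    ∃ m : ℕ, ¬ p ∣ m ∧ ∃ g ∈ S, ∀ y : S, (((δ ^ m) y : S) : Ω) = g * (y : Ω) * g⁻¹ := by
  haveI := finite_mulAut (le_refl S)
  obtain ⟨-, T, hT⟩ := fullyAutomized_of_fullyNormalized hS hF (isFullyNormalized_self F)
  haveI : (T : Subgroup (F.autGroup S)).Normal := by
    refine ⟨fun c hc a => ?_⟩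
    rw [hT, Subgroup.mem_subgroupOf] at hc ⊢
    obtain ⟨g, hg, hgc⟩ := mem_autInducedBy.1 hc
    refine mem_autInducedBy.2 ⟨((a : MulAut S) ⟨g, hg⟩ : S), ((a : MulAut S) ⟨g, hg⟩).2, fun x => ?_⟩
    show (((a : MulAut S) ((c : MulAut S) ((a : MulAut S)⁻¹ x)) : S) : Ω) = _
    obtain ⟨y, rfl⟩ := (a : MulAut S).surjective x
    rw [MulAut.inv_apply_self, show (c : MulAut S) y = ⟨g, hg⟩ * y * ⟨g, hg⟩⁻¹ from Subtype.ext (hgc y),
      map_mul, map_mul, map_inv]
    rfl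
  refine ⟨(T : Subgroup (F.autGroup S)).index, T.not_dvd_index, ?_⟩
  have h := Subgroup.pow_index_mem (T : Subgroup (F.autGroup S)) ⟨δ, hδ⟩
  exact mem_autInducedBy.1 (Subgroup.mem_subgroupOf.1 (hT.le h))

/-- Automorphisms inverting `Z ∩ [S, S]`, of order `p`, and trivial modulo it agree on the centre. -/
lemma agree_on_center (hS : IsPGroup p S) (hF : F.IsSaturated p)
    (hexp : ∀ e : S, (e : Ω) ∈ centralizerIn S S ⊓ ⁅S, S⁆ → e ^ p = 1)
    {β β' : MulAut S} (hβ : β ∈ F.autGroup S) (hβ' : β' ∈ F.autGroup S)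
    (h3 : ∀ z : S, (z : Ω) ∈ centralizerIn S S ⊓ ⁅S, S⁆ → β z = z⁻¹)
    (h4 : ∀ z : S, (z : Ω) ∈ centralizerIn S S → ((z⁻¹ * β z : S) : Ω) ∈ centralizerIn S S ⊓ ⁅S, S⁆)
    (h3' : ∀ z : S, (z : Ω) ∈ centralizerIn S S ⊓ ⁅S, S⁆ → β' z = z⁻¹)
    (h4' : ∀ z : S, (z : Ω) ∈ centralizerIn S S → ((z⁻¹ * β' z : S) : Ω) ∈ centralizerIn S S ⊓ ⁅S, S⁆)
    {z : S} (hz : (z : Ω) ∈ centralizerIn S S) : β z = β' z := by
  obtain ⟨m, hm, g, hg, hgm⟩ := exists_pow_conj hS hF (mul_mem (inv_mem hβ') hβ)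
  obtain ⟨d, hd⟩ : ∃ d, d = z⁻¹ * β z := ⟨_, rfl⟩
  obtain ⟨d', hd'⟩ : ∃ d', d' = z⁻¹ * β' z := ⟨_, rfl⟩
  have hdm : (d : Ω) ∈ centralizerIn S S ⊓ ⁅S, S⁆ := hd ▸ h4 z hz
  have hdm' : (d' : Ω) ∈ centralizerIn S S ⊓ ⁅S, S⁆ := hd' ▸ h4' z hz
  have hb : β z = z * d := by rw [hd, mul_inv_cancel_left]
  have hb' : β' z = z * d' := by rw [hd', mul_inv_cancel_left]
  have hi : β'⁻¹ z = z * d' := β'.injective (by
    rw [MulAut.apply_inv_self, map_mul, hb', h3' d' hdm', mul_inv_cancel_right])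
  have hid : β'⁻¹ d = d⁻¹ := β'.injective (by rw [MulAut.apply_inv_self, map_inv, h3' d hdm, inv_inv])
  obtain ⟨e, he⟩ : ∃ e, e = d' * d⁻¹ := ⟨_, rfl⟩
  have hem : (e : Ω) ∈ centralizerIn S S ⊓ ⁅S, S⁆ := by
    rw [he]
    exact mul_mem hdm' (inv_mem hdm)
  have hδz : (β'⁻¹ * β) z = z * e := by
    show β'⁻¹ (β z) = _
    rw [hb, map_mul, hi, hid, he, mul_assoc]
  have hδe : (β'⁻¹ * β) e = e := by
    show β'⁻¹ (β e) = e
    refine β'.injective ?_
    rw [MulAut.apply_inv_self, h3 e hem, h3' e hem]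
  have hpow : ∀ n : ℕ, ((β'⁻¹ * β) ^ n) z = z * e ^ n := by
    intro n
    induction n with
    | zero => simp
    | succ n ih => rw [pow_succ', MulAut.mul_apply, ih, map_mul, map_pow, hδz, hδe, pow_succ', mul_assoc]
  have he1 : e ^ m = 1 := by
    have h1 : ((β'⁻¹ * β) ^ m) z = z := Subtype.ext (by
      rw [hgm, (mem_centerIn.1 hz).2 g hg, mul_inv_cancel_right])
    rw [hpow m] at h1
    exact mul_eq_left.1 h1
  have he0 : e = 1 := orderOf_eq_one_iff.1 (Nat.eq_one_of_dvd_coprimes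
    (((Fact.out : p.Prime).coprime_iff_not_dvd).2 hm) (orderOf_dvd_of_pow_eq_one (hexp e hem))
    (orderOf_dvd_of_pow_eq_one he1))
  rw [he, mul_inv_eq_one] at he0
  rw [hb, hb', he0]

namespace AIP

variable (h : AIP S A p) (hS : IsPGroup p S) (hF : F.IsSaturated p) (hAe : ¬ F.IsEssential p A)
include h hS hF hAe

/-- With trivial core an abelian essential subgroup exists. -/
theorem exists_abelian_essential (hcore : F.core = ⊥) :
    ∃ P : Subgroup Ω, F.IsEssential p P ∧ ∀ a ∈ P, ∀ b ∈ P, a * b = b * a := by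
  by_contra hno
  push_neg at hno
  have hZS : centralizerIn S S ≤ S := inf_le_left
  have hn : S ≤ Subgroup.normalizer (centralizerIn S S : Set Ω) := fun g hg =>
    Subgroup.mem_normalizer_iff.2 fun q => by
      have hc : ∀ g ∈ S, ∀ q ∈ centralizerIn S S, g * q * g⁻¹ = q := fun g hg q hq => by
        rw [(mem_centerIn.1 hq).2 g hg, mul_inv_cancel_right]
      constructor
      · intro hq
        rwa [hc g hg q hq]
      · intro hq
        have h1 := hc g⁻¹ (S.inv_mem hg) _ hq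
        have h2 : q = g * q * g⁻¹ := by rw [← h1]; group
        rwa [h2]
  have hle : F ≤ normalSystem F hZS hn := by
    refine le_of_essential hS hF _ fun P hP α hα => ?_
    have hPS : P ≤ S := by
      rcases hP with rfl | hP
      exacts [le_rfl, hP.1.1]
    have hm := (mem_autGroup hPS).1 hα
    have hZP : centralizerIn S S ≤ P := by
      rcases hP with rfl | hP
      exacts [inf_le_left, h.center_le_essential hS hF hP]
    refine (mem_autGroup hPS).2 ⟨hm, _, restrict hm (sup_le le_rfl hZP), fun x => rfl, fun q hq => ?_⟩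
    show ((α ⟨q, hZP hq⟩ : P) : Ω) ∈ centralizerIn S S
    rcases hP with rfl | hP
    · exact aut_mem_center α hq
    · obtain ⟨-, -, -, x, hx, hxA, hor⟩ := h.essential_structure hS hF hP (fun e => hAe (e ▸ hP))
      rcases hor with ⟨-, -, -, hab⟩ | ⟨-, -, hcen⟩
      · obtain ⟨a, ha, b, hb, hne⟩ := hno P hP
        exact absurd (hab a ha b hb) hne
      · exact h.center_invariant_of_case_two hS hF hAe hP hcen α ⟨q, hZP hq⟩ hq
  have hbot : centralizerIn S S = ⊥ :=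
    le_bot_iff.1 ((le_sSup (isNormal_of_le_normalSystem hle) : _ ≤ F.core).trans hcore.le)
  haveI : Nontrivial S := by
    by_contra hS1
    rw [not_nontrivial_iff_subsingleton] at hS1
    exact h.nonab fun a ha b hb => congrArg Subtype.val (Subsingleton.elim
      (⟨a, ha⟩ * ⟨b, hb⟩ : S) (⟨b, hb⟩ * ⟨a, ha⟩))
  haveI := hS.center_nontrivial
  obtain ⟨⟨z, hz⟩, hz1⟩ := exists_ne (1 : Subgroup.center ↥S)
  refine hz1 (Subtype.ext (Subtype.ext (Subgroup.mem_bot.1 (hbot.le (mem_centerIn.2 ⟨z.2, fun s hs => ?_⟩)))))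
  exact congrArg Subtype.val (Subgroup.mem_center_iff.1 hz ⟨s, hs⟩)

/-- The fixed points of the reflection are normal in the system, hence trivial. -/
theorem center_le_commutator_of_core (hodd : p ≠ 2) (hcore : F.core = ⊥) :
    centralizerIn S S ≤ ⁅S, S⁆ := by
  have hp := (Fact.out : p.Prime)
  obtain ⟨P₀, hP₀, hab₀⟩ := h.exists_abelian_essential hS hF hAe hcore
  obtain ⟨hz2, hc2, -, x₀, hx₀, hxA₀, -⟩ := h.essential_structure hS hF hP₀ (fun e => hAe (e ▸ hP₀))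
  have hexp : ∀ e : S, (e : Ω) ∈ centralizerIn S S ⊓ ⁅S, S⁆ → e ^ p = 1 := by
    intro e he
    rw [h.commutator_eq_range hS (hP₀.1.1 hx₀) hxA₀] at he
    have h0 := h.card_center_inf hS (hP₀.1.1 hx₀) hxA₀ hz2 hc2
    have h1 : (⟨(e : Ω), he⟩ : ↥(centralizerIn S S ⊓ (h.kappa hS (hP₀.1.1 hx₀)).range)) ^ p = 1 :=
      orderOf_dvd_iff_pow_eq_one.1 (orderOf_dvd_natCard _ |>.trans h0.dvd)
    exact Subtype.ext (congrArg Subtype.val h1 :)
  obtain ⟨⟨γ₀, hγ₀, hsep₀⟩, -⟩ := exists_separating hS hF hP₀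
  obtain ⟨β₀, hβ₀, -, -, h30, h40⟩ := h.exists_reflection hS hF hAe hodd hP₀ hab₀ hγ₀ hsep₀
  let C : Subgroup Ω :=
    { carrier := {z | ∃ hz : z ∈ centralizerIn S S, β₀ ⟨z, hz.1⟩ = ⟨z, hz.1⟩}
      one_mem' := ⟨one_mem _, map_one β₀⟩
      mul_mem' := fun {a b} ha hb => ⟨mul_mem ha.1 hb.1, by
        show β₀ (⟨a, ha.1.1⟩ * ⟨b, hb.1.1⟩) = _
        rw [map_mul, ha.2, hb.2]
        rfl⟩
      inv_mem' := fun {a} ha => ⟨inv_mem ha.1, by
        show β₀ (⟨a, ha.1.1⟩⁻¹) = _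
        rw [map_inv, ha.2]
        rfl⟩ }
  have hCZ : C ≤ centralizerIn S S := fun z hz => hz.1
  have hCS : C ≤ S := hCZ.trans inf_le_left
  have hn : S ≤ Subgroup.normalizer (C : Set Ω) := fun g hg => Subgroup.mem_normalizer_iff.2 fun q => by
    constructor
    · intro hq
      rwa [(mem_centerIn.1 (hCZ hq)).2 g hg, mul_inv_cancel_right]
    · intro hq
      have h1 : g⁻¹ * (g * q * g⁻¹) = g * q * g⁻¹ * g⁻¹ := (mem_centerIn.1 (hCZ hq)).2 _ (S.inv_mem hg)
      rw [show g⁻¹ * (g * q * g⁻¹) = q * g⁻¹ by group] at h1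
      rwa [mul_right_cancel h1]
  -- automorphisms of `S` preserve the fixed points
  have hinv : ∀ α ∈ F.autGroup S, ∀ z : S, (z : Ω) ∈ C → ((α z : S) : Ω) ∈ C := by
    intro α hα z ⟨hz, hfix⟩
    have hfix' : β₀ z = z := hfix
    have hαz := aut_mem_center α hz
    refine ⟨hαz, ?_⟩
    have key := agree_on_center hS hF hexp hβ₀ (mul_mem (mul_mem hα hβ₀) (inv_mem hα)) h30 h40
      (fun w hw => by
        show α (β₀ (α⁻¹ w)) = w⁻¹
        rw [h30 _ ⟨aut_mem_center _ hw.1, aut_mem_commutator _ hw.2⟩, map_inv, MulAut.apply_inv_self])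
      (fun w hw => by
        show ((w⁻¹ * α (β₀ (α⁻¹ w)) : S) : Ω) ∈ centralizerIn S S ⊓ ⁅S, S⁆
        obtain ⟨u, rfl⟩ := α.surjective w
        rw [MulAut.inv_apply_self, ← map_inv, ← map_mul]
        have h1 := h40 u (by
          have := aut_mem_center α⁻¹ hw
          rwa [MulAut.inv_apply_self] at this)
        exact ⟨aut_mem_center α h1.1, aut_mem_commutator α h1.2⟩) hαz
    refine key.trans ?_
    show α (β₀ (α⁻¹ (α z))) = α z
    rw [MulAut.inv_apply_self, hfix']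
  -- separating automorphisms fix them
  have hsepC : ∀ (P : Subgroup Ω) (hP : F.IsEssential p P), (∀ a ∈ P, ∀ b ∈ P, a * b = b * a) →
      ∀ γ ∈ F.autGroup P, (∀ b ∈ autInducedBy S P, γ⁻¹ * b * γ ∈ autInducedBy S P → b ∈ Cfsg.Inn P) →
      ∀ q : P, (q : Ω) ∈ C → ((γ⁻¹ q : P) : Ω) ∈ centralizerIn S S := by
    intro P hP hab γ hγ hsep q ⟨hq, hfix⟩
    obtain ⟨β, hβ, -, h2, h3, h4⟩ := h.exists_reflection hS hF hAe hodd hP hab hγ hsep
    exact h2 ⟨q, hq.1⟩ hq ((agree_on_center hS hF hexp hβ hβ₀ h3 h4 h30 h40 hq).trans hfix) q.2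
  have hle : F ≤ normalSystem F hCS hn := by
    refine le_of_essential hS hF _ fun P hP => ?_
    rcases hP with rfl | hP
    · intro α hα
      have hm := (mem_autGroup le_rfl).1 hα
      exact (mem_autGroup le_rfl).2 ⟨hm, _, restrict hm (sup_le le_rfl hCS), fun x => rfl,
        fun q hq => hinv α hα ⟨q, hCS hq⟩ hq⟩
    have hPS := hP.1.1
    have hCP : C ≤ P := hCZ.trans (h.center_le_essential hS hF hP)
    haveI := finite_of_le hPS
    haveI : Finite (centralizerIn S S) := finite_of_le (S := S) inf_le_left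
    obtain ⟨-, hc, hN, x, hx, hxA, hor⟩ := h.essential_structure hS hF hP (fun e => hAe (e ▸ hP))
    have hPc := h.card_eq_p_mul hS hPS hx hxA
    rcases hor with ⟨hAP, -, hU, hab⟩ | ⟨hAP, -, -⟩
    swap
    · rw [hAP, hc] at hPc
      intro α hα
      have hm := (mem_autGroup hPS).1 hα
      refine (mem_autGroup hPS).2 ⟨hm, _, restrict hm (sup_le le_rfl hCP), fun x => rfl, fun q hq => ?_⟩
      obtain ⟨-, hex⟩ := (h.le_centerSystem hS hF hAe P hm).2 (by
        rw [hPc]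
        exact Nat.mul_lt_mul_of_pos_left (lt_mul_of_one_lt_left Nat.card_pos hp.one_lt) hp.pos)
      obtain ⟨β, hβ, hag⟩ := hex (h.center_le_essential hS hF hP)
      show P.subtype.comp α.toMonoidHom ⟨q, hCP hq⟩ ∈ C
      rw [hag q (hCZ hq)]
      exact hinv β hβ ⟨q, _⟩ hq
    have hZP := h.center_le_essential hS hF hP
    rw [hAP] at hPc
    let K : Subgroup (MulAut P) :=
      { carrier := {δ | δ ∈ F.autGroup P ∧ ∀ α ∈ F.autGroup P, ∀ q : P, (q : Ω) ∈ C → (α * δ * α⁻¹) q = q}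
        one_mem' := ⟨one_mem _, fun α _ q _ => by simp⟩
        mul_mem' := fun {a b} ha hb => ⟨mul_mem ha.1 hb.1, fun α hα q hq => by
          rw [show α * (a * b) * α⁻¹ = α * a * α⁻¹ * (α * b * α⁻¹) by group, MulAut.mul_apply, hb.2 α hα q hq,
            ha.2 α hα q hq]⟩
        inv_mem' := fun {a} ha => ⟨inv_mem ha.1, fun α hα q hq => by
          rw [show α * a⁻¹ * α⁻¹ = (α * a * α⁻¹)⁻¹ by group]
          conv_lhs => rw [← ha.2 α hα q hq]
          exact MulAut.inv_apply_self _ _ q⟩ }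
    refine autGroup_le_of_normal (p := p) hS (fullyAutomized_of_fullyNormalized hS hF hP.2.1)
      (receptive_of_fullyNormalized hS hF hP.2.1) le_rfl hPS K ?_ (fun δ hδ => hδ.1) ?_ ?_ ?_
    · intro δ hδ
      have hm := (mem_autGroup hPS).1 hδ.1
      refine (mem_autGroup hPS).2 ⟨hm, _, restrict hm (sup_le le_rfl hCP), fun x => rfl, fun q hq => ?_⟩
      show ((δ ⟨q, hCP hq⟩ : P) : Ω) ∈ C
      have h1 := hδ.2 1 (one_mem _) ⟨q, hCP hq⟩ hq
      rw [inv_one, mul_one, one_mul] at h1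
      rw [h1]
      exact hq
    · rintro β hβ c ⟨hc1, hc2⟩
      refine ⟨mul_mem (mul_mem hβ hc1) (inv_mem hβ), fun α hα q hq => ?_⟩
      rw [show α * (β * c * β⁻¹) * α⁻¹ = α * β * c * (α * β)⁻¹ by group]
      exact hc2 _ (mul_mem hα hβ) q hq
    · intro b hb
      refine ⟨autInducedBy_le_autGroup hPS hb, fun α hα q hq => ?_⟩
      have hUZ : ∀ c ∈ autInducedBy S P, ∀ y : P, (y : Ω) ∈ centralizerIn S S → c y = y := fun c hc y hy => by
        obtain ⟨g, hg, hgc⟩ := mem_autInducedBy.1 hc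
        exact Subtype.ext (by rw [hgc, (mem_centerIn.1 hy).2 g hg, mul_inv_cancel_right])
      by_cases hs : ∀ c ∈ autInducedBy S P, α⁻¹ * c * α ∈ autInducedBy S P → c ∈ Cfsg.Inn P
      · show α (b (α⁻¹ q)) = q
        rw [hUZ b hb _ (hsepC P hP hab α hα hs q hq), MulAut.apply_inv_self]
      · push_neg at hs
        obtain ⟨c, hc, hc', hcI⟩ := hs
        refine hUZ _ ?_ q (hCZ hq)
        have hne : (⟨_, hc'⟩ : autInducedBy S P) ≠ 1 := fun e => hcI (by
          have h1 : α⁻¹ * c * α = 1 := congrArg Subtype.val e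
          rw [show c = α * (α⁻¹ * c * α) * α⁻¹ by group, h1]
          simp)
        obtain ⟨k, hk⟩ := Subgroup.mem_zpowers_iff.1
          (mem_zpowers_of_prime_card (g := ⟨_, hc'⟩) (g' := ⟨b, hb⟩) hU hne)
        have hk' : (α⁻¹ * c * α) ^ k = b := congrArg Subtype.val hk
        rw [← hk', ← conj_zpow, show α * (α⁻¹ * c * α) * α⁻¹ = c by group]
        exact zpow_mem hc k
    · intro φ hφ _ hPN
      refine ⟨restrict hφ hPN, _, restrict hφ (sup_le hPN (hCP.trans hPN)), fun x => rfl, fun q hq => ?_⟩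
      obtain ⟨-, hex⟩ := (h.le_centerSystem hS hF hAe _ hφ).2 (by
        rw [hN, hPc]
        exact lt_mul_of_one_lt_left (mul_pos hp.pos Nat.card_pos) hp.one_lt)
      obtain ⟨β, hβ, hag⟩ := hex (hZP.trans hPN)
      show φ ⟨q, hPN (hCP hq)⟩ ∈ C
      rw [hag q (hCZ hq)]
      exact hinv β hβ ⟨q, _⟩ hq
  have hbot : C = ⊥ := le_bot_iff.1 ((le_sSup (isNormal_of_le_normalSystem hle) : _ ≤ F.core).trans hcore.le)
  intro z hz
  obtain ⟨d, hd⟩ : ∃ d : S, d = (⟨z, hz.1⟩ : S)⁻¹ * β₀ ⟨z, hz.1⟩ := ⟨_, rfl⟩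
  have hdm : (d : Ω) ∈ centralizerIn S S ⊓ ⁅S, S⁆ := hd ▸ h40 ⟨z, hz.1⟩ hz
  have hzd : β₀ ⟨z, hz.1⟩ = ⟨z, hz.1⟩ * d := by rw [hd, mul_inv_cancel_left]
  have hcomm : z * (d : Ω) = d * z := ((mem_centerIn.1 hz).2 d d.2).symm
  have hfix : β₀ (⟨z, hz.1⟩ * (⟨z, hz.1⟩ * d)) = ⟨z, hz.1⟩ * (⟨z, hz.1⟩ * d) := by
    rw [map_mul, map_mul, hzd, h30 d hdm, mul_inv_cancel_right]
    refine Subtype.ext ?_
    show z * (d : Ω) * z = z * (z * d)
    rw [mul_assoc, hcomm]
  have hmem : z * (z * (d : Ω)) ∈ C := ⟨mul_mem hz (mul_mem hz hdm.1), hfix⟩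
  rw [hbot, Subgroup.mem_bot, ← mul_assoc, mul_eq_one_iff_eq_inv] at hmem
  have h2 : z ^ 2 ∈ ⁅S, S⁆ := by
    rw [pow_two, hmem]
    exact inv_mem hdm.2
  obtain ⟨k, hk⟩ := hS ⟨z, hz.1⟩
  have hk' : z ^ p ^ k = 1 := congrArg Subtype.val hk
  obtain ⟨j, hj⟩ : Odd (p ^ k) := (hp.odd_of_ne_two hodd).pow
  have : z = (z ^ 2) ^ (j + 1) := by
    rw [← pow_mul, show 2 * (j + 1) = p ^ k + 1 by omega, pow_succ, hk', one_mul]
  rw [this]
  exact pow_mem h2 _

end AIP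

end CfsgLib.Fusion
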