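import Cfsg.Agent.Fusion.AbelianIndexPSeries
import Cfsg.Agent.Fusion.TwistProduct
import Cfsg.Agent.Fusion.SubsystemCentric
import Cfsg.Agent.Fusion.NormalSub

/-!
When the abelian subgroup of index `p` is not essential: reflections of the centre.
-/

set_option autoImplicit false
set_option linter.style.haveILetI false

open Cfsg

namespace CfsgLib.Fusion

open Cfsg.FusionSystem
open scoped commutatorElement

variable {Ω : Type*} [Group Ω] {S : Subgroup Ω} {A : Subgroup Ω} {p : ℕ} [Finite S] [Fact p.Prime]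
variable {F : Cfsg.FusionSystem S} {P : Subgroup Ω}

/-- If an element of `Aut_S(P)` stabilizes `1 ≤ W ≤ P`, and the conjugate of `Aut_S(P)` fixes `W`, it is inner. -/
theorem mem_inn_of_conj_stabilizes (hS : IsPGroup p S) (hF : F.IsSaturated p) (hP : F.IsEssential p P)
    {γ : MulAut P} (hγ : γ ∈ F.autGroup P)
    (hsep : ∀ b ∈ autInducedBy S P, γ⁻¹ * b * γ ∈ autInducedBy S P → b ∈ Cfsg.Inn P) {W : Subgroup P}
    (hfix : ∀ b ∈ autInducedBy S P, ∀ y ∈ W, (γ * b * γ⁻¹) y = y) {b : MulAut P} (hb : b ∈ autInducedBy S P)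
    (hbfix : ∀ y ∈ W, b y = y) (hbm : ∀ y : P, y⁻¹ * b y ∈ W) : b ∈ Cfsg.Inn P := by
  have hPS : P ≤ S := hP.1.1
  haveI := finite_of_le hPS
  haveI := finite_mulAut hPS
  obtain ⟨-, T, hT⟩ := fullyAutomized_of_fullyNormalized hS hF hP.2.1
  have hbA := autInducedBy_le_autGroup (F := F) hPS hb
  let D : Subgroup (F.autGroup P) :=
    { carrier := {δ | (∀ y ∈ W, (δ : MulAut P) y = y) ∧ ∀ y : P, y⁻¹ * (δ : MulAut P) y ∈ W}
      one_mem' := ⟨fun y _ => rfl, fun y => by simp⟩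
      mul_mem' := fun {a c} ha hc => ⟨fun y hy => by
          show (a : MulAut P) ((c : MulAut P) y) = y
          rw [hc.1 y hy, ha.1 y hy], fun y => by
          show y⁻¹ * (a : MulAut P) ((c : MulAut P) y) ∈ W
          have h1 := W.mul_mem (ha.2 y) (hc.2 y)
          have h2 : (a : MulAut P) (y⁻¹ * (c : MulAut P) y) = y⁻¹ * (c : MulAut P) y := ha.1 _ (hc.2 y)
          rw [map_mul, map_inv, inv_mul_eq_iff_eq_mul] at h2
          rw [h2]
          rw [← mul_assoc]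
          simpa [mul_assoc] using h1⟩
      inv_mem' := fun {a} ha => by
        have h1 : ∀ y ∈ W, (a : MulAut P)⁻¹ y = y := fun y hy => by
          conv_lhs => rw [← ha.1 y hy]
          exact MulAut.inv_apply_self _ (a : MulAut P) y
        refine ⟨h1, fun y => ?_⟩
        show y⁻¹ * (a : MulAut P)⁻¹ y ∈ W
        obtain ⟨z, rfl⟩ := (a : MulAut P).surjective y
        rw [MulAut.inv_apply_self]
        have := W.inv_mem (ha.2 z)
        simpa using this }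
  have hbD : (⟨b, hbA⟩ : F.autGroup P) ∈ D := ⟨hbfix, hbm⟩
  have hDp : IsPGroup p D := by
    obtain ⟨k, hk⟩ := IsPGroup.iff_card.1 ((hS.to_le hPS).to_subgroup W)
    rintro ⟨δ, hδ⟩
    refine ⟨k, Subtype.ext (Subtype.ext (MulEquiv.ext fun y => ?_))⟩
    show ((δ : MulAut P) ^ p ^ k) y = y
    have hu : ∀ n : ℕ, ((δ : MulAut P) ^ n) y = y * (y⁻¹ * (δ : MulAut P) y) ^ n := by
      intro n
      induction n with
      | zero => simp
      | succ n ih =>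
        rw [pow_succ' (δ : MulAut P), MulAut.mul_apply, ih, map_mul, map_pow, hδ.1 _ (hδ.2 y), pow_succ',
          ← mul_assoc y, mul_inv_cancel_left]
    rw [hu, show (y⁻¹ * (δ : MulAut P) y) ^ p ^ k = 1 by
      rw [← hk]
      exact congrArg Subtype.val (pow_card_eq_one' (x := (⟨_, hδ.2 y⟩ : W))), mul_one]
  set T' : Sylow p (F.autGroup P) := (⟨γ, hγ⟩ : F.autGroup P) • T
  have hT' : ∀ c : F.autGroup P, c ∈ (T' : Subgroup (F.autGroup P)) → γ⁻¹ * (c : MulAut P) * γ ∈ autInducedBy S P := by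
    intro c hc
    rw [Sylow.coe_subgroup_smul] at hc
    obtain ⟨d, hd, rfl⟩ := hc
    have := Subgroup.mem_subgroupOf.1 (hT.le hd)
    show γ⁻¹ * (γ * (d : MulAut P) * γ⁻¹) * γ ∈ autInducedBy S P
    rwa [show γ⁻¹ * (γ * (d : MulAut P) * γ⁻¹) * γ = (d : MulAut P) by group]
  have hcfix : ∀ c : F.autGroup P, c ∈ (T' : Subgroup (F.autGroup P)) → ∀ y ∈ W, (c : MulAut P) y = y := by
    intro c hc y hy
    have := hfix _ (hT' c hc) y hy
    rwa [show γ * (γ⁻¹ * (c : MulAut P) * γ) * γ⁻¹ = (c : MulAut P) by group] at this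
  have hnorm : (T' : Subgroup (F.autGroup P)) ≤ Subgroup.normalizer (D : Set (F.autGroup P)) := by
    have key : ∀ c ∈ (T' : Subgroup (F.autGroup P)), ∀ δ ∈ D, c * δ * c⁻¹ ∈ D := by
      intro c hc δ hδ
      refine ⟨fun y hy => ?_, fun y => ?_⟩
      · show (c : MulAut P) ((δ : MulAut P) ((c : MulAut P)⁻¹ y)) = y
        rw [show (c : MulAut P)⁻¹ y = y from hcfix _ (inv_mem hc) y hy, hδ.1 y hy, hcfix c hc y hy]
      · show y⁻¹ * (c : MulAut P) ((δ : MulAut P) ((c : MulAut P)⁻¹ y)) ∈ W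
        obtain ⟨z, rfl⟩ := (c : MulAut P).surjective y
        rw [MulAut.inv_apply_self, ← map_inv, ← map_mul, hcfix c hc _ (hδ.2 z)]
        exact hδ.2 z
    intro c hc
    refine Subgroup.mem_normalizer_iff.2 fun δ => ⟨key c hc δ, fun hd => ?_⟩
    have := key _ (inv_mem hc) _ hd
    simpa [mul_assoc] using this
  have hsup : IsPGroup p (D ⊔ (T' : Subgroup (F.autGroup P)) : Subgroup _) := by
    rw [sup_comm]
    exact T'.isPGroup'.to_sup_of_normal_right' hDp hnorm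
  have hDT : D ≤ (T' : Subgroup (F.autGroup P)) := (T'.is_maximal' hsup le_sup_right) ▸ le_sup_left
  exact hsep b hb (hT' _ (hDT hbD))

/-- The maps which, on large sources, act on the centre as automorphisms of `S`. -/
def centerSystem (F : Cfsg.FusionSystem S) (p : ℕ) : Cfsg.FusionSystem S where
  Hom P := {φ | φ ∈ F.Hom P ∧ (p * Nat.card (centralizerIn S S) < Nat.card P →
    (centralizerIn S S ≤ φ.range ↔ centralizerIn S S ≤ P) ∧ ∀ hZP : centralizerIn S S ≤ P,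
      ∃ β ∈ F.autGroup S, ∀ z (hz : z ∈ centralizerIn S S), φ ⟨z, hZP hz⟩ = ((β ⟨z, hz.1⟩ : S) : Ω))}
  le_of_mem h := F.le_of_mem h.1
  injective_of_mem h := F.injective_of_mem h.1
  conj_mem := by
    intro P g hP hg
    refine ⟨F.conj_mem hP hg, fun _ => ⟨?_, fun hZP => ?_⟩⟩
    · have hgz : ∀ z ∈ centralizerIn S S, g * z * g⁻¹ = z := fun z hz => by
        rw [(mem_centerIn.1 hz).2 g hg, mul_inv_cancel_right]
      constructor
      · intro hle z hz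
        obtain ⟨y, hy⟩ := hle hz
        have : (y : Ω) = z := mul_left_cancel (mul_right_cancel ((show g * (y : Ω) * g⁻¹ = z from hy).trans (hgz z hz).symm))
        exact this ▸ y.2
      · intro hle z hz
        exact ⟨⟨z, hle hz⟩, hgz z hz⟩
    · refine ⟨1, one_mem _, fun z hz => ?_⟩
      show g * z * g⁻¹ = z
      rw [(mem_centerIn.1 hz).2 g hg, mul_inv_cancel_right]
  comp_mem := by
    rintro P Q φ ψ ⟨hφ, hφ'⟩ ⟨hψ, hψ'⟩ hPQ
    refine ⟨F.comp_mem hφ hψ hPQ, fun hcard => ?_⟩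
    haveI := finite_of_le (le_of_hom hψ)
    have hQ : Nat.card P ≤ Nat.card Q := Nat.card_le_card_of_injective (φ.codRestrict Q hPQ)
      fun a b hab => F.injective_of_mem hφ (congrArg Subtype.val hab :)
    obtain ⟨h1, h1'⟩ := hφ' hcard
    obtain ⟨h2, h2'⟩ := hψ' (lt_of_lt_of_le hcard hQ)
    have hinv : ∀ β ∈ F.autGroup S, ∀ z (hz : z ∈ centralizerIn S S),
        ((β ⟨z, hz.1⟩ : S) : Ω) ∈ centralizerIn S S := by
      intro β _ z hz
      refine mem_centerIn.2 ⟨(β _).2, fun s hs => ?_⟩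
      obtain ⟨u, hu⟩ := β.surjective ⟨s, hs⟩
      have h3 : u * ⟨z, hz.1⟩ = ⟨z, hz.1⟩ * u := Subtype.ext ((mem_centerIn.1 hz).2 u u.2)
      have h4 := congrArg (fun w : S => ((β w : S) : Ω)) h3
      simp only [map_mul, hu] at h4
      exact h4
    refine ⟨⟨fun hle => ?_, fun hle z hz => ?_⟩, fun hZP => ?_⟩
    · refine h1.1 fun z hz => ?_
      have hZQ : centralizerIn S S ≤ Q := h2.1 fun w hw => by
        obtain ⟨y, hy⟩ := hle hw; exact ⟨_, hy⟩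
      obtain ⟨β, hβ, hag⟩ := h2' hZQ
      obtain ⟨y, hy⟩ := hle (hinv β hβ z hz)
      refine ⟨y, ?_⟩
      have h5 : ψ ⟨z, hZQ hz⟩ = ψ ⟨φ y, hPQ y⟩ := (hag z hz).trans hy.symm
      exact congrArg Subtype.val (F.injective_of_mem hψ h5).symm
    · obtain ⟨β, hβ, hag⟩ := h1' hle
      have hZQ : centralizerIn S S ≤ Q := fun w hw => by
        obtain ⟨y, hy⟩ := (h1.2 hle) hw
        exact hy ▸ hPQ y
      obtain ⟨β', hβ', hag'⟩ := h2' hZQ
      obtain ⟨w, hw⟩ : ∃ w, w = ((β'⁻¹ ⟨z, hz.1⟩ : S) : Ω) := ⟨_, rfl⟩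
      have hwZ : w ∈ centralizerIn S S := hw ▸ hinv _ (inv_mem hβ') z hz
      obtain ⟨y, hy⟩ := (h1.2 hle) hwZ
      refine ⟨y, ?_⟩
      show ψ ⟨φ y, hPQ y⟩ = z
      rw [show (⟨φ y, hPQ y⟩ : Q) = ⟨w, hZQ hwZ⟩ from Subtype.ext hy, hag' w hwZ,
        show (⟨w, hwZ.1⟩ : S) = β'⁻¹ ⟨z, hz.1⟩ from Subtype.ext hw, MulAut.apply_inv_self]
    · obtain ⟨β, hβ, hag⟩ := h1' hZP
      have hZQ : centralizerIn S S ≤ Q := fun w hw => by
        obtain ⟨y, hy⟩ := (h1.2 hZP) hw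
        exact hy ▸ hPQ y
      obtain ⟨β', hβ', hag'⟩ := h2' hZQ
      refine ⟨β' * β, mul_mem hβ' hβ, fun z hz => ?_⟩
      show ψ ⟨φ ⟨z, hZP hz⟩, _⟩ = _
      rw [show (⟨φ ⟨z, hZP hz⟩, hPQ _⟩ : Q) = ⟨_, hZQ (hinv β hβ z hz)⟩ from Subtype.ext (hag z hz),
        hag' _ (hinv β hβ z hz)]
      rfl
  inv_mem := by
    rintro P φ ⟨hφ, hφ'⟩
    obtain ⟨ψ, hψ, hr, h1, -⟩ := exists_inv hφ (rfl : φ.range = φ.range)
    refine ⟨ψ, ⟨hψ, fun hcard => ?_⟩, fun x => h1 x ⟨x, rfl⟩⟩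
    have hPc : Nat.card P = Nat.card φ.range := IsConj.card_eq ⟨φ, hφ, rfl⟩
    obtain ⟨h2, h2'⟩ := hφ' (hPc ▸ hcard)
    rw [hr]
    refine ⟨h2.symm, fun hZR => ?_⟩
    obtain ⟨β, hβ, hag⟩ := h2' (h2.1 hZR)
    refine ⟨β⁻¹, inv_mem hβ, fun z hz => ?_⟩
    have hz' : ((β⁻¹ ⟨z, hz.1⟩ : S) : Ω) ∈ centralizerIn S S := by
      refine mem_centerIn.2 ⟨(β⁻¹ ⟨z, hz.1⟩).2, fun s hs => ?_⟩
      obtain ⟨u, hu⟩ := (β⁻¹ : MulAut S).surjective ⟨s, hs⟩
      have h3 : u * ⟨z, hz.1⟩ = ⟨z, hz.1⟩ * u := Subtype.ext ((mem_centerIn.1 hz).2 u u.2)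
      have h4 := congrArg (fun w : S => ((β⁻¹ w : S) : Ω)) h3
      simp only [map_mul, hu] at h4
      exact h4
    have h5 := hag _ hz'
    rw [show (⟨((β⁻¹ ⟨z, hz.1⟩ : S) : Ω), hz'.1⟩ : S) = β⁻¹ ⟨z, hz.1⟩ from Subtype.ext rfl,
      MulAut.apply_inv_self] at h5
    have h6 := h1 ⟨_, (h2.1 hZR) hz'⟩ ⟨_, rfl⟩
    refine Eq.trans ?_ h6
    congr 1
    exact Subtype.ext h5.symm

namespace AIP

variable (h : AIP S A p) (hS : IsPGroup p S) (hF : F.IsSaturated p) (hAe : ¬ F.IsEssential p A)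
include h hS hF hAe

omit [Fact p.Prime] in
private lemma ne_A (hP : F.IsEssential p P) : P ≠ A := fun e => hAe (e ▸ hP)

/-- In the second case the automizer preserves the centre. -/
lemma center_invariant_of_case_two (hP : F.IsEssential p P)
    (hcen : ∀ z ∈ P, (∀ y ∈ P, y * z = z * y) → z ∈ centralizerIn S S) (e : MulAut P) (z : P)
    (hz : (z : Ω) ∈ centralizerIn S S) : ((e z : P) : Ω) ∈ centralizerIn S S := by
  refine hcen _ (e z).2 fun y hy => ?_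
  obtain ⟨u, hu⟩ := e.surjective ⟨y, hy⟩
  have h1 : u * z = z * u := Subtype.ext ((mem_centerIn.1 hz).2 u (hP.1.1 u.2))
  have h2 := congrArg (fun w : P => ((e w : P) : Ω)) h1
  simp only [map_mul, hu] at h2
  exact h2

/-- Every map with a large source acts on the centre as an automorphism of `S`. -/
theorem le_centerSystem : F ≤ centerSystem F p := by
  refine le_of_essential_rec hS hF fun P hP hrec => ?_
  rcases hP with rfl | hP
  · intro α hα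
    refine (mem_autGroup le_rfl).2 ⟨(mem_autGroup le_rfl).1 hα, fun _ => ⟨?_, fun hZP => ⟨α, hα, fun z hz => rfl⟩⟩⟩
    rw [range_aut α]
  obtain ⟨hz, hc, hN, x, hx, hxA, hor⟩ := h.essential_structure hS hF hP (h.ne_A hS hF hAe hP)
  have hPS := hP.1.1
  intro α hα
  rcases hor with ⟨hAP, -, -, -⟩ | ⟨-, -, hcen⟩
  · refine (mem_autGroup hPS).2 ⟨(mem_autGroup hPS).1 hα, fun hcard => ?_⟩
    rw [h.card_eq_p_mul hS hPS hx hxA, hAP] at hcard
    exact absurd hcard (lt_irrefl _)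
  have hZP := h.center_le_essential hS hF hP
  let K : Subgroup (MulAut P) :=
    { carrier := {γ | γ ∈ F.autGroup P ∧ ∀ z : P, (z : Ω) ∈ centralizerIn S S → γ z = z}
      one_mem' := ⟨one_mem _, fun z _ => rfl⟩
      mul_mem' := fun {a b} ha hb => ⟨mul_mem ha.1 hb.1, fun z hz => by
        show a (b z) = z
        rw [hb.2 z hz, ha.2 z hz]⟩
      inv_mem' := fun {a} ha => ⟨inv_mem ha.1, fun z hz => by
        conv_lhs => rw [← ha.2 z hz]
        exact MulAut.inv_apply_self _ a z⟩ }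
  refine autGroup_le_of_normal (p := p) hS (fullyAutomized_of_fullyNormalized hS hF hP.2.1)
    (receptive_of_fullyNormalized hS hF hP.2.1) le_rfl hPS K ?_ (fun γ hγ => hγ.1) ?_ ?_ ?_ hα
  · intro γ hγ
    refine (mem_autGroup hPS).2 ⟨(mem_autGroup hPS).1 hγ.1, fun _ => ⟨?_, fun hZP' => ⟨1, one_mem _, fun z hz => ?_⟩⟩⟩
    · rw [range_aut γ]
    · exact congrArg Subtype.val (hγ.2 ⟨z, hZP' hz⟩ hz)
  · rintro β hβ c ⟨hc1, hc2⟩
    refine ⟨mul_mem (mul_mem hβ hc1) (inv_mem hβ), fun z hz => ?_⟩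
    show β (c (β⁻¹ z)) = z
    rw [hc2 _ (h.center_invariant_of_case_two hS hF hAe hP hcen β⁻¹ z hz), MulAut.apply_inv_self]
  · intro γ hγ
    obtain ⟨g, hg, hgγ⟩ := mem_autInducedBy.1 hγ
    exact ⟨autInducedBy_le_autGroup hPS hγ, fun z hz => Subtype.ext (by
      rw [hgγ, (mem_centerIn.1 hz).2 g hg, mul_inv_cancel_right])⟩
  · intro φ hφ _ hPN
    refine restrict (hrec _ φ hφ ?_) hPN
    rw [hN]
    exact lt_mul_of_one_lt_left (haveI := finite_of_le hPS; Nat.card_pos) (Fact.out : p.Prime).one_lt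

/-- The reflection attached to a pair of Sylow subgroups of the automizer of an abelian essential subgroup. -/
theorem exists_reflection (hodd : p ≠ 2) (hP : F.IsEssential p P) (hab : ∀ a ∈ P, ∀ b ∈ P, a * b = b * a)
    {γ : MulAut P} (hγ : γ ∈ F.autGroup P)
    (hsep : ∀ b ∈ autInducedBy S P, γ⁻¹ * b * γ ∈ autInducedBy S P → b ∈ Cfsg.Inn P) :
    ∃ β ∈ F.autGroup S,
      (∀ z : P, (z : Ω) ∈ centralizerIn S S → ((γ⁻¹ z : P) : Ω) ∈ centralizerIn S S →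
        ∀ hz : (z : Ω) ∈ S, ((β ⟨z, hz⟩ : S) : Ω) = z) ∧
      (∀ z : S, (z : Ω) ∈ centralizerIn S S → β z = z → ∀ hz : (z : Ω) ∈ P,
        ((γ⁻¹ ⟨z, hz⟩ : P) : Ω) ∈ centralizerIn S S) ∧
      (∀ z : S, (z : Ω) ∈ centralizerIn S S ⊓ ⁅S, S⁆ → β z = z⁻¹) ∧
      ∀ z : S, (z : Ω) ∈ centralizerIn S S → ((z⁻¹ * β z : S) : Ω) ∈ centralizerIn S S ⊓ ⁅S, S⁆ := by
  have hp := (Fact.out : p.Prime)
  have hPA := h.ne_A hS hF hAe hP
  obtain ⟨hz2, hc, hN, x, hx, hxA, hor⟩ := h.essential_structure hS hF hP hPA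
  obtain ⟨hAP, hPeq, hU, -⟩ : A ⊓ P = centralizerIn S S ∧ P = centralizerIn S S ⊔ Subgroup.zpowers x ∧
      Nat.card (autInducedBy S P) = p ∧ True := by
    rcases hor with ⟨a, b, c, -⟩ | ⟨hAP, -, hcen⟩
    · exact ⟨a, b, c, trivial⟩
    · exfalso
      exact hxA (h.center_le hS (hcen x hx fun y hy => hab y hy x hx))
  have hPS : P ≤ S := hP.1.1
  haveI := finite_of_le hPS
  haveI := finite_mulAut hPS
  set U := autInducedBy S P with hUdef
  set Z := centralizerIn S S with hZ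
  set ZP := Z.subgroupOf P with hZPdef
  set R := ⁅S, S⁆ with hR
  have hPcard : Nat.card P = p * Nat.card Z := by rw [h.card_eq_p_mul hS hPS hx hxA, hAP]
  have hZPi : ZP.index = p := by
    have h1 := ZP.card_mul_index
    rw [Nat.card_congr (Subgroup.subgroupOfEquivOfLe (h.center_le_essential hS hF hP)).toEquiv, hPcard, mul_comm p] at h1
    haveI : Finite Z := finite_of_le (S := S) inf_le_left
    exact Nat.eq_of_mul_eq_mul_left Nat.card_pos h1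
  obtain ⟨-, hZPco⟩ := CfsgLib.Extraspecial.normal_of_index_eq (hS.to_le hPS) hZPi
  have hgen : ∀ y₀ : P, y₀ ∉ ZP → ∀ M : Subgroup P, ZP ≤ M → y₀ ∈ M → M = ⊤ := fun y₀ hy₀ M hM hy =>
    hZPco.2 M (lt_of_le_of_ne hM fun e => hy₀ (e ▸ hy))
  have hInn : ∀ b ∈ Cfsg.Inn P, b = 1 := by
    rintro _ ⟨g, rfl⟩
    refine MulEquiv.ext fun y => ?_
    show g * y * g⁻¹ = y
    rw [mul_inv_eq_iff_eq_mul]
    exact Subtype.ext (hab g g.2 y y.2)
  have hUfix : ∀ b ∈ U, ∀ y ∈ ZP, b y = y := fun b hb y hy => by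
    obtain ⟨g, hg, hgb⟩ := mem_autInducedBy.1 hb
    exact Subtype.ext (by rw [hgb, (mem_centerIn.1 (Subgroup.mem_subgroupOf.1 hy)).2 g hg, mul_inv_cancel_right])
  set Z₀ := (Z ⊓ R).subgroupOf P with hZ₀
  have hUmove : ∀ b ∈ U, ∀ y : P, y⁻¹ * b y ∈ Z₀ := fun b hb y => by
    obtain ⟨g, hg, hgb⟩ := mem_autInducedBy.1 hb
    have h1 : ((y⁻¹ * b y : P) : Ω) ∈ R := by
      show (y : Ω)⁻¹ * ((b y : P) : Ω) ∈ R
      rw [hgb, show (y : Ω)⁻¹ * (g * (y : Ω) * g⁻¹) = ⁅(y : Ω)⁻¹, g⁆ by rw [commutatorElement_def, inv_inv]; group]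
      exact Subgroup.commutator_mem_commutator (S.inv_mem (hPS y.2)) hg
    refine Subgroup.mem_subgroupOf.2 ⟨?_, h1⟩
    have hRA : ((y⁻¹ * b y : P) : Ω) ∈ A := by
      rw [hR, h.commutator_eq_range hS (hPS hx) hxA] at h1
      obtain ⟨a, ha⟩ := h1
      rw [← ha]
      exact h.kappa_mem hS (hPS hx) a
    exact hAP.le ⟨hRA, (y⁻¹ * b y).2⟩
  have hZ₀card : Nat.card Z₀ = p := by
    rw [Nat.card_congr (Subgroup.subgroupOfEquivOfLe (inf_le_left.trans (h.center_le_essential hS hF hP))).toEquiv,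
      hR, h.commutator_eq_range hS (hPS hx) hxA]
    exact h.card_center_inf hS (hPS hx) hxA hz2 hc
  have hsep' : ∀ b ∈ U, γ⁻¹⁻¹ * b * γ⁻¹ ∈ U → b ∈ Cfsg.Inn P := by
    intro b hb hb'
    have h1 := hsep _ hb' (by simpa [mul_assoc] using hb)
    have h2 := hInn _ h1
    rw [inv_inv, mul_inv_eq_one] at h2
    rw [show b = 1 from mul_left_cancel (a := γ) (by rw [mul_one]; exact h2)]
    exact one_mem _
  obtain ⟨z₀, hz₀, hz₀1⟩ : ∃ z₀ ∈ Z₀, z₀ ≠ 1 := by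
    by_contra hno
    push_neg at hno
    have : Z₀ = ⊥ := (Subgroup.eq_bot_iff_forall _).2 hno
    rw [this, Subgroup.card_bot] at hZ₀card
    exact hp.ne_one hZ₀card.symm
  have hz₀Z : z₀ ∈ ZP := Subgroup.mem_subgroupOf.2 (Subgroup.mem_subgroupOf.1 hz₀).1
  have hZ₀gen : Subgroup.zpowers z₀ = Z₀ := by
    refine Subgroup.eq_of_le_of_card_ge (Subgroup.zpowers_le.2 hz₀) ?_
    rw [hZ₀card, Nat.card_zpowers]
    refine le_of_eq (orderOf_eq_prime ?_ hz₀1).symm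
    rw [← hZ₀card]
    exact congrArg Subtype.val (pow_card_eq_one' (x := (⟨z₀, hz₀⟩ : Z₀)))
  have hUne : U ≠ ⊥ := fun e => hp.ne_one (by rw [← hU, e, Subgroup.card_bot])
  have hnot : ∀ δ : MulAut P, δ ∈ F.autGroup P → (∀ b ∈ U, δ⁻¹ * b * δ ∈ U → b ∈ Cfsg.Inn P) → δ⁻¹ z₀ ∉ ZP := by
    intro δ hδ hs hmem
    refine hUne ((Subgroup.eq_bot_iff_forall _).2 fun b hb => hInn b ?_)
    have hW : ∀ y ∈ Z₀, δ⁻¹ y ∈ ZP := by
      rw [← hZ₀gen]
      rintro _ ⟨i, rfl⟩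
      simp only [map_zpow]
      exact ZP.zpow_mem hmem i
    refine mem_inn_of_conj_stabilizes hS hF hP hδ hs (W := Z₀) (fun c hc y hy => ?_) hb
      (fun y hy => hUfix b hb y (Subgroup.mem_subgroupOf.2 (Subgroup.mem_subgroupOf.1 hy).1)) (hUmove b hb)
    show δ (c (δ⁻¹ y)) = y
    rw [hUfix c hc _ (hW y hy), MulAut.apply_inv_self]
  set z₁ := γ⁻¹ z₀ with hz₁
  have hz₁Z : z₁ ∉ ZP := hnot γ hγ hsep
  set f := γ z₀ with hf
  have hfZ : f ∉ ZP := by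
    have := hnot γ⁻¹ (inv_mem hγ) hsep'
    rwa [inv_inv] at this
  have hsurj : ∀ y₀ : P, y₀ ∉ ZP → ∀ d ∈ Z₀, ∃ b ∈ U, y₀⁻¹ * b y₀ = d := by
    intro y₀ hy₀ d hd
    let e : U → Z₀ := fun b => ⟨_, hUmove _ b.2 y₀⟩
    have he : Function.Injective e := by
      intro b c hbc
      have h1 : (b : MulAut P) y₀ = (c : MulAut P) y₀ := mul_left_cancel (congrArg Subtype.val hbc)
      refine Subtype.ext (MulEquiv.ext fun y => ?_)
      have := hgen y₀ hy₀ ((b : MulAut P).toMonoidHom.eqLocus (c : MulAut P).toMonoidHom)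
        (fun z hz => (hUfix _ b.2 z hz).trans (hUfix _ c.2 z hz).symm) h1
      exact (this.ge (Subgroup.mem_top y) :)
    haveI : Finite Z₀ := inferInstance
    obtain ⟨b, hb⟩ := ((Nat.bijective_iff_injective_and_card e).2 ⟨he, by rw [hU, hZ₀card]⟩).2 ⟨d, hd⟩
    exact ⟨b, b.2, congrArg Subtype.val hb⟩
  obtain ⟨u, hu, huf⟩ := hsurj f hfZ z₀ hz₀
  obtain ⟨u', hu', huz⟩ := hsurj z₁ hz₁Z z₀⁻¹ (Z₀.inv_mem hz₀)
  rw [inv_mul_eq_iff_eq_mul] at huf huz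
  set v := γ * u' * γ⁻¹ with hv
  have huz₀ : u z₀ = z₀ := hUfix u hu z₀ hz₀Z
  have hvz : v z₀ = z₀ * f⁻¹ := by
    show γ (u' (γ⁻¹ z₀)) = _
    rw [← hz₁, huz, map_mul, map_inv, hz₁, MulAut.apply_inv_self]
  have hvf : v f = f := by
    show γ (u' (γ⁻¹ (γ z₀))) = _
    rw [MulAut.inv_apply_self, hUfix u' hu' z₀ hz₀Z]
  have hcomm : ∀ a b : P, a * b = b * a := fun a b => Subtype.ext (hab a a.2 b b.2)
  set w := u * v * u with hw
  have hwz : w z₀ = f⁻¹ := by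
    show u (v (u z₀)) = _
    rw [huz₀, hvz, map_mul, map_inv, huz₀, huf, mul_inv_rev, ← mul_assoc, mul_inv_cancel, one_mul]
  have hwf : w f = z₀ := by
    show u (v (u f)) = _
    rw [huf, map_mul, hvf, hvz, hcomm z₀ f⁻¹, mul_inv_cancel_left, huz₀]
  set τ := w * w with hτ
  have hτz : τ z₀ = z₀⁻¹ := by
    show w (w z₀) = _
    rw [hwz, map_inv, hwf]
  have hτf : τ f = f⁻¹ := by
    show w (w f) = _
    rw [hwf, hwz]
  set W := ZP ⊓ ZP.map γ.toMonoidHom with hW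
  have hτW : ∀ y ∈ W, τ y = y := by
    rintro y ⟨hy, y', hy', hyy⟩
    have h1 : ∀ b ∈ U, (γ * b * γ⁻¹) y = y := fun b hb => by
      show γ (b (γ⁻¹ y)) = y
      rw [← hyy, show γ⁻¹ (γ.toMonoidHom y') = y' from MulAut.inv_apply_self _ γ y', hUfix b hb y' hy']
      rfl
    have h2 : w y = y := by
      show u (v (u y)) = y
      rw [hUfix u hu y hy, hv, h1 u' hu', hUfix u hu y hy]
    show w (w y) = y
    rw [h2, h2]
  have hZdec : ∀ y ∈ ZP, ∃ w₀ ∈ W, ∃ i : ℤ, y = w₀ * z₀ ^ i := by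
    intro y hy
    have hi : (ZP.map γ.toMonoidHom).index = p := by
      rw [← hZPi]
      have h1 := (ZP.map γ.toMonoidHom).card_mul_index
      rw [Subgroup.card_map_of_injective γ.injective, ← ZP.card_mul_index] at h1
      exact Nat.eq_of_mul_eq_mul_left Nat.card_pos h1
    obtain ⟨hn, hco⟩ := CfsgLib.Extraspecial.normal_of_index_eq (hS.to_le hPS) hi
    haveI := hn
    have hnz : z₀ ∉ ZP.map γ.toMonoidHom := by
      rintro ⟨y', hy', e⟩
      refine hz₁Z ?_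
      rw [hz₁, ← e]
      show γ⁻¹ (γ y') ∈ ZP
      rwa [MulAut.inv_apply_self]
    have htop : ZP.map γ.toMonoidHom ⊔ Subgroup.zpowers z₀ = ⊤ :=
      hco.2 _ (lt_of_le_of_ne le_sup_left fun e => hnz (e.symm ▸ Subgroup.mem_sup_right (Subgroup.mem_zpowers z₀)))
    obtain ⟨w₀, hw₀, _, ⟨i, rfl⟩, e⟩ := Subgroup.mem_sup_of_normal_left.1 (htop.ge (Subgroup.mem_top y))
    refine ⟨w₀, ⟨?_, hw₀⟩, i, e.symm⟩
    have h2 := ZP.mul_mem hy (ZP.zpow_mem (ZP.inv_mem hz₀Z) i)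
    rwa [← e, inv_zpow, mul_inv_cancel_right] at h2
  have hτU : ∀ b ∈ U, τ * b = b * τ := by
    intro b hb
    refine MulEquiv.ext fun y => ?_
    have key := hgen f hfZ ((τ * b).toMonoidHom.eqLocus (b * τ).toMonoidHom) ?_ ?_
    · exact (key.ge (Subgroup.mem_top y) :)
    · intro z hz
      show τ (b z) = b (τ z)
      obtain ⟨w₀, hw₀, i, rfl⟩ := hZdec z hz
      rw [hUfix b hb _ hz, map_mul, hτW w₀ hw₀, map_zpow, hτz]
      exact (hUfix b hb _ (ZP.mul_mem hw₀.1 (ZP.zpow_mem (ZP.inv_mem hz₀Z) i))).symm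
    · show τ (b f) = b (τ f)
      obtain ⟨k, hk⟩ := Subgroup.mem_zpowers_iff.1 (hZ₀gen.ge (hUmove b hb f))
      have hbf : b f = f * z₀ ^ k := by rw [hk, mul_inv_cancel_left]
      rw [hbf, map_mul, map_zpow, hτf, hτz, map_inv, hbf, mul_inv_rev, inv_zpow, hcomm]
  have huA : u ∈ F.autGroup P := autInducedBy_le_autGroup hPS hu
  have hvA : v ∈ F.autGroup P := mul_mem (mul_mem hγ (autInducedBy_le_autGroup hPS hu')) (inv_mem hγ)
  have hwA : w ∈ F.autGroup P := mul_mem (mul_mem huA hvA) huA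
  have hτA : τ ∈ F.autGroup P := mul_mem hwA hwA
  -- extend to the normalizer
  obtain ⟨ψ, hψ, hψτ⟩ := (receptive_of_fullyNormalized hS hF hP.2.1).2 P _ ((mem_autGroup hPS).1 hτA) (range_aut τ)
  have hNle : normalizerIn S P ≤ extender S P (P.subtype.comp τ.toMonoidHom) := by
    intro g hg
    refine mem_extender.2 ⟨hg.1, hg.2, g, hg.1, fun y hy => ?_⟩
    have hb : conjAut P S ⟨g, hg⟩ ∈ U := (range_conjAut (P := P) S).le ⟨_, rfl⟩
    have h1 := congrArg (fun e : MulAut P => ((e y : P) : Ω)) (hτU _ hb)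
    exact h1
  have hgood := (h.le_centerSystem hS hF hAe (normalizerIn S P) (restrict hψ hNle)).2
    (by rw [hN, hPcard]; exact lt_mul_of_one_lt_left (mul_pos hp.pos (haveI := finite_of_le (S := S) (show Z ≤ S from inf_le_left); Nat.card_pos)) hp.one_lt)
  have hPN : P ≤ normalizerIn S P := le_inf hPS Subgroup.le_normalizer
  obtain ⟨β, hβ, hag⟩ := hgood.2 ((h.center_le_essential hS hF hP).trans hPN)
  have hβτ : ∀ (z : Ω) (hz : z ∈ Z) (hzP : z ∈ P), ((β ⟨z, hz.1⟩ : S) : Ω) = ((τ ⟨z, hzP⟩ : P) : Ω) :=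
    fun z hz hzP => (hag z hz).symm.trans (hψτ z hzP _)
  refine ⟨β, hβ, fun z hzZ hzγ hzS => ?_, fun z hzZ hfix hzP => ?_, fun z hz => ?_, fun z hz => ?_⟩
  · rw [hβτ z hzZ z.2, hτW z ⟨hzZ, γ⁻¹ z, hzγ, MulAut.apply_inv_self _ γ z⟩]
  · have h1 : τ ⟨z, hzP⟩ = ⟨z, hzP⟩ := Subtype.ext (by rw [← hβτ _ hzZ hzP]; exact congrArg Subtype.val hfix)
    obtain ⟨w₀, hw₀, i, e⟩ := hZdec ⟨z, hzP⟩ hzZ
    rw [e, map_mul, hτW w₀ hw₀, map_zpow, hτz, mul_right_inj, inv_zpow] at h1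
    have h2 : (z₀ ^ i) ^ 2 = 1 := by
      rw [pow_two]
      nth_rewrite 1 [← h1]
      exact inv_mul_cancel _
    have h3 : (z₀ ^ i) ^ p = 1 := by
      rw [← hZ₀card]
      exact congrArg Subtype.val (pow_card_eq_one' (x := (⟨_, Z₀.zpow_mem hz₀ i⟩ : Z₀)))
    have h4 : z₀ ^ i = 1 := by
      have hd : orderOf (z₀ ^ i) ∣ Nat.gcd 2 p := Nat.dvd_gcd (orderOf_dvd_of_pow_eq_one h2) (orderOf_dvd_of_pow_eq_one h3)
      rw [(Nat.coprime_primes Nat.prime_two hp).2 (Ne.symm hodd), Nat.dvd_one, orderOf_eq_one_iff] at hd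
      exact hd
    rw [e, h4, mul_one]
    obtain ⟨-, y', hy', hyy⟩ := hw₀
    rw [← hyy]
    show ((γ⁻¹ (γ y') : P) : Ω) ∈ Z
    rw [MulAut.inv_apply_self]
    exact hy'
  · have hzP : (z : Ω) ∈ P := h.center_le_essential hS hF hP hz.1
    obtain ⟨i, hi⟩ := Subgroup.mem_zpowers_iff.1 (hZ₀gen.ge (Subgroup.mem_subgroupOf.2 hz : (⟨(z : Ω), hzP⟩ : P) ∈ Z₀))
    refine Subtype.ext ((hβτ _ hz.1 hzP).trans ?_)
    rw [← hi, map_zpow, hτz, inv_zpow, hi]
    rfl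
  · have hzP : (z : Ω) ∈ P := h.center_le_essential hS hF hP hz
    show (z : Ω)⁻¹ * ((β z : S) : Ω) ∈ Z ⊓ R
    rw [show ((β z : S) : Ω) = ((τ ⟨z, hzP⟩ : P) : Ω) from hβτ _ hz hzP]
    obtain ⟨w₀, hw₀, i, e⟩ := hZdec ⟨z, hzP⟩ hz
    have h1 : (⟨(z : Ω), hzP⟩ : P)⁻¹ * τ ⟨z, hzP⟩ ∈ Z₀ := by
      rw [e, map_mul, hτW w₀ hw₀, map_zpow, hτz, mul_inv_rev, mul_assoc, inv_mul_cancel_left]
      exact Z₀.mul_mem (Z₀.inv_mem (Z₀.zpow_mem hz₀ i)) (Z₀.zpow_mem (Z₀.inv_mem hz₀) i)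
    exact Subgroup.mem_subgroupOf.1 h1

end AIP

end CfsgLib.Fusion
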