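import Cfsg.Agent.Fusion.EssentialAbelianIndexP

/-!
Commutator structure of groups with a unique abelian subgroup of index `p` and small second centre.
-/

set_option autoImplicit false
set_option linter.style.haveILetI false

open Cfsg

namespace CfsgLib.Fusion

open Cfsg.FusionSystem
open scoped commutatorElement

variable {Ω : Type*} [Group Ω] {S : Subgroup Ω} {A : Subgroup Ω} {p : ℕ}

namespace AIP

variable [Finite S] [Fact p.Prime] (h : AIP S A p) (hS : IsPGroup p S)
include h hS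

/-- The derived subgroup consists of the commutators with one element outside `A`. -/
lemma commutator_eq_range {x : Ω} (hx : x ∈ S) (hxA : x ∉ A) : ⁅S, S⁆ = (h.kappa hS hx).range := by
  set R := (h.kappa hS hx).range
  refine le_antisymm ?_ ?_
  · have hRA : R ≤ A := by rintro _ ⟨a, rfl⟩; exact h.kappa_mem hS hx a
    have hRn : ∀ s ∈ S, ∀ r ∈ R, s * r * s⁻¹ ∈ R := by
      have hxR : R.map (MulAut.conj x).toMonoidHom ≤ R := by
        rintro _ ⟨_, ⟨a, rfl⟩, rfl⟩
        refine ⟨⟨x * a * x⁻¹, h.conj_mem hS hx a.2⟩, ?_⟩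
        show x * (x * a * x⁻¹) * x⁻¹ * (x * a * x⁻¹)⁻¹ = x * (x * a * x⁻¹ * (a : Ω)⁻¹) * x⁻¹
        group
      haveI := finite_of_le (hRA.trans h.le)
      have hxN : x ∈ Subgroup.normalizer (R : Set Ω) :=
        mem_normalizer_of_map_le (hRA.trans h.le) fun y hy => hxR ⟨y, hy, rfl⟩
      intro s hs r hr
      obtain ⟨b, hb, i, rfl⟩ := h.decomp hS hx hxA hs
      have h1 := conj_mem_of_normalizer (Subgroup.zpow_mem _ hxN i) hr
      rw [show b * x ^ i * r * (b * x ^ i)⁻¹ = b * (x ^ i * r * (x ^ i)⁻¹) * b⁻¹ by group,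
        h.comm b hb _ (hRA h1), mul_inv_cancel_right]
      exact h1
    refine Subgroup.commutator_le.2 fun s hs t ht => ?_
    let W : Ω → Subgroup Ω := fun t =>
      { carrier := {s | s ∈ S ∧ ⁅s, t⁆ ∈ R}
        one_mem' := ⟨S.one_mem, by simp [Subgroup.one_mem]⟩
        mul_mem' := fun {a b} ⟨ha, ha'⟩ ⟨hb, hb'⟩ => ⟨S.mul_mem ha hb, by
          rw [show ⁅a * b, t⁆ = a * ⁅b, t⁆ * a⁻¹ * ⁅a, t⁆ by simp only [commutatorElement_def]; group]
          exact R.mul_mem (hRn a ha _ hb') ha'⟩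
        inv_mem' := fun {a} ⟨ha, ha'⟩ => ⟨S.inv_mem ha, by
          rw [show ⁅a⁻¹, t⁆ = a⁻¹ * ⁅a, t⁆⁻¹ * a⁻¹⁻¹ by simp only [commutatorElement_def]; group]
          exact hRn _ (S.inv_mem ha) _ (R.inv_mem ha')⟩ }
    have hA1 : ∀ a ∈ A, ⁅a, x⁆ ∈ R := fun a ha => by
      have : ⁅x, a⁆ ∈ R := ⟨⟨a, ha⟩, (by rw [h.kappa_apply, commutatorElement_def])⟩
      rw [← commutatorElement_inv]
      exact R.inv_mem this
    have key : ∀ t ∈ S, t = x ∨ t ∈ A → ∀ s ∈ S, s ∈ W t := by
      intro t ht hor s hs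
      obtain ⟨b, hb, i, rfl⟩ := h.decomp hS hx hxA hs
      refine (W t).mul_mem ⟨h.le hb, ?_⟩ ((W t).zpow_mem ⟨hx, ?_⟩ i)
      · rcases hor with rfl | hor
        · exact hA1 b hb
        · rw [commutatorElement_eq_one_iff_mul_comm.2 (h.comm b hb t hor)]; exact R.one_mem
      · rcases hor with rfl | hor
        · rw [commutatorElement_self]; exact R.one_mem
        · rw [← commutatorElement_inv]; exact R.inv_mem (hA1 t hor)
    obtain ⟨b, hb, i, rfl⟩ := h.decomp hS hx hxA ht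
    have h1 : ∀ u, u = x ∨ u ∈ A → u ∈ W s := fun u hu => by
      have huS : u ∈ S := by rcases hu with rfl | hu; exacts [hx, h.le hu]
      refine ⟨huS, ?_⟩
      rw [← commutatorElement_inv]
      exact R.inv_mem (key u huS hu s hs).2
    have h2 := ((W s).mul_mem (h1 b (Or.inr hb)) ((W s).zpow_mem (h1 x (Or.inl rfl)) i)).2
    rw [← commutatorElement_inv]
    exact R.inv_mem h2
  · rintro _ ⟨a, rfl⟩
    rw [h.kappa_apply, ← commutatorElement_def]
    exact Subgroup.commutator_mem_commutator hx (h.le a.2)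

lemma card_A_eq {x : Ω} (hx : x ∈ S) (hxA : x ∉ A) :
    Nat.card A = Nat.card (centralizerIn S S) * Nat.card (h.kappa hS hx).range := by
  haveI := finite_of_le h.le
  have h1 := card_eq_ker_mul_map (h.kappa hS hx) (le_refl A)
  rwa [h.kappa_ker hS hx hxA, inf_eq_right.2 (h.center_le hS), Subgroup.subgroupOf_self,
    ← MonoidHom.range_eq_map] at h1

lemma card_center_inf {x : Ω} (hx : x ∈ S) (hxA : x ∉ A) (hz : zTwo S ≤ A)
    (hc : Nat.card (zTwo S) = p * Nat.card (centralizerIn S S)) :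
    Nat.card ↥(centralizerIn S S ⊓ (h.kappa hS hx).range) = p := by
  haveI := finite_of_le h.le
  have h1 := card_eq_ker_mul_map (h.kappa hS hx) hz
  have e : ((zTwo S).subgroupOf A).map (h.kappa hS hx) = centralizerIn S S ⊓ (h.kappa hS hx).range := by
    ext y
    constructor
    · rintro ⟨a, ha, rfl⟩
      exact ⟨(h.mem_zTwo_iff hS hx hxA a.2).1 ha, a, rfl⟩
    · rintro ⟨hy, a, rfl⟩
      exact ⟨a, (h.mem_zTwo_iff hS hx hxA a.2).2 hy, rfl⟩
  rw [h.kappa_ker hS hx hxA, inf_eq_right.2 h.center_le_zTwo, e, hc, mul_comm p] at h1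
  exact (Nat.eq_of_mul_eq_mul_left (haveI := finite_of_le (S := S) (show centralizerIn S S ≤ S from inf_le_left)
    Nat.card_pos) h1).symm

lemma card_sup_range {x : Ω} (hx : x ∈ S) (hxA : x ∉ A) (hz : zTwo S ≤ A)
    (hc : Nat.card (zTwo S) = p * Nat.card (centralizerIn S S)) :
    Nat.card A = p * Nat.card ↥(centralizerIn S S ⊔ (h.kappa hS hx).range) := by
  set Z := centralizerIn S S
  set R := (h.kappa hS hx).range
  have hRA : R ≤ A := by rintro _ ⟨a, rfl⟩; exact h.kappa_mem hS hx a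
  have hsupA : Z ⊔ R ≤ A := sup_le (h.center_le hS) hRA
  haveI := finite_of_le h.le
  haveI : Finite ↥(Z ⊔ R) := finite_of_le (hsupA.trans h.le)
  have hn : ((R.subgroupOf (Z ⊔ R))).Normal := ⟨fun r hr g => by
    rw [show g * r = r * g from Subtype.ext (h.comm _ (hsupA g.2) _ (hsupA r.2)), mul_inv_cancel_right]
    exact hr⟩
  have h1 : R.relIndex (Z ⊔ R) = R.relIndex Z := by
    have hsup : Z.subgroupOf (Z ⊔ R) ⊔ R.subgroupOf (Z ⊔ R) = ⊤ := by
      rw [← Subgroup.subgroupOf_sup le_sup_left le_sup_right, Subgroup.subgroupOf_self]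
    have := Subgroup.relIndex_sup_right (H := Z.subgroupOf (Z ⊔ R)) (K := R.subgroupOf (Z ⊔ R))
    rw [hsup, Subgroup.relIndex_top_right] at this
    rw [show R.relIndex (Z ⊔ R) = (R.subgroupOf (Z ⊔ R)).index from rfl, this]
    show (R.comap (Z ⊔ R).subtype).relIndex _ = _
    rw [Subgroup.relIndex_comap, Subgroup.map_subgroupOf_eq_of_le le_sup_left]
  have h2 := card_eq_inf_mul_relIndex (K := R) (H := Z ⊔ R)
  rw [inf_eq_left.2 (le_sup_right : R ≤ Z ⊔ R), h1] at h2
  have h3 := card_eq_inf_mul_relIndex (K := R) (H := Z)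
  rw [inf_comm, h.card_center_inf hS hx hxA hz hc] at h3
  rw [h.card_A_eq hS hx hxA, h2, h3]
  ring

/-- Iterated commutators with `x`. -/
def kIter {x : Ω} (hx : x ∈ S) : ℕ → Subgroup Ω
  | 0 => A
  | k + 1 => ((kIter hx k).subgroupOf A).map (h.kappa hS hx)

lemma kIter_le {x : Ω} (hx : x ∈ S) : ∀ k, h.kIter hS hx k ≤ A
  | 0 => le_rfl
  | k + 1 => by rintro _ ⟨a, -, rfl⟩; exact h.kappa_mem hS hx a

lemma kIter_succ_le_range {x : Ω} (hx : x ∈ S) (k : ℕ) : h.kIter hS hx (k + 1) ≤ (h.kappa hS hx).range := by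
  rintro _ ⟨a, -, rfl⟩; exact ⟨a, rfl⟩

lemma kIter_le_lcs {x : Ω} (hx : x ∈ S) : ∀ k, h.kIter hS hx k ≤ S.lowerCentralSeries k
  | 0 => h.le
  | k + 1 => by
    rintro _ ⟨a, ha, rfl⟩
    have h1 : ⁅(a : Ω), x⁆ ∈ S.lowerCentralSeries (k + 1) :=
      Subgroup.commutator_mem_commutator (kIter_le_lcs hx k ha) hx
    rw [h.kappa_apply, ← commutatorElement_def, ← commutatorElement_inv]
    exact Subgroup.inv_mem _ h1

lemma card_range_le_kIter {x : Ω} (hx : x ∈ S) (hxA : x ∉ A) (hz : zTwo S ≤ A)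
    (hc : Nat.card (zTwo S) = p * Nat.card (centralizerIn S S)) (j : ℕ) :
    Nat.card (h.kappa hS hx).range ≤ p ^ j * Nat.card (h.kIter hS hx (1 + j)) := by
  haveI := finite_of_le h.le
  induction j with
  | zero =>
    rw [pow_zero, one_mul, show h.kIter hS hx (1 + 0) = (A.subgroupOf A).map (h.kappa hS hx) from rfl,
      Subgroup.subgroupOf_self, ← MonoidHom.range_eq_map]
  | succ j ih =>
    refine ih.trans ?_
    rw [pow_succ, mul_assoc]
    refine Nat.mul_le_mul_left _ ?_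
    have h1 := card_eq_ker_mul_map (h.kappa hS hx) (h.kIter_le hS hx (1 + j))
    rw [h.kappa_ker hS hx hxA] at h1
    rw [h1]
    refine Nat.mul_le_mul ?_ le_rfl
    haveI : Finite ↥(centralizerIn S S ⊓ (h.kappa hS hx).range) := finite_of_le (inf_le_left.trans inf_le_left)
    refine le_of_le_of_eq (Subgroup.card_le_of_le ?_) (h.card_center_inf hS hx hxA hz hc)
    refine le_inf inf_le_right (inf_le_left.trans ?_)
    rw [show 1 + j = j + 1 from Nat.add_comm 1 j]
    exact h.kIter_succ_le_range hS hx j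

/-- A lower bound for the terms of the lower central series. -/
lemma kIter_card_lower {x : Ω} (hx : x ∈ S) (hxA : x ∉ A) (hz : zTwo S ≤ A)
    (hc : Nat.card (zTwo S) = p * Nat.card (centralizerIn S S)) {m : ℕ}
    (hm : ((centralizerIn S S).subgroupOf S).index = p ^ m) (h3 : 3 ≤ m) :
    p ^ 2 ≤ Nat.card (h.kIter hS hx (m - 2)) := by
  have hp := (Fact.out : p.Prime)
  have h1 := ((centralizerIn S S).subgroupOf S).card_mul_index
  rw [hm, Nat.card_congr (Subgroup.subgroupOfEquivOfLe (show centralizerIn S S ≤ S from inf_le_left)).toEquiv,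
    h.card_eq_p_mul hS le_rfl hx hxA, inf_eq_left.2 h.le, h.card_A_eq hS hx hxA] at h1
  haveI : Finite (centralizerIn S S) := finite_of_le (S := S) inf_le_left
  have h2 : p ^ (m - 1) = Nat.card (h.kappa hS hx).range := by
    rw [show p ^ m = p * p ^ (m - 1) by rw [← pow_succ', show m - 1 + 1 = m by omega],
      ← mul_assoc, mul_comm _ p, mul_assoc] at h1
    exact Nat.eq_of_mul_eq_mul_left Nat.card_pos (Nat.eq_of_mul_eq_mul_left hp.pos h1)
  have h4 := h.card_range_le_kIter hS hx hxA hz hc (m - 3)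
  rw [← h2, show 1 + (m - 3) = m - 2 by omega, show m - 1 = (m - 3) + 2 by omega, pow_add] at h4
  exact Nat.le_of_mul_le_mul_left h4 (pow_pos hp.pos _)

lemma not_lcs_le_center {x : Ω} (hx : x ∈ S) (hxA : x ∉ A) (hz : zTwo S ≤ A)
    (hc : Nat.card (zTwo S) = p * Nat.card (centralizerIn S S)) {m : ℕ}
    (hm : ((centralizerIn S S).subgroupOf S).index = p ^ m) (h3 : 3 ≤ m) :
    ¬ S.lowerCentralSeries (m - 2) ≤ centralizerIn S S := by
  intro hle
  have h1 := h.kIter_card_lower hS hx hxA hz hc hm h3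
  haveI : Finite ↥(centralizerIn S S ⊓ (h.kappa hS hx).range) := finite_of_le (inf_le_left.trans inf_le_left)
  have h2 : Nat.card (h.kIter hS hx (m - 2)) ≤ p := by
    refine le_of_le_of_eq (Subgroup.card_le_of_le (le_inf ((h.kIter_le_lcs hS hx _).trans hle) ?_))
      (h.card_center_inf hS hx hxA hz hc)
    rw [show m - 2 = (m - 3) + 1 by omega]
    exact h.kIter_succ_le_range hS hx _
  have := (Fact.out : p.Prime).one_lt
  nlinarith

end AIP

end CfsgLib.Fusion
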