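import Cfsg.Agent.Fusion.FocalCentralizes
import Cfsg.Agent.Fusion.PPowerIndexNormal
import Cfsg.Agent.Fusion.CentricMeet

/-!
The centralizer in `S` of a normal subsystem: largest, and strongly closed.
-/

set_option autoImplicit false
set_option linter.style.haveILetI false

open Cfsg

namespace CfsgLib.Fusion

open Cfsg.FusionSystem

variable {Ω : Type*} [Group Ω] {S T : Subgroup Ω} {F : Cfsg.FusionSystem S} {E : Cfsg.FusionSystem T}
variable {P : Subgroup Ω} {p : ℕ} [Fact p.Prime] [Finite S]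

theorem mem_centralizingSubgroup (hS : IsPGroup p S) (hE : E.IsNormalIn F p) {x : Ω} :
    x ∈ centralizingSubgroup F E ↔ FixedElt F E x := by
  refine ⟨fun hx => ⟨centralizingSubgroup_le hx, fun P φ hφ => ?_⟩, fun h => Subgroup.subset_closure (Or.inr h)⟩
  obtain ⟨-, -, ψ, hψ, hag, hfix⟩ := le_fixSystem hS hE P hφ
  exact ⟨_, restrict hψ (sup_le_sup_left (Subgroup.zpowers_le.2 hx) P), fun a => hag a, hfix ⟨x, hx⟩⟩

theorem centralizingSubgroup_centralizes (hS : IsPGroup p S) (hE : E.IsNormalIn F p) (P : Subgroup Ω) :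
    E.Hom P ⊆ F.centralizerHom (centralizingSubgroup F E) P := by
  intro φ hφ
  obtain ⟨hφF, hPT, ψ, hψ, hag, hfix⟩ := le_fixSystem hS hE P hφ
  have hTc : T ≤ centralizerIn S (centralizingSubgroup F E) := fun t ht =>
    ⟨hE.1.2.2.2.1.1 ht, Subgroup.mem_centralizer_iff.2 fun z hz =>
      (Subgroup.mem_centralizer_iff.1 (centralizingSubgroup_le hz).2 t ht).symm⟩
  exact ⟨hφF, hPT.trans hTc, fun x => hTc (hE.1.2.2.2.1.2 P hPT φ hφF x), ψ, hψ, fun x => hag x, fun z => hfix z⟩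

omit [Fact p.Prime] [Finite S] in
theorem le_centralizingSubgroup {X : Subgroup Ω} (hX : X ≤ centralizerIn S T)
    (h : ∀ P : Subgroup Ω, E.Hom P ⊆ F.centralizerHom X P) : X ≤ centralizingSubgroup F E := by
  intro x hx
  refine Subgroup.subset_closure (Or.inr ⟨hX hx, fun P φ hφ => ?_⟩)
  obtain ⟨-, -, -, ψ, hψ, hag, hfix⟩ := h P hφ
  exact ⟨_, restrict hψ (sup_le_sup_left (Subgroup.zpowers_le.2 hx) P), fun a => hag a, hfix ⟨x, hx⟩⟩

/-- Centralizing elements go to centralizing elements under maps defined on a centric subgroup of `T`. -/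
theorem fixedElt_map_centric (hS : IsPGroup p S) (hF : F.IsSaturated p) (hE : E.IsInvariantIn F) :
    ∀ (n : ℕ) (P : Subgroup Ω), E.IsCentric P → Nat.card T - Nat.card P ≤ n → ∀ {x : Ω}, FixedElt F E x →
      ∀ (η : ↥(P ⊔ Subgroup.zpowers x) →* Ω), η ∈ F.Hom (P ⊔ Subgroup.zpowers x) →
        FixedElt F E (η ⟨x, Subgroup.mem_sup_right (Subgroup.mem_zpowers x)⟩) := by
  intro n
  induction n with
  | zero =>
    intro P hP hn x hx η hη
    haveI := finite_of_le hE.2.1.1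
    obtain rfl : P = T := Subgroup.eq_of_le_of_card_ge hP.1 (Nat.sub_eq_zero_iff_le.1 (Nat.le_zero.1 hn))
    exact fixedElt_map hE hx hη
  | succ n ih =>
    intro P hP hn x hx η hη
    have hT := hE.2.1
    have hTS := hT.1
    haveI := finite_of_le hTS
    rcases hP.1.eq_or_lt with rfl | hlt
    · exact fixedElt_map hE hx hη
    set ω : P →* Ω := η.comp (Subgroup.inclusion le_sup_left)
    have hω : ω ∈ F.Hom P := restrict hη le_sup_left
    obtain ⟨P', hP'⟩ : ∃ P', ω.range = P' := ⟨_, rfl⟩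
    have hP'c : E.IsCentric P' := hP' ▸ isCentric_of_fconj hE hP hω
    have hP'T := hP'c.1
    obtain ⟨ρ, hρ, hρP, hρx⟩ := exists_fixed_lift hS hF hE hx hP.1 hω
    obtain ⟨y, hy⟩ : ∃ y, ρ ⟨x, Subgroup.mem_sup_right (Subgroup.mem_zpowers x)⟩ = y := ⟨_, rfl⟩
    rw [hy] at hρx
    obtain ⟨z, hz⟩ : ∃ z, η ⟨x, Subgroup.mem_sup_right (Subgroup.mem_zpowers x)⟩ = z := ⟨_, rfl⟩
    rw [hz]
    have hzc : z ∈ centralizerIn S P' := by
      refine ⟨hz ▸ val_mem hη _, Subgroup.mem_centralizer_iff.2 ?_⟩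
      rw [← hP', ← hz]
      rintro _ ⟨a, rfl⟩
      show η _ * η _ = η _ * η _
      rw [← map_mul, ← map_mul]
      exact congrArg η (Subtype.ext (Subgroup.mem_centralizer_iff.1 hx.1.2 a (hP.1 a.2)))
    have hyc : y ∈ centralizerIn S P' :=
      ⟨hρx.1.1, Subgroup.mem_centralizer_iff.2 fun q hq => Subgroup.mem_centralizer_iff.1 hρx.1.2 q (hP'T hq)⟩
    have hρr : ρ.range = P' ⊔ Subgroup.zpowers y := by
      refine range_sup_zpowers _ (fun a ha => ?_) (fun q hq => ?_) hy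
      · rw [hρP ⟨a, ha⟩, ← hP']; exact ⟨_, rfl⟩
      · obtain ⟨a, rfl⟩ := hP'.ge hq
        exact ⟨a, a.2, hρP a⟩
    obtain ⟨τ, hτ, hτr, hτ1, -⟩ := exists_inv hρ hρr
    have hτv : ∀ u, τ u ∈ P ⊔ Subgroup.zpowers x := fun u => hτr ▸ ⟨u, rfl⟩
    have hγ := F.comp_mem hτ hη hτv
    set γ := η.comp (τ.codRestrict _ hτv)
    have hγP : ∀ q : P', γ ⟨q, Subgroup.mem_sup_left q.2⟩ = q := by
      rintro ⟨q, hq⟩
      obtain ⟨a, rfl⟩ := hP'.ge hq
      show η ⟨τ ⟨_, _⟩, _⟩ = ω a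
      refine congrArg η (Subtype.ext ?_)
      exact (congrArg τ (Subtype.ext (hρP a).symm)).trans
        (hτ1 ⟨a, Subgroup.mem_sup_left a.2⟩ (hρr.le ⟨_, rfl⟩))
    have hγy : γ ⟨y, Subgroup.mem_sup_right (Subgroup.mem_zpowers y)⟩ = z := by
      show η ⟨τ ⟨_, _⟩, _⟩ = z
      rw [← hz]
      refine congrArg η (Subtype.ext ?_)
      exact (congrArg τ (Subtype.ext hy.symm)).trans
        (hτ1 ⟨x, Subgroup.mem_sup_right (Subgroup.mem_zpowers x)⟩ (hρr.le ⟨_, rfl⟩))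
    obtain ⟨N, hN⟩ : ∃ N, N = normalizerIn T P' := ⟨_, rfl⟩
    have hNT : N ≤ T := hN ▸ inf_le_left
    have hPN : P' ≤ N := hN ▸ le_inf hP'T Subgroup.le_normalizer
    have htz : ∀ t ∈ N, t * z = z * t := by
      intro t ht
      have h1 := comm_eq_of_fix hS hF hT hP'T
        (fun R' hR' => let ⟨φ, hφ, e⟩ := hR'; e ▸ centralizer_range_le hE hφ hP'c) (hNT ht) (hN ▸ ht).2
        hyc hzc hγ hγP hγy
      have h0 : t * y * t⁻¹ * y⁻¹ = 1 := by
        rw [Subgroup.mem_centralizer_iff.1 hρx.1.2 t (hNT ht)]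
        group
      rw [h0, mul_inv_eq_one] at h1
      exact mul_inv_eq_iff_eq_mul.1 h1
    have hty : ∀ t ∈ N, t * y = y * t := fun t ht => Subgroup.mem_centralizer_iff.1 hρx.1.2 t (hNT ht)
    have hnorm : ∀ (w : Ω), (∀ t ∈ N, t * w = w * t) → ∀ t ∈ N,
        t ∈ Subgroup.normalizer ((P' ⊔ Subgroup.zpowers w : Subgroup Ω) : Set Ω) := by
      intro w hw
      have key : ∀ t ∈ N, ∀ u ∈ P' ⊔ Subgroup.zpowers w, t * u * t⁻¹ ∈ P' ⊔ Subgroup.zpowers w := by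
        intro t ht u hu
        refine sup_zpowers_map_mem (conjHom (P' ⊔ Subgroup.zpowers w) t) (fun a ha => ?_) ?_ ⟨u, hu⟩
        · exact Subgroup.mem_sup_left (conj_mem_of_normalizer (hN ▸ ht).2 ha)
        · show t * w * t⁻¹ ∈ _
          rw [hw t ht, mul_inv_cancel_right]
          exact Subgroup.mem_sup_right (Subgroup.mem_zpowers w)
      intro t ht
      refine Subgroup.mem_normalizer_iff.2 fun u => ⟨key t ht u, fun h => ?_⟩
      have h1 := key t⁻¹ (N.inv_mem ht) _ h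
      simpa [mul_assoc] using h1
    have hγt : ∀ (t : Ω) (ht : t ∈ N) (u : ↥(P' ⊔ Subgroup.zpowers y)),
        γ ⟨t * u * t⁻¹, conj_mem_of_normalizer (hnorm y hty t ht) u.2⟩ = t * γ u * t⁻¹ := by
      intro t ht u
      let σ : ↥(P' ⊔ Subgroup.zpowers y) →* ↥(P' ⊔ Subgroup.zpowers y) :=
        (conjAut (P' ⊔ Subgroup.zpowers y) (⊤ : Subgroup Ω) ⟨t, Subgroup.mem_top t, hnorm y hty t ht⟩).toMonoidHom
      have hle : P' ⊔ Subgroup.zpowers y ≤
          ((γ.comp σ).eqLocus ((MulAut.conj t).toMonoidHom.comp γ)).map (P' ⊔ Subgroup.zpowers y).subtype := by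
        refine sup_le (fun a ha => ⟨⟨a, Subgroup.mem_sup_left ha⟩, ?_, rfl⟩) (Subgroup.zpowers_le.2
          ⟨⟨y, Subgroup.mem_sup_right (Subgroup.mem_zpowers y)⟩, ?_, rfl⟩)
        · show γ ⟨t * a * t⁻¹, _⟩ = t * γ ⟨a, _⟩ * t⁻¹
          rw [hγP ⟨a, ha⟩]
          exact hγP ⟨t * a * t⁻¹, conj_mem_of_normalizer (hN ▸ ht).2 ha⟩
        · show γ ⟨t * y * t⁻¹, _⟩ = t * γ ⟨y, _⟩ * t⁻¹
          rw [hγy, htz t ht, mul_inv_cancel_right]
          refine Eq.trans (congrArg γ (Subtype.ext ?_)) hγy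
          show t * y * t⁻¹ = y
          rw [hty t ht, mul_inv_cancel_right]
      obtain ⟨v, hv, e⟩ := hle u.2
      obtain rfl : v = u := Subtype.ext e
      exact hv
    -- a fully normalized conjugate
    have hzS : P' ⊔ Subgroup.zpowers z ≤ S := sup_le (hP'T.trans hTS) (Subgroup.zpowers_le.2 hzc.1)
    have hγr : γ.range = P' ⊔ Subgroup.zpowers z :=
      range_sup_zpowers _ (fun a ha => by rw [hγP ⟨a, ha⟩]; exact ha) (fun q hq => ⟨q, hq, hγP ⟨q, hq⟩⟩) hγy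
    set g := isoOfHom (F.injective_of_mem hγ) hγr
    obtain ⟨U', hconj, hn'⟩ := exists_fullyNormalized (F := F) hzS
    obtain ⟨φ₁, hφ₁, hr⟩ := hconj
    set e₀ := isoOfHom (F.injective_of_mem hφ₁) hr
    have hrec := receptive_of_fullyNormalized hS hF hn'
    have hle : autInducedBy N (P' ⊔ Subgroup.zpowers z) ≤ autInducedBy S (P' ⊔ Subgroup.zpowers z) := fun α hα => by
      obtain ⟨t, ht, h⟩ := mem_autInducedBy.1 hα
      exact mem_autInducedBy.2 ⟨t, hTS (hNT ht), h⟩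
    obtain ⟨χ, hχ, hχM⟩ := exists_conj_le_autInducedBy p (fullyAutomized_of_fullyNormalized hS hF hn')
      ((autInducedBy N (P' ⊔ Subgroup.zpowers z)).map (MulAut.congr e₀).toMonoidHom)
      (((isPGroup_autInducedBy p hS _).to_le hle).map _)
      (by rintro _ ⟨σ, hσ, rfl⟩; exact congr_mem_autGroup hφ₁ hr (autInducedBy_le_autGroup hzS (hle hσ)))
    obtain ⟨e₂, he₂⟩ : ∃ e₂ : ↥(P' ⊔ Subgroup.zpowers z) ≃* U', e₂ = e₀.trans χ := ⟨_, rfl⟩
    have he₂F : IsoIn F e₂ := by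
      rw [he₂]; exact IsoIn.trans (isoIn_isoOfHom hφ₁ hr) (isoIn_aut hn'.1 hχ)
    have he₁F : IsoIn F (g.trans e₂) := IsoIn.trans (isoIn_isoOfHom hγ hγr) he₂F
    have hs : ∀ (t : Ω) (ht : t ∈ N), ∃ s ∈ S, ∀ u : ↥(P' ⊔ Subgroup.zpowers z),
        ((e₂ ⟨t * u * t⁻¹, conj_mem_of_normalizer (hnorm z htz t ht) u.2⟩ : U') : Ω) = s * e₂ u * s⁻¹ := by
      intro t ht
      obtain ⟨s, hs, hsx⟩ := mem_autInducedBy.1 (hχM _ ⟨conjAut _ N ⟨t, ht, hnorm z htz t ht⟩,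
        (range_conjAut (P := P' ⊔ Subgroup.zpowers z) N) ▸ ⟨_, rfl⟩, rfl⟩)
      refine ⟨s, hs, fun u => ?_⟩
      have h1 := hsx (χ (e₀ u))
      simp only [MulEquiv.coe_toMonoidHom, MulAut.mul_apply, MulAut.inv_apply_self] at h1
      rw [show MulAut.congr e₀ (conjAut (P' ⊔ Subgroup.zpowers z) N ⟨t, ht, hnorm z htz t ht⟩) (e₀ u) =
          e₀ (conjAut (P' ⊔ Subgroup.zpowers z) N ⟨t, ht, hnorm z htz t ht⟩ u) by
        show e₀ (conjAut (P' ⊔ Subgroup.zpowers z) N ⟨t, ht, hnorm z htz t ht⟩ (e₀.symm (e₀ u))) = _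
        rw [MulEquiv.symm_apply_apply]] at h1
      rw [he₂]
      exact h1
    have hge : ∀ (t : Ω) (ht : t ∈ N) (u : ↥(P' ⊔ Subgroup.zpowers y)),
        g ⟨t * u * t⁻¹, conj_mem_of_normalizer (hnorm y hty t ht) u.2⟩ =
          ⟨t * g u * t⁻¹, conj_mem_of_normalizer (hnorm z htz t ht) (g u).2⟩ :=
      fun t ht u => Subtype.ext (hγt t ht u)
    have hext₂ : N ≤ extender S (P' ⊔ Subgroup.zpowers z) (U'.subtype.comp e₂.toMonoidHom) := fun t ht => by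
      obtain ⟨s, hsS, hsu⟩ := hs t ht
      exact Subgroup.subset_closure ⟨hTS (hNT ht), hnorm z htz t ht, s, hsS, fun u _ => hsu u⟩
    have hext₁ : N ≤ extender S (P' ⊔ Subgroup.zpowers y) (U'.subtype.comp (g.trans e₂).toMonoidHom) := fun t ht => by
      obtain ⟨s, hsS, hsu⟩ := hs t ht
      refine Subgroup.subset_closure ⟨hTS (hNT ht), hnorm y hty t ht, s, hsS, fun u hu => ?_⟩
      show ((e₂ (g _) : U') : Ω) = s * ((e₂ (g u) : U') : Ω) * s⁻¹
      rw [hge t ht u]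
      exact hsu (g u)
    obtain ⟨ψ₂, hψ₂, hag₂⟩ := hrec.2 _ _ he₂F (IsoIn.range_eq e₂)
    obtain ⟨ψ₁, hψ₁, hag₁⟩ := hrec.2 _ _ he₁F (IsoIn.range_eq (g.trans e₂))
    have hU₂ : P' ⊔ Subgroup.zpowers z ≤ extender S _ (U'.subtype.comp e₂.toMonoidHom) := le_extender he₂F
    have hU₁ : P' ⊔ Subgroup.zpowers y ≤ extender S _ (U'.subtype.comp (g.trans e₂).toMonoidHom) := le_extender he₁F
    have hD₂ : N ⊔ Subgroup.zpowers z ≤ extender S _ (U'.subtype.comp e₂.toMonoidHom) :=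
      sup_le hext₂ (le_sup_right.trans hU₂)
    have hD₁ : N ⊔ Subgroup.zpowers y ≤ extender S _ (U'.subtype.comp (g.trans e₂).toMonoidHom) :=
      sup_le hext₁ (le_sup_right.trans hU₁)
    set f₂ := ψ₂.comp (Subgroup.inclusion hD₂)
    set f₁ := ψ₁.comp (Subgroup.inclusion hD₁)
    have hf₂ : f₂ ∈ F.Hom (N ⊔ Subgroup.zpowers z) := restrict hψ₂ hD₂
    have hf₁ : f₁ ∈ F.Hom (N ⊔ Subgroup.zpowers y) := restrict hψ₁ hD₁
    have hf₂P : ∀ q : P', f₂ ⟨q, Subgroup.mem_sup_left (hPN q.2)⟩ = e₂ ⟨q, Subgroup.mem_sup_left q.2⟩ :=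
      fun q => hag₂ q (Subgroup.mem_sup_left q.2) _
    have hf₁P : ∀ q : P', f₁ ⟨q, Subgroup.mem_sup_left (hPN q.2)⟩ = e₂ ⟨q, Subgroup.mem_sup_left q.2⟩ := fun q => by
      refine (hag₁ q (Subgroup.mem_sup_left q.2) _).trans ?_
      show ((e₂ (g ⟨q, _⟩) : U') : Ω) = _
      exact congrArg (fun v => ((e₂ v : U') : Ω)) (Subtype.ext (hγP q))
    set ρ' : P' →* Ω := f₂.comp (Subgroup.inclusion (hPN.trans le_sup_left))
    have hρ' : ρ' ∈ F.Hom P' := restrict hf₂ _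
    have hfN : ∀ t (ht : t ∈ N), f₁ ⟨t, Subgroup.mem_sup_left ht⟩ ∈ f₂.range := by
      intro t ht
      obtain ⟨t₁, ht₁⟩ : ∃ t₁, f₁ ⟨t, Subgroup.mem_sup_left ht⟩ = t₁ := ⟨_, rfl⟩
      obtain ⟨t₂, ht₂⟩ : ∃ t₂, f₂ ⟨t, Subgroup.mem_sup_left ht⟩ = t₂ := ⟨_, rfl⟩
      have ht₁T : t₁ ∈ T := ht₁ ▸ hT.2 N hNT _ (restrict hf₁ le_sup_left) ⟨t, ht⟩
      have ht₂T : t₂ ∈ T := ht₂ ▸ hT.2 N hNT _ (restrict hf₂ le_sup_left) ⟨t, ht⟩
      have hd : t₂⁻¹ * t₁ ∈ ρ'.range := by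
        refine centralizer_range_le hE hρ' hP'c ⟨T.mul_mem (T.inv_mem ht₂T) ht₁T, Subgroup.mem_centralizer_iff.2 ?_⟩
        rintro _ ⟨q, rfl⟩
        have hq' : t * q * t⁻¹ ∈ P' := conj_mem_of_normalizer (hN ▸ ht).2 q.2
        have e1 : ∀ (w : Ω) (f : ↥(N ⊔ Subgroup.zpowers w) →* Ω),
            f ⟨t * q * t⁻¹, Subgroup.mem_sup_left (hPN hq')⟩ = f ⟨t, Subgroup.mem_sup_left ht⟩ *
              f ⟨q, Subgroup.mem_sup_left (hPN q.2)⟩ * (f ⟨t, Subgroup.mem_sup_left ht⟩)⁻¹ := fun w f => by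
          rw [← map_inv, ← map_mul, ← map_mul]; rfl
        have h1 := e1 y f₁
        have h2 := e1 z f₂
        rw [hf₁P ⟨_, hq'⟩, hf₁P q, ht₁] at h1
        rw [hf₂P ⟨_, hq'⟩, hf₂P q, ht₂] at h2
        have h3 : t₁ * ((e₂ ⟨q, Subgroup.mem_sup_left q.2⟩ : U') : Ω) * t₁⁻¹ =
            t₂ * ((e₂ ⟨q, Subgroup.mem_sup_left q.2⟩ : U') : Ω) * t₂⁻¹ := h1.symm.trans h2
        have hq2 : ρ' q = ((e₂ ⟨q, Subgroup.mem_sup_left q.2⟩ : U') : Ω) := hf₂P q
        rw [hq2]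
        calc _ = t₂⁻¹ * (t₂ * ((e₂ ⟨q, Subgroup.mem_sup_left q.2⟩ : U') : Ω) * t₂⁻¹) * t₁ := by group
          _ = t₂⁻¹ * (t₁ * ((e₂ ⟨q, Subgroup.mem_sup_left q.2⟩ : U') : Ω) * t₁⁻¹) * t₁ := by rw [h3]
          _ = t₂⁻¹ * t₁ * ((e₂ ⟨q, Subgroup.mem_sup_left q.2⟩ : U') : Ω) := by group
      rw [ht₁, ← mul_inv_cancel_left t₂ t₁]
      refine Subgroup.mul_mem _ ⟨_, ht₂⟩ ?_
      obtain ⟨q, hq⟩ := hd
      exact ⟨_, hq⟩
    have hfy : f₁ ⟨y, Subgroup.mem_sup_right (Subgroup.mem_zpowers y)⟩ =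
        f₂ ⟨z, Subgroup.mem_sup_right (Subgroup.mem_zpowers z)⟩ := by
      refine (hag₁ y (Subgroup.mem_sup_right (Subgroup.mem_zpowers y)) _).trans
        (Eq.trans ?_ (hag₂ z (Subgroup.mem_sup_right (Subgroup.mem_zpowers z)) _).symm)
      show ((e₂ (g _) : U') : Ω) = _
      exact congrArg (fun v => ((e₂ v : U') : Ω)) (Subtype.ext hγy)
    have hfv : ∀ u, f₁ u ∈ f₂.range := sup_zpowers_map_mem f₁ hfN (hfy ▸ ⟨_, rfl⟩)
    obtain ⟨κ, hκ, -, hκ1, -⟩ := exists_inv hf₂ (rfl : f₂.range = f₂.range)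
    have hμ := F.comp_mem hf₁ hκ hfv
    have hμy : κ ⟨f₁ ⟨y, Subgroup.mem_sup_right (Subgroup.mem_zpowers y)⟩, hfv _⟩ = z :=
      (congrArg κ (Subtype.ext hfy)).trans (hκ1 ⟨z, Subgroup.mem_sup_right (Subgroup.mem_zpowers z)⟩ ⟨_, rfl⟩)
    have hcard : Nat.card P < Nat.card N := by
      have h0 : Nat.card P = Nat.card P' := IsConj.card_eq (F := F) ⟨ω, hω, hP'⟩
      have hlt' : P' < T := lt_of_le_of_ne hP'T fun e => by
        rw [e] at h0
        exact hlt.ne (Subgroup.eq_of_le_of_card_ge hP.1 h0.ge)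
      haveI := finite_of_le (hNT.trans hTS)
      rw [h0]
      refine lt_of_le_of_ne (Subgroup.card_le_of_le hPN) fun e => ?_
      have h1 := lt_normalizerIn (hS.to_le hTS) hlt'
      rw [← hN] at h1
      exact h1.ne (Subgroup.eq_of_le_of_card_ge hPN e.ge)
    have := ih N (isCentric_of_le hP'c hPN hNT) (by omega) hρx _ hμ
    exact hμy ▸ this

/-- The centralizer in `S` of a normal subsystem is strongly closed. -/
theorem stronglyClosed_centralizingSubgroup (hS : IsPGroup p S) (hE : E.IsNormalIn F p) :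
    F.StronglyClosed (centralizingSubgroup F E) := by
  obtain ⟨hEs, hF, hEi⟩ := id hE.1
  have hT := hEi.2.1
  have hTS := hT.1
  have hYS : centralizingSubgroup F E ≤ S := centralizingSubgroup_le.trans inf_le_left
  have hmap : ∀ g ∈ S, ∀ x ∈ centralizingSubgroup F E, g * x * g⁻¹ ∈ centralizingSubgroup F E := fun g hg x hx =>
    (mem_centralizingSubgroup hS hE).2 (fixedElt_map hEi ((mem_centralizingSubgroup hS hE).1 hx)
      (F.conj_mem (sup_le hTS (Subgroup.zpowers_le.2 (hYS hx))) hg :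
        conjHom (T ⊔ Subgroup.zpowers x) g ∈ F.Hom (T ⊔ Subgroup.zpowers x)))
  have hn : S ≤ Subgroup.normalizer (centralizingSubgroup F E : Set Ω) := fun g hg =>
    Subgroup.mem_normalizer_iff.2 fun x => ⟨hmap g hg x, fun h => by
      simpa [mul_assoc] using hmap g⁻¹ (S.inv_mem hg) _ h⟩
  have hle : F ≤ preservingSystem F (centralizingSubgroup F E) hn := by
    refine le_of_centricRadical hS hF _ fun R hRn hRc hRr => ?_
    have hPc : E.IsCentric (R ⊓ T) := by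
      by_contra h
      exact (centric_meet_normal hS hF hEi.1 hT hRc h).2 hRr
    have key : ∀ α ∈ F.autGroup R, ∀ x : R, (x : Ω) ∈ centralizingSubgroup F E →
        ((α x : R) : Ω) ∈ centralizingSubgroup F E := by
      intro α hα x hx
      have hle : (R ⊓ T) ⊔ Subgroup.zpowers (x : Ω) ≤ R := sup_le inf_le_left (Subgroup.zpowers_le.2 x.2)
      exact (mem_centralizingSubgroup hS hE).2 (fixedElt_map_centric hS hF hEi _ _ hPc le_rfl
        ((mem_centralizingSubgroup hS hE).1 hx) _ (restrict ((mem_autGroup hRn.1).1 hα) hle))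
    intro α hα
    refine (mem_autGroup hRn.1).2 ⟨(mem_autGroup hRn.1).1 hα, fun x => ⟨key α hα x, fun h => ?_⟩⟩
    have h1 := key α⁻¹ (inv_mem hα) (α x) h
    rwa [MulAut.inv_apply_self] at h1
  exact ⟨hYS, fun R hR φ hφ x => ((hle R hφ).2 x).1 (hR x.2)⟩

end CfsgLib.Fusion
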