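import Cfsg.Agent.Fusion.CentralizerClosed
import Cfsg.Agent.Fusion.IndexPSystem
import Cfsg.Agent.Fusion.Normalizer
import Cfsg.Agent.S5099

/-!
The centralizer subsystem of a normal subsystem.
-/

set_option autoImplicit false
set_option linter.style.haveILetI false

open Cfsg

namespace CfsgLib.Fusion

open Cfsg.FusionSystem

variable {Ω : Type*} [Group Ω] {S T : Subgroup Ω} {F : Cfsg.FusionSystem S} {E : Cfsg.FusionSystem T}
variable {P : Subgroup Ω} {p : ℕ} [Fact p.Prime] [Finite S]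

omit [Fact p.Prime] in
lemma sup_map_range {A B A' B' : Subgroup Ω} (ψ : ↥(A ⊔ B) →* Ω)
    (hA : ∀ a (ha : a ∈ A), ψ ⟨a, Subgroup.mem_sup_left ha⟩ ∈ A')
    (hA' : ∀ q ∈ A', ∃ a, ∃ ha : a ∈ A, ψ ⟨a, Subgroup.mem_sup_left ha⟩ = q)
    (hB : ∀ b (hb : b ∈ B), ψ ⟨b, Subgroup.mem_sup_right hb⟩ ∈ B')
    (hB' : ∀ q ∈ B', ∃ b, ∃ hb : b ∈ B, ψ ⟨b, Subgroup.mem_sup_right hb⟩ = q) : ψ.range = A' ⊔ B' := by
  refine le_antisymm ?_ (sup_le (fun q hq => ?_) (fun q hq => ?_))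
  · rintro _ ⟨u, rfl⟩
    exact sup_map_mem ψ (fun a ha => Subgroup.mem_sup_left (hA a ha)) (fun b hb => Subgroup.mem_sup_right (hB b hb)) u
  · obtain ⟨a, ha, e⟩ := hA' q hq
    exact ⟨_, e⟩
  · obtain ⟨b, hb, e⟩ := hB' q hq
    exact ⟨_, e⟩

/-- Maps defined on a centric subgroup of `T` and a subgroup of a strongly closed `Y ≤ C_S(T)` restrict to maps
of a system containing the restrictions of `Aut_F(Y)` and the maps fixing `T`. -/
theorem restrict_mem_of_centric (hS : IsPGroup p S) (hF : F.IsSaturated p) (hE : E.IsInvariantIn F) {Y : Subgroup Ω}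
    (hY : Y ≤ centralizerIn S T) (hYs : F.StronglyClosed Y)
    (hfix : ∀ P, E.Hom P ⊆ F.centralizerHom Y P) (G : Cfsg.FusionSystem Y)
    (hGA : ∀ (U : Subgroup Ω), U ≤ Y → ∀ φ : U →* Ω, ∀ α ∈ F.autGroup Y,
      (∀ (x : U) (hx : (x : Ω) ∈ Y), φ x = ((α ⟨x, hx⟩ : Y) : Ω)) → φ ∈ G.Hom U)
    (hGC : ∀ (U : Subgroup Ω), U ≤ Y → ∀ φ ∈ F.centralizerHom T U, φ ∈ G.Hom U) :
    ∀ (n : ℕ) (P : Subgroup Ω), E.IsCentric P → Nat.card T - Nat.card P ≤ n → ∀ (U : Subgroup Ω), U ≤ Y →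
      ∀ η : ↥(P ⊔ U) →* Ω, η ∈ F.Hom (P ⊔ U) → η.comp (Subgroup.inclusion le_sup_right) ∈ G.Hom U := by
  intro n
  induction n using Nat.strong_induction_on with
  | _ n ih =>
    intro P hP hn U hU η hη
    have hT := hE.2.1
    have hTS := hT.1
    have hYS := hYs.1
    haveI := finite_of_le hTS
    haveI := finite_of_le hYS
    have hPT := hP.1
    have hUY : ∀ u : U, η ⟨u, Subgroup.mem_sup_right u.2⟩ ∈ Y := fun u => hYs.2 U hU _ (restrict hη le_sup_right) u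
    set ω : P →* Ω := η.comp (Subgroup.inclusion le_sup_left)
    have hω : ω ∈ F.Hom P := restrict hη le_sup_left
    obtain ⟨β₀, hβ₀, φ₀, hφ₀, hag⟩ := hE.2.2.2 P hPT ω hω
    obtain ⟨β, hβ, hβT, -⟩ := exists_aut_sup hS hF hT hβ₀
    have hTCS : T ⊔ centralizerIn S T ≤ S := sup_le hTS inf_le_left
    have hYle : T ⊔ Y ≤ T ⊔ centralizerIn S T := sup_le_sup_left hY T
    set bY : Y →* Ω := ((T ⊔ centralizerIn S T).subtype.comp β.toMonoidHom).comp
      (Subgroup.inclusion (le_sup_right.trans hYle))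
    have hbY : bY ∈ F.Hom Y := restrict ((mem_autGroup hTCS).1 hβ) _
    obtain ⟨αY, hαY, hαYx⟩ : ∃ αY ∈ F.autGroup Y, ∀ y : Y, ((αY y : Y) : Ω) = bY y := by
      have hr : bY.range = Y := (weaklyClosed_of_stronglyClosed hYs).2 bY hbY
      exact ⟨isoOfHom (F.injective_of_mem hbY) hr, mem_autGroup_of_eq hbY fun _ => rfl, fun _ => rfl⟩
    -- the map `ρ`
    obtain ⟨-, -, -, ψ₀', hψ₀', hψ₀P', hψ₀Y'⟩ := hfix P hφ₀
    set ψ₀ := ψ₀'.comp (Subgroup.inclusion (sup_le_sup_left hU P))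
    have hψ₀ : ψ₀ ∈ F.Hom (P ⊔ U) := restrict hψ₀' _
    have hψ₀v : ∀ z, ψ₀ z ∈ T ⊔ centralizerIn S T := sup_map_mem ψ₀
      (fun a ha => by
        show ψ₀' ⟨a, _⟩ ∈ _
        exact Eq.subst (motive := fun z => z ∈ T ⊔ centralizerIn S T) (hψ₀P' ⟨a, ha⟩).symm
          (Subgroup.mem_sup_left (val_mem hφ₀ _)))
      (fun b hb => by
        show ψ₀' ⟨b, _⟩ ∈ _
        exact Eq.subst (motive := fun z => z ∈ T ⊔ centralizerIn S T) (hψ₀Y' ⟨b, hU hb⟩).symm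
          (Subgroup.mem_sup_right (hY (hU hb))))
    have hρ := F.comp_mem hψ₀ ((mem_autGroup hTCS).1 hβ) hψ₀v
    set ρ := ((T ⊔ centralizerIn S T).subtype.comp β.toMonoidHom).comp (ψ₀.codRestrict _ hψ₀v)
    have hρP : ∀ a : P, ρ ⟨a, Subgroup.mem_sup_left a.2⟩ = ω a := by
      intro a
      rw [hag a (val_mem hφ₀ a), ← hβT ⟨φ₀ a, val_mem hφ₀ a⟩]
      exact congrArg (fun z => ((β z : ↥(T ⊔ centralizerIn S T)) : Ω)) (Subtype.ext (hψ₀P' a))
    have hρU : ∀ u : U, ρ ⟨u, Subgroup.mem_sup_right u.2⟩ = bY ⟨u, hU u.2⟩ := by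
      intro u
      exact congrArg (fun z => ((β z : ↥(T ⊔ centralizerIn S T)) : Ω)) (Subtype.ext (hψ₀Y' ⟨u, hU u.2⟩))
    obtain ⟨P', hP'⟩ : ∃ P', ω.range = P' := ⟨_, rfl⟩
    obtain ⟨U₁, hU₁⟩ : ∃ U₁, (bY.comp (Subgroup.inclusion hU)).range = U₁ := ⟨_, rfl⟩
    have hU₁Y : U₁ ≤ Y := by
      rw [← hU₁]
      rintro _ ⟨u, rfl⟩
      exact (hαYx ⟨u, hU u.2⟩) ▸ (αY _).2
    have hP'c : E.IsCentric P' := hP' ▸ isCentric_of_fconj hE hP hω
    have hP'T := hP'c.1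
    have hρr : ρ.range = P' ⊔ U₁ := by
      refine sup_map_range _ (fun a ha => ?_) (fun q hq => ?_) (fun b hb => ?_) (fun q hq => ?_)
      · rw [hρP ⟨a, ha⟩, ← hP']; exact ⟨_, rfl⟩
      · obtain ⟨a, rfl⟩ := hP'.ge hq
        exact ⟨a, a.2, hρP a⟩
      · rw [hρU ⟨b, hb⟩, ← hU₁]; exact ⟨⟨b, hb⟩, rfl⟩
      · obtain ⟨u, rfl⟩ := hU₁.ge hq
        exact ⟨u, u.2, hρU u⟩
    obtain ⟨τ, hτ, hτr, hτ1, -⟩ := exists_inv hρ hρr
    have hτv : ∀ u, τ u ∈ P ⊔ U := fun u => hτr ▸ ⟨u, rfl⟩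
    have hγ := F.comp_mem hτ hη hτv
    set γ := η.comp (τ.codRestrict _ hτv)
    have hγP : ∀ q : P', γ ⟨q, Subgroup.mem_sup_left q.2⟩ = q := by
      rintro ⟨q, hq⟩
      obtain ⟨a, rfl⟩ := hP'.ge hq
      show η ⟨τ ⟨_, _⟩, _⟩ = ω a
      refine congrArg η (Subtype.ext ?_)
      exact (congrArg τ (Subtype.ext (hρP a).symm)).trans (hτ1 ⟨a, Subgroup.mem_sup_left a.2⟩ (hρr.le ⟨_, rfl⟩))
    have hγU : ∀ u : U, ∃ hu : bY ⟨u, hU u.2⟩ ∈ U₁,
        γ ⟨bY ⟨u, hU u.2⟩, Subgroup.mem_sup_right hu⟩ = η ⟨u, Subgroup.mem_sup_right u.2⟩ := by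
      intro u
      refine ⟨hU₁ ▸ ⟨u, rfl⟩, ?_⟩
      show η ⟨τ ⟨_, _⟩, _⟩ = _
      refine congrArg η (Subtype.ext ?_)
      exact (congrArg τ (Subtype.ext (hρU u).symm)).trans (hτ1 ⟨u, Subgroup.mem_sup_right u.2⟩ (hρr.le ⟨_, rfl⟩))
    -- it suffices to treat `γ`
    suffices hmain : γ.comp (Subgroup.inclusion le_sup_right) ∈ G.Hom U₁ by
      have hb : bY.comp (Subgroup.inclusion hU) ∈ G.Hom U := hGA U hU _ αY hαY fun x hx => (hαYx ⟨x, hx⟩).symm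
      refine comp_of_eq hb hmain (fun u => hU₁ ▸ ⟨u, rfl⟩) fun u => ?_
      obtain ⟨hu, e⟩ := hγU u
      exact e.symm
    rcases hPT.eq_or_lt with rfl | hlt
    · refine hGC U₁ hU₁Y _ ⟨restrict hγ _, hU₁Y.trans hY, fun u => hY (hYs.2 U₁ hU₁Y _ (restrict hγ le_sup_right) u), ?_⟩
      have hP'P : P' = P := le_antisymm hP'T (by
        rw [← hP']
        exact ((weaklyClosed_of_stronglyClosed hT).2 ω hω).ge)
      subst hP'P
      exact ⟨_, restrict hγ (sup_le le_sup_right le_sup_left), fun u => rfl, fun t => hγP t⟩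
    obtain ⟨N, hN⟩ : ∃ N, N = normalizerIn T P' := ⟨_, rfl⟩
    have hNT : N ≤ T := hN ▸ inf_le_left
    have hPN : P' ≤ N := hN ▸ le_inf hP'T Subgroup.le_normalizer
    obtain ⟨U₂, hU₂⟩ : ∃ U₂, (γ.comp (Subgroup.inclusion le_sup_right : U₁ →* ↥(P' ⊔ U₁))).range = U₂ := ⟨_, rfl⟩
    have hU₂Y : U₂ ≤ Y := by
      rw [← hU₂]
      rintro _ ⟨u, rfl⟩
      exact hYs.2 U₁ hU₁Y _ (restrict hγ le_sup_right) u
    have hty : ∀ t ∈ N, ∀ y ∈ Y, t * y = y * t := fun t ht y hy =>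
      Subgroup.mem_centralizer_iff.1 (hY hy).2 t (hNT ht)
    have hnorm : ∀ (W : Subgroup Ω), W ≤ Y → ∀ t ∈ N,
        t ∈ Subgroup.normalizer ((P' ⊔ W : Subgroup Ω) : Set Ω) := by
      intro W hW
      have key : ∀ t ∈ N, ∀ u ∈ P' ⊔ W, t * u * t⁻¹ ∈ P' ⊔ W := by
        intro t ht u hu
        refine sup_map_mem (conjHom (P' ⊔ W) t) (fun a ha => ?_) (fun b hb => ?_) ⟨u, hu⟩
        · exact Subgroup.mem_sup_left (conj_mem_of_normalizer (hN ▸ ht).2 ha)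
        · show t * b * t⁻¹ ∈ _
          rw [hty t ht b (hW hb), mul_inv_cancel_right]
          exact Subgroup.mem_sup_right hb
      intro t ht
      refine Subgroup.mem_normalizer_iff.2 fun u => ⟨key t ht u, fun h => ?_⟩
      have h1 := key t⁻¹ (N.inv_mem ht) _ h
      simpa [mul_assoc] using h1
    have hγt : ∀ (t : Ω) (ht : t ∈ N) (u : ↥(P' ⊔ U₁)),
        γ ⟨t * u * t⁻¹, conj_mem_of_normalizer (hnorm U₁ hU₁Y t ht) u.2⟩ = t * γ u * t⁻¹ := by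
      intro t ht u
      let σ : ↥(P' ⊔ U₁) →* ↥(P' ⊔ U₁) :=
        (conjAut (P' ⊔ U₁) (⊤ : Subgroup Ω) ⟨t, Subgroup.mem_top t, hnorm U₁ hU₁Y t ht⟩).toMonoidHom
      have hle : P' ⊔ U₁ ≤ ((γ.comp σ).eqLocus ((MulAut.conj t).toMonoidHom.comp γ)).map (P' ⊔ U₁).subtype := by
        refine sup_le (fun a ha => ⟨⟨a, Subgroup.mem_sup_left ha⟩, ?_, rfl⟩)
          (fun b hb => ⟨⟨b, Subgroup.mem_sup_right hb⟩, ?_, rfl⟩)
        · show γ ⟨t * a * t⁻¹, _⟩ = t * γ ⟨a, _⟩ * t⁻¹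
          rw [hγP ⟨a, ha⟩]
          exact hγP ⟨t * a * t⁻¹, conj_mem_of_normalizer (hN ▸ ht).2 ha⟩
        · show γ ⟨t * b * t⁻¹, _⟩ = t * γ ⟨b, _⟩ * t⁻¹
          have hz : γ ⟨b, Subgroup.mem_sup_right hb⟩ ∈ Y := hU₂Y (hU₂ ▸ ⟨⟨b, hb⟩, rfl⟩)
          rw [hty t ht _ hz, mul_inv_cancel_right]
          refine congrArg γ (Subtype.ext ?_)
          show t * b * t⁻¹ = b
          rw [hty t ht b (hU₁Y hb), mul_inv_cancel_right]
      obtain ⟨v, hv, e⟩ := hle u.2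
      obtain rfl : v = u := Subtype.ext e
      exact hv
    -- a fully normalized conjugate
    have hzS : P' ⊔ U₂ ≤ S := sup_le (hP'T.trans hTS) (hU₂Y.trans hYS)
    have hγr : γ.range = P' ⊔ U₂ :=
      sup_map_range _ (fun a ha => by rw [hγP ⟨a, ha⟩]; exact ha) (fun q hq => ⟨q, hq, hγP ⟨q, hq⟩⟩)
        (fun b hb => hU₂ ▸ ⟨⟨b, hb⟩, rfl⟩) (fun q hq => by
          obtain ⟨b, rfl⟩ := hU₂.ge hq
          exact ⟨b, b.2, rfl⟩)
    set g := isoOfHom (F.injective_of_mem hγ) hγr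
    obtain ⟨U', hconj, hn'⟩ := exists_fullyNormalized (F := F) hzS
    obtain ⟨φ₁, hφ₁, hr⟩ := hconj
    set e₀ := isoOfHom (F.injective_of_mem hφ₁) hr
    have hrec := receptive_of_fullyNormalized hS hF hn'
    have hle : autInducedBy N (P' ⊔ U₂) ≤ autInducedBy S (P' ⊔ U₂) := fun α hα => by
      obtain ⟨t, ht, h⟩ := mem_autInducedBy.1 hα
      exact mem_autInducedBy.2 ⟨t, hTS (hNT ht), h⟩
    obtain ⟨χ, hχ, hχM⟩ := exists_conj_le_autInducedBy p (fullyAutomized_of_fullyNormalized hS hF hn')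
      ((autInducedBy N (P' ⊔ U₂)).map (MulAut.congr e₀).toMonoidHom)
      (((isPGroup_autInducedBy p hS _).to_le hle).map _)
      (by rintro _ ⟨σ, hσ, rfl⟩; exact congr_mem_autGroup hφ₁ hr (autInducedBy_le_autGroup hzS (hle hσ)))
    obtain ⟨e₂, he₂⟩ : ∃ e₂ : ↥(P' ⊔ U₂) ≃* U', e₂ = e₀.trans χ := ⟨_, rfl⟩
    have he₂F : IsoIn F e₂ := by
      rw [he₂]; exact IsoIn.trans (isoIn_isoOfHom hφ₁ hr) (isoIn_aut hn'.1 hχ)
    have he₁F : IsoIn F (g.trans e₂) := IsoIn.trans (isoIn_isoOfHom hγ hγr) he₂F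
    have hs : ∀ (t : Ω) (ht : t ∈ N), ∃ s ∈ S, ∀ u : ↥(P' ⊔ U₂),
        ((e₂ ⟨t * u * t⁻¹, conj_mem_of_normalizer (hnorm U₂ hU₂Y t ht) u.2⟩ : U') : Ω) = s * e₂ u * s⁻¹ := by
      intro t ht
      obtain ⟨s, hs, hsx⟩ := mem_autInducedBy.1 (hχM _ ⟨conjAut _ N ⟨t, ht, hnorm U₂ hU₂Y t ht⟩,
        (range_conjAut (P := P' ⊔ U₂) N) ▸ ⟨_, rfl⟩, rfl⟩)
      refine ⟨s, hs, fun u => ?_⟩
      have h1 := hsx (χ (e₀ u))
      simp only [MulEquiv.coe_toMonoidHom, MulAut.mul_apply, MulAut.inv_apply_self] at h1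
      rw [show MulAut.congr e₀ (conjAut (P' ⊔ U₂) N ⟨t, ht, hnorm U₂ hU₂Y t ht⟩) (e₀ u) =
          e₀ (conjAut (P' ⊔ U₂) N ⟨t, ht, hnorm U₂ hU₂Y t ht⟩ u) by
        show e₀ (conjAut (P' ⊔ U₂) N ⟨t, ht, hnorm U₂ hU₂Y t ht⟩ (e₀.symm (e₀ u))) = _
        rw [MulEquiv.symm_apply_apply]] at h1
      rw [he₂]
      exact h1
    have hge : ∀ (t : Ω) (ht : t ∈ N) (u : ↥(P' ⊔ U₁)),
        g ⟨t * u * t⁻¹, conj_mem_of_normalizer (hnorm U₁ hU₁Y t ht) u.2⟩ =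
          ⟨t * g u * t⁻¹, conj_mem_of_normalizer (hnorm U₂ hU₂Y t ht) (g u).2⟩ :=
      fun t ht u => Subtype.ext (hγt t ht u)
    have hext₂ : N ≤ extender S (P' ⊔ U₂) (U'.subtype.comp e₂.toMonoidHom) := fun t ht => by
      obtain ⟨s, hsS, hsu⟩ := hs t ht
      exact Subgroup.subset_closure ⟨hTS (hNT ht), hnorm U₂ hU₂Y t ht, s, hsS, fun u _ => hsu u⟩
    have hext₁ : N ≤ extender S (P' ⊔ U₁) (U'.subtype.comp (g.trans e₂).toMonoidHom) := fun t ht => by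
      obtain ⟨s, hsS, hsu⟩ := hs t ht
      refine Subgroup.subset_closure ⟨hTS (hNT ht), hnorm U₁ hU₁Y t ht, s, hsS, fun u hu => ?_⟩
      show ((e₂ (g _) : U') : Ω) = s * ((e₂ (g u) : U') : Ω) * s⁻¹
      rw [hge t ht u]
      exact hsu (g u)
    obtain ⟨ψ₂, hψ₂, hag₂⟩ := hrec.2 _ _ he₂F (IsoIn.range_eq e₂)
    obtain ⟨ψ₁, hψ₁, hag₁⟩ := hrec.2 _ _ he₁F (IsoIn.range_eq (g.trans e₂))
    have hU₂e : P' ⊔ U₂ ≤ extender S _ (U'.subtype.comp e₂.toMonoidHom) := le_extender he₂F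
    have hU₁e : P' ⊔ U₁ ≤ extender S _ (U'.subtype.comp (g.trans e₂).toMonoidHom) := le_extender he₁F
    have hD₂ : N ⊔ U₂ ≤ extender S _ (U'.subtype.comp e₂.toMonoidHom) := sup_le hext₂ (le_sup_right.trans hU₂e)
    have hD₁ : N ⊔ U₁ ≤ extender S _ (U'.subtype.comp (g.trans e₂).toMonoidHom) :=
      sup_le hext₁ (le_sup_right.trans hU₁e)
    set f₂ := ψ₂.comp (Subgroup.inclusion hD₂)
    set f₁ := ψ₁.comp (Subgroup.inclusion hD₁)
    have hf₂ : f₂ ∈ F.Hom (N ⊔ U₂) := restrict hψ₂ hD₂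
    have hf₁ : f₁ ∈ F.Hom (N ⊔ U₁) := restrict hψ₁ hD₁
    have hf₂P : ∀ q : P', f₂ ⟨q, Subgroup.mem_sup_left (hPN q.2)⟩ = e₂ ⟨q, Subgroup.mem_sup_left q.2⟩ :=
      fun q => hag₂ q (Subgroup.mem_sup_left q.2) _
    have hf₁P : ∀ q : P', f₁ ⟨q, Subgroup.mem_sup_left (hPN q.2)⟩ = e₂ ⟨q, Subgroup.mem_sup_left q.2⟩ := fun q => by
      refine (hag₁ q (Subgroup.mem_sup_left q.2) _).trans ?_
      show ((e₂ (g ⟨q, _⟩) : U') : Ω) = _
      exact congrArg (fun v => ((e₂ v : U') : Ω)) (Subtype.ext (hγP q))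
    set ρ' : P' →* Ω := f₂.comp (Subgroup.inclusion (hPN.trans le_sup_left))
    have hρ' : ρ' ∈ F.Hom P' := restrict hf₂ _
    have hfN : ∀ t (ht : t ∈ N), f₁ ⟨t, Subgroup.mem_sup_left ht⟩ ∈ f₂.range := by
      intro t ht
      obtain ⟨t₁, ht₁⟩ : ∃ t₁, f₁ ⟨t, Subgroup.mem_sup_left ht⟩ = t₁ := ⟨_, rfl⟩
      obtain ⟨t₂, ht₂⟩ : ∃ t₂, f₂ ⟨t, Subgroup.mem_sup_left ht⟩ = t₂ := ⟨_, rfl⟩
      have ht₁T : t₁ ∈ T := ht₁ ▸ hT.2 N hNT _ (restrict hf₁ le_sup_left) ⟨t, ht⟩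
      have ht₂T : t₂ ∈ T := ht₂ ▸ hT.2 N hNT _ (restrict hf₂ le_sup_left) ⟨t, ht⟩
      have hd : t₂⁻¹ * t₁ ∈ ρ'.range := by
        refine centralizer_range_le hE hρ' hP'c ⟨T.mul_mem (T.inv_mem ht₂T) ht₁T, Subgroup.mem_centralizer_iff.2 ?_⟩
        rintro _ ⟨q, rfl⟩
        have hq' : t * q * t⁻¹ ∈ P' := conj_mem_of_normalizer (hN ▸ ht).2 q.2
        have e1 : ∀ (W : Subgroup Ω) (f : ↥(N ⊔ W) →* Ω),
            f ⟨t * q * t⁻¹, Subgroup.mem_sup_left (hPN hq')⟩ = f ⟨t, Subgroup.mem_sup_left ht⟩ *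
              f ⟨q, Subgroup.mem_sup_left (hPN q.2)⟩ * (f ⟨t, Subgroup.mem_sup_left ht⟩)⁻¹ := fun W f => by
          rw [← map_inv, ← map_mul, ← map_mul]; rfl
        have h1 := e1 U₁ f₁
        have h2 := e1 U₂ f₂
        rw [hf₁P ⟨_, hq'⟩, hf₁P q, ht₁] at h1
        rw [hf₂P ⟨_, hq'⟩, hf₂P q, ht₂] at h2
        have h3 : t₁ * ((e₂ ⟨q, Subgroup.mem_sup_left q.2⟩ : U') : Ω) * t₁⁻¹ =
            t₂ * ((e₂ ⟨q, Subgroup.mem_sup_left q.2⟩ : U') : Ω) * t₂⁻¹ := h1.symm.trans h2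
        have hq2 : ρ' q = ((e₂ ⟨q, Subgroup.mem_sup_left q.2⟩ : U') : Ω) := hf₂P q
        rw [hq2]
        calc _ = t₂⁻¹ * (t₂ * ((e₂ ⟨q, Subgroup.mem_sup_left q.2⟩ : U') : Ω) * t₂⁻¹) * t₁ := by group
          _ = t₂⁻¹ * (t₁ * ((e₂ ⟨q, Subgroup.mem_sup_left q.2⟩ : U') : Ω) * t₁⁻¹) * t₁ := by rw [h3]
          _ = t₂⁻¹ * t₁ * ((e₂ ⟨q, Subgroup.mem_sup_left q.2⟩ : U') : Ω) := by group
      rw [ht₁, ← mul_inv_cancel_left t₂ t₁]
      refine Subgroup.mul_mem _ ⟨_, ht₂⟩ ?_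
      obtain ⟨q, hq⟩ := hd
      exact ⟨_, hq⟩
    have hfU : ∀ b (hb : b ∈ U₁), ∃ hz : γ ⟨b, Subgroup.mem_sup_right hb⟩ ∈ U₂,
        f₁ ⟨b, Subgroup.mem_sup_right hb⟩ = f₂ ⟨γ ⟨b, Subgroup.mem_sup_right hb⟩, Subgroup.mem_sup_right hz⟩ := by
      intro b hb
      have hz : γ ⟨b, Subgroup.mem_sup_right hb⟩ ∈ U₂ := hU₂ ▸ ⟨⟨b, hb⟩, rfl⟩
      refine ⟨hz, (hag₁ b (Subgroup.mem_sup_right hb) _).trans
        (Eq.trans ?_ (hag₂ _ (Subgroup.mem_sup_right hz) _).symm)⟩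
      show ((e₂ (g _) : U') : Ω) = _
      exact congrArg (fun v => ((e₂ v : U') : Ω)) (Subtype.ext rfl)
    have hfv : ∀ u, f₁ u ∈ f₂.range := sup_map_mem f₁ hfN
      (fun b hb => let ⟨hz, e⟩ := hfU b hb; ⟨_, e.symm⟩)
    obtain ⟨κ, hκ, -, hκ1, -⟩ := exists_inv hf₂ (rfl : f₂.range = f₂.range)
    have hμ := F.comp_mem hf₁ hκ hfv
    have hcard : Nat.card P < Nat.card N := by
      have h0 : Nat.card P = Nat.card P' := IsConj.card_eq (F := F) ⟨ω, hω, hP'⟩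
      have hlt' : P' < T := lt_of_le_of_ne hP'T fun e => by
        rw [e] at h0
        exact hlt.ne (Subgroup.eq_of_le_of_card_ge hPT h0.ge)
      haveI := finite_of_le (hNT.trans hTS)
      rw [h0]
      refine lt_of_le_of_ne (Subgroup.card_le_of_le hPN) fun e => ?_
      have h1 := lt_normalizerIn (hS.to_le hTS) hlt'
      rw [← hN] at h1
      exact h1.ne (Subgroup.eq_of_le_of_card_ge hPN e.ge)
    have hmu := ih (Nat.card T - Nat.card N) (by have := Subgroup.card_le_of_le hNT; omega) N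
      (isCentric_of_le hP'c hPN hNT) le_rfl U₁ hU₁Y _ hμ
    refine mem_of_eq hmu fun b => ?_
    obtain ⟨hz, e⟩ := hfU b b.2
    show γ _ = κ ⟨f₁ _, _⟩
    refine ((congrArg κ (Subtype.ext e : _ = (⟨_, ⟨⟨γ ⟨(b : Ω), Subgroup.mem_sup_right b.2⟩, Subgroup.mem_sup_right hz⟩, rfl⟩⟩ : f₂.range))).trans ?_).symm
    exact hκ1 ⟨_, Subgroup.mem_sup_right hz⟩ ⟨_, rfl⟩

/-- Conjugation by a map fixing `T` setwise preserves the centralizer maps of `T`. -/
lemma congr_centralizer_aut (hT : F.StronglyClosed T) {P Q : Subgroup Ω} (hP : P ≤ centralizerIn S T)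
    {σ : ↥(P ⊔ T) →* Ω} (hσ : σ ∈ F.Hom (P ⊔ T)) (hr : (σ.comp (Subgroup.inclusion le_sup_left)).range = Q)
    {γ : MulAut P} (hγ : γ ∈ (centralizerSystem F hT.1).autGroup P) :
    MulAut.congr (isoOfHom (F.injective_of_mem (restrict hσ le_sup_left)) hr) γ ∈
      (centralizerSystem F hT.1).autGroup Q := by
  have hTS := hT.1
  haveI := finite_of_le hTS
  obtain ⟨hγF, -, -, χ, hχ, hχP, hχT⟩ := (mem_autGroup hP).1 hγ
  set e := isoOfHom (F.injective_of_mem (restrict hσ le_sup_left)) hr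
  have hT' : (σ.comp (Subgroup.inclusion (le_sup_right : T ≤ P ⊔ T))).range = T :=
    (weaklyClosed_of_stronglyClosed hT).2 _ (restrict hσ le_sup_right)
  have hσr : σ.range = Q ⊔ T := by
    refine sup_map_range _ (fun a ha => hr ▸ ⟨⟨a, ha⟩, rfl⟩) (fun q hq => ?_) (fun b hb => hT'.le ⟨⟨b, hb⟩, rfl⟩)
      (fun q hq => ?_)
    · obtain ⟨a, rfl⟩ := hr.ge hq; exact ⟨a, a.2, rfl⟩
    · obtain ⟨a, rfl⟩ := hT'.ge hq; exact ⟨a, a.2, rfl⟩
  have hQ : Q ≤ centralizerIn S T := by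
    rw [← hr]
    rintro _ ⟨a, rfl⟩
    refine ⟨val_mem hσ _, Subgroup.mem_centralizer_iff.2 fun t ht => ?_⟩
    obtain ⟨b, rfl⟩ := hT'.ge ht
    show σ _ * σ _ = σ _ * σ _
    rw [← map_mul, ← map_mul]
    exact congrArg σ (Subtype.ext (Subgroup.mem_centralizer_iff.1 (hP a.2).2 b b.2))
  obtain ⟨ι, hι, hιr, hι1, -⟩ := exists_inv hσ hσr
  have hv1 : ∀ u, ι u ∈ P ⊔ T := fun u => hιr ▸ ⟨u, rfl⟩
  have hv2 : ∀ u, χ u ∈ P ⊔ T := sup_map_mem χ
    (fun a ha => Eq.subst (motive := fun z => z ∈ P ⊔ T) (hχP ⟨a, ha⟩).symm (Subgroup.mem_sup_left (γ ⟨a, ha⟩).2))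
    (fun b hb => Eq.subst (motive := fun z => z ∈ P ⊔ T) (hχT ⟨b, hb⟩).symm (Subgroup.mem_sup_right hb))
  have hm1 := F.comp_mem hι hχ hv1
  have hm2 := F.comp_mem hm1 hσ fun u => hv2 _
  refine (mem_autGroup hQ).2 ⟨(mem_autGroup (hQ.trans inf_le_left)).1
    (congr_mem_autGroup (restrict hσ le_sup_left) hr ((mem_autGroup (hP.trans inf_le_left)).2 hγF)),
    hQ, fun q => hQ (((MulAut.congr e γ) q).2), _, hm2, fun q => ?_, fun t => ?_⟩
  · obtain ⟨a, rfl⟩ := e.surjective q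
    show σ ⟨χ ⟨ι ⟨_, _⟩, _⟩, _⟩ = ((e (γ (e.symm (e a))) : Q) : Ω)
    rw [MulEquiv.symm_apply_apply]
    show σ _ = σ ⟨(γ a : P), _⟩
    refine congrArg σ (Subtype.ext ?_)
    refine Eq.trans (congrArg χ (Subtype.ext ?_ : _ = (⟨a, Subgroup.mem_sup_left a.2⟩ : ↥(P ⊔ T)))) (hχP a)
    exact hι1 ⟨a, Subgroup.mem_sup_left a.2⟩ _
  · obtain ⟨t, ht⟩ := t
    obtain ⟨b, rfl⟩ := hT'.ge ht
    show σ ⟨χ ⟨ι ⟨_, _⟩, _⟩, _⟩ = σ _
    refine congrArg σ (Subtype.ext ?_)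
    refine Eq.trans (congrArg χ (Subtype.ext ?_ : _ = (⟨b, Subgroup.mem_sup_right b.2⟩ : ↥(P ⊔ T)))) (hχT b)
    exact hι1 ⟨b, Subgroup.mem_sup_right b.2⟩ _

/-- Existence of the centralizer subsystem of a normal subsystem. -/
theorem exists_centralizerSubsystem (hS : IsPGroup p S) (hE : E.IsNormalIn F p) :
    ∃ D : Cfsg.FusionSystem (centralizingSubgroup F E), D.IsNormalIn F p ∧
      ∀ P : Subgroup Ω, D.Hom P ⊆ F.centralizerHom T P := by
  obtain ⟨hEs, hF, hEi⟩ := id hE.1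
  have hT := hEi.2.1
  have hTS := hT.1
  set C := centralizerSystem F hTS
  have hTfn : F.IsFullyNormalized T := ⟨hTS, fun Q hQ => by
    obtain ⟨φ, hφ, rfl⟩ := hQ
    rw [(weaklyClosed_of_stronglyClosed hT).2 φ hφ]⟩
  have hCs : C.IsSaturated p := Cfsg.Agent.S5099.result p hS F hF T
    (fullyCentralized_of_fullyNormalized hS hF hTfn) C (isCentralizerSystem_centralizerSystem F hTS)
  haveI := finite_centralizerIn (S := S) T
  have hCp : IsPGroup p (centralizerIn S T) := hS.to_le inf_le_left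
  obtain ⟨Y, hYdef⟩ : ∃ Y, Y = centralizingSubgroup F E := ⟨_, rfl⟩
  rw [← hYdef]
  have hYC : Y ≤ centralizerIn S T := hYdef ▸ centralizingSubgroup_le
  have hYs : F.StronglyClosed Y := hYdef ▸ stronglyClosed_centralizingSubgroup hS hE
  have hYS := hYs.1
  have hfix : ∀ P, E.Hom P ⊆ F.centralizerHom Y P := hYdef ▸ centralizingSubgroup_centralizes hS hE
  have hfoc : C.focalSubgroup ≤ Y := by
    refine (focal_le_centralizer hS hE (isCentralizerSystem_centralizerSystem F hTS)).trans ?_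
    rw [hYdef]
    exact sSup_le fun X hX => le_centralizingSubgroup hX.1 hX.2
  have hhyp : C.hyperfocalSubgroup p ≤ Y := by
    refine le_trans ?_ hfoc
    rw [focalSubgroup_eq hCp hCs]
    exact le_sup_left
  obtain ⟨D, hDs, hDi⟩ := exists_pPowerIndex (p := p) (Nat.card ↥(centralizerIn S T)) hCp hCs hYC hhyp le_rfl
  have hDF : D.IsSubsystemOf F := fun P φ hφ => (hDi.1 P hφ).1
  haveI := finite_of_le hYS
  have hYp := hS.to_le hYS
  have hYn := le_normalizer_of_weaklyClosed_fusion (weaklyClosed_of_stronglyClosed hYs)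
  have hYfn : F.IsFullyNormalized Y := ⟨hYS, fun Q hQ => by
    obtain ⟨φ, hφ, rfl⟩ := hQ
    rw [(weaklyClosed_of_stronglyClosed hYs).2 φ hφ]⟩
  have hYrec := receptive_of_fullyNormalized hS hF hYfn
  have hTC : T ≤ centralizerIn S Y := fun t ht => ⟨hTS ht, Subgroup.mem_centralizer_iff.2 fun y hy =>
    (Subgroup.mem_centralizer_iff.1 (hYC hy).2 t ht).symm⟩
  -- extensions of `Aut_F(Y)` to `T`
  have hextY : ∀ α ∈ F.autGroup Y, ∃ ψ ∈ F.Hom (Y ⊔ centralizerIn S Y),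
      ∀ y : Y, ψ ⟨y, Subgroup.mem_sup_left y.2⟩ = ((α y : Y) : Ω) := by
    intro α hα
    have hαm := (mem_autGroup hYS).1 hα
    obtain ⟨ψ, hψ, hag⟩ := hYrec.2 Y _ hαm (range_aut α)
    exact ⟨_, restrict hψ (sup_le (le_extender hαm) centralizerIn_le_extender), fun y => hag y y.2 _⟩
  -- invariance
  have hinv : InvBy D (F.autGroup Y) := by
    have hle : D ≤ invariantCore D (F.autGroup Y) := by
      refine le_of_residual (F := C) hCp hYC D _ hDs hDi.1 fun P hP => ?_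
      rw [Subgroup.map_le_iff_le_comap, Cfsg.pResidual, Subgroup.closure_le]
      intro γ hγ
      have hPC := hP.trans hYC
      have hγD := (mem_autGroup hP).1 (hDi.2.2 P hP ⟨γ, Subgroup.subset_closure hγ, rfl⟩)
      refine (mem_autGroup hP).2 ⟨hγD, fun α hα R hR hm => ?_⟩
      obtain ⟨ψ, hψ, hψY⟩ := hextY α⁻¹ (inv_mem hα)
      have hle : P ⊔ T ≤ Y ⊔ centralizerIn S Y := sup_le (hP.trans le_sup_left) (hTC.trans le_sup_right)
      have hσ := restrict hψ hle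
      set σ := (ψ.comp (Subgroup.inclusion hle)).comp (Subgroup.inclusion (le_sup_left : P ≤ P ⊔ T))
      have hσY : ∀ x : P, σ x = ((α⁻¹ ⟨x, hP x.2⟩ : Y) : Ω) := fun x => hψY ⟨x, hP x.2⟩
      have hσT : σ.range ≤ Y := by rintro _ ⟨x, rfl⟩; rw [hσY]; exact (α⁻¹ _).2
      have hRσ : R ≤ σ.range := fun r hr => ⟨⟨_, hm ⟨r, hr⟩⟩, by
        rw [hσY]
        show ((α⁻¹ (α ⟨r, hR hr⟩) : Y) : Ω) = r
        rw [MulAut.inv_apply_self]⟩
      have hγ'C := congr_centralizer_aut hT hPC hσ (Q := σ.range) rfl γ.2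
      set e := isoOfHom (F.injective_of_mem (restrict hσ le_sup_left)) (rfl : σ.range = σ.range)
      have hord : orderOf (⟨_, hγ'C⟩ : C.autGroup σ.range) = orderOf γ := by
        rw [← Subgroup.orderOf_coe]
        show orderOf ((MulAut.congr e).toMonoidHom (γ : MulAut P)) = _
        rw [orderOf_injective (MulAut.congr e).toMonoidHom (MulEquiv.injective _), Subgroup.orderOf_coe]
      have hγ'E := (mem_autGroup hσT).1 (hDi.2.2 σ.range hσT
        ⟨⟨_, hγ'C⟩, Subgroup.subset_closure (show Nat.Coprime _ p from hord ▸ hγ), rfl⟩)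
      refine restrict_of_eq hγ'E hRσ fun r => ?_
      show _ = ((e ((γ : MulAut P) (e.symm ⟨r, hRσ r.2⟩)) : σ.range) : Ω)
      have e1 : e.symm ⟨r, hRσ r.2⟩ = ⟨_, hm r⟩ := by
        rw [MulEquiv.symm_apply_eq]
        refine Subtype.ext ?_
        show (r : Ω) = σ ⟨_, hm r⟩
        rw [hσY]
        show (r : Ω) = ((α⁻¹ (α ⟨(r : Ω), hR r.2⟩) : Y) : Ω)
        rw [MulAut.inv_apply_self]
      rw [e1, twist_apply]
      show _ = σ _
      rw [hσY]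
      rfl
    exact fun P _φ hφ α hα R hR h => (hle P hφ).2 α hα R hR h
  set G := twistProduct D (F.autGroup Y) hinv
  have hGA : ∀ (U : Subgroup Ω), U ≤ Y → ∀ φ : U →* Ω, ∀ α ∈ F.autGroup Y,
      (∀ (x : U) (hx : (x : Ω) ∈ Y), φ x = ((α ⟨x, hx⟩ : Y) : Ω)) → φ ∈ G.Hom U :=
    fun U hU φ α hα h => ⟨α, hα, U.subtype, subtype_mem hU, fun x hx => h x hx⟩
  -- the centralizer maps
  have hDn : D.IsNormalIn C p := isNormalIn_of_pPowerIndex hCp hCs hYC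
    ((Subgroup.normal_subgroupOf_iff_le_normalizer hYC).2 (inf_le_left.trans hYn)) hhyp hDs hDi
  have hGC : ∀ (U : Subgroup Ω), U ≤ Y → ∀ φ ∈ F.centralizerHom T U, φ ∈ G.Hom U := by
    intro U hU φ hφ
    obtain ⟨α, hα, φ₀, hφ₀, hag⟩ := hDn.1.2.2.2.2.2 U hU φ hφ
    exact ⟨α, (mem_autGroup hYS).2 ((mem_autGroup hYC).1 hα).1, φ₀, hφ₀, hag⟩
  have hGconj : ∀ g ∈ S, ∀ P : Subgroup Ω, P ≤ Y → conjHom P g ∈ G.Hom P := fun g hg P hP =>
    hGA P hP _ (conjAut Y S ⟨g, hg, hYn hg⟩) (autInducedBy_le_autGroup hYS (range_conjAut (P := Y) S ▸ ⟨_, rfl⟩))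
      fun x hx => rfl
  have hfrat : F ≤ belowSystem F G hYs hGconj := by
    refine le_of_centricRadical hS hF _ fun R hRn hRc hRr => ?_
    have hPc : E.IsCentric (R ⊓ T) := by
      by_contra h
      exact (centric_meet_normal hS hF hEi.1 hT hRc h).2 hRr
    intro α hα
    have hαm := (mem_autGroup hRn.1).1 hα
    refine (mem_autGroup hRn.1).2 ⟨hαm, ?_⟩
    exact restrict_mem_of_centric hS hF hEi hYC hYs hfix G hGA hGC _ _ hPc le_rfl (R ⊓ Y) inf_le_right _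
      (restrict hαm (sup_le inf_le_left inf_le_left))
  refine ⟨D, ⟨⟨hDs, hF, hDF, hYs, ?_, ?_⟩, ?_⟩, hDi.1⟩
  · intro P hPT φ hφ α hα
    set R := (P.subgroupOf Y).map (Y.subtype.comp α.toMonoidHom)
    have hR : R ≤ Y := by rintro _ ⟨x, -, rfl⟩; exact (α x).2
    have hm : ∀ r : R, ((α⁻¹ ⟨r, hR r.2⟩ : Y) : Ω) ∈ P := by
      rintro ⟨_, x, hx, rfl⟩
      show ((α⁻¹ (α x) : Y) : Ω) ∈ P
      rw [MulAut.inv_apply_self]; exact hx
    refine ⟨_, hinv P φ hφ α⁻¹ (inv_mem hα) R hR hm, fun x hφx hαx => ?_⟩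
    show ((α⁻¹⁻¹ ⟨φ ⟨((α⁻¹ ⟨((α ⟨(x : Ω), _⟩ : Y) : Ω), _⟩ : Y) : Ω), _⟩, _⟩ : Y) : Ω) = _
    simp only [inv_inv, Subtype.coe_eta, MulAut.inv_apply_self]
  · intro P hP φ hφ
    have h2 : φ ∈ G.Hom P := hom_congr (hfrat P hφ).2 (inf_eq_left.2 hP) fun _ _ _ => rfl
    exact h2
  -- extensions to `Y C_S(Y)`
  set K := Y ⊔ centralizerIn S Y
  have hKS : K ≤ S := sup_le hYS inf_le_left
  haveI := finite_of_le hKS
  haveI := finite_mulAut hKS
  haveI := finite_mulAut hYS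
  let Ext : MulAut Y → MulAut K → Prop := fun α β => β ∈ F.autGroup K ∧
    (∀ x : Y, ((β (Subgroup.inclusion le_sup_left x) : K) : Ω) = ((α x : Y) : Ω)) ∧
    ∀ c : K, (c : Ω) ∈ centralizerIn S Y → (c : Ω)⁻¹ * ((β c : K) : Ω) ∈ Y ⊓ Subgroup.centralizer (Y : Set Ω)
  have hmul : ∀ {a a' : MulAut Y} {b b' : MulAut K}, Ext a b → Ext a' b' → Ext (a * a') (b * b') := by
    rintro a a' b b' ⟨hb, h1, h2⟩ ⟨hb', h1', h2'⟩
    refine ⟨mul_mem hb hb', fun x => ?_, fun c hc => ?_⟩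
    · rw [MulAut.mul_apply, MulAut.mul_apply, ← h1]
      exact congrArg (fun z : K => ((b z : K) : Ω)) (Subtype.ext (h1' x))
    · have hz := h2' c hc
      have hc' : ((b' c : K) : Ω) ∈ centralizerIn S Y := by
        have := (centralizerIn S Y).mul_mem hc ⟨hYS hz.1, hz.2⟩
        rwa [mul_inv_cancel_left] at this
      have := (Y ⊓ Subgroup.centralizer (Y : Set Ω)).mul_mem hz (h2 _ hc')
      rw [MulAut.mul_apply]
      simpa [mul_assoc] using this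
  have hone : Ext 1 1 := ⟨one_mem _, fun _ => rfl, fun c _ => by
    show (c : Ω)⁻¹ * (c : Ω) ∈ _
    rw [inv_mul_cancel]; exact one_mem _⟩
  have hpow : ∀ {a b}, Ext a b → ∀ n : ℕ, Ext (a ^ n) (b ^ n) := by
    intro a b h n
    induction n with
    | zero => exact hone
    | succ n ih => rw [pow_succ, pow_succ]; exact hmul ih h
  let X : Subgroup (MulAut Y) :=
    { carrier := {a | ∃ b, Ext a b}
      one_mem' := ⟨1, hone⟩
      mul_mem' := fun ⟨_, h⟩ ⟨_, h'⟩ => ⟨_, hmul h h'⟩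
      inv_mem' := by
        rintro a ⟨b, h⟩
        refine ⟨b ^ (orderOf a - 1), ?_⟩
        have h1 := hpow h (orderOf a - 1)
        rwa [← inv_eq_of_mul_eq_one_right (by
          rw [← pow_succ', Nat.sub_add_cancel (orderOf_pos a), pow_orderOf_eq_one] :
            a * a ^ (orderOf a - 1) = 1)] at h1 }
  have hX : D.autGroup Y ≤ X := by
    refine autGroup_le_of_residual (fullyAutomized_of_fullyNormalized hYp hDs (isFullyNormalized_self D)) ?_ ?_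
    · rw [Subgroup.map_le_iff_le_comap, Cfsg.pResidual, Subgroup.closure_le]
      intro γ hγ
      obtain ⟨hγF, -, -, η, hη, hηY, hηT⟩ := hDi.1 Y ((mem_autGroup le_rfl).1 γ.2)
      have hηr : η.range = Y ⊔ T :=
        sup_map_range _
          (fun a ha => Eq.subst (motive := fun z => z ∈ Y) (hηY ⟨a, ha⟩).symm ((γ : MulAut Y) ⟨a, ha⟩).2)
          (fun q hq => ⟨(((γ : MulAut Y)⁻¹ ⟨q, hq⟩ : Y) : Ω), ((γ : MulAut Y)⁻¹ ⟨q, hq⟩).2,
            (hηY ((γ : MulAut Y)⁻¹ ⟨q, hq⟩)).trans (congrArg Subtype.val (MulAut.apply_inv_self _ _ ⟨q, hq⟩))⟩)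
          (fun b hb => Eq.subst (motive := fun z => z ∈ T) (hηT ⟨b, hb⟩).symm hb)
          (fun q hq => ⟨q, hq, hηT ⟨q, hq⟩⟩)
      have hYTS : Y ⊔ T ≤ S := sup_le hYS hTS
      have hfn : F.IsFullyNormalized (Y ⊔ T) := ⟨hYTS, fun Q hQ => by
        obtain ⟨φ, hφ, rfl⟩ := hQ
        have h1 : φ.range = Y ⊔ T := by
          refine sup_map_range φ (fun a ha => hYs.2 Y le_rfl _ (restrict hφ le_sup_left) ⟨a, ha⟩) (fun q hq => ?_)
            (fun b hb => hT.2 T le_rfl _ (restrict hφ le_sup_right) ⟨b, hb⟩) (fun q hq => ?_)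
          · obtain ⟨a, ha⟩ := ((weaklyClosed_of_stronglyClosed hYs).2 _ (restrict hφ le_sup_left)).ge hq
            exact ⟨a, a.2, ha⟩
          · obtain ⟨a, ha⟩ := ((weaklyClosed_of_stronglyClosed hT).2 _ (restrict hφ le_sup_right)).ge hq
            exact ⟨a, a.2, ha⟩
        rw [h1]⟩
      obtain ⟨ψ, hψ, hag⟩ := (receptive_of_fullyNormalized hS hF hfn).2 _ η hη hηr
      have hTn := le_normalizer_of_weaklyClosed_fusion (weaklyClosed_of_stronglyClosed hT)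
      have hKe : K ≤ extender S (Y ⊔ T) η := by
        refine sup_le (le_sup_left.trans (le_extender hη)) fun c hc => ?_
        have hcy : ∀ y ∈ Y, c * y * c⁻¹ = y := fun y hy => by
          rw [← Subgroup.mem_centralizer_iff.1 hc.2 y hy, mul_inv_cancel_right]
        have hcN : ∀ c ∈ centralizerIn S Y, ∀ u ∈ Y ⊔ T, c * u * c⁻¹ ∈ Y ⊔ T := by
          intro c hc u hu
          refine sup_map_mem (conjHom (Y ⊔ T) c) (fun a ha => ?_) (fun b hb => ?_) ⟨u, hu⟩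
          · show c * a * c⁻¹ ∈ _
            rw [← Subgroup.mem_centralizer_iff.1 hc.2 a ha, mul_inv_cancel_right]
            exact Subgroup.mem_sup_left ha
          · exact Subgroup.mem_sup_right (conj_mem_of_normalizer (hTn hc.1) hb)
        refine Subgroup.subset_closure ⟨hc.1, Subgroup.mem_normalizer_iff.2 fun u => ⟨hcN c hc u, fun h => by
          simpa [mul_assoc] using hcN c⁻¹ (Subgroup.inv_mem _ hc) _ h⟩, c, hc.1, ?_⟩
        intro u hu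
        let f₁ : ↥(Y ⊔ T) →* Ω := η.comp (MonoidHom.mk' (fun v : ↥(Y ⊔ T) => (⟨c * v * c⁻¹, hcN c hc v v.2⟩ : ↥(Y ⊔ T)))
          fun a b => Subtype.ext (by simp [mul_assoc]))
        have hle : Y ⊔ T ≤ (f₁.eqLocus ((MulAut.conj c).toMonoidHom.comp η)).map (Y ⊔ T).subtype := by
          refine sup_le (fun y hy => ⟨⟨y, Subgroup.mem_sup_left hy⟩, ?_, rfl⟩)
            (fun t ht => ⟨⟨t, Subgroup.mem_sup_right ht⟩, ?_, rfl⟩)
          · show η ⟨c * y * c⁻¹, _⟩ = c * η ⟨y, _⟩ * c⁻¹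
            have e1 : η ⟨y, Subgroup.mem_sup_left hy⟩ ∈ Y :=
              Eq.subst (motive := fun z => z ∈ Y) (hηY ⟨y, hy⟩).symm ((γ : MulAut Y) ⟨y, hy⟩).2
            rw [show c * η ⟨y, Subgroup.mem_sup_left hy⟩ * c⁻¹ = η ⟨y, Subgroup.mem_sup_left hy⟩ by
              rw [← Subgroup.mem_centralizer_iff.1 hc.2 _ e1, mul_inv_cancel_right]]
            exact congrArg η (Subtype.ext (hcy y hy))
          · show η ⟨c * t * c⁻¹, _⟩ = c * η ⟨t, _⟩ * c⁻¹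
            rw [show η ⟨t, Subgroup.mem_sup_right ht⟩ = t from hηT ⟨t, ht⟩]
            exact hηT ⟨c * t * c⁻¹, conj_mem_of_normalizer (hTn hc.1) ht⟩
        obtain ⟨v, hv, e⟩ := hle u.2
        obtain rfl : v = u := Subtype.ext e
        exact hv
      have hψK := restrict hψ hKe
      set θ := ψ.comp (Subgroup.inclusion hKe)
      have hθY : ∀ y : Y, θ ⟨y, Subgroup.mem_sup_left y.2⟩ = (((γ : MulAut Y) y : Y) : Ω) :=
        fun y => (hag y (Subgroup.mem_sup_left y.2) _).trans (hηY y)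
      have hθT : ∀ t : T, θ ⟨t, Subgroup.mem_sup_right (hTC t.2)⟩ = t :=
        fun t => (hag t (Subgroup.mem_sup_right t.2) _).trans (hηT t)
      have hθC : ∀ c (hc : c ∈ centralizerIn S Y), θ ⟨c, Subgroup.mem_sup_right hc⟩ ∈ centralizerIn S Y := by
        intro c hc
        refine ⟨val_mem hψK _, Subgroup.mem_centralizer_iff.2 fun y hy => ?_⟩
        obtain ⟨y', hy'⟩ := (γ : MulAut Y).surjective ⟨y, hy⟩
        have e1 := hθY y'
        rw [hy'] at e1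
        rw [show y = θ ⟨y', Subgroup.mem_sup_left y'.2⟩ from e1.symm, ← map_mul, ← map_mul]
        exact congrArg θ (Subtype.ext (Subgroup.mem_centralizer_iff.1 hc.2 y' y'.2))
      have hθv : ∀ u, θ u ∈ K := sup_map_mem θ
        (fun a ha => Eq.subst (motive := fun z => z ∈ K) (hθY ⟨a, ha⟩).symm
          (Subgroup.mem_sup_left ((γ : MulAut Y) ⟨a, ha⟩).2))
        (fun b hb => Subgroup.mem_sup_right (hθC b hb))
      have hθr : θ.range = K := by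
        refine Subgroup.eq_of_le_of_card_ge (by rintro _ ⟨u, rfl⟩; exact hθv u) (le_of_eq ?_)
        exact Nat.card_congr (MonoidHom.ofInjective (F.injective_of_mem hψK)).toEquiv
      obtain ⟨β, hβdef⟩ : ∃ β : MulAut K, β = isoOfHom (F.injective_of_mem hψK) hθr := ⟨_, rfl⟩
      have hβθ : ∀ u : K, ((β u : K) : Ω) = θ u := fun u => by rw [hβdef]; rfl
      have hβ : β ∈ F.autGroup K := mem_autGroup_of_eq hψK hβθ
      have hresY : ∀ (i : ℕ) (y : Y), (β ^ i) ⟨y, Subgroup.mem_sup_left y.2⟩ =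
          ⟨(((γ : MulAut Y) ^ i) y : Y), Subgroup.mem_sup_left (((γ : MulAut Y) ^ i) y).2⟩ := by
        intro i
        induction i with
        | zero => intro y; rfl
        | succ i ih =>
          intro y
          rw [pow_succ', MulAut.mul_apply, ih y]
          refine Subtype.ext ((hβθ _).trans ((hθY _).trans ?_))
          rw [pow_succ', MulAut.mul_apply]
      have hresT : ∀ (i : ℕ) (t : T), (β ^ i) ⟨t, Subgroup.mem_sup_right (hTC t.2)⟩ =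
          ⟨t, Subgroup.mem_sup_right (hTC t.2)⟩ := by
        intro i
        induction i with
        | zero => intro t; rfl
        | succ i ih =>
          intro t
          rw [pow_succ', MulAut.mul_apply, ih t]
          exact Subtype.ext ((hβθ _).trans (hθT t))
      obtain ⟨k, hk, hk1⟩ := exists_pow_coprime (p := p) β (n := orderOf (γ : MulAut Y))
        (by rw [Subgroup.orderOf_coe]; exact hγ)
      have hck : (γ : MulAut Y) ^ k = γ := pow_eq_self_of_modEq hk1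
      obtain ⟨b, hbdef⟩ : ∃ b, b = β ^ k := ⟨_, rfl⟩
      rw [← hbdef] at hk
      have hbF : b ∈ F.autGroup K := hbdef ▸ pow_mem hβ k
      have hbY : ∀ y : Y, b ⟨y, Subgroup.mem_sup_left y.2⟩ =
          ⟨((γ : MulAut Y) y : Y), Subgroup.mem_sup_left ((γ : MulAut Y) y).2⟩ := fun y => by
        rw [hbdef, hresY]
        exact Subtype.ext (by rw [hck])
      have hbT : ∀ t : T, b ⟨t, Subgroup.mem_sup_right (hTC t.2)⟩ = ⟨t, Subgroup.mem_sup_right (hTC t.2)⟩ :=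
        fun t => hbdef ▸ hresT k t
      have hbC : ∀ c (hc : c ∈ centralizerIn S Y),
          ((b ⟨c, Subgroup.mem_sup_right hc⟩ : K) : Ω) ∈ centralizerIn S Y := by
        intro c hc
        refine ⟨hKS (b _).2, Subgroup.mem_centralizer_iff.2 fun y hy => ?_⟩
        obtain ⟨y', hy'⟩ := (γ : MulAut Y).surjective ⟨y, hy⟩
        have e1 := congrArg Subtype.val (hbY y')
        rw [hy'] at e1
        rw [show y = ((b ⟨y', Subgroup.mem_sup_left y'.2⟩ : K) : Ω) from e1.symm, ← Subgroup.coe_mul, ← map_mul,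
          ← Subgroup.coe_mul, ← map_mul]
        exact congrArg (fun z => ((b z : K) : Ω)) (Subtype.ext (Subgroup.mem_centralizer_iff.1 hc.2 y' y'.2))
      have hfocal : ∀ x (hx : x ∈ centralizerIn S Y), x ∈ centralizerIn S T →
          x⁻¹ * ((b ⟨x, Subgroup.mem_sup_right hx⟩ : K) : Ω) ∈ Y := by
        intro x hx hxT
        have hle : Subgroup.zpowers x ⊔ T ≤ K :=
          sup_le (Subgroup.zpowers_le.2 (Subgroup.mem_sup_right hx)) (hTC.trans le_sup_right)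
        have hm := restrict ((mem_autGroup hKS).1 hbF) hle
        set f := ((K.subtype.comp b.toMonoidHom).comp (Subgroup.inclusion hle)).comp
          (Subgroup.inclusion (le_sup_left : Subgroup.zpowers x ≤ Subgroup.zpowers x ⊔ T))
        have hfC : f ∈ C.Hom (Subgroup.zpowers x) := by
          refine ⟨restrict hm le_sup_left, Subgroup.zpowers_le.2 hxT, fun u => ⟨val_mem (restrict hm le_sup_left) u, ?_⟩,
            _, hm, fun u => rfl, fun t => congrArg Subtype.val (hbT t)⟩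
          refine Subgroup.mem_centralizer_iff.2 fun t ht => ?_
          have e1 : (⟨t, Subgroup.mem_sup_right (hTC ht)⟩ : K) * ⟨u, hle (Subgroup.mem_sup_left u.2)⟩ =
              ⟨u, hle (Subgroup.mem_sup_left u.2)⟩ * ⟨t, Subgroup.mem_sup_right (hTC ht)⟩ :=
            Subtype.ext (Subgroup.mem_centralizer_iff.1 ((Subgroup.zpowers_le.2 hxT) u.2).2 t ht)
          have e2 := congrArg (fun z => ((b z : K) : Ω)) e1
          simp only [map_mul, Subgroup.coe_mul, hbT ⟨t, ht⟩] at e2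
          exact e2
        exact hfoc (Subgroup.subset_closure ⟨_, f, ⟨x, Subgroup.mem_zpowers x⟩, hfC, rfl⟩)
      refine ⟨b, hbF, fun y => congrArg Subtype.val (hbY y), fun c hc => ?_⟩
      obtain ⟨x, hxdef⟩ : ∃ x, x = (c : Ω)⁻¹ * ((b c : K) : Ω) := ⟨_, rfl⟩
      rw [← hxdef]
      have hxY : x ∈ centralizerIn S Y := hxdef ▸ Subgroup.mul_mem _ (Subgroup.inv_mem _ hc) (hbC c hc)
      have hxT : x ∈ centralizerIn S T := by
        refine ⟨hxY.1, Subgroup.mem_centralizer_iff.2 fun t ht => ?_⟩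
        have ht' : (c : Ω) * t * (c : Ω)⁻¹ ∈ T := conj_mem_of_normalizer (hTn (hKS c.2)) ht
        have e1 : (⟨(c : Ω) * t * (c : Ω)⁻¹, Subgroup.mem_sup_right (hTC ht')⟩ : K) =
            c * ⟨t, Subgroup.mem_sup_right (hTC ht)⟩ * c⁻¹ := Subtype.ext rfl
        have e2 := congrArg (fun z => ((b z : K) : Ω)) e1
        simp only [map_mul, map_inv, Subgroup.coe_mul, Subgroup.coe_inv, hbT ⟨t, ht⟩, hbT ⟨_, ht'⟩] at e2
        rw [hxdef]
        calc t * ((c : Ω)⁻¹ * ((b c : K) : Ω)) = (c : Ω)⁻¹ * ((c : Ω) * t * (c : Ω)⁻¹) * ((b c : K) : Ω) := by group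
          _ = (c : Ω)⁻¹ * (((b c : K) : Ω) * t * ((b c : K) : Ω)⁻¹) * ((b c : K) : Ω) := by rw [e2]
          _ = (c : Ω)⁻¹ * ((b c : K) : Ω) * t := by group
      refine ⟨?_, hxY.2⟩
      obtain ⟨w, hwdef⟩ : ∃ w, w = x⁻¹ * ((b ⟨x, Subgroup.mem_sup_right hxY⟩ : K) : Ω) := ⟨_, rfl⟩
      have hwY : w ∈ Y := hwdef ▸ hfocal x hxY hxT
      have hwC : w ∈ centralizerIn S Y := hwdef ▸ Subgroup.mul_mem _ (Subgroup.inv_mem _ hxY) (hbC x hxY)
      have hbx : ((b ⟨x, Subgroup.mem_sup_right hxY⟩ : K) : Ω) = x * w := by rw [hwdef, mul_inv_cancel_left]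
      have hit : ∀ i : ℕ, ∃ z : Y, (z : Ω) ∈ centralizerIn S Y ∧ (((b ^ i) c : K) : Ω) = (c : Ω) * x ^ i * (z : Ω) := by
        intro i
        induction i with
        | zero => exact ⟨1, one_mem _, by simp⟩
        | succ i ih =>
          obtain ⟨z, hz, e⟩ := ih
          have e1 : (b ^ i) c = c * (⟨x, Subgroup.mem_sup_right hxY⟩ : K) ^ i * ⟨z, Subgroup.mem_sup_left z.2⟩ :=
            Subtype.ext (by simp [e])
          refine ⟨⟨w, hwY⟩ ^ i * (γ : MulAut Y) z, Subgroup.mul_mem _ (by simpa using Subgroup.pow_mem _ hwC i) ?_, ?_⟩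
          · have h1 := hbC z hz
            rwa [show ((b ⟨(z : Ω), Subgroup.mem_sup_right hz⟩ : K) : Ω) = (((γ : MulAut Y) z : Y) : Ω) from
              congrArg Subtype.val (hbY z)] at h1
          · rw [pow_succ', MulAut.mul_apply, e1, map_mul, map_mul, map_pow, hbY z, Subgroup.coe_mul, Subgroup.coe_mul,
              Subgroup.coe_pow, hbx, show ((b c : K) : Ω) = (c : Ω) * x by rw [hxdef, mul_inv_cancel_left]]
            have hcm : Commute x w := (Subgroup.mem_centralizer_iff.1 hxY.2 w hwY).symm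
            rw [hcm.mul_pow, Subgroup.coe_mul, Subgroup.coe_pow, pow_succ']
            group
      obtain ⟨z, -, hz⟩ := hit (orderOf b)
      rw [pow_orderOf_eq_one, MulAut.one_apply, mul_assoc] at hz
      have hxn : x ^ orderOf b ∈ Y := by
        rw [eq_inv_of_mul_eq_one_left (a := x ^ orderOf b) (b := (z : Ω)) (mul_left_cancel (hz.symm.trans (mul_one _).symm))]
        exact Y.inv_mem z.2
      obtain ⟨j, hj⟩ := (IsPGroup.iff_orderOf.1 hS) ⟨x, hxY.1⟩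
      obtain ⟨m, hm⟩ := exists_pow_eq_self_of_coprime (x := (⟨x, hxY.1⟩ : S)) (n := orderOf b) (by
        rw [hj]; exact hk.pow_right j)
      rw [← show ((x ^ orderOf b) ^ m) = x from congrArg Subtype.val hm]
      exact Y.pow_mem hxn m
    · intro γ hγ
      obtain ⟨g, hg, hgx⟩ := mem_autInducedBy.1 hγ
      refine ⟨conjAut K S ⟨g, hYS hg, Subgroup.le_normalizer (Subgroup.mem_sup_left hg)⟩,
        autInducedBy_le_autGroup hKS (range_conjAut (P := K) S ▸ ⟨_, rfl⟩), fun x => (hgx x).symm, fun y hy => ?_⟩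
      show (y : Ω)⁻¹ * (g * (y : Ω) * g⁻¹) ∈ _
      rw [Subgroup.mem_centralizer_iff.1 hy.2 g hg, mul_inv_cancel_right, inv_mul_cancel]
      exact one_mem _
  intro α hα
  obtain ⟨β, hβ⟩ := hX hα
  exact ⟨β, hβ⟩

end CfsgLib.Fusion
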