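import Cfsg.Agent.Fusion.PrimeToPFamily
import Cfsg.Agent.Fusion.CentricClimb
import Cfsg.Agent.Fusion.InvariantTwist
import Cfsg.Agent.Fusion.AlperinCor
import Cfsg.Agent.S5080

/-!
A character of `Aut_F(T)` of order prime to `p`, trivial on `Aut_E(T)`, cuts out a normal subsystem.
-/

set_option autoImplicit false
set_option linter.style.haveILetI false

open Cfsg

namespace CfsgLib.Fusion

open Cfsg.FusionSystem

variable {Ω : Type*} [Group Ω] {S T : Subgroup Ω} {F : Cfsg.FusionSystem S} {E : Cfsg.FusionSystem T}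
variable {P Q R : Subgroup Ω} {p : ℕ} [Fact p.Prime] [Finite S]

/-- The centric subgroups meeting `T` in a centric subgroup of `E`. -/
def meetFamily (F : Cfsg.FusionSystem S) (E : Cfsg.FusionSystem T) : Set (Subgroup Ω) :=
  {P | F.IsCentric P ∧ E.IsCentric (P ⊓ T)}

omit [Finite S] in
lemma isCentric_top (E : Cfsg.FusionSystem T) [Finite T] : E.IsCentric T := isCentric_self E

/-- The image of the meet with a strongly closed subgroup. -/
lemma range_meet (hT : F.StronglyClosed T) {φ : P →* Ω} (hφ : φ ∈ F.Hom P) :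
    (φ.comp (Subgroup.inclusion (inf_le_left : P ⊓ T ≤ P))).range = φ.range ⊓ T := by
  obtain ⟨ψ, hψ, hr, h1, -⟩ := exists_inv hφ (rfl : φ.range = φ.range)
  refine le_antisymm (le_inf ?_ ?_) ?_
  · rintro _ ⟨x, rfl⟩; exact ⟨_, rfl⟩
  · rintro _ ⟨x, rfl⟩
    exact hT.2 _ inf_le_right _ (restrict hφ inf_le_left) x
  · rintro _ ⟨⟨x, rfl⟩, hxT⟩
    have hxP : (x : Ω) ∈ T := by
      have h2 := hT.2 (φ.range ⊓ T) inf_le_right _ (restrict hψ inf_le_left) ⟨φ x, ⟨x, rfl⟩, hxT⟩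
      rw [← h1 x ⟨x, rfl⟩]
      exact h2
    exact ⟨⟨x, x.2, hxP⟩, rfl⟩

lemma meet_conj (hE : E.IsInvariantIn F) {φ : P →* Ω} (hφ : φ ∈ F.Hom P) (hc : E.IsCentric (P ⊓ T)) :
    E.IsCentric (φ.range ⊓ T) := by
  rw [← range_meet hE.2.1 hφ]
  exact isCentric_of_fconj hE hc (restrict hφ inf_le_left)

variable (hS : IsPGroup p S) (hF : F.IsSaturated p)

include hS hF

theorem pFamily_meet (hE : E.IsInvariantIn F) : PFamily F p (meetFamily F E) := by
  refine ⟨fun P h => h.1, fun P h Q hQ => ?_, fun P h => ?_⟩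
  · obtain ⟨φ, hφ, rfl⟩ := hQ
    exact ⟨isCentric_of_conj h.1 ⟨φ, hφ, rfl⟩, meet_conj hE hφ h.2⟩
  · rcases h with rfl | h
    · haveI := finite_of_le hE.2.1.1
      refine ⟨isCentric_self F, ?_⟩
      rw [inf_eq_right.2 hE.2.1.1]
      exact isCentric_top E
    · refine ⟨h.1, ?_⟩
      by_contra hne
      exact (centric_meet_normal hS hF hE.1 hE.2.1 h.1 hne).2 (Cfsg.Agent.S5080.result p hS F hF P h)

theorem meet_star (hE : E.IsInvariantIn F) (P : Subgroup Ω) (hc : F.IsCentric P) (hP : P ∉ meetFamily F E) :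
    ∃ Q, F.IsConj P Q ∧ ∃ x, ∃ hx : x ∈ normalizerIn S Q,
      x ∉ Q ∧ conjAut Q S ⟨x, hx⟩ ∈ (Cfsg.pCore p (F.autGroup Q)).map (F.autGroup Q).subtype := by
  obtain ⟨⟨φ, hφ, x, hx, hxn, α, hα, hαx⟩, -⟩ := centric_meet_normal hS hF hE.1 hE.2.1 hc fun h => hP ⟨hc, h⟩
  refine ⟨φ.range, ⟨φ, hφ, rfl⟩, x, hx, hxn, ?_⟩
  rwa [show conjAut φ.range S ⟨x, hx⟩ = α from MulEquiv.ext fun y => Subtype.ext (hαx y).symm]

omit hS hF

variable (hE : E.IsInvariantIn F) {Δ : Type*} [Group Δ] (χ : ↥(F.autGroup T) →* Δ)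

omit [Finite S] in
lemma aut_T_mem (hE : E.IsInvariantIn F) (α : F.autGroup S) (t : T) :
    (((α : MulAut S) ⟨t, hE.2.1.1 t.2⟩ : S) : Ω) ∈ T :=
  hE.2.1.2 T le_rfl _ (restrict ((mem_autGroup le_rfl).1 α.2) hE.2.1.1) t

/-- Restriction `Aut_F(S) → Aut_F(T)`. -/
def restrictT : F.autGroup S →* F.autGroup T where
  toFun α :=
    ⟨{ toFun := fun t => ⟨((α : MulAut S) ⟨t, hE.2.1.1 t.2⟩ : S), aut_T_mem hE α t⟩
       invFun := fun t => ⟨(((α⁻¹ : F.autGroup S) : MulAut S) ⟨t, hE.2.1.1 t.2⟩ : S), aut_T_mem hE α⁻¹ t⟩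
       left_inv := fun t => Subtype.ext (by simp)
       right_inv := fun t => Subtype.ext (by simp)
       map_mul' := fun x y => Subtype.ext (by
        show (((α : MulAut S) ⟨(x * y : T), _⟩ : S) : Ω) = _
        rw [show (⟨((x * y : T) : Ω), hE.2.1.1 (x * y).2⟩ : S) = ⟨x, hE.2.1.1 x.2⟩ * ⟨y, hE.2.1.1 y.2⟩ from rfl,
          map_mul]
        rfl) },
      (mem_autGroup hE.2.1.1).2 (restrict_of_eq ((mem_autGroup le_rfl).1 α.2) hE.2.1.1 fun _ => rfl)⟩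
  map_one' := rfl
  map_mul' _ _ := rfl

/-- The automorphisms of `S` whose restriction to `T` has trivial character. -/
def charAut : Subgroup (MulAut S) := ((χ.comp (restrictT hE)).ker).map (F.autGroup S).subtype

omit [Finite S] in
lemma mem_charAut {α : MulAut S} :
    α ∈ charAut hE χ ↔ ∃ h : α ∈ F.autGroup S, χ (restrictT hE ⟨α, h⟩) = 1 := by
  constructor
  · rintro ⟨⟨a, ha⟩, h, rfl⟩; exact ⟨ha, h⟩
  · rintro ⟨h, h1⟩; exact ⟨⟨α, h⟩, h1, rfl⟩

omit [Finite S] in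
lemma charAut_le : charAut hE χ ≤ F.autGroup S := Subgroup.map_subtype_le _

variable (hΔ : (Nat.card Δ).Coprime p) (hker : (E.autGroup T).subgroupOf (F.autGroup T) ≤ χ.ker)
variable (hEs : E.IsSaturated p)

omit [Fact p.Prime] [Finite S] in
lemma char_eq_one_of_pow [Fact p.Prime] (hΔ : (Nat.card Δ).Coprime p) {d : Δ} {j : ℕ} (h : d ^ p ^ j = 1) :
    d = 1 := by
  have h2 : orderOf d ∣ Nat.gcd (Nat.card Δ) (p ^ j) :=
    Nat.dvd_gcd (orderOf_dvd_natCard _) (orderOf_dvd_of_pow_eq_one h)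
  rw [(hΔ.pow_right j), Nat.dvd_one, orderOf_eq_one_iff] at h2
  exact h2

/-- The maps whose restriction to a centric meet has trivial character. -/
def charSystem (hS : IsPGroup p S) (hΔ : (Nat.card Δ).Coprime p) : Cfsg.FusionSystem S where
  Hom P := {φ | φ ∈ F.Hom P ∧ (E.IsCentric (P ⊓ T) → ∃ k : F.autGroup T, χ k = 1 ∧ ∃ e ∈ E.Hom (P ⊓ T),
    ∀ (x : ↥(P ⊓ T)) (hx : e x ∈ T), φ ⟨x, x.2.1⟩ = (((k : MulAut T) ⟨e x, hx⟩ : T) : Ω))}
  le_of_mem h := F.le_of_mem h.1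
  injective_of_mem h := F.injective_of_mem h.1
  conj_mem := by
    intro P g hP hg
    refine ⟨F.conj_mem hP hg, fun _ => ⟨restrictT hE ⟨conjAut S S ⟨g, hg, Subgroup.le_normalizer hg⟩,
      autInducedBy_le_autGroup le_rfl ((range_conjAut (P := S) S).le ⟨_, rfl⟩)⟩, ?_, (P ⊓ T).subtype,
      subtype_mem inf_le_right, fun x hx => rfl⟩⟩
    obtain ⟨j, hj⟩ := hS ⟨g, hg⟩
    refine char_eq_one_of_pow hΔ (j := j) ?_
    rw [← map_pow, ← map_pow]
    have h1 : (⟨conjAut S S ⟨g, hg, Subgroup.le_normalizer hg⟩,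
      autInducedBy_le_autGroup le_rfl ((range_conjAut (P := S) S).le ⟨_, rfl⟩)⟩ : F.autGroup S) ^ p ^ j = 1 := by
      refine Subtype.ext ?_
      rw [Subgroup.coe_pow, ← map_pow, show (⟨g, hg, Subgroup.le_normalizer hg⟩ : normalizerIn S S) ^ p ^ j = 1 from
        Subtype.ext (congrArg Subtype.val hj :), map_one]
      rfl
    rw [h1, map_one, map_one]
  comp_mem := by
    rintro P Q φ ψ ⟨hφ, hφ'⟩ ⟨hψ, hψ'⟩ hPQ
    refine ⟨F.comp_mem hφ hψ hPQ, fun hc => ?_⟩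
    obtain ⟨k, hk, e, he, hag⟩ := hφ' hc
    have hQc : E.IsCentric (Q ⊓ T) := by
      refine isCentric_of_le (meet_conj hE hφ hc) (le_inf ?_ inf_le_right) inf_le_right
      rintro _ ⟨⟨x, rfl⟩, -⟩
      exact hPQ x
    obtain ⟨k', hk', e', he', hag'⟩ := hψ' hQc
    have hr : e.range ≤ T := range_le he
    have hm : ∀ r : e.range, (((k : MulAut T) ⟨r, hr r.2⟩ : T) : Ω) ∈ Q ⊓ T := by
      rintro ⟨_, x, rfl⟩
      rw [← hag x (val_mem he x)]
      refine ⟨hPQ _, ?_⟩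
      rw [hag x (val_mem he x)]
      exact ((k : MulAut T) _).2
    have hθ := invBy_of_isInvariant hE _ e' he' _ k.2 e.range hr hm
    refine ⟨k' * k, by rw [map_mul, hk, hk', mul_one], _, E.comp_mem he hθ (fun x => ⟨x, rfl⟩), fun x hx => ?_⟩
    have h3 : (⟨_, hx⟩ : T) = (k : MulAut T)⁻¹ ⟨e' ⟨_, hm ⟨e x, x, rfl⟩⟩, val_mem he' _⟩ := Subtype.ext rfl
    rw [h3, Subgroup.coe_mul, MulAut.mul_apply, MulAut.apply_inv_self, ← hag' _ (val_mem he' _)]
    exact congrArg ψ (Subtype.ext (hag x (val_mem he x)))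
  inv_mem := by
    rintro P φ ⟨hφ, hφ'⟩
    obtain ⟨ψ, hψ, hr, h1, -⟩ := exists_inv hφ (rfl : φ.range = φ.range)
    refine ⟨ψ, ⟨hψ, fun hc => ?_⟩, fun x => h1 x ⟨x, rfl⟩⟩
    have hc' : E.IsCentric (P ⊓ T) := by
      have := meet_conj hE hψ hc
      rwa [hr] at this
    obtain ⟨k, hk, e, he, hag⟩ := hφ' hc'
    obtain ⟨χe, hχe, -, he1, -⟩ := exists_inv he (rfl : e.range = e.range)
    have hUT : φ.range ⊓ T ≤ T := inf_le_right
    have hm : ∀ r : ↥(φ.range ⊓ T), ((((k : MulAut T)⁻¹) ⟨r, hUT r.2⟩ : T) : Ω) ∈ e.range := by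
      intro r
      obtain ⟨y, hy⟩ := (range_meet hE.2.1 hφ).ge r.2
      refine ⟨y, ?_⟩
      rw [show (⟨r, hUT r.2⟩ : T) = (k : MulAut T) ⟨e y, val_mem he y⟩ from
        Subtype.ext (hy.symm.trans (hag y (val_mem he y))), MulAut.inv_apply_self]
    refine ⟨k⁻¹, by rw [map_inv, hk, inv_one], _,
      invBy_of_isInvariant hE _ χe hχe _ (inv_mem k.2) _ hUT hm, fun r hx => ?_⟩
    obtain ⟨y, hy⟩ := (range_meet hE.2.1 hφ).ge r.2
    have h3 : (⟨_, hx⟩ : T) = (k : MulAut T)⁻¹⁻¹ ⟨χe ⟨_, hm r⟩, val_mem hχe _⟩ := Subtype.ext rfl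
    rw [h3, Subgroup.coe_inv, MulAut.apply_inv_self]
    show ψ ⟨(r : Ω), r.2.1⟩ = χe ⟨_, hm r⟩
    have h4 : χe ⟨_, hm r⟩ = (y : Ω) := by
      refine Eq.trans (congrArg χe (Subtype.ext ?_)) (he1 y ⟨y, rfl⟩)
      show (((k : MulAut T)⁻¹ ⟨r, hUT r.2⟩ : T) : Ω) = e y
      rw [show (⟨r, hUT r.2⟩ : T) = (k : MulAut T) ⟨e y, val_mem he y⟩ from
        Subtype.ext (hy.symm.trans (hag y (val_mem he y))), MulAut.inv_apply_self]
    rw [h4]
    refine Eq.trans (congrArg ψ (Subtype.ext ?_)) (h1 ⟨y, y.2.1⟩ ⟨_, rfl⟩)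
    exact hy.symm

variable [Finite T]

include hS hE hΔ hker hEs in
/-- The character is trivial on automorphisms restricting to maps of `E` on centric subgroups. -/
lemma char_eq_one_of_restrict (k : F.autGroup T) {U : Subgroup Ω} (hU : E.IsCentric U)
    (h : (T.subtype.comp (k : MulAut T).toMonoidHom).comp (Subgroup.inclusion hU.1) ∈ E.Hom U) : χ k = 1 :=
  eq_one_of_restrict_mem (hS.to_le hE.2.1.1) hEs (B := F.autGroup T) (invBy_of_isInvariant hE) hΔ χ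
    (fun b hb => hker hb) hU k h

include hS hF hE hΔ hker hEs

/-- The generated system consists of maps with trivial character. -/
theorem pElemSystem_le_charSystem :
    ∀ P, (pElemSystem F p (meetFamily F E)).Hom P ⊆ (charSystem hE χ hS hΔ).Hom P := by
  intro P φ hφ
  refine hφ.2 _ ?_
  rintro Q _ ⟨hQ, γ, ⟨j, hj⟩, rfl⟩
  have hQS := hQ.1.1
  refine ⟨(mem_autGroup hQS).1 γ.2, fun hc => ?_⟩
  have hUT : Q ⊓ T ≤ T := inf_le_right
  have hγT : ∀ x : ↥(Q ⊓ T), (((γ : MulAut Q) ⟨x, x.2.1⟩ : Q) : Ω) ∈ Q ⊓ T := fun x =>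
    ⟨((γ : MulAut Q) _).2, hE.2.1.2 _ inf_le_right _ (restrict ((mem_autGroup hQS).1 γ.2) inf_le_left) x⟩
  obtain ⟨k, hk, e, he, hag⟩ := hE.2.2.2 _ hUT _ (restrict ((mem_autGroup hQS).1 γ.2) (inf_le_left : Q ⊓ T ≤ Q))
  refine ⟨⟨k, hk⟩, ?_, e, he, hag⟩
  -- powers
  have hrep : ∀ n : ℕ, ∃ f ∈ E.Hom (Q ⊓ T), ∀ (x : ↥(Q ⊓ T)) (hf : f x ∈ T),
      ((((γ : MulAut Q) ^ n) ⟨x, x.2.1⟩ : Q) : Ω) = (((k ^ n) ⟨f x, hf⟩ : T) : Ω) := by
    intro n
    induction n with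
    | zero => exact ⟨(Q ⊓ T).subtype, subtype_mem hUT, fun x hf => by simp⟩
    | succ n ihn =>
      obtain ⟨f, hf, hfv⟩ := ihn
      set α := k ^ n with hα
      have hr : f.range ≤ T := range_le hf
      have hpow : ∀ x : ↥(Q ⊓ T), ((((γ : MulAut Q) ^ n) ⟨x, x.2.1⟩ : Q) : Ω) ∈ Q ⊓ T := fun x =>
        ⟨(((γ : MulAut Q) ^ n) _).2, by rw [hfv x (val_mem hf x)]; exact ((k ^ n) _).2⟩
      have hm : ∀ r : f.range, ((α ⟨r, hr r.2⟩ : T) : Ω) ∈ Q ⊓ T := by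
        rintro ⟨_, x, rfl⟩
        rw [← hfv x (val_mem hf x)]
        exact hpow x
      refine ⟨_, E.comp_mem hf (invBy_of_isInvariant hE _ e he α (pow_mem hk n) f.range hr hm)
        (fun g => ⟨g, rfl⟩), fun x hx => ?_⟩
      rw [pow_succ' (γ : MulAut Q), MulAut.mul_apply, pow_succ', MulAut.mul_apply, ← hα]
      have h3 : (⟨_, hx⟩ : T) = α⁻¹ ⟨e ⟨_, hm ⟨f x, x, rfl⟩⟩, val_mem he _⟩ := Subtype.ext rfl
      rw [h3, MulAut.apply_inv_self]
      refine Eq.trans ?_ (hag ⟨_, hm ⟨f x, x, rfl⟩⟩ (val_mem he _))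
      exact congrArg (fun z : Q => (((γ : MulAut Q) z : Q) : Ω)) (Subtype.ext (hfv x (val_mem hf x)))
  obtain ⟨f, hf, hfv⟩ := hrep (p ^ j)
  refine char_eq_one_of_pow hΔ (j := j) ?_
  rw [← map_pow]
  refine char_eq_one_of_restrict hS hE χ hΔ hker hEs _ (isCentric_of_conj hc ⟨f, hf, rfl⟩) ?_
  obtain ⟨θ, hθ, -, hθ1, -⟩ := exists_inv hf (rfl : f.range = f.range)
  refine mem_of_eq hθ ?_
  rintro ⟨_, x, rfl⟩
  show (((k ^ p ^ j) ⟨f x, _⟩ : T) : Ω) = θ ⟨f x, _⟩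
  rw [hθ1 x ⟨x, rfl⟩, ← hfv x (val_mem hf x)]
  have h1 : (γ : MulAut Q) ^ p ^ j = 1 := by
    rw [← Subgroup.coe_pow, show γ ^ p ^ j = 1 by rw [← hj]; exact pow_orderOf_eq_one γ]
    rfl
  rw [h1]
  rfl

theorem baseAut_le_charAut : baseAut F p (meetFamily F E) ≤ charAut hE χ := by
  refine (Subgroup.closure_le _).2 fun α hα => ?_
  obtain ⟨hαF, R, hR, hRS, hRD⟩ := hα
  refine (mem_charAut hE χ).2 ⟨hαF, ?_⟩
  obtain ⟨k, hk, e, he, hag⟩ := (pElemSystem_le_charSystem hS hF hE χ hΔ hker hEs R hRD).2 hR.2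
  have h1 : χ (k⁻¹ * restrictT hE ⟨α, hαF⟩) = 1 := by
    refine char_eq_one_of_restrict hS hE χ hΔ hker hEs _ hR.2 (mem_of_eq he fun x => ?_)
    show ((((k : MulAut T)⁻¹) (((restrictT hE ⟨α, hαF⟩ : F.autGroup T) : MulAut T) ⟨x, hR.2.1 x.2⟩) : T) : Ω) = e x
    rw [show ((restrictT hE ⟨α, hαF⟩ : F.autGroup T) : MulAut T) ⟨x, hR.2.1 x.2⟩ =
      (k : MulAut T) ⟨e x, val_mem he x⟩ from Subtype.ext (hag x (val_mem he x)), MulAut.inv_apply_self]
  rwa [map_mul, map_inv, hk, inv_one, one_mul] at h1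

omit hker hEs [Finite T] in
/-- Restriction to `T` of `Aut_F(S)` is onto modulo the kernel of the character. -/
theorem exists_aut_S_char (β : F.autGroup T) : ∃ α : F.autGroup S, χ (restrictT hE α) = χ β := by
  have hTS : T ≤ S := hE.2.1.1
  have hn : F.IsFullyNormalized T := by
    refine ⟨hTS, fun Q hQ => ?_⟩
    obtain ⟨φ, hφ, rfl⟩ := hQ
    rw [(weaklyClosed_of_stronglyClosed hE.2.1).2 φ hφ]
  haveI := finite_mulAut hTS
  obtain ⟨-, V, hV⟩ := fullyAutomized_of_fullyNormalized hS hF hn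
  have hVK : (V : Subgroup (F.autGroup T)) ≤ χ.ker := fun v hv => by
    obtain ⟨j, hj⟩ := V.isPGroup' ⟨v, hv⟩
    refine char_eq_one_of_pow hΔ (j := j) ?_
    rw [← map_pow, show v ^ p ^ j = 1 from congrArg Subtype.val hj, map_one]
  have hm : β ∈ Subgroup.normalizer ((V : Subgroup (F.autGroup T)) : Set (F.autGroup T)) ⊔ χ.ker := by
    have h := Sylow.normalizer_sup_eq_top (V.subtype hVK)
    rw [Sylow.coe_subtype, Subgroup.subgroupOf_map_subtype, inf_eq_left.2 hVK] at h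
    exact h.ge (Subgroup.mem_top _)
  rw [← SetLike.mem_coe, Subgroup.mul_normal] at hm
  obtain ⟨n, hn', c, hc, rfl⟩ := hm
  obtain ⟨ψ, hψ, hag⟩ := (receptive_of_fullyNormalized hS hF hn).2 T _ ((mem_autGroup hTS).1 n.2) (range_aut _)
  have hTn := le_normalizer_of_weaklyClosed_fusion (weaklyClosed_of_stronglyClosed hE.2.1)
  have hle : S ≤ extender S T (T.subtype.comp (n : MulAut T).toMonoidHom) := by
    intro g hg
    have hc' : conjAut T S ⟨g, hg, hTn hg⟩ ∈ autInducedBy S T := (range_conjAut (P := T) S).le ⟨_, rfl⟩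
    have h1 := (Subgroup.mem_normalizer_iff.1 hn' ⟨_, autInducedBy_le_autGroup hTS hc'⟩).1
      (hV.ge (Subgroup.mem_subgroupOf.2 hc'))
    obtain ⟨h, hh, hhx⟩ := mem_autInducedBy.1 (Subgroup.mem_subgroupOf.1 (hV.le h1))
    refine mem_extender.2 ⟨hg, hTn hg, h, hh, fun x hx => ?_⟩
    have h2 := hhx ((n : MulAut T) x)
    simp only [Subgroup.coe_mul, Subgroup.coe_inv, MulAut.mul_apply, MulAut.inv_apply_self] at h2
    exact h2
  obtain ⟨α₀, hα₀⟩ : ∃ α₀ : S →* Ω, α₀ = ψ.comp (Subgroup.inclusion hle) := ⟨_, rfl⟩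
  have hα₀F : α₀ ∈ F.Hom S := hα₀ ▸ restrict hψ hle
  have hbij : Function.Bijective (α₀.codRestrict S (val_mem hα₀F)) :=
    Finite.injective_iff_bijective.1 fun a b hab => F.injective_of_mem hα₀F (congrArg Subtype.val hab :)
  obtain ⟨α, hα⟩ : ∃ α : MulAut S, ∀ x, ((α x : S) : Ω) = α₀ x :=
    ⟨MulEquiv.ofBijective _ hbij, fun x => rfl⟩
  refine ⟨⟨α, (mem_autGroup le_rfl).2 (mem_of_eq hα₀F hα)⟩, ?_⟩
  rw [map_mul, MonoidHom.mem_ker.1 hc, mul_one]
  refine congrArg χ (Subtype.ext (MulEquiv.ext fun t => Subtype.ext ?_))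
  show ((α ⟨t, hTS t.2⟩ : S) : Ω) = _
  rw [hα, hα₀]
  exact hag t t.2 _

omit hΔ hker hEs [Finite T] in
lemma invBy_charAut : ∀ a ∈ F.autGroup S, ∀ c ∈ charAut hE χ, a * c * a⁻¹ ∈ charAut hE χ := by
  intro a ha c hc
  obtain ⟨hcF, hc1⟩ := (mem_charAut hE χ).1 hc
  refine (mem_charAut hE χ).2 ⟨mul_mem (mul_mem ha hcF) (inv_mem ha), ?_⟩
  have h : (⟨a * c * a⁻¹, mul_mem (mul_mem ha hcF) (inv_mem ha)⟩ : F.autGroup S) = ⟨a, ha⟩ * ⟨c, hcF⟩ * ⟨a, ha⟩⁻¹ :=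
    Subtype.ext (by simp only [Subgroup.coe_mul, Subgroup.coe_inv])
  rw [h, map_mul, map_mul, map_mul, map_mul, hc1, mul_one, ← map_mul, ← map_mul, mul_inv_cancel, map_one, map_one]

/-- The subsystem cut out by the character contains `E`. -/
theorem le_charSubsystem :
    E.IsSubsystemOf (indexSystem (pFamily_meet hS hF hE) (charAut hE χ) (charAut_le hE χ)) := by
  have hℋ := pFamily_meet hS hF hE
  have hA := charAut_le hE χ
  have hbase := baseAut_le_charAut hS hF hE χ hΔ hker hEs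
  have hTS : T ≤ S := hE.2.1.1
  have hT : IsPGroup p T := hS.to_le hTS
  set F₀ := indexSystem hℋ (charAut hE χ) hA
  let G : Cfsg.FusionSystem T :=
    { Hom := fun P => {φ | φ ∈ F₀.Hom P ∧ P ≤ T ∧ ∀ x : P, φ x ∈ T}
      le_of_mem := fun h => ⟨h.2.1, h.2.2⟩
      injective_of_mem := fun h => F₀.injective_of_mem h.1
      conj_mem := fun hP hg => ⟨F₀.conj_mem (hP.trans hTS) (hTS hg), hP,
        fun x => T.mul_mem (T.mul_mem hg (hP x.2)) (T.inv_mem hg)⟩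
      comp_mem := by
        rintro P Q φ ψ ⟨hφ, hP, -⟩ ⟨hψ, -, hv⟩ h
        exact ⟨F₀.comp_mem hφ hψ h, hP, fun x => hv _⟩
      inv_mem := by
        rintro P φ ⟨hφ, hP, hv⟩
        obtain ⟨ψ, hψ, hr, h, -⟩ := exists_inv hφ (rfl : φ.range = φ.range)
        exact ⟨ψ, ⟨hψ, by rintro _ ⟨x, rfl⟩; exact hv x, fun y => hP (hr.le ⟨y, rfl⟩)⟩, fun x => h x _⟩ }
  suffices h : E ≤ G from fun P φ hφ => (h P hφ).1
  refine le_of_essential_rec hT hEs fun P hP hrec => ?_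
  by_cases hPT : P = T
  · subst hPT
    intro α hα
    refine (mem_autGroup le_rfl).2 ⟨?_, le_rfl, fun x => (α x).2⟩
    have hαF : α ∈ F.autGroup P := (mem_autGroup hTS).2 (hE.1 P ((mem_autGroup le_rfl).1 hα))
    have hn : F.IsFullyNormalized P := by
      refine ⟨hTS, fun Q hQ => ?_⟩
      obtain ⟨φ, hφ, rfl⟩ := hQ
      rw [(weaklyClosed_of_stronglyClosed hE.2.1).2 φ hφ]
    obtain ⟨ψ, hψ, hag⟩ := (receptive_of_fullyNormalized hS hF hn).2 P _ ((mem_autGroup hTS).1 hαF) (range_aut α)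
    have hPC : P ⊔ centralizerIn S P ≤ extender S P (P.subtype.comp α.toMonoidHom) :=
      sup_le (le_extender ((mem_autGroup hTS).1 hαF)) centralizerIn_le_extender
    set θ := ψ.comp (Subgroup.inclusion hPC)
    have hθ : θ ∈ F.Hom (P ⊔ centralizerIn S P) := restrict hψ hPC
    obtain ⟨a, ha, φ₀, hφ₀, hdec⟩ := exists_decomp_pElemSystem hS hF hℋ hθ
    have hmeet : (P ⊔ centralizerIn S P) ⊓ P = P := inf_eq_right.2 le_sup_left
    obtain ⟨k, hk, e, he, hek⟩ := (pElemSystem_le_charSystem hS hF hE χ hΔ hker hEs _ hφ₀).2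
      (by rw [hmeet]; exact isCentric_top E)
    have haA : a ∈ charAut hE χ := by
      refine (mem_charAut hE χ).2 ⟨ha, ?_⟩
      have hPm : P ≤ (P ⊔ centralizerIn S P) ⊓ P := hmeet.ge
      set e₀ := e.comp (Subgroup.inclusion hPm)
      have he₀ : e₀ ∈ E.Hom P := restrict he hPm
      have hbij : Function.Bijective (e₀.codRestrict P (val_mem he₀)) :=
        Finite.injective_iff_bijective.1 fun a b hab => E.injective_of_mem he₀ (congrArg Subtype.val hab :)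
      obtain ⟨b, hb⟩ : ∃ b : MulAut P, ∀ x, ((b x : P) : Ω) = e₀ x :=
        ⟨MulEquiv.ofBijective _ hbij, fun x => rfl⟩
      have hbE : b ∈ E.autGroup P := (mem_autGroup le_rfl).2 (mem_of_eq he₀ hb)
      have hbF : b ∈ F.autGroup P := (mem_autGroup hTS).2 (hE.1 P ((mem_autGroup le_rfl).1 hbE))
      have h1 : (⟨α, hαF⟩ : F.autGroup P) = restrictT hE ⟨a, ha⟩ * k * ⟨b, hbF⟩ := by
        refine Subtype.ext (MulEquiv.ext fun x => Subtype.ext ?_)
        show ((α x : P) : Ω) = ((a ⟨((k : MulAut P) (b x) : P), hTS ((k : MulAut P) (b x)).2⟩ : S) : Ω)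
        have h2 : θ ⟨x, Subgroup.mem_sup_left x.2⟩ = ((α x : P) : Ω) := hag x x.2 _
        rw [← h2, hdec _ (val_mem hφ₀ _)]
        refine congrArg (fun z : S => ((a z : S) : Ω)) (Subtype.ext ?_)
        show φ₀ ⟨(x : Ω), _⟩ = _
        rw [show b x = ⟨e₀ x, val_mem he₀ x⟩ from Subtype.ext (hb x)]
        exact hek ⟨x, hPm x.2⟩ (val_mem he₀ x)
      have h3 := congrArg χ h1
      rw [map_mul, map_mul, hk, mul_one, show χ ⟨α, hαF⟩ = 1 from hker hα,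
        show χ ⟨b, hbF⟩ = 1 from hker hbE, mul_one] at h3
      exact h3.symm
    refine restrict_of_eq (show θ ∈ F₀.Hom _ from ⟨a, haA, φ₀, hφ₀, hdec⟩) le_sup_left fun x => ?_
    exact (hag x x.2 _).symm
  obtain ⟨-, hn, -⟩ := hP.resolve_left hPT
  have hlt : P < T := lt_of_le_of_ne hn.1 hPT
  haveI := finite_mulAut hn.1
  refine autGroup_le_of_normal (p := p) hT (fullyAutomized_of_fullyNormalized hT hEs hn)
    (receptive_of_fullyNormalized hT hEs hn) le_rfl hn.1 (pElems E p P) ?_ (Subgroup.map_subtype_le _)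
    (fun β hβ c hc => conj_mem_closure_pElements β hβ c hc) ?_ ?_
  · rw [Subgroup.map_le_iff_le_comap, Subgroup.closure_le]
    rintro γ ⟨i, hi⟩
    have hγF : (γ : MulAut P) ∈ F.autGroup P :=
      (mem_autGroup (hn.1.trans hTS)).2 (hE.1 P ((mem_autGroup hn.1).1 γ.2))
    have h1 : (γ : MulAut P) ∈ (pElemSystem F p (meetFamily F E)).autGroup P :=
      pElems_le_pElemSystem_all hS hF hℋ (hn.1.trans hTS) ⟨⟨γ, hγF⟩, Subgroup.subset_closure ⟨i, by
        rw [← Subgroup.orderOf_coe] at hi ⊢; exact hi⟩, rfl⟩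
    exact (mem_autGroup hn.1).2 ⟨mem_twistProduct_of_mem ((mem_autGroup (hn.1.trans hTS)).1 h1), hn.1,
      fun x => hn.1 ((γ : MulAut P) x).2⟩
  · intro γ hγ
    refine ⟨⟨γ, autInducedBy_le_autGroup hn.1 hγ⟩, Subgroup.subset_closure ?_, rfl⟩
    obtain ⟨i, hi⟩ := (IsPGroup.iff_orderOf.1 (isPGroup_autInducedBy p hT P)) ⟨γ, hγ⟩
    refine ⟨i, ?_⟩
    rw [← Subgroup.orderOf_coe] at hi ⊢
    exact hi
  · intro φ hφ _ hPN
    haveI := finite_normalizerIn (S := T) P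
    refine restrict (hrec _ φ hφ (lt_of_le_of_ne (Subgroup.card_le_of_le hPN) fun he => ?_)) hPN
    exact (lt_normalizerIn hT hlt).ne (Subgroup.eq_of_le_of_card_ge hPN he.ge)

/-- The normal subsystem cut out by the character. -/
theorem exists_charSubsystem [Nontrivial Δ] (hχ : Function.Surjective χ) :
    ∃ F₀ : Cfsg.FusionSystem S, F₀.IsNormalIn F p ∧ ¬ (∀ P : Subgroup Ω, F₀.Hom P = F.Hom P) ∧
      E.IsSubsystemOf F₀ ∧ F₀.autGroup S = charAut hE χ ∧ F₀.IsSaturated p ∧ F₀.HasPrimeToPIndexIn F p := by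
  have hℋ := pFamily_meet hS hF hE
  have hA := charAut_le hE χ
  have hbase := baseAut_le_charAut hS hF hE χ hΔ hker hEs
  refine ⟨indexSystem hℋ (charAut hE χ) hA, ?_, ?_, ?_, autGroup_indexSystem hS hF hℋ hA hbase,
    isSaturated_indexSystem hS hF hℋ hA hbase (meet_star hS hF hE), hasPrimeToPIndexIn_indexSystem hS hF hℋ hA⟩
  · refine ⟨⟨isSaturated_indexSystem hS hF hℋ hA hbase (meet_star hS hF hE), hF,
      indexSystem_le hS hF hℋ hA, ⟨le_rfl, fun R _ φ hφ x => val_mem hφ x⟩, ?_, ?_⟩, ?_⟩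
    · rintro P hPS φ ⟨β, hβ, φ₀, hφ₀, hag⟩ α hα
      set R := (P.subgroupOf S).map (S.subtype.comp α.toMonoidHom)
      have hR : R ≤ S := by rintro _ ⟨x, -, rfl⟩; exact (α x).2
      have hm : ∀ r : R, ((α⁻¹ ⟨r, hR r.2⟩ : S) : Ω) ∈ P := by
        rintro ⟨_, x, hx, rfl⟩
        show ((α⁻¹ (α x) : S) : Ω) ∈ P
        rw [MulAut.inv_apply_self]
        exact hx
      have hθ := invBy_pElemSystem hℋ P φ₀ hφ₀ α⁻¹ (inv_mem hα) R hR hm
      let χ' : R →* Ω := S.subtype.comp ((α * β * α⁻¹ : MulAut S).toMonoidHom.comp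
        ((twist hφ₀ α⁻¹ hR hm).codRestrict S (val_mem hθ)))
      refine ⟨χ', ⟨α * β * α⁻¹, invBy_charAut hS hF hE χ α hα β hβ, _, hθ, fun x hx => rfl⟩, fun x hφx hαx => ?_⟩
      show (((α * β * α⁻¹) ⟨((α⁻¹⁻¹ ⟨φ₀ ⟨_, hm ⟨_, hαx⟩⟩, _⟩ : S) : Ω), _⟩ : S) : Ω) = _
      simp only [inv_inv, Subtype.coe_eta, MulAut.mul_apply, MulAut.inv_apply_self]
      refine congrArg (fun z : S => ((α z : S) : Ω)) (Subtype.ext ?_)
      refine Eq.trans ?_ (hag x (val_mem hφ₀ x)).symm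
      refine congrArg (fun z : S => ((β z : S) : Ω)) (Subtype.ext (congrArg φ₀ (Subtype.ext ?_)))
      rfl
    · intro P hPS φ hφ
      obtain ⟨α, hα, φ₀, hφ₀, hag⟩ := exists_decomp_pElemSystem hS hF hℋ hφ
      exact ⟨α, hα, φ₀, mem_twistProduct_of_mem hφ₀, hag⟩
    · intro α hα
      have hαF : α ∈ F.autGroup S := (mem_autGroup le_rfl).2
        (indexSystem_le hS hF hℋ hA S ((mem_autGroup le_rfl).1 hα))
      have hle : S ⊔ centralizerIn S S ≤ S := sup_le le_rfl inf_le_left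
      have hge : S ≤ S ⊔ centralizerIn S S := le_sup_left
      let β : MulAut ↥(S ⊔ centralizerIn S S) :=
        { toFun := fun x => ⟨(α ⟨x, hle x.2⟩ : S), hge (α _).2⟩
          invFun := fun x => ⟨(α⁻¹ ⟨x, hle x.2⟩ : S), hge (α⁻¹ _).2⟩
          left_inv := fun x => Subtype.ext (by simp)
          right_inv := fun x => Subtype.ext (by simp)
          map_mul' := fun x y => Subtype.ext (by
            show ((α ⟨((x * y : ↥(S ⊔ centralizerIn S S)) : Ω), _⟩ : S) : Ω) = _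
            rw [show (⟨((x * y : ↥(S ⊔ centralizerIn S S)) : Ω), hle (x * y).2⟩ : S) =
              ⟨x, hle x.2⟩ * ⟨y, hle y.2⟩ from rfl, map_mul]
            rfl) }
      refine ⟨β, (mem_autGroup hle).2 (restrict_of_eq ((mem_autGroup le_rfl).1 hαF) hle fun _ => rfl),
        fun x => rfl, fun c hc => ⟨S.mul_mem (S.inv_mem (hle c.2)) (α _).2, mul_mem (Subgroup.inv_mem _ hc.2) ?_⟩⟩
      refine Subgroup.mem_centralizer_iff.2 fun s hs => ?_
      obtain ⟨u, hu⟩ := α.surjective ⟨s, hs⟩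
      have h3 : u * ⟨c, hle c.2⟩ = ⟨c, hle c.2⟩ * u := Subtype.ext (Subgroup.mem_centralizer_iff.1 hc.2 u u.2)
      have h4 := congrArg (fun w : S => ((α w : S) : Ω)) h3
      simp only [map_mul, hu] at h4
      exact h4
  · intro heq
    obtain ⟨d, hd⟩ := exists_ne (1 : Δ)
    obtain ⟨β, rfl⟩ := hχ d
    obtain ⟨α, hα⟩ := exists_aut_S_char hS hF hE χ hΔ β
    have h1 : (α : MulAut S) ∈ (indexSystem hℋ (charAut hE χ) hA).autGroup S :=
      (mem_autGroup le_rfl).2 (by rw [heq S]; exact (mem_autGroup le_rfl).1 α.2)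
    rw [autGroup_indexSystem hS hF hℋ hA hbase] at h1
    obtain ⟨hmem, h2⟩ := (mem_charAut hE χ).1 h1
    exact hd (hα ▸ h2)
  · exact le_charSubsystem hS hF hE χ hΔ hker hEs

end CfsgLib.Fusion
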