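import Cfsg.Agent.Fusion.AxiomaticThompson

/-!
For odd `p`, a saturated system that is not inner contains a constrained subsystem over `S` that is not inner.
-/

set_option autoImplicit false
set_option linter.style.haveILetI false

open Cfsg

namespace CfsgLib.Fusion

open Cfsg.FusionSystem

universe u

variable {Ω : Type u} [Group Ω] {S : Subgroup Ω} [Finite S] {p : ℕ} [Fact p.Prime]

theorem exists_constrained_subsystem (hS : IsPGroup p S) (hp : p ≠ 2) :
    ∀ (n : ℕ) (F : Cfsg.FusionSystem S), (homSet F).ncard < n → F.IsSaturated p →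
      ¬ F ≤ Cfsg.innerFusionSystem S →
      ∃ E : Cfsg.FusionSystem S, E ≤ F ∧ E.IsConstrained p ∧ ¬ E ≤ Cfsg.innerFusionSystem S := by
  intro n
  induction n with
  | zero => intro F h; exact absurd h (Nat.not_lt_zero _)
  | succ n ih =>
    intro F hn hF hne
    obtain ⟨Q, hQ, hmax⟩ := exists_max_normal F
    have hQsc := stronglyClosed_of_isNormal hQ
    by_cases hCQ : centralizerIn S Q ≤ Q
    · refine ⟨F, fun P φ h => h, ⟨hF, Q, hQ, hQ.1, ?_⟩, hne⟩
      rintro R ⟨φ, hφ, rfl⟩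
      have : φ.range = Q := (weaklyClosed_of_stronglyClosed hQsc).2 φ hφ
      rwa [this]
    have hQS : Q ≠ S := fun h => hCQ (h ▸ inf_le_left)
    haveI hQn : (Q.subgroupOf S).Normal :=
      (Subgroup.normal_subgroupOf_iff_le_normalizer hQ.1).2 (le_normalizer_of_isNormal hQ)
    set θ : S →* S ⧸ Q.subgroupOf S := QuotientGroup.mk' (Q.subgroupOf S) with hθ
    have hker : ∀ s : S, θ s = 1 ↔ (s : Ω) ∈ Q := fun s => QuotientGroup.eq_one_iff s
    set E := factorSystem F θ hker hQsc with hEdef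
    have hE := isFactorSystem_factorSystem hker hQsc
    have hEsat : E.IsSaturated p := isSaturated_factor hS hF hQsc hE
    have hpR : IsPGroup p θ.range := (hS.to_quotient _).to_subgroup _
    have hRne : θ.range ≠ ⊥ := by
      intro h0
      refine hQS (le_antisymm hQ.1 fun x hx => (hker ⟨x, hx⟩).1 ?_)
      exact Subgroup.mem_bot.1 (h0 ▸ ⟨⟨x, hx⟩, rfl⟩)
    set W := CfsgLib.ZJ.W p false θ.range with hWdef
    have hWne : W ≠ ⊥ := CfsgLib.ZJ.W_ne_bot hpR hRne
    set Y := preimageAlong θ W with hYdef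
    have hY : Y ≤ S := preimageAlong_le W
    have hQY : Q ≤ Y := ker_le_preimageAlong hQ.1 hker W
    have hYne : Y ≠ Q := by
      intro h0
      apply hWne
      rw [Subgroup.eq_bot_iff_forall]
      intro w hw
      obtain ⟨s, rfl⟩ := CfsgLib.ZJ.W_le _ hw
      exact (hker s).2 (h0 ▸ mem_preimageAlong.2 ⟨s.2, hw⟩)
    have hWR : θ.range ≤ Subgroup.normalizer (W : Set (S ⧸ Q.subgroupOf S)) :=
      Subgroup.le_normalizer.trans (CfsgLib.ZJ.normalizer_le_normalizer_W _)
    have hSY : S ≤ Subgroup.normalizer (Y : Set Ω) := fun s hs =>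
      mem_normalizer_preimageAlong (S' := θ.range) rfl (CfsgLib.ZJ.W_le _) ⟨s, hs⟩ (hWR ⟨_, rfl⟩)
    have e : normalizerIn S Y = S := inf_eq_left.2 hSY
    set M := retarget (normalizerSystem F hY) e with hMdef
    have hMsub : M.IsSubsystemOf F := fun P φ h => h.1
    have hMne : ∃ (P : Subgroup Ω) (φ : P →* Ω), φ ∈ F.Hom P ∧ φ ∉ M.Hom P := by
      by_contra hall
      push Not at hall
      exact hYne (hmax Y ⟨hY, fun P φ hφ => (hall P φ hφ).2.2.2⟩ hQY)
    by_cases hMin : M ≤ Cfsg.innerFusionSystem S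
    swap
    · obtain ⟨E', hE'le, hE'⟩ := ih M (lt_of_lt_of_le (homSet_ncard_lt hMsub hMne) (Nat.lt_succ_iff.1 hn))
        (isSaturated_retarget _ e (isSaturated_normalizerSystem hS hF (isFullyNormalized_of_le_normalizer hY hSY))) hMin
      exact ⟨E', fun P φ h => hMsub P (hE'le P h), hE'⟩
    have hin : ∀ P' : Subgroup (S ⧸ Q.subgroupOf S), E.Hom P' = (Cfsg.innerFusionSystem θ.range).Hom P' := by
      intro P'
      refine hom_eq_inner_of_rel hpR hEsat hp (D := θ.range) ⟨le_rfl, fun R _ φ hφ x => val_mem hφ x⟩ hRne ?_ P'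
      intro N hN X
      refine Set.Subset.antisymm (fun φ' hφ' => ?_) (inner_le N X)
      rw [hN X] at hφ'
      obtain ⟨-, hX, -, ψ', hψ', hagψ, hψW⟩ := hφ'
      obtain ⟨hXW, ψ, hψ, hi⟩ := hψ'
      have hXle : preimageAlong θ X ≤ preimageAlong θ (X ⊔ W) :=
        Subgroup.map_mono (Subgroup.comap_mono le_sup_left)
      have hYle : Y ≤ preimageAlong θ (X ⊔ W) := Subgroup.map_mono (Subgroup.comap_mono le_sup_right)
      have h1 := mem_normalizerSystem_of_invariant hY hψ hXle hYle ((preimageAlong_le X).trans e.ge) ?_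
      · obtain ⟨-, g, hg, hgψ⟩ := hMin (preimageAlong θ X) h1
        refine ⟨hX, θ ⟨g, hg⟩, ⟨⟨_, rfl⟩, hWR ⟨_, rfl⟩⟩, fun x => ?_⟩
        obtain ⟨d, hd⟩ := exists_section (θ := θ) (hX.trans inf_le_left) x
        rw [← hagψ x, induced_apply hi (hXle d.2) (val_mem hψ _) (x := Subgroup.inclusion le_sup_left x) hd,
          ← hd]
        show θ _ = θ _ * θ _ * (θ _)⁻¹
        rw [← map_inv, ← map_mul, ← map_mul]
        exact congrArg θ (Subtype.ext (hgψ d))
      · intro y hy
        obtain ⟨hyS, hyW⟩ := mem_preimageAlong.1 hy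
        refine mem_preimageAlong.2 ⟨val_mem hψ _, ?_⟩
        rw [← induced_apply hi (hYle hy) (val_mem hψ _) (x := ⟨θ ⟨y, hyS⟩, Subgroup.mem_sup_right hyW⟩) rfl]
        exact hψW.le ⟨_, hyW, rfl⟩
    exact absurd (le_sup_right.trans (hmax _ (isNormal_sup_centralizer hS hF hQ hE hin) le_sup_left).le) hCQ

end CfsgLib.Fusion
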