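import Cfsg.Agent.Fusion.GenSimple
import Cfsg.Agent.SL2.Redundant
set_option autoImplicit false

/-!
The simplicity criterion for fusion systems, moved to a covering group with central kernel of order
prime to `p`.
-/

namespace CfsgLib.Fusion

open Cfsg
open scoped Pointwise

theorem isSimple_of_cover {H G : Type*} [Group H] [Group G] [Finite H] (p : ℕ) [Fact p.Prime]
    (f : H →* G) (hf : Function.Surjective f) (hker : f.ker ≤ Subgroup.center H)
    (hkp : ∀ z ∈ f.ker, ∀ k : ℕ, z ^ p ^ k = 1 → z = 1)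
    (U : Sylow p H) (hU : (U : Subgroup H) ≠ ⊥)
    (hclosed : ∀ T : Subgroup H, T ≤ (U : Subgroup H) → T ≠ ⊥ →
      (∀ g : H, ∀ t ∈ T, g * t * g⁻¹ ∈ U → g * t * g⁻¹ ∈ T) → (U : Subgroup H) ≤ T)
    {ι : Type*} (R : ι → Subgroup H) (hRU : ∀ i, R i ≤ (U : Subgroup H))
    (hRn : ∀ i, ∀ u ∈ U, ∀ r ∈ R i, u * r * u⁻¹ ∈ R i)
    (hRc : ∀ i, ∀ h : H, (∀ r ∈ R i, h * r = r * h) → ∃ z ∈ f.ker, z * h ∈ R i)
    (hgen : ∀ h : H, (∀ u ∈ U, h * u * h⁻¹ ∈ U) → h ∈ f.ker ⊔ ⨆ i,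
      Subgroup.normalizer ((U : Subgroup H) : Set H) ⊓
        Subgroup.closure {x : H | (∀ r ∈ R i, x * r * x⁻¹ ∈ R i) ∧ ∃ k : ℕ, orderOf x = p ^ k})
    (S : Sylow p G) : (Cfsg.groupFusionSystem (S : Subgroup G)).IsSimple p := by
  haveI : Finite G := Finite.of_surjective _ hf
  obtain ⟨g0, hg0⟩ := MulAction.exists_smul_eq G (U.mapSurjective hf) S
  let ψ := (MulAut.conj g0).toMonoidHom.comp f
  have hψ : Function.Surjective ψ := (MulAut.conj g0).surjective.comp hf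
  have hψker : ψ.ker = f.ker := by
    ext x
    simp only [ψ, MonoidHom.mem_ker, MonoidHom.coe_comp, Function.comp_apply, MulEquiv.coe_toMonoidHom,
      map_eq_one_iff _ (MulAut.conj g0).injective]
  have hSeq : (S : Subgroup G) = (U : Subgroup H).map ψ := by
    rw [← hg0, Sylow.coe_subgroup_smul, ← Subgroup.map_map]; rfl
  have hmem : ∀ x : H, (∃ k : ℕ, orderOf x = p ^ k) → ψ x ∈ (S : Subgroup G) → x ∈ U := fun x hx h =>
    CfsgLib.SL2.mem_sylow_of_map ψ (hψker.le.trans hker) U hx (hSeq ▸ h)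
  have hψU : ∀ {x}, x ∈ U → ψ x ∈ (S : Subgroup G) := fun {x} hx => by rw [hSeq]; exact ⟨x, hx, rfl⟩
  have hconj : ∀ g x : H, orderOf (g * x * g⁻¹) = orderOf x := fun g x => by
    rw [show g * x * g⁻¹ = MulAut.conj g x from rfl, MulEquiv.orderOf_eq]
  have hpp : ∀ {x}, x ∈ U → ∃ k : ℕ, orderOf x = p ^ k := fun {x} hx =>
    CfsgLib.SL2.exists_orderOf_of_mem U hx
  have hconjpp : ∀ {g x : H}, x ∈ U → ∃ k : ℕ, orderOf (g * x * g⁻¹) = p ^ k := fun {g x} hx => by
    obtain ⟨k, hk⟩ := hpp hx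
    exact ⟨k, (hconj g x).trans hk⟩
  have hcomm : ∀ g r : H, r ∈ U → ψ g * ψ r = ψ r * ψ g → g * r = r * g := by
    intro g r hr h
    obtain ⟨k, hk⟩ := hpp hr
    have hz : g * r * g⁻¹ * r⁻¹ ∈ ψ.ker := by
      rw [MonoidHom.mem_ker]
      simp only [map_mul, map_inv]
      rw [h]; group
    have hc : Commute (g * r * g⁻¹ * r⁻¹) r :=
      (Subgroup.mem_center_iff.mp ((hψker.le.trans hker) hz) r).symm
    have e : (g * r * g⁻¹ * r⁻¹ * r) ^ (p ^ k) = 1 := by
      rw [inv_mul_cancel_right, conj_pow, ← hk, pow_orderOf_eq_one]; group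
    rw [hc.mul_pow, ← hk, pow_orderOf_eq_one, mul_one, hk] at e
    exact mul_inv_eq_iff_eq_mul.mp (mul_inv_eq_one.mp (hkp _ (hψker ▸ hz) k e))
  have hinj : ∀ x ∈ U, ψ x = 1 → x = 1 := fun x hx h => by
    obtain ⟨k, hk⟩ := hpp hx
    exact hkp x (hψker ▸ h) k (hk ▸ pow_orderOf_eq_one x)
  refine isSimple_of_generators p S ?_ ?_ ?_
  · intro hbot
    refine hU ((Subgroup.eq_bot_iff_forall _).mpr fun x hx => hinj x hx ?_)
    have := hψU hx
    rwa [hbot, Subgroup.mem_bot] at this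
  · intro T hT
    by_cases hTbot : T = ⊥
    · exact Or.inl hTbot
    refine Or.inr (le_antisymm hT.1 ?_)
    have hcl : ∀ t ∈ T, ∀ g, g * t * g⁻¹ ∈ (S : Subgroup G) → g * t * g⁻¹ ∈ T := by
      intro t ht g hg
      refine hT.2 (Subgroup.zpowers t) (Subgroup.zpowers_le.mpr ht) _
        (conjHom_mem_group (g := g) ((Subgroup.zpowers_le.mpr ht).trans hT.1) ?_) ⟨t, Subgroup.mem_zpowers t⟩
      rw [MonoidHom.map_zpowers, Subgroup.zpowers_le]
      exact hg
    have hlift : T ≤ ((U : Subgroup H) ⊓ T.comap ψ).map ψ := by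
      intro t ht
      have htS := hT.1 ht
      rw [hSeq] at htS
      obtain ⟨x, hx, rfl⟩ := htS
      exact ⟨x, ⟨hx, ht⟩, rfl⟩
    have hUT := hclosed ((U : Subgroup H) ⊓ T.comap ψ) inf_le_left (fun h => hTbot (by
      rw [h, Subgroup.map_bot] at hlift
      exact le_bot_iff.mp hlift)) (fun g t ht hgt => ⟨hgt, by
        show ψ (g * t * g⁻¹) ∈ T
        have := hψU hgt
        simp only [map_mul, map_inv] at this ⊢
        exact hcl _ ht.2 _ this⟩)
    rw [hSeq]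
    rintro _ ⟨x, hx, rfl⟩
    exact (hUT hx).2
  · intro h hh
    obtain ⟨g, rfl⟩ := hψ h
    have hgU : ∀ u ∈ U, g * u * g⁻¹ ∈ U := fun u hu => hmem _ (hconjpp hu) (by
      have := (Subgroup.mem_normalizer_iff.mp hh (ψ u)).mp (hψU hu)
      simpa using this)
    have hg := hgen g hgU
    have hnorm : ∀ (K : Subgroup H) (x : H), (∀ r ∈ K, x * r * x⁻¹ ∈ K) →
        ψ x ∈ Subgroup.normalizer ((K.map ψ : Subgroup G) : Set G) := by
      intro K x hx
      refine Subgroup.mem_normalizer_fintype ?_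
      rintro _ ⟨r, hr, rfl⟩
      exact ⟨_, hx r hr, by simp⟩
    refine Subgroup.mem_comap.mp (SetLike.le_def.mp (sup_le ?_ (iSup_le fun i => ?_)) hg)
    · intro z hz
      rw [Subgroup.mem_comap, show ψ z = 1 from hψker.ge hz]
      exact one_mem _
    · rintro x ⟨hxU, hxR⟩
      rw [Subgroup.mem_comap]
      have hcond : (R i).map ψ ≤ (S : Subgroup G) ∧
          (S : Subgroup G) ≤ Subgroup.normalizer (((R i).map ψ : Subgroup G) : Set G) ∧
          Subgroup.centralizer (((R i).map ψ : Subgroup G) : Set G) ≤ (R i).map ψ := by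
        refine ⟨hSeq ▸ Subgroup.map_mono (hRU i), ?_, ?_⟩
        · rw [hSeq]
          rintro _ ⟨u, hu, rfl⟩
          exact hnorm _ u (hRn i u hu)
        · intro y hy
          obtain ⟨y', rfl⟩ := hψ y
          obtain ⟨z, hz, hzr⟩ := hRc i y' fun r hr =>
            hcomm y' r (hRU i hr) (Subgroup.mem_centralizer_iff.mp hy _ ⟨r, hr, rfl⟩).symm
          exact ⟨z * y', hzr, by rw [map_mul, show ψ z = 1 from hψker.ge hz, one_mul]⟩
      refine Subgroup.mem_iSup_of_mem ((R i).map ψ) (Subgroup.mem_iSup_of_mem hcond ⟨?_, ?_⟩)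
      · have := hnorm (U : Subgroup H) x fun r hr => (Subgroup.mem_normalizer_iff.mp hxU r).mp hr
        rwa [← hSeq] at this
      · refine Subgroup.mem_comap.mp (SetLike.le_def.mp ((Subgroup.closure_le _).mpr ?_) hxR)
        rintro y ⟨hyR, k, hk⟩
        obtain ⟨j, -, hj⟩ := (Nat.dvd_prime_pow (Fact.out : p.Prime)).1 (hk ▸ orderOf_map_dvd ψ y)
        exact Subgroup.subset_closure ⟨hnorm _ y hyR, j, hj⟩

end CfsgLib.Fusion
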