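import Cfsg.Agent.Fusion.AbelianIndexP

/-!
Essential subgroups other than the unique abelian subgroup of index `p`.
-/

set_option autoImplicit false
set_option linter.style.haveILetI false

open Cfsg

namespace CfsgLib.Fusion

open Cfsg.FusionSystem

variable {Ω : Type*} [Group Ω] {S : Subgroup Ω} {A : Subgroup Ω} {p : ℕ} [Fact p.Prime] [Finite S]

/-- Cardinality split along an intersection. -/
lemma card_eq_inf_mul_relIndex {K H : Subgroup Ω} : Nat.card H = Nat.card ↥(K ⊓ H) * K.relIndex H := by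
  rw [← (K.subgroupOf H).card_mul_index, ← Subgroup.inf_subgroupOf_right K H,
    Nat.card_congr (Subgroup.subgroupOfEquivOfLe (inf_le_right : K ⊓ H ≤ H)).toEquiv,
    Subgroup.inf_subgroupOf_right]
  rfl

/-- A subgroup conjugated into itself is normalized. -/
lemma mem_normalizer_of_map_le {P : Subgroup Ω} (hP : P ≤ S) {g : Ω} (h : ∀ y ∈ P, g * y * g⁻¹ ∈ P) :
    g ∈ Subgroup.normalizer (P : Set Ω) := by
  haveI := finite_of_le hP
  refine Subgroup.mem_normalizer_iff.2 fun y => ⟨h y, fun hy => ?_⟩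
  let f : P → P := fun z => ⟨g * z * g⁻¹, h z z.2⟩
  have hf : Function.Injective f := fun a b hab =>
    Subtype.ext (mul_left_cancel (mul_right_cancel (congrArg Subtype.val hab)))
  obtain ⟨z, hz⟩ := (Finite.injective_iff_surjective.1 hf) ⟨_, hy⟩
  have : (z : Ω) = y := mul_left_cancel (mul_right_cancel (congrArg Subtype.val hz))
  exact this ▸ z.2

namespace AIP

variable (h : AIP S A p) (hS : IsPGroup p S)
include h hS

lemma card_eq_p_mul {H : Subgroup Ω} (hH : H ≤ S) {x : Ω} (hx : x ∈ H) (hxA : x ∉ A) :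
    Nat.card H = p * Nat.card ↥(A ⊓ H) := by
  haveI := (CfsgLib.Extraspecial.normal_of_index_eq hS h.index).1
  have h1 : (A.subgroupOf S).relIndex (H.subgroupOf S) = A.relIndex H := by
    show (A.comap S.subtype).relIndex (H.subgroupOf S) = _
    rw [Subgroup.relIndex_comap, Subgroup.map_subgroupOf_eq_of_le hH]
  have h2 : A.relIndex H ∣ p := h1 ▸ h.index ▸ Subgroup.relIndex_dvd_index_of_normal _ _
  have h3 : A.relIndex H ≠ 1 := fun e => hxA (Subgroup.relIndex_eq_one.1 e hx)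
  rw [card_eq_inf_mul_relIndex (K := A), ((Fact.out : p.Prime).eq_one_or_self_of_dvd _ h2).resolve_left h3, mul_comm]

lemma exists_decomp {P : Subgroup Ω} (hP : P ≤ S) {x : Ω} (hx : x ∈ P) (hxA : x ∉ A) {y : Ω} (hy : y ∈ P) :
    ∃ a ∈ A ⊓ P, ∃ i : ℤ, y = a * x ^ i := by
  obtain ⟨a, ha, i, rfl⟩ := h.decomp hS (hP hx) hxA (hP hy)
  refine ⟨a, ⟨ha, ?_⟩, i, rfl⟩
  have := P.mul_mem hy (P.zpow_mem (P.inv_mem hx) i)
  rwa [inv_zpow, mul_inv_cancel_right] at this

lemma eq_sup {P : Subgroup Ω} (hP : P ≤ S) {x : Ω} (hx : x ∈ P) (hxA : x ∉ A) :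
    P = (A ⊓ P) ⊔ Subgroup.zpowers x := by
  refine le_antisymm (fun y hy => ?_) (sup_le inf_le_right (Subgroup.zpowers_le.2 hx))
  obtain ⟨a, ha, i, rfl⟩ := h.exists_decomp hS hP hx hxA hy
  exact mul_mem (Subgroup.mem_sup_left ha) (Subgroup.mem_sup_right (zpow_mem (Subgroup.mem_zpowers x) i))

lemma mem_normalizer_iff_kappa {P : Subgroup Ω} (hP : P ≤ S) {x : Ω} (hx : x ∈ P) (hxA : x ∉ A) {a : Ω}
    (ha : a ∈ A) : a ∈ Subgroup.normalizer (P : Set Ω) ↔ x * a * x⁻¹ * a⁻¹ ∈ A ⊓ P := by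
  constructor
  · intro hn
    refine ⟨A.mul_mem (h.conj_mem hS (hP hx) ha) (A.inv_mem ha), ?_⟩
    rw [show x * a * x⁻¹ * a⁻¹ = x * (a * x⁻¹ * a⁻¹) by group]
    exact P.mul_mem hx ((Subgroup.mem_normalizer_iff.1 hn _).1 (P.inv_mem hx))
  · intro hk
    refine mem_normalizer_of_map_le hP fun y hy => ?_
    obtain ⟨b, hb, i, rfl⟩ := h.exists_decomp hS hP hx hxA hy
    have h1 : a * x * a⁻¹ ∈ P := by
      rw [show a * x * a⁻¹ = (x * a * x⁻¹ * a⁻¹)⁻¹ * x by group]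
      exact P.mul_mem (P.inv_mem hk.2) hx
    rw [show a * (b * x ^ i) * a⁻¹ = a * b * a⁻¹ * (a * x ^ i * a⁻¹) by group, ← conj_zpow,
      h.comm a ha b hb.1, mul_inv_cancel_right]
    exact P.mul_mem hb.2 (P.zpow_mem h1 i)

lemma zTwo_le_of_card {x : Ω} (hx : x ∈ S) (hxA : x ∉ A)
    (hc : Nat.card ↥(A ⊓ zTwo S) ≤ p * Nat.card (centralizerIn S S)) : zTwo S ≤ A := by
  intro y hy
  by_contra hyA
  obtain ⟨hyS, hyt⟩ := mem_zTwo.1 hy
  haveI : Finite ↥(A ⊓ zTwo S) := finite_of_le (inf_le_left.trans h.le)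
  refine h.center_card_lt hS ((Subgroup.card_le_of_le ?_).trans hc)
  · intro a ha
    refine ⟨ha, (h.mem_zTwo_iff hS hyS hyA ha).2 ?_⟩
    exact hyt a (h.le ha)

variable {F : Cfsg.FusionSystem S} (hF : F.IsSaturated p) {P : Subgroup Ω} (hP : F.IsEssential p P)
include hF hP

lemma center_le_essential : centralizerIn S S ≤ P := fun z hz =>
  hP.1.2 P (IsConj.refl hP.1.1) ⟨hz.1, Subgroup.mem_centralizer_iff.2 fun y hy => (mem_centerIn.1 hz).2 y (hP.1.1 hy)⟩

lemma exists_not_mem (hPA : P ≠ A) : ∃ x ∈ P, x ∉ A := by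
  by_contra hno
  push_neg at hno
  refine hPA (le_antisymm hno fun a ha => hP.1.2 P (IsConj.refl hP.1.1) ⟨h.le ha, ?_⟩)
  exact Subgroup.mem_centralizer_iff.2 fun y hy => h.comm y (hno y hy) a ha

/-- The structure when `P` is abelian. -/
theorem structure_abelian {x : Ω} (hx : x ∈ P) (hxA : x ∉ A) (hab : ∀ a ∈ P, ∀ b ∈ P, a * b = b * a) :
    A ⊓ P = centralizerIn S S ∧ Nat.card (autInducedBy S P) = p ∧
      Nat.card (normalizerIn S P) = p * Nat.card P ∧
      Nat.card ↥(A ⊓ zTwo S) = p * Nat.card (centralizerIn S S) := by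
  have hp := (Fact.out : p.Prime)
  have hPS : P ≤ S := hP.1.1
  set Z := centralizerIn S S with hZdef
  haveI : Finite Z := finite_of_le inf_le_left
  haveI := finite_of_le hPS
  haveI := finite_mulAut hPS
  have hAP : A ⊓ P = Z := by
    refine le_antisymm (fun a ha => h.commute_mem hS (hPS hx) hxA ha.1 (hab x hx a ha.2)) ?_
    exact le_inf (h.center_le hS) (h.center_le_essential hS hF hP)
  have hInn : Cfsg.Inn P = ⊥ := by
    refine le_bot_iff.1 ?_
    rintro _ ⟨g, rfl⟩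
    refine Subgroup.mem_bot.2 (MulEquiv.ext fun y => ?_)
    show g * y * g⁻¹ = y
    rw [mul_inv_eq_iff_eq_mul]
    exact Subtype.ext (hab g g.2 y y.2)
  obtain ⟨⟨γ, hγ, hsep⟩, b₀, hb₀, hb₀I⟩ := exists_separating hS hF hP
  obtain ⟨-, T, hT⟩ := fullyAutomized_of_fullyNormalized hS hF hP.2.1
  set U := autInducedBy S P
  have hUfix : ∀ b ∈ U, ∀ y : P, (y : Ω) ∈ Z → b y = y := fun b hb y hy => by
    obtain ⟨g, hg, hgb⟩ := mem_autInducedBy.1 hb
    exact Subtype.ext (by rw [hgb, (mem_centerIn.1 hy).2 g hg, mul_inv_cancel_right])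
  have hUmove : ∀ b ∈ U, ∀ y : P, ((y⁻¹ * b y : P) : Ω) ∈ Z := fun b hb y => by
    obtain ⟨g, hg, hgb⟩ := mem_autInducedBy.1 hb
    rw [← hAP]
    refine ⟨?_, (y⁻¹ * b y).2⟩
    obtain ⟨hn, hco⟩ := CfsgLib.Extraspecial.normal_of_index_eq hS h.index
    haveI := hn
    haveI : IsCyclic (S ⧸ A.subgroupOf S) :=
      isCyclic_of_prime_card (p := p) (by rw [← Subgroup.index_eq_card, h.index])
    letI := IsCyclic.commGroup (α := S ⧸ A.subgroupOf S)
    show ((y : Ω)⁻¹ * ((b y : P) : Ω)) ∈ A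
    rw [hgb]
    have h1 : ((⟨y, hPS y.2⟩ : S)⁻¹ * (⟨g, hg⟩ * ⟨y, hPS y.2⟩ * ⟨g, hg⟩⁻¹)) ∈ A.subgroupOf S := by
      rw [← QuotientGroup.eq_one_iff, QuotientGroup.mk_mul, QuotientGroup.mk_mul, QuotientGroup.mk_mul,
        QuotientGroup.mk_inv, QuotientGroup.mk_inv, mul_right_comm _ _ ((↑(⟨g, hg⟩ : S) : S ⧸ A.subgroupOf S)⁻¹),
        mul_inv_cancel, one_mul, inv_mul_cancel]
    exact h1
  -- the second hyperplane
  set ZP := Z.subgroupOf P with hZP
  set ZP' := ZP.map γ.toMonoidHom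
  set W := ZP ⊓ ZP'
  have hW' : ∀ y : P, y ∈ ZP' → (γ⁻¹ y : P) ∈ ZP := by
    rintro _ ⟨z, hz, rfl⟩
    show γ⁻¹ (γ z) ∈ ZP
    rw [MulAut.inv_apply_self]; exact hz
  let D : Subgroup (F.autGroup P) :=
    { carrier := {δ | (∀ y ∈ W, (δ : MulAut P) y = y) ∧ ∀ y : P, y⁻¹ * (δ : MulAut P) y ∈ W}
      one_mem' := ⟨fun y _ => rfl, fun y => by simp [Subgroup.one_mem]⟩
      mul_mem' := fun {a c} ha hc => ⟨fun y hy => by
          show (a : MulAut P) ((c : MulAut P) y) = y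
          rw [hc.1 y hy, ha.1 y hy], fun y => by
          show y⁻¹ * (a : MulAut P) ((c : MulAut P) y) ∈ W
          have h1 := W.mul_mem (ha.2 y) (hc.2 y)
          have h2 : (a : MulAut P) (y⁻¹ * (c : MulAut P) y) = y⁻¹ * (c : MulAut P) y := ha.1 _ (hc.2 y)
          rw [map_mul, map_inv, inv_mul_eq_iff_eq_mul] at h2
          rw [h2]
          rw [← mul_assoc]
          simpa [mul_assoc] using h1⟩
      inv_mem' := fun {a} ha => by
        have h1 : ∀ y ∈ W, (a : MulAut P)⁻¹ y = y := fun y hy => by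
          conv_lhs => rw [← ha.1 y hy]
          exact MulAut.inv_apply_self _ (a : MulAut P) y
        refine ⟨h1, fun y => ?_⟩
        show y⁻¹ * (a : MulAut P)⁻¹ y ∈ W
        obtain ⟨z, rfl⟩ := (a : MulAut P).surjective y
        rw [MulAut.inv_apply_self]
        have := W.inv_mem (ha.2 z)
        simpa using this }
  have hkey : ∀ b ∈ U, (∀ y : P, y⁻¹ * b y ∈ W) → b = 1 := by
    intro b hb hbm
    have hbA := autInducedBy_le_autGroup (F := F) hPS hb
    have hbD : (⟨b, hbA⟩ : F.autGroup P) ∈ D := ⟨fun y hy => hUfix b hb y hy.1, hbm⟩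
    have hDp : IsPGroup p D := by
      obtain ⟨k, hk⟩ := IsPGroup.iff_card.1 ((hS.to_le hPS).to_subgroup W)
      rintro ⟨δ, hδ⟩
      refine ⟨k, Subtype.ext (Subtype.ext (MulEquiv.ext fun y => ?_))⟩
      show ((δ : MulAut P) ^ p ^ k) y = y
      have hu : ∀ n : ℕ, ((δ : MulAut P) ^ n) y = y * (y⁻¹ * (δ : MulAut P) y) ^ n := by
        intro n
        induction n with
        | zero => simp
        | succ n ih =>
          rw [pow_succ' (δ : MulAut P), MulAut.mul_apply, ih, map_mul, map_pow, hδ.1 _ (hδ.2 y), pow_succ',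
            ← mul_assoc y, mul_inv_cancel_left]
      rw [hu, show (y⁻¹ * (δ : MulAut P) y) ^ p ^ k = 1 by
        rw [← hk]
        exact congrArg Subtype.val (pow_card_eq_one' (x := (⟨_, hδ.2 y⟩ : W))), mul_one]
    set T' : Sylow p (F.autGroup P) := (⟨γ, hγ⟩ : F.autGroup P) • T
    have hT' : ∀ c : F.autGroup P, c ∈ (T' : Subgroup (F.autGroup P)) → γ⁻¹ * (c : MulAut P) * γ ∈ U := by
      intro c hc
      rw [Sylow.coe_subgroup_smul] at hc
      obtain ⟨d, hd, rfl⟩ := hc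
      have := Subgroup.mem_subgroupOf.1 (hT.le hd)
      show γ⁻¹ * (γ * (d : MulAut P) * γ⁻¹) * γ ∈ U
      rwa [show γ⁻¹ * (γ * (d : MulAut P) * γ⁻¹) * γ = (d : MulAut P) by group]
    have hcfix : ∀ c : F.autGroup P, c ∈ (T' : Subgroup (F.autGroup P)) → ∀ y ∈ W, (c : MulAut P) y = y := by
      intro c hc y hy
      have := hUfix _ (hT' c hc) (γ⁻¹ y) (Subgroup.mem_subgroupOf.1 (hW' y hy.2))
      simp only [MulAut.mul_apply, MulAut.apply_inv_self] at this
      exact (γ⁻¹ : MulAut P).injective this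
    have hnorm : (T' : Subgroup (F.autGroup P)) ≤ Subgroup.normalizer (D : Set (F.autGroup P)) := by
      have key : ∀ c ∈ (T' : Subgroup (F.autGroup P)), ∀ δ ∈ D, c * δ * c⁻¹ ∈ D := by
        intro c hc δ hδ
        refine ⟨fun y hy => ?_, fun y => ?_⟩
        · show (c : MulAut P) ((δ : MulAut P) ((c : MulAut P)⁻¹ y)) = y
          rw [hcfix _ (inv_mem hc) y hy |> fun e => (show (c : MulAut P)⁻¹ y = y from e), hδ.1 y hy,
            hcfix c hc y hy]
        · show y⁻¹ * (c : MulAut P) ((δ : MulAut P) ((c : MulAut P)⁻¹ y)) ∈ W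
          obtain ⟨z, rfl⟩ := (c : MulAut P).surjective y
          rw [MulAut.inv_apply_self, ← map_inv, ← map_mul, hcfix c hc _ (hδ.2 z)]
          exact hδ.2 z
      intro c hc
      refine Subgroup.mem_normalizer_iff.2 fun δ => ⟨key c hc δ, fun hd => ?_⟩
      have := key _ (inv_mem hc) _ hd
      simpa [mul_assoc] using this
    have hsup : IsPGroup p (D ⊔ (T' : Subgroup (F.autGroup P)) : Subgroup _) := by
      rw [sup_comm]
      exact T'.isPGroup'.to_sup_of_normal_right' hDp hnorm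
    have hDT : D ≤ (T' : Subgroup (F.autGroup P)) := (T'.is_maximal' hsup le_sup_right) ▸ le_sup_left
    have h3 := hsep b hb (hT' _ (hDT hbD))
    rwa [hInn, Subgroup.mem_bot] at h3
  have hne : ¬ ZP' ≤ ZP := fun e => hb₀I (by
    have hW : W = ZP := by
      refine inf_eq_left.2 ?_
      exact (Subgroup.eq_of_le_of_card_ge e
        (by rw [Subgroup.card_map_of_injective γ.injective])).ge
    rw [hkey b₀ hb₀ fun y => hW.ge (Subgroup.mem_subgroupOf.2 (hUmove b₀ hb₀ y))]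
    exact one_mem _)
  obtain ⟨y₀, hy₀, hy₀Z⟩ := SetLike.not_le_iff_exists.1 hne
  have hPcard := h.card_eq_p_mul hS hPS hx hxA
  rw [hAP] at hPcard
  have hZPc : Nat.card ZP = Nat.card Z :=
    Nat.card_congr (Subgroup.subgroupOfEquivOfLe (hAP.ge.trans inf_le_right)).toEquiv
  have hZPi : ZP.index = p := by
    have h1 := ZP.card_mul_index
    rw [hZPc, hPcard, mul_comm p] at h1
    exact Nat.eq_of_mul_eq_mul_left Nat.card_pos h1
  haveI hZPn : ZP.Normal := ⟨fun z hz g => by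
    rw [show g * z = z * g from Subtype.ext (hab g g.2 z z.2), mul_inv_cancel_right]; exact hz⟩
  have hUle : Nat.card U ≤ p := by
    have h1 : Nat.card U ≤ Nat.card (ZP ⧸ W.subgroupOf ZP) := by
      refine Nat.card_le_card_of_injective
        (fun b : U => QuotientGroup.mk (⟨_, Subgroup.mem_subgroupOf.2 (hUmove _ b.2 y₀)⟩ : ZP)) ?_
      intro b c hbc
      have hy : ((b : MulAut P) y₀)⁻¹ * (c : MulAut P) y₀ ∈ W := by
        have := Subgroup.mem_subgroupOf.1 (QuotientGroup.eq.1 hbc)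
        simpa [mul_assoc] using this
      have hbc' : (b : MulAut P)⁻¹ * c = 1 := by
        refine hkey _ (U.mul_mem (U.inv_mem b.2) c.2) fun y => ?_
        have hy' : y₀⁻¹ * ((b : MulAut P)⁻¹ * c) y₀ ∈ W := by
          have h1 : (b : MulAut P)⁻¹ (((b : MulAut P) y₀)⁻¹ * (c : MulAut P) y₀) =
              ((b : MulAut P) y₀)⁻¹ * (c : MulAut P) y₀ := hUfix _ (U.inv_mem b.2) _ (Subgroup.mem_subgroupOf.1 hy.1)
          rw [map_mul, map_inv, MulAut.inv_apply_self] at h1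
          rw [MulAut.mul_apply, h1]
          exact hy
        obtain ⟨d, hd⟩ : ∃ d, d = (b : MulAut P)⁻¹ * (c : MulAut P) := ⟨_, rfl⟩
        rw [← hd] at hy' ⊢
        have hdU : d ∈ U := hd ▸ U.mul_mem (U.inv_mem b.2) c.2
        -- every `y` is `z * y₀ ^ i`
        haveI : IsCyclic (P ⧸ ZP) := isCyclic_of_prime_card (p := p) (by rw [← Subgroup.index_eq_card, hZPi])
        have hgen : Subgroup.zpowers (QuotientGroup.mk' ZP y₀) = ⊤ := by
          refine zpowers_eq_top_of_prime_card (p := p) (by rw [← Subgroup.index_eq_card, hZPi]) ?_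
          exact fun e => hy₀Z ((QuotientGroup.eq_one_iff _).1 e)
        obtain ⟨i, hi⟩ := Subgroup.mem_zpowers_iff.1 (hgen.ge (Subgroup.mem_top (QuotientGroup.mk' ZP y)))
        rw [← map_zpow] at hi
        have hz : (y₀ ^ i)⁻¹ * y ∈ ZP := QuotientGroup.eq.1 hi
        obtain ⟨z, hz', rfl⟩ : ∃ z ∈ ZP, y = y₀ ^ i * z := ⟨_, hz, (mul_inv_cancel_left _ _).symm⟩
        have hdy : d y₀ = y₀ * (y₀⁻¹ * d y₀) := (mul_inv_cancel_left _ _).symm
        rw [map_mul, map_zpow, hUfix d hdU z (Subgroup.mem_subgroupOf.1 hz'), hdy,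
          (show Commute y₀ (y₀⁻¹ * d y₀) from Subtype.ext (hab _ y₀.2 _ (y₀⁻¹ * d y₀).2)).mul_zpow i,
          show (y₀ ^ i * z)⁻¹ * (y₀ ^ i * (y₀⁻¹ * d y₀) ^ i * z) = (y₀⁻¹ * d y₀) ^ i by
            rw [mul_assoc _ _ z, show (y₀⁻¹ * d y₀) ^ i * z = z * (y₀⁻¹ * d y₀) ^ i from
              Subtype.ext (hab _ ((y₀⁻¹ * d y₀) ^ i).2 _ z.2)]
            group]
        exact W.zpow_mem hy' i
      exact Subtype.ext (inv_mul_eq_one.1 hbc')
    refine h1.trans ?_
    rw [← Subgroup.index_eq_card]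
    have h2 : W.subgroupOf ZP = ZP'.subgroupOf ZP := by
      ext z; exact ⟨fun hz => hz.2, fun hz => ⟨z.2, hz⟩⟩
    rw [h2]
    have h4 : ZP'.index = p := by
      have h1 := ZP'.card_mul_index
      rw [show Nat.card ZP' = Nat.card Z from
        (Subgroup.card_map_of_injective γ.injective).trans hZPc, hPcard, mul_comm p] at h1
      exact Nat.eq_of_mul_eq_mul_left Nat.card_pos h1
    have h3 : ZP'.relIndex ⊤ ≠ 0 := by rw [Subgroup.relIndex_top_right, h4]; exact hp.ne_zero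
    have h5 := Subgroup.relIndex_le_of_le_right (le_top : ZP ≤ ⊤) h3
    rw [Subgroup.relIndex_top_right, h4] at h5
    exact h5
  have hUcard : Nat.card U = p := by
    obtain ⟨k, hk⟩ := IsPGroup.iff_card.1 (isPGroup_autInducedBy p hS P)
    have hne : U ≠ ⊥ := fun e => hb₀I (by rw [e, Subgroup.mem_bot] at hb₀; rw [hb₀]; exact one_mem _)
    have h1 := (Subgroup.one_lt_card_iff_ne_bot _).2 hne
    rw [hk] at h1 hUle ⊢
    have h2 : k ≤ 1 := (Nat.pow_le_pow_iff_right hp.one_lt).1 (by rwa [pow_one])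
    have h3 : k ≠ 0 := by rintro rfl; simp at h1
    rw [show k = 1 by omega, pow_one]
  have hCP : centralizerIn S P = P := by
    refine le_antisymm (hP.1.2 P (IsConj.refl hPS)) fun y hy => ⟨hPS hy, Subgroup.mem_centralizer_iff.2 fun z hz => ?_⟩
    exact hab z hz y hy
  have hN : Nat.card (normalizerIn S P) = p * Nat.card P := by
    rw [card_normalizerIn, hUcard, hCP]
  refine ⟨hAP, hUcard, hN, ?_⟩
  have hAN : A ⊓ normalizerIn S P = A ⊓ zTwo S := by
    ext a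
    constructor
    · rintro ⟨ha, -, hn⟩
      have := (h.mem_normalizer_iff_kappa hS hPS hx hxA ha).1 hn
      rw [hAP] at this
      exact ⟨ha, (h.mem_zTwo_iff hS (hPS hx) hxA ha).2 this⟩
    · rintro ⟨ha, hz⟩
      refine ⟨ha, h.le ha, (h.mem_normalizer_iff_kappa hS hPS hx hxA ha).2 ?_⟩
      rw [hAP]
      exact (h.mem_zTwo_iff hS (hPS hx) hxA ha).1 hz
  have h1 := h.card_eq_p_mul hS (show normalizerIn S P ≤ S from inf_le_left)
    (⟨hPS hx, Subgroup.le_normalizer hx⟩ : x ∈ normalizerIn S P) hxA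
  rw [hN, hAN, hPcard] at h1
  exact (Nat.eq_of_mul_eq_mul_left hp.pos h1).symm

/-- The structure when `P` is not abelian. -/
theorem structure_nonabelian {x : Ω} (hx : x ∈ P) (hxA : x ∉ A) (hab : ¬ ∀ a ∈ P, ∀ b ∈ P, a * b = b * a) :
    A ⊓ P = A ⊓ zTwo S ∧ (∀ z ∈ P, (∀ y ∈ P, y * z = z * y) → z ∈ centralizerIn S S) ∧
      Nat.card (normalizerIn S P) = p * Nat.card P ∧
      Nat.card ↥(A ⊓ zTwo S) = p * Nat.card (centralizerIn S S) := by
  have hp := (Fact.out : p.Prime)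
  have hPS : P ≤ S := hP.1.1
  set Z := centralizerIn S S with hZdef
  haveI : Finite Z := finite_of_le inf_le_left
  haveI := finite_of_le hPS
  have hZP : Z ≤ P := h.center_le_essential hS hF hP
  have hcenA : ∀ z ∈ P, (∀ y ∈ P, y * z = z * y) → z ∈ Z := by
    intro z hz hc
    by_cases hzA : z ∈ A
    · exact h.commute_mem hS (hPS hx) hxA hzA (hc x hx)
    · exfalso
      refine hab fun a ha b hb => ?_
      obtain ⟨a', ha', i, rfl⟩ := h.exists_decomp hS hPS hz hzA ha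
      obtain ⟨b', hb', j, rfl⟩ := h.exists_decomp hS hPS hz hzA hb
      have c1 : Commute a' b' := h.comm a' ha'.1 b' hb'.1
      have c2 : Commute a' (z ^ j) := (show Commute a' z from hc a' ha'.2).zpow_right j
      have c3 : Commute (z ^ i) b' := ((show Commute b' z from hc b' hb'.2).zpow_right i).symm
      exact ((c1.mul_right c2).mul_left (c3.mul_right ((Commute.refl z).zpow_zpow i j))).eq
  set M := A ⊓ P with hM
  have hMz2 : ∀ a ∈ A, x * a * x⁻¹ * a⁻¹ ∈ A ⊓ P → (∀ c ∈ F.autGroup P, ∀ y : P, (y : Ω) ∈ M →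
      ((c y : P) : Ω) ∈ M) → a ∈ P := by
    intro a ha hk hinv
    have hn := (h.mem_normalizer_iff_kappa hS hPS hx hxA ha).2 hk
    have hb : conjAut P S ⟨a, h.le ha, hn⟩ ∈ autInducedBy S P := (range_conjAut (P := P) S).le ⟨_, rfl⟩
    have hI := mem_inn_of_stabilizes hS hF hP (K := M) inf_le_right hinv hb (fun y hy => Subtype.ext ?_) fun y => ?_
    · obtain ⟨e, he⟩ := hI
      have hc : (e : Ω)⁻¹ * a ∈ centralizerIn S P := by
        refine ⟨S.mul_mem (S.inv_mem (hPS e.2)) (h.le ha), Subgroup.mem_centralizer_iff.2 fun y hy => ?_⟩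
        have h3 : (e : Ω) * y * (e : Ω)⁻¹ = a * y * a⁻¹ :=
          congrArg (fun γ : MulAut P => ((γ ⟨y, hy⟩ : P) : Ω)) he
        calc y * ((e : Ω)⁻¹ * a) = (e : Ω)⁻¹ * ((e : Ω) * y * (e : Ω)⁻¹) * a := by group
          _ = (e : Ω)⁻¹ * (a * y * a⁻¹) * a := by rw [h3]
          _ = (e : Ω)⁻¹ * a * y := by group
      simpa using P.mul_mem e.2 (hP.1.2 P (IsConj.refl hPS) hc)
    · show a * (y : Ω) * a⁻¹ = y
      rw [h.comm a ha y hy.1, mul_inv_cancel_right]
    · show (y : Ω)⁻¹ * (a * (y : Ω) * a⁻¹) ∈ M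
      refine ⟨?_, P.mul_mem (P.inv_mem y.2) ((Subgroup.mem_normalizer_iff.1 hn _).1 y.2)⟩
      rw [show (y : Ω)⁻¹ * (a * (y : Ω) * a⁻¹) = ((y : Ω)⁻¹ * a * (y : Ω)⁻¹⁻¹) * a⁻¹ by group]
      exact A.mul_mem (h.conj_mem hS (S.inv_mem (hPS y.2)) ha) (A.inv_mem ha)
  have hNlt : P < normalizerIn S P := by
    refine lt_of_le_of_ne (le_inf hPS Subgroup.le_normalizer) fun e => ?_
    obtain ⟨b, hb, hbI⟩ := (exists_separating hS hF hP).2
    obtain ⟨g, hg, hgb⟩ := mem_autInducedBy.1 hb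
    have hgP : g ∈ P := e.ge ⟨hg, mem_normalizer_of_conj hgb⟩
    exact hbI ⟨⟨g, hgP⟩, MulEquiv.ext fun y => Subtype.ext (hgb y).symm⟩
  haveI := finite_normalizerIn (S := S) P
  have hxN : x ∈ normalizerIn S P := ⟨hPS hx, Subgroup.le_normalizer hx⟩
  have hN1 := h.card_eq_p_mul hS (show normalizerIn S P ≤ S from inf_le_left) hxN hxA
  have hP1 := h.card_eq_p_mul hS hPS hx hxA
  -- the automorphism moving `A ⊓ P`
  obtain ⟨c, hc, y, hyM, hcy⟩ : ∃ c ∈ F.autGroup P, ∃ y : P, (y : Ω) ∈ M ∧ ((c y : P) : Ω) ∉ M := by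
    by_contra hno
    push_neg at hno
    obtain ⟨g, hgN, hgP⟩ := SetLike.exists_of_lt hNlt
    obtain ⟨a, ha, i, rfl⟩ := h.decomp hS (hPS hx) hxA hgN.1
    have haN : a ∈ Subgroup.normalizer (P : Set Ω) := by
      have := mul_mem hgN.2 (Subgroup.zpow_mem _ (inv_mem (Subgroup.le_normalizer hx : x ∈ Subgroup.normalizer (P : Set Ω))) i)
      rwa [inv_zpow, mul_inv_cancel_right] at this
    exact hgP (P.mul_mem (hMz2 a ha ((h.mem_normalizer_iff_kappa hS hPS hx hxA ha).1 haN) hno) (P.zpow_mem hx i))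
  set B := (M.subgroupOf P).map (P.subtype.comp c.toMonoidHom) with hB
  have hBP : B ≤ P := by rintro _ ⟨z, -, rfl⟩; exact (c z).2
  have hBc : ∀ u ∈ B, ∀ v ∈ B, u * v = v * u := by
    rintro _ ⟨u, hu, rfl⟩ _ ⟨v, hv, rfl⟩
    show ((c u : P) : Ω) * (c v : P) = (c v : P) * (c u : P)
    rw [← Subgroup.coe_mul, ← Subgroup.coe_mul, ← map_mul, ← map_mul,
      show u * v = v * u from Subtype.ext (h.comm _ hu.1 _ hv.1)]
  have hyB : ((c y : P) : Ω) ∈ B := ⟨y, hyM, rfl⟩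
  have hcyA : ((c y : P) : Ω) ∉ A := fun hh => hcy ⟨hh, (c y).2⟩
  have hKZ : A ⊓ B ≤ Z := fun z hz => h.commute_mem hS (hPS (c y).2) hcyA hz.1 (hBc _ hyB z hz.2)
  have hBcard : Nat.card B = Nat.card M := by
    rw [hB, Subgroup.card_map_of_injective (fun a b hab => c.injective (Subtype.ext hab)),
      Nat.card_congr (Subgroup.subgroupOfEquivOfLe (inf_le_right : M ≤ P)).toEquiv]
  have hMle : Nat.card M ≤ p * Nat.card Z := by
    have h1 := h.card_eq_p_mul hS (hBP.trans hPS) hyB hcyA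
    rw [hBcard] at h1
    rw [h1]
    exact Nat.mul_le_mul_left p (Subgroup.card_le_of_le hKZ)
  haveI : Finite M := finite_of_le (inf_le_left.trans h.le)
  have hZM : Z ≤ M := le_inf (h.center_le hS) hZP
  have hZlt : Nat.card Z < Nat.card M := by
    refine lt_of_le_of_ne (Subgroup.card_le_of_le hZM) fun e => hab ?_
    have hMZ : M = Z := (Subgroup.eq_of_le_of_card_ge hZM e.ge).symm
    intro a ha b hb
    obtain ⟨a', ha', i, rfl⟩ := h.exists_decomp hS hPS hx hxA ha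
    obtain ⟨b', hb', j, rfl⟩ := h.exists_decomp hS hPS hx hxA hb
    have ha'' := mem_centerIn.1 (hMZ.le ha')
    have hb'' := mem_centerIn.1 (hMZ.le hb')
    have c1 : Commute a' b' := hb''.2 a' (h.le ha'.1)
    have c2 : Commute a' (x ^ j) := (show Commute a' x from (ha''.2 x (hPS hx)).symm).zpow_right j
    have c3 : Commute (x ^ i) b' := (show Commute x b' from hb''.2 x (hPS hx)).zpow_left i
    exact ((c1.mul_right c2).mul_left (c3.mul_right ((Commute.refl x).zpow_zpow i j))).eq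
  have hMcard : Nat.card M = p * Nat.card Z := by
    obtain ⟨k, hk⟩ := IsPGroup.iff_card.1 (hS.to_le (show Z ≤ S from inf_le_left))
    obtain ⟨l, hl⟩ := IsPGroup.iff_card.1 (hS.to_le (inf_le_left.trans h.le : M ≤ S))
    rw [hk, hl] at hZlt
    rw [hk, hl, ← pow_succ'] at hMle ⊢
    have h1 := (Nat.pow_lt_pow_iff_right hp.one_lt).1 hZlt
    have h2 := (Nat.pow_le_pow_iff_right hp.one_lt).1 hMle
    rw [show l = k + 1 by omega]
  -- `A ⊓ P` is in the second centre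
  have hPab : ∀ a ∈ M, x * a * x⁻¹ * a⁻¹ ∈ Z := by
    intro a ha
    have hk : x * a * x⁻¹ * a⁻¹ ∈ M :=
      (h.mem_normalizer_iff_kappa hS hPS hx hxA ha.1).1 (Subgroup.le_normalizer ha.2)
    have hi : Z.relIndex M = p := by
      have h1 := card_eq_inf_mul_relIndex (K := Z) (H := M)
      rw [inf_eq_left.2 hZM, hMcard, mul_comm p] at h1
      exact (Nat.eq_of_mul_eq_mul_left Nat.card_pos h1).symm
    -- a `p`-group acts trivially on a quotient of order `p`
    haveI : (Z.subgroupOf P).Normal := ⟨fun z hz g => by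
      have := (mem_centerIn.1 (Subgroup.mem_subgroupOf.1 hz)).2 g (hPS g.2)
      rw [show g * z = z * g from Subtype.ext this, mul_inv_cancel_right]; exact hz⟩
    set π := QuotientGroup.mk' (Z.subgroupOf P)
    have hQc : Nat.card (P ⧸ Z.subgroupOf P) = p ^ 2 := by
      rw [← Subgroup.index_eq_card]
      have h1 := (Z.subgroupOf P).card_mul_index
      rw [Nat.card_congr (Subgroup.subgroupOfEquivOfLe hZP).toEquiv, hP1, hMcard, ← mul_assoc, mul_comm (p * p)] at h1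
      rw [Nat.eq_of_mul_eq_mul_left Nat.card_pos h1, pow_two]
    have hcomm := (IsPGroup.isMulCommutative_of_card_eq_prime_sq hQc).is_comm.comm
      (π ⟨x, hx⟩) (π ⟨a, ha.2⟩)
    have h2 : π (⟨x, hx⟩ * ⟨a, ha.2⟩ * ⟨x, hx⟩⁻¹ * ⟨a, ha.2⟩⁻¹) = 1 := by
      rw [map_mul, map_mul, map_mul, map_inv, map_inv, hcomm, mul_inv_cancel_right, mul_inv_cancel]
    exact Subgroup.mem_subgroupOf.1 ((QuotientGroup.eq_one_iff _).1 h2)
  have hcent : ∀ e ∈ F.autGroup P, ∀ z : P, (z : Ω) ∈ Z → ((e z : P) : Ω) ∈ Z := by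
    intro e _ z hz
    refine hcenA _ (e z).2 fun y hy => ?_
    obtain ⟨u, hu⟩ := e.surjective ⟨y, hy⟩
    have h1 : u * z = z * u := Subtype.ext ((mem_centerIn.1 hz).2 u (hPS u.2))
    have h2 := congrArg (fun w : P => ((e w : P) : Ω)) h1
    simp only [map_mul, hu] at h2
    exact h2
  have hM2 : M = A ⊓ zTwo S := by
    refine le_antisymm (fun a ha => ⟨ha.1, (h.mem_zTwo_iff hS (hPS hx) hxA ha.1).2 (hPab a ha)⟩) ?_
    rintro a ⟨ha, ha2⟩
    have hk := (h.mem_zTwo_iff hS (hPS hx) hxA ha).1 ha2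
    have hn := (h.mem_normalizer_iff_kappa hS hPS hx hxA ha).2 (hZM hk)
    refine ⟨ha, ?_⟩
    have hb : conjAut P S ⟨a, h.le ha, hn⟩ ∈ autInducedBy S P := (range_conjAut (P := P) S).le ⟨_, rfl⟩
    have hI := mem_inn_of_stabilizes hS hF hP (K := Z) hZP hcent hb
      (fun y hy => Subtype.ext (by
        show a * (y : Ω) * a⁻¹ = y
        rw [(mem_centerIn.1 hy).2 a (h.le ha), mul_inv_cancel_right])) fun y => by
      show (y : Ω)⁻¹ * (a * (y : Ω) * a⁻¹) ∈ Z
      have h1 : a * (y : Ω) * a⁻¹ * (y : Ω)⁻¹ ∈ Z := (mem_zTwo.1 ha2).2 y (hPS y.2)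
      rw [show (y : Ω)⁻¹ * (a * (y : Ω) * a⁻¹) = (y : Ω)⁻¹ * (a * (y : Ω) * a⁻¹ * (y : Ω)⁻¹) * (y : Ω) by group,
        (mem_centerIn.1 h1).2 _ (S.inv_mem (hPS y.2)), inv_mul_cancel_right]
      exact h1
    obtain ⟨e, he⟩ := hI
    have hc : (e : Ω)⁻¹ * a ∈ centralizerIn S P := by
      refine ⟨S.mul_mem (S.inv_mem (hPS e.2)) (h.le ha), Subgroup.mem_centralizer_iff.2 fun y hy => ?_⟩
      have h3 : (e : Ω) * y * (e : Ω)⁻¹ = a * y * a⁻¹ :=
        congrArg (fun γ : MulAut P => ((γ ⟨y, hy⟩ : P) : Ω)) he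
      calc y * ((e : Ω)⁻¹ * a) = (e : Ω)⁻¹ * ((e : Ω) * y * (e : Ω)⁻¹) * a := by group
        _ = (e : Ω)⁻¹ * (a * y * a⁻¹) * a := by rw [h3]
        _ = (e : Ω)⁻¹ * a * y := by group
    simpa using P.mul_mem e.2 (hP.1.2 P (IsConj.refl hPS) hc)
  refine ⟨hM2, hcenA, ?_, hM2 ▸ hMcard⟩
  -- the normalizer
  set N := A ⊓ normalizerIn S P with hN
  haveI : Finite A := finite_of_le h.le
  set f := h.kappa hS (hPS hx)
  have hker : f.ker.map A.subtype = Z := h.kappa_ker hS (hPS hx) hxA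
  have hfN : (N.subgroupOf A).map f ≤ M := by
    rintro _ ⟨a, ha, rfl⟩
    exact (h.mem_normalizer_iff_kappa hS hPS hx hxA a.2).1 ha.2.2
  have hfM : (M.subgroupOf A).map f = Z ⊓ (N.subgroupOf A).map f := by
    ext z
    constructor
    · rintro ⟨a, ha, rfl⟩
      exact ⟨hPab a ha, ⟨a, ⟨a.2, h.le a.2, Subgroup.le_normalizer ha.2⟩, rfl⟩⟩
    · rintro ⟨hz, a, ha, rfl⟩
      refine ⟨a, ?_, rfl⟩
      show (a : Ω) ∈ M
      rw [hM2]
      exact ⟨a.2, (h.mem_zTwo_iff hS (hPS hx) hxA a.2).2 hz⟩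
  have hZN : Z ≤ N := hZM.trans (le_inf inf_le_left (inf_le_right.trans (le_inf hPS Subgroup.le_normalizer)))
  have hcN := card_eq_ker_mul_map f (inf_le_left : N ≤ A)
  have hcM := card_eq_ker_mul_map f (inf_le_left : M ≤ A)
  rw [hker, inf_eq_right.2 hZN] at hcN
  rw [hker, inf_eq_right.2 hZM, hfM] at hcM
  have hidx : Z.relIndex ((N.subgroupOf A).map f) ≤ p := by
    have h1 := card_eq_inf_mul_relIndex (K := Z) (H := M)
    rw [inf_eq_left.2 hZM, hMcard, mul_comm p] at h1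
    have h2 : Z.relIndex M = p := (Nat.eq_of_mul_eq_mul_left Nat.card_pos h1).symm
    exact (Subgroup.relIndex_le_of_le_right hfN (by rw [h2]; exact hp.ne_zero)).trans h2.le
  have hNle : Nat.card N ≤ p * Nat.card M := by
    have h4 := card_eq_inf_mul_relIndex (K := Z) (H := (N.subgroupOf A).map f)
    rw [hcN, hcM, h4]
    calc Nat.card Z * (Nat.card ↥(Z ⊓ (N.subgroupOf A).map f) * Z.relIndex ((N.subgroupOf A).map f))
        ≤ Nat.card Z * (Nat.card ↥(Z ⊓ (N.subgroupOf A).map f) * p) :=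
          Nat.mul_le_mul_left _ (Nat.mul_le_mul_left _ hidx)
      _ = _ := by ring
  obtain ⟨k, hk⟩ := IsPGroup.iff_card.1 (hS.to_le hPS)
  obtain ⟨l, hl⟩ := IsPGroup.iff_card.1 (hS.to_le (show normalizerIn S P ≤ S from inf_le_left))
  have hlt' : Nat.card P < Nat.card (normalizerIn S P) := lt_of_le_of_ne (Subgroup.card_le_of_le hNlt.le) fun e =>
    hNlt.ne (Subgroup.eq_of_le_of_card_ge hNlt.le e.ge)
  have hle' : Nat.card (normalizerIn S P) ≤ p * Nat.card P := by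
    rw [hN1, hP1]; exact Nat.mul_le_mul_left p hNle
  rw [hk, hl] at hlt'
  rw [hk, hl, ← pow_succ'] at hle' ⊢
  have h1 := (Nat.pow_lt_pow_iff_right hp.one_lt).1 hlt'
  have h2 := (Nat.pow_le_pow_iff_right hp.one_lt).1 hle'
  rw [show l = k + 1 by omega]

/-- The possible essential subgroups other than `A`. -/
theorem essential_structure (hPA : P ≠ A) :
    zTwo S ≤ A ∧ Nat.card (zTwo S) = p * Nat.card (centralizerIn S S) ∧
      Nat.card (normalizerIn S P) = p * Nat.card P ∧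
      ∃ x ∈ P, x ∉ A ∧
        ((A ⊓ P = centralizerIn S S ∧ P = centralizerIn S S ⊔ Subgroup.zpowers x ∧
            Nat.card (autInducedBy S P) = p ∧ ∀ a ∈ P, ∀ b ∈ P, a * b = b * a) ∨
          (A ⊓ P = zTwo S ∧ P = zTwo S ⊔ Subgroup.zpowers x ∧
            ∀ z ∈ P, (∀ y ∈ P, y * z = z * y) → z ∈ centralizerIn S S)) := by
  obtain ⟨x, hx, hxA⟩ := h.exists_not_mem hS hF hP hPA
  have hxS := hP.1.1 hx
  by_cases hab : ∀ a ∈ P, ∀ b ∈ P, a * b = b * a
  · obtain ⟨h1, h2, h3, h4⟩ := h.structure_abelian hS hF hP hx hxA hab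
    have hz := h.zTwo_le_of_card hS hxS hxA h4.le
    rw [inf_eq_right.2 hz] at h4
    exact ⟨hz, h4, h3, x, hx, hxA, Or.inl ⟨h1, h1 ▸ h.eq_sup hS hP.1.1 hx hxA, h2, hab⟩⟩
  · obtain ⟨h1, h2, h3, h4⟩ := h.structure_nonabelian hS hF hP hx hxA hab
    have hz := h.zTwo_le_of_card hS hxS hxA h4.le
    rw [inf_eq_right.2 hz] at h4 h1
    exact ⟨hz, h4, h3, x, hx, hxA, Or.inr ⟨h1, h1 ▸ h.eq_sup hS hP.1.1 hx hxA, h2⟩⟩

end AIP

end CfsgLib.Fusion
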