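import Cfsg.Agent.Fusion.GlaubermanCenter

/-!
Glauberman's factorization of fusion in constrained groups: it is generated by the centralizer of the `p`-th
powers of the centre of a Sylow subgroup and the normalizer of its Thompson subgroup.
-/

set_option autoImplicit false
set_option linter.style.haveILetI false

open Cfsg

namespace CfsgLib.Fusion

open CfsgLib.ZJ
open scoped commutatorElement Pointwise

universe u

variable {p : ℕ} [Fact p.Prime]

/-- When the Thompson subgroup is not normal, an element outside the core acts quadratically on `Z(O_p(G))`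
and has its `p`-th power in the core. -/
lemma exists_quadratic_pow_mem {G : Type u} [Group G] [Finite G] (P : Sylow p G)
    (hJn : ¬ (J p false (P : Subgroup G)).Normal) :
    ∃ g ∈ (P : Subgroup G), g ∉ Cfsg.pCore p G ∧ g ^ p ∈ Cfsg.pCore p G ∧
      ∀ v ∈ (Subgroup.center ↥(Cfsg.pCore p G)).map (Cfsg.pCore p G).subtype,
        g * (g * v * g⁻¹ * v⁻¹) = g * v * g⁻¹ * v⁻¹ * g := by
  set K := Cfsg.pCore p G with hK
  set V := (Subgroup.center ↥K).map K.subtype with hV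
  haveI hKn : K.Normal := Cfsg.pCore_normal p G
  haveI hVn : V.Normal := inferInstance
  have hKP : K ≤ (P : Subgroup G) := CfsgLib.PCore.pCore_le_sylow P
  have hVK : V ≤ K := Subgroup.map_subtype_le _
  have hVc : ∀ k ∈ K, ∀ v ∈ V, k * v = v * k := by
    rintro k hk _ ⟨v, hv, rfl⟩
    exact congrArg Subtype.val (Subgroup.mem_center_iff.1 hv ⟨k, hk⟩)
  have hJK : ¬ J p false (P : Subgroup G) ≤ K := fun h => hJn (by
    rw [← J_eq_of_le h hKP, J_eq_map_top]
    haveI : (J p false (⊤ : Subgroup ↥K)).Characteristic :=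
      Subgroup.characteristic_iff_map_eq.2 fun e => J_hom_top K K (CfsgLib.PCore.isPGroup_pCore p G) e
    infer_instance)
  obtain ⟨A, hA, hAK, hVA⟩ := exists_quadratic_member P V (hVK.trans hKP)
    (fun a ha b hb => hVc a (hVK ha) b hb) hVc hJK
  obtain ⟨g₀, hg₀, hg₀K⟩ := SetLike.not_le_iff_exists.1 hAK
  obtain ⟨g, hgz, hgK, hgp⟩ : ∃ g ∈ Subgroup.zpowers g₀, g ∉ K ∧ g ^ p ∈ K := by
    obtain ⟨m, hm⟩ := P.isPGroup' ⟨g₀, hA.1 hg₀⟩
    have hm' : g₀ ^ p ^ m ∈ K := by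
      rw [show g₀ ^ p ^ m = 1 from congrArg Subtype.val hm]
      exact K.one_mem
    clear hm
    induction m with
    | zero => rw [pow_zero, pow_one] at hm'; exact absurd hm' hg₀K
    | succ m ihm =>
      by_cases h : g₀ ^ p ^ m ∈ K
      · exact ihm h
      · exact ⟨_, Subgroup.npow_mem_zpowers g₀ _, h, by rwa [← pow_mul, ← pow_succ]⟩
  have hgA : g ∈ A := Subgroup.zpowers_le.2 hg₀ hgz
  refine ⟨g, hA.1 hgA, hgK, hgp, fun v hv => good_commute hA.2.1 hgA ?_⟩
  have e : g * v * g⁻¹ * v⁻¹ = g * (v * g⁻¹ * v⁻¹) := by group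
  rw [e]
  exact A.mul_mem hgA ((Subgroup.mem_normalizer_iff.1 (hVA hv) _).1 (A.inv_mem hgA))

/-- Glauberman's factorization, as a statement on fusion in a Sylow subgroup. -/
theorem fusion_factor : ∀ (G : Type u) [Group G] [Finite G] (P : Sylow p G),
    Subgroup.centralizer ((Cfsg.pCore p G : Subgroup G) : Set G) ≤ Cfsg.pCore p G →
    ∀ (T : Subgroup G → G → Prop),
      (∀ D g, D ≤ (P : Subgroup G) → (∀ x ∈ D, g * x * g⁻¹ ∈ (P : Subgroup G)) →
        (∀ w ∈ (P : Subgroup G), (∀ t ∈ (P : Subgroup G), t * w = w * t) → g * w ^ p = w ^ p * g) → T D g) →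
      (∀ D g, D ≤ (P : Subgroup G) → (∀ x ∈ D, g * x * g⁻¹ ∈ (P : Subgroup G)) →
        g ∈ Subgroup.normalizer (J p false (P : Subgroup G) : Set G) → T D g) →
      (∀ D m n, D ≤ (P : Subgroup G) → (∀ x ∈ D, n * x * n⁻¹ ∈ (P : Subgroup G)) →
        (∀ x ∈ D, m * n * x * (m * n)⁻¹ ∈ (P : Subgroup G)) → T D n →
        T (D.map (MulAut.conj n).toMonoidHom) m → T D (m * n)) →
      ∀ D g, D ≤ (P : Subgroup G) → (∀ x ∈ D, g * x * g⁻¹ ∈ (P : Subgroup G)) → T D g := by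
  intro G _ _
  induction hn : Nat.card G using Nat.strong_induction_on generalizing G with
  | _ n ih =>
  intro P hc T hC hN hcomp D g hD hDg
  by_cases hJn : (J p false (P : Subgroup G)).Normal
  · exact hN D g hD hDg (by haveI := hJn; rw [Subgroup.normalizer_eq_top]; trivial)
  obtain ⟨a, haP, haK, hap, hquad⟩ := exists_quadratic_pow_mem P hJn
  set K := Cfsg.pCore p G with hK
  haveI hKn : K.Normal := Cfsg.pCore_normal p G
  set V := (Subgroup.center ↥K).map K.subtype with hVdef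
  have hVn : V.Normal := inferInstance
  have hKP : K ≤ P := CfsgLib.PCore.pCore_le_sylow P
  have hVK : V ≤ K := Subgroup.map_subtype_le _
  have hVK' : ∀ v ∈ V, ∀ k ∈ K, k * v = v * k := by
    rintro _ ⟨v, hv, rfl⟩ k hk
    exact congrArg Subtype.val (Subgroup.mem_center_iff.1 hv ⟨k, hk⟩)
  set X : Set G := {y | ∃ h w : G, w ∈ (P : Subgroup G) ∧ (∀ t ∈ (P : Subgroup G), t * w = w * t) ∧
    y = h * w ^ p * h⁻¹} with hX
  set Nn := Subgroup.centralizer X with hNdef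
  have haN : a ∈ Nn := by
    refine Subgroup.mem_centralizer_iff.2 ?_
    rintro _ ⟨h, w, hw, hwP, rfl⟩
    have hwK : w ∈ K := hc (Subgroup.mem_centralizer_iff.2 fun k hk => hwP k (hKP hk))
    have hwV : w ∈ V :=
      ⟨⟨w, hwK⟩, Subgroup.mem_center_iff.2 fun k => Subtype.ext (hwP k (hKP k.2)), rfl⟩
    rw [← conj_pow]
    exact (commute_pow_of_quadratic (fun a ha b hb => hVK' b hb a (hVK ha))
      (fun v hv => hVn.conj_mem v hv a) hquad (fun v hv => hVK' v hv _ hap) (hVn.conj_mem w hwV h)).symm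
  haveI hNn : Nn.Normal := ⟨fun y hy b => Subgroup.mem_centralizer_iff.2 (by
    rintro _ ⟨h, w, hw, hwP, rfl⟩
    have h1 := Subgroup.mem_centralizer_iff.1 hy _ ⟨b⁻¹ * h, w, hw, hwP, rfl⟩
    calc h * w ^ p * h⁻¹ * (b * y * b⁻¹) = b * ((b⁻¹ * h * w ^ p * (b⁻¹ * h)⁻¹) * y) * b⁻¹ := by group
      _ = b * (y * (b⁻¹ * h * w ^ p * (b⁻¹ * h)⁻¹)) * b⁻¹ := by rw [h1]
      _ = b * y * b⁻¹ * (h * w ^ p * h⁻¹) := by group)⟩
  set M := Subgroup.normalizer (((P : Subgroup G) ⊓ Nn : Subgroup G) : Set G) with hM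
  have hPM : (P : Subgroup G) ≤ M := fun t ht => Subgroup.mem_normalizer_fintype fun y hy =>
    ⟨P.mul_mem (P.mul_mem ht hy.1) (P.inv_mem ht), hNn.conj_mem y hy.2 t⟩
  have hMtop : M ≠ ⊤ := by
    intro htop
    haveI hn' : ((P : Subgroup G) ⊓ Nn).Normal := Subgroup.normalizer_eq_top_iff.1 htop
    exact haK (CfsgLib.PCore.le_pCore hn' (P.isPGroup'.to_le inf_le_left) ⟨haP, haN⟩)
  have hlt : Nat.card M < n := hn ▸ lt_of_le_of_ne (Subgroup.card_le_card_group M)
    fun h => hMtop (Subgroup.eq_top_of_card_eq M h)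
  obtain ⟨U, hU⟩ := CfsgLib.Transfer.exists_sylow_map_eq_inf P Nn
  have hfr := Sylow.normalizer_sup_eq_top U
  rw [hU] at hfr
  have hg : g ∈ (M ⊔ Nn : Subgroup G) := by rw [hfr]; trivial
  rw [← SetLike.mem_coe, Subgroup.mul_normal] at hg
  obtain ⟨m, hm, y, hy, rfl⟩ := Set.mem_mul.1 hg
  -- a correction in `N_{Nn}(P ∩ Nn)`
  set D' := D.map (MulAut.conj y).toMonoidHom with hD'
  set L := ((P : Subgroup G) ⊔ Nn) ⊓ M with hL
  have hD'L : D' ≤ L := by
    rintro _ ⟨x, hx, rfl⟩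
    refine ⟨?_, ?_⟩
    · have e : (MulAut.conj y).toMonoidHom x = (y * (x * y⁻¹ * x⁻¹)) * x := by simp [mul_assoc]
      rw [e]
      exact mul_mem (Subgroup.mem_sup_right (mul_mem hy (hNn.conj_mem _ (inv_mem hy) x)))
        (Subgroup.mem_sup_left (hD hx))
    · have e : (MulAut.conj y).toMonoidHom x = m⁻¹ * (m * y * x * (m * y)⁻¹) * m := by simp [mul_assoc]
      rw [e]
      exact M.mul_mem (M.mul_mem (M.inv_mem hm) (hPM (hDg x hx))) hm
  obtain ⟨Q, hQ⟩ := (((P.isPGroup'.to_le hD).map (MulAut.conj y).toMonoidHom).comap_subtype :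
    IsPGroup p (D'.subgroupOf L)).exists_le_sylow
  obtain ⟨h, hh⟩ := MulAction.exists_smul_eq L Q (P.subtype (le_inf le_sup_left hPM))
  have hhP : (h : G) ∈ ((P : Subgroup G) ⊔ Nn : Subgroup G) := h.2.1
  rw [← SetLike.mem_coe, Subgroup.mul_normal] at hhP
  obtain ⟨t, ht, y', hy', hty⟩ := Set.mem_mul.1 hhP
  have hy'M : y' ∈ M := by
    rw [show y' = t⁻¹ * h by rw [← hty, inv_mul_cancel_left]]
    exact M.mul_mem (M.inv_mem (hPM ht)) h.2.2
  have hy'D : ∀ x ∈ D', y' * x * y'⁻¹ ∈ (P : Subgroup G) := by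
    intro x hx
    have h1 : h * (⟨x, hD'L hx⟩ : L) * h⁻¹ ∈ (P.subtype (le_inf le_sup_left hPM) : Sylow p L) := by
      rw [← hh]
      exact CfsgLib.Transfer.conj_mem_smul_sylow.2 (hQ hx)
    have h2 : (h : G) * x * (h : G)⁻¹ ∈ (P : Subgroup G) := h1
    rw [← hty] at h2
    have := P.mul_mem (P.mul_mem (P.inv_mem ht) h2) ht
    simpa [mul_assoc] using this
  set n₁ := y' * y with hn₁
  set m₁ := m * y'⁻¹ with hm₁
  have hsplit : m * y = m₁ * n₁ := by rw [hm₁, hn₁]; group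
  rw [hsplit] at hDg ⊢
  have hDn₁ : ∀ x ∈ D, n₁ * x * n₁⁻¹ ∈ (P : Subgroup G) := fun x hx => by
    have := hy'D _ ⟨x, hx, rfl⟩
    simpa [hn₁, mul_assoc] using this
  refine hcomp D m₁ n₁ hD hDn₁ hDg (hC D n₁ hD hDn₁ fun w hw hwP => ?_) ?_
  · have := Subgroup.mem_centralizer_iff.1 (mul_mem hy' hy : n₁ ∈ Nn) _ ⟨1, w, hw, hwP, rfl⟩
    simpa using this.symm
  -- the part in `M`
  let P' : Sylow p M := P.subtype hPM
  have hcM : Subgroup.centralizer ((Cfsg.pCore p M : Subgroup M) : Set M) ≤ Cfsg.pCore p M := by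
    have hKM : K.subgroupOf M ≤ Cfsg.pCore p M := CfsgLib.PCore.le_pCore inferInstance
      ((CfsgLib.PCore.isPGroup_pCore p G).of_equiv (Subgroup.subgroupOfEquivOfLe (hKP.trans hPM)).symm)
    refine fun y hy => hKM (hc (Subgroup.mem_centralizer_iff.2 fun k hk => ?_))
    exact congrArg Subtype.val (Subgroup.mem_centralizer_iff.1 hy ⟨k, hPM (hKP hk)⟩ (hKM hk))
  set D₁ := D.map (MulAut.conj n₁).toMonoidHom with hD₁def
  have hD₁ : D₁ ≤ (P : Subgroup G) := by
    rintro _ ⟨x, hx, rfl⟩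
    exact hDn₁ x hx
  have key := ih _ hlt M rfl P' hcM (fun E c => T (E.map M.subtype) c) ?_ ?_ ?_ (D₁.subgroupOf M)
    ⟨m₁, M.mul_mem hm (M.inv_mem hy'M)⟩ (fun x hx => hD₁ hx) ?_
  · rwa [Subgroup.map_subgroupOf_eq_of_le (hD₁.trans hPM)] at key
  · intro E c hE hEc hw
    refine hC _ _ ?_ ?_ fun w hwm hwP => ?_
    · rintro _ ⟨x, hx, rfl⟩; exact hE hx
    · rintro _ ⟨x, hx, rfl⟩; exact hEc x hx
    · exact congrArg Subtype.val (hw ⟨w, hPM hwm⟩ hwm fun t ht => Subtype.ext (hwP t ht))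
  · intro E c hE hEc hc'
    refine hN _ _ ?_ ?_ ?_
    · rintro _ ⟨x, hx, rfl⟩; exact hE hx
    · rintro _ ⟨x, hx, rfl⟩; exact hEc x hx
    · have e : J p false (P : Subgroup G) = (J p false (P' : Subgroup M)).map M.subtype := by
        rw [← J_map M.subtype fun x _ hx => M.subtype_injective (hx.trans (map_one _).symm)]
        congr 1
        exact (Subgroup.map_subgroupOf_eq_of_le hPM).symm
      rw [e]
      exact Subgroup.le_normalizer_map _ ⟨c, hc', rfl⟩
  · intro E c d hE hEd hEcd h1 h2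
    refine hcomp _ _ _ ?_ ?_ ?_ h1 ?_
    · rintro _ ⟨x, hx, rfl⟩; exact hE hx
    · rintro _ ⟨x, hx, rfl⟩; exact hEd x hx
    · rintro _ ⟨x, hx, rfl⟩; exact hEcd x hx
    · rw [Subgroup.map_map] at h2 ⊢
      exact h2
  · rintro x hx
    have hx' : (x : G) ∈ D₁ := hx
    obtain ⟨x₀, hx₀, hxe⟩ := hx'
    have := hDg x₀ hx₀
    show m₁ * (x : G) * m₁⁻¹ ∈ (P : Subgroup G)
    rw [← hxe]
    simpa [mul_assoc] using this

end CfsgLib.Fusion
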