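import Cfsg.Agent.Fusion.PPowerIndexNormal
import Cfsg.Agent.Fusion.InvariantTwist
import Cfsg.Agent.Fusion.PrimeToPFamily

/-!
Normality of a subsystem of a normal subsystem that is stable under the outer automorphisms.
-/

set_option autoImplicit false
set_option linter.style.haveILetI false

open Cfsg

namespace CfsgLib.Fusion

open Cfsg.FusionSystem

universe u

variable {Ω : Type u} [Group Ω] {S S₁ T R : Subgroup Ω} {F : Cfsg.FusionSystem S} {F₁ : Cfsg.FusionSystem S₁}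
variable {E : Cfsg.FusionSystem T} {D : Cfsg.FusionSystem R} {P Q : Subgroup Ω}
variable {p : ℕ} [Fact p.Prime]

omit [Fact p.Prime] in
/-- A system is stable under its own automorphisms of the top. -/
lemma invBy_self (F : Cfsg.FusionSystem S) : InvBy F (F.autGroup S) := by
  intro P φ hφ α hα R hR h
  have h1 : (S.subtype.comp α.toMonoidHom).comp (Subgroup.inclusion hR) ∈ F.Hom R :=
    restrict ((mem_autGroup le_rfl).1 hα) hR
  have h2 := comp_of_eq h1 hφ h (χ := φ.comp (((S.subtype.comp α.toMonoidHom).comp (Subgroup.inclusion hR)).codRestrict P h))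
    fun _ => rfl
  exact comp_of_eq h2 ((mem_autGroup le_rfl).1 (inv_mem hα)) (fun r => val_mem hφ _) fun r => rfl

omit [Fact p.Prime] in
/-- Stability under products. -/
lemma invBy_mul {A : Subgroup (MulAut T)} {a b : MulAut T}
    (ha : ∀ (P : Subgroup Ω) (φ : P →* Ω) (hφ : φ ∈ E.Hom P) (R : Subgroup Ω) (hR : R ≤ T)
      (h : ∀ r : R, ((a ⟨r, hR r.2⟩ : T) : Ω) ∈ P), twist hφ a hR h ∈ E.Hom R)
    (hA : InvBy E A) (hb : b ∈ A) :
    ∀ (P : Subgroup Ω) (φ : P →* Ω) (hφ : φ ∈ E.Hom P) (R : Subgroup Ω) (hR : R ≤ T)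
      (h : ∀ r : R, (((a * b) ⟨r, hR r.2⟩ : T) : Ω) ∈ P), twist hφ (a * b) hR h ∈ E.Hom R := by
  intro P φ hφ R hR h
  obtain ⟨R', hR'def⟩ : ∃ R', R' = (R.subgroupOf T).map (T.subtype.comp b.toMonoidHom) := ⟨_, rfl⟩
  have hR' : R' ≤ T := by rw [hR'def]; rintro _ ⟨x, -, rfl⟩; exact (b x).2
  have hb' : ∀ r : R, ((b ⟨r, hR r.2⟩ : T) : Ω) ∈ R' := fun r => hR'def ▸ ⟨⟨r, hR r.2⟩, r.2, rfl⟩
  have hm : ∀ r : R', ((a ⟨r, hR' r.2⟩ : T) : Ω) ∈ P := by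
    intro r
    obtain ⟨x, hx, e⟩ := hR'def.le r.2
    have h1 := h ⟨x, hx⟩
    rw [MulAut.mul_apply] at h1
    rw [show (⟨r, hR' r.2⟩ : T) = b x from Subtype.ext e.symm]
    exact h1
  have h2 := ha P φ hφ R' hR' hm
  refine mem_of_eq (hA R' _ h2 b hb R hR hb') fun r => ?_
  rw [twist_apply, twist_apply, mul_inv_rev, MulAut.mul_apply]
  exact congrArg (fun z : T => ((b⁻¹ z : T) : Ω)) (Subtype.ext rfl)

omit [Fact p.Prime] in
/-- The invariance clause from stability. -/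
lemma invariance_of_invBy {A : Subgroup (MulAut T)} (hA : InvBy E A) (hPT : P ≤ T) {φ : P →* Ω}
    (hφ : φ ∈ E.Hom P) {α : MulAut T} (hα : α ∈ A) :
    ∃ χ ∈ E.Hom ((P.subgroupOf T).map (T.subtype.comp α.toMonoidHom)),
      ∀ (x : P) (hφx : φ x ∈ T)
        (hαx : ((α ⟨x, hPT x.2⟩ : T) : Ω) ∈ (P.subgroupOf T).map (T.subtype.comp α.toMonoidHom)),
        χ ⟨(α ⟨x, hPT x.2⟩ : T), hαx⟩ = ((α ⟨φ x, hφx⟩ : T) : Ω) := by
  have hR : (P.subgroupOf T).map (T.subtype.comp α.toMonoidHom) ≤ T := by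
    rintro _ ⟨x, -, rfl⟩; exact (α x).2
  have hm : ∀ r : ↥((P.subgroupOf T).map (T.subtype.comp α.toMonoidHom)), ((α⁻¹ ⟨r, hR r.2⟩ : T) : Ω) ∈ P := by
    rintro ⟨_, x, hx, rfl⟩
    show ((α⁻¹ (α x) : T) : Ω) ∈ P
    rw [MulAut.inv_apply_self]; exact hx
  refine ⟨_, hA P φ hφ α⁻¹ (inv_mem hα) _ hR hm, fun x hφx hαx => ?_⟩
  show ((α⁻¹⁻¹ ⟨φ ⟨((α⁻¹ ⟨((α ⟨(x : Ω), _⟩ : T) : Ω), _⟩ : T) : Ω), _⟩, _⟩ : T) : Ω) = _
  simp only [inv_inv, Subtype.coe_eta, MulAut.inv_apply_self]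

omit [Fact p.Prime] in
/-- When `C_S(R) ≤ R` the extension condition is empty. -/
lemma extension_of_centralizer_le (hRS : R ≤ S) (hcen : centralizerIn S R ≤ R) (hDF : D.IsSubsystemOf F) :
    ∀ α ∈ D.autGroup R, ∃ β ∈ F.autGroup (R ⊔ centralizerIn S R),
      (∀ x : R, ((β (Subgroup.inclusion le_sup_left x) : ↥(R ⊔ centralizerIn S R)) : Ω) = ((α x : R) : Ω)) ∧
      ∀ c : ↥(R ⊔ centralizerIn S R), (c : Ω) ∈ centralizerIn S R →
        (c : Ω)⁻¹ * ((β c : ↥(R ⊔ centralizerIn S R)) : Ω) ∈ R ⊓ Subgroup.centralizer (R : Set Ω) := by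
  intro α hα
  have hle : R ⊔ centralizerIn S R ≤ R := sup_le le_rfl hcen
  have hge : R ≤ R ⊔ centralizerIn S R := le_sup_left
  let β : MulAut ↥(R ⊔ centralizerIn S R) :=
    { toFun := fun x => ⟨(α ⟨x, hle x.2⟩ : R), hge (α _).2⟩
      invFun := fun x => ⟨(α⁻¹ ⟨x, hle x.2⟩ : R), hge (α⁻¹ _).2⟩
      left_inv := fun x => Subtype.ext (by simp)
      right_inv := fun x => Subtype.ext (by simp)
      map_mul' := fun x y => Subtype.ext (by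
        show ((α ⟨((x * y : ↥(R ⊔ centralizerIn S R)) : Ω), _⟩ : R) : Ω) = _
        rw [show (⟨((x * y : ↥(R ⊔ centralizerIn S R)) : Ω), hle (x * y).2⟩ : R) =
          ⟨x, hle x.2⟩ * ⟨y, hle y.2⟩ from rfl, map_mul]
        rfl) }
  refine ⟨β, (mem_autGroup (hle.trans hRS)).2
    (restrict_of_eq (hDF R ((mem_autGroup le_rfl).1 hα)) hle fun _ => rfl),
    fun x => rfl, fun c hc => ⟨R.mul_mem (R.inv_mem (hle c.2)) (α _).2, mul_mem (Subgroup.inv_mem _ hc.2) ?_⟩⟩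
  refine Subgroup.mem_centralizer_iff.2 fun s hs => ?_
  obtain ⟨u, hu⟩ := α.surjective ⟨s, hs⟩
  have h3 : u * ⟨c, hle c.2⟩ = ⟨c, hle c.2⟩ * u := Subtype.ext (Subgroup.mem_centralizer_iff.1 hc.2 u u.2)
  have h4 := congrArg (fun w : R => ((α w : R) : Ω)) h3
  simp only [map_mul, hu] at h4
  exact h4

omit [Fact p.Prime] in
/-- A saturated system is normal in itself. -/
theorem isNormalIn_self (hF : F.IsSaturated p) : F.IsNormalIn F p := by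
  refine ⟨⟨hF, hF, fun _ _ h => h, ⟨le_rfl, fun _ _ φ hφ x => val_mem hφ x⟩, ?_, ?_⟩,
    extension_of_centralizer_le le_rfl inf_le_left (fun _ _ h => h)⟩
  · intro P hP φ hφ α hα
    exact invariance_of_invBy (invBy_self F) hP hφ hα
  · intro P _ φ hφ
    exact ⟨1, one_mem _, φ, hφ, fun _ _ => rfl⟩

omit [Fact p.Prime] in
/-- A subsystem normal in a normal subsystem, stable under the automorphisms coming from outside, is normal. -/
theorem isNormalIn_of_outer [Finite S] (h₁ : F₁.IsNormalIn F p) (hD : D.IsSaturated p) (hDi : D.IsInvariantIn F₁)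
    (hcen : centralizerIn S R ≤ R) (B : Subgroup (MulAut R)) (hDB : InvBy D B)
    (hext : ∀ a ∈ F.autGroup S₁, ∃ b ∈ B, ∀ x : R,
      ((b x : R) : Ω) = ((a ⟨x, hDi.2.1.1 x.2⟩ : S₁) : Ω)) : D.IsNormalIn F p := by
  have hRS₁ := hDi.2.1.1
  have hF₁F := h₁.1.2.2.1
  have hS₁ := h₁.1.2.2.2.1
  have hRS := hRS₁.trans hS₁.1
  haveI := finite_of_le hRS
  have hDF : D.IsSubsystemOf F := fun P φ h => hF₁F P (hDi.1 P h)
  have key : ∀ (P : Subgroup Ω), P ≤ R → ∀ φ ∈ F.Hom P, ∃ a ∈ F.autGroup S₁, ∃ φ₀ ∈ F₁.Hom P,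
      ∃ b ∈ B, b ∈ F.autGroup R ∧ ∀ x : P, ∃ h0 : φ₀ x ∈ R, φ x = ((b ⟨φ₀ x, h0⟩ : R) : Ω) := by
    intro P hP φ hφ
    obtain ⟨a, ha, φ₀, hφ₀, hag⟩ := h₁.1.2.2.2.2.2 P (hP.trans hRS₁) φ hφ
    obtain ⟨b, hb, hba⟩ := hext a ha
    refine ⟨a, ha, φ₀, hφ₀, b, hb, (mem_autGroup hRS).2 (restrict_of_eq ((mem_autGroup hS₁.1).1 ha) hRS₁ hba),
      fun x => ⟨hDi.2.1.2 P hP φ₀ hφ₀ x, ?_⟩⟩
    exact (hag x (val_mem hφ₀ x)).trans (hba ⟨φ₀ x, hDi.2.1.2 P hP φ₀ hφ₀ x⟩).symm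
  have hsc : F.StronglyClosed R := ⟨hRS, fun P hP φ hφ x => by
    obtain ⟨-, -, φ₀, -, b, -, -, hb⟩ := key P hP φ hφ
    obtain ⟨h0, e⟩ := hb x
    rw [e]; exact (b _).2⟩
  have hI₁ := invBy_of_isInvariant hDi
  have hIR : InvBy D (F.autGroup R) := by
    intro P φ hφ α hα Q hQ hm
    obtain ⟨a, ha, φ₀, hφ₀, b, hb, hbF, hx⟩ := key R le_rfl _ ((mem_autGroup hRS).1 hα)
    have hv : ∀ x, φ₀ x ∈ R := fun x => (hx x).1
    have hbij : Function.Bijective (φ₀.codRestrict R hv) :=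
      Finite.injective_iff_bijective.1 fun x y h => F₁.injective_of_mem hφ₀ (congrArg Subtype.val h :)
    obtain ⟨γ, hγ⟩ : ∃ γ : MulAut R, ∀ x, ((γ x : R) : Ω) = φ₀ x := ⟨MulEquiv.ofBijective _ hbij, fun _ => rfl⟩
    have hγF : γ ∈ F₁.autGroup R := (mem_autGroup hRS₁).2 (mem_of_eq hφ₀ hγ)
    have hαbγ : α = b * γ := MulEquiv.ext fun x => Subtype.ext (by
      obtain ⟨h0, e⟩ := hx x
      refine e.trans (congrArg (fun z : R => ((b z : R) : Ω)) (Subtype.ext (hγ x).symm)))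
    subst hαbγ
    exact invBy_mul (fun P' φ' hφ' Q' hQ' hm' => hDB P' φ' hφ' b hb Q' hQ' hm') hI₁ hγF P φ hφ Q hQ hm
  refine ⟨⟨hD, h₁.1.2.1, hDF, hsc, fun P hP φ hφ α hα => invariance_of_invBy hIR hP hφ hα, ?_⟩,
    extension_of_centralizer_le hRS hcen hDF⟩
  intro P hP φ hφ
  obtain ⟨a, ha, φ₀, hφ₀, b, hb, hbF, hx⟩ := key P hP φ hφ
  obtain ⟨γ, hγ, ψ, hψ, hag⟩ := hDi.2.2.2 P hP φ₀ hφ₀
  refine ⟨b * γ, mul_mem hbF ((mem_autGroup hRS).2 (hF₁F R ((mem_autGroup hRS₁).1 hγ))), ψ, hψ, fun x hx' => ?_⟩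
  obtain ⟨h0, e⟩ := hx x
  rw [e, MulAut.mul_apply]
  exact congrArg (fun z : R => ((b z : R) : Ω)) (Subtype.ext (hag x hx'))

end CfsgLib.Fusion
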