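import Cfsg.Agent.Fusion.GlaubermanPower
import Cfsg.Agent.Transfer.Frobenius

/-!
In a constrained group with a Sylow subgroup whose iterated commutators vanish early, the `p^n`-th powers
of its centre generate a normal subgroup.
-/

set_option autoImplicit false
set_option linter.style.haveILetI false

open Cfsg

namespace CfsgLib.Fusion

universe u

variable {p : ℕ} [Fact p.Prime]

open Polynomial in
/-- `(1 + t)^p = 1 + t^p + p t + p t² r`. -/
lemma exists_one_add_pow_prime (R : Type*) [Ring R] (t : R) :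
    ∃ r : R, (1 + t) ^ p = 1 + t ^ p + p * t + p * t ^ 2 * r ∧ Commute t r := by
  have hp : p.Prime := Fact.out
  have h2 : 2 ≤ p := hp.two_le
  have key : ∃ r : ℤ[X], (1 + X : ℤ[X]) ^ p = 1 + X ^ p + (p : ℤ[X]) * X + (p : ℤ[X]) * X ^ 2 * r := by
    refine ⟨∑ i ∈ Finset.Ico 2 p, X ^ (i - 2) * ((p.choose i / p : ℕ) : ℤ[X]), ?_⟩
    rw [add_comm (1 : ℤ[X]), add_pow]
    rw [Finset.sum_range_succ, ← Finset.sum_range_add_sum_Ico _ h2, Finset.sum_range_succ, Finset.sum_range_one,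
      Finset.mul_sum]
    have hsum : ∀ i ∈ Finset.Ico 2 p, X ^ i * 1 ^ (p - i) * ((p.choose i : ℕ) : ℤ[X]) =
        (p : ℤ[X]) * X ^ 2 * (X ^ (i - 2) * ((p.choose i / p : ℕ) : ℤ[X])) := by
      intro i hi
      rw [Finset.mem_Ico] at hi
      obtain ⟨c, hc⟩ := hp.dvd_choose_self (by omega : i ≠ 0) hi.2
      rw [hc, Nat.mul_div_cancel_left _ hp.pos, one_pow, mul_one, Nat.cast_mul]
      have : (X : ℤ[X]) ^ i = X ^ 2 * X ^ (i - 2) := by rw [← pow_add]; congr 1; omega
      rw [this]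
      ring
    rw [Finset.sum_congr rfl hsum]
    simp only [pow_zero, one_pow, mul_one, Nat.choose_zero_right, Nat.cast_one, pow_one, Nat.choose_one_right,
      Nat.choose_self, tsub_self]
    ring
  obtain ⟨r, hr⟩ := key
  refine ⟨Polynomial.aeval (R := ℤ) t r, ?_, ?_⟩
  · have := congrArg (Polynomial.aeval (R := ℤ) t) hr
    simpa using this
  · have := congrArg (Polynomial.aeval (R := ℤ) t) (mul_comm (X : ℤ[X]) r)
    simp only [map_mul, Polynomial.aeval_X] at this
    exact this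

/-- If `(1 + t)^p = 1` and `t^k = 0` then `p^m t^j = 0` for `m (p - 1) + j ≥ k`, `j ≥ 1`. -/
lemma prime_pow_mul_pow_eq_zero {R : Type*} [Ring R] {t : R} {k : ℕ} (h1 : (1 + t) ^ p = 1) (hk : t ^ k = 0) :
    ∀ m j : ℕ, 1 ≤ j → k ≤ m * (p - 1) + j → (p : R) ^ m * t ^ j = 0 := by
  obtain ⟨r, hr, hcomm⟩ := exists_one_add_pow_prime (p := p) R t
  rw [h1, add_assoc, add_assoc, left_eq_add] at hr
  intro m
  induction m with
  | zero =>
    intro j _ hkj
    rw [pow_zero, one_mul, show j = k + (j - k) by omega, pow_add, hk, zero_mul]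
  | succ m ihm =>
    intro j hj hkj
    induction hd : k - j using Nat.strong_induction_on generalizing j with
    | _ d ihd =>
    rcases Nat.lt_or_ge j k with hjk | hjk
    · have hpt : (p : R) * t = -(t ^ p + (p : R) * t ^ 2 * r) := by
        rw [eq_neg_iff_add_eq_zero]
        calc (p : R) * t + (t ^ p + (p : R) * t ^ 2 * r) = t ^ p + ((p : R) * t + (p : R) * t ^ 2 * r) := by abel
          _ = 0 := hr
      have h3 : (p : R) ^ (m + 1) * t ^ j = (p : R) ^ m * ((p : R) * t) * t ^ (j - 1) := by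
        rw [pow_succ, mul_assoc, mul_assoc, mul_assoc]
        congr 2
        rw [← pow_succ']
        congr 1
        omega
      rw [h3, hpt, mul_neg, neg_mul, neg_eq_zero, mul_add, add_mul]
      have e1 : (p : R) ^ m * t ^ p * t ^ (j - 1) = (p : R) ^ m * t ^ (j + (p - 1)) := by
        rw [mul_assoc, ← pow_add]
        congr 2
        have := (Fact.out : p.Prime).two_le
        omega
      have e2 : (p : R) ^ m * ((p : R) * t ^ 2 * r) * t ^ (j - 1) = (p : R) ^ (m + 1) * t ^ (j + 1) * r := by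
        have hr2 : r * t ^ (j - 1) = t ^ (j - 1) * r := (hcomm.pow_left (j - 1)).eq.symm
        rw [pow_succ (p : R) m]
        simp only [mul_assoc]
        rw [hr2, ← mul_assoc (t ^ 2), ← pow_add]
        congr 3
        congr 1
        omega
      have hadd : (m + 1) * (p - 1) = m * (p - 1) + (p - 1) := by ring
      rw [e1, e2, ihm (j + (p - 1)) (by omega) (by omega),
        ihd (k - (j + 1)) (by omega) (j + 1) (by omega) (by omega) rfl, zero_mul, add_zero]
    · rw [show j = k + (j - k) by omega, pow_add t, hk, zero_mul, mul_zero]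

/-- An element of order `p` on an abelian group whose iterated commutators vanish fixes `p^n`-th powers. -/
lemma commute_pow_pow_of_iterate {G : Type*} [Group G] {V : Subgroup G} {g : G} {n : ℕ}
    (hV : ∀ a ∈ V, ∀ b ∈ V, a * b = b * a) (hgV : ∀ v ∈ V, g * v * g⁻¹ ∈ V)
    (hit : ∀ v ∈ V, (fun x => g * x * g⁻¹ * x⁻¹)^[n * (p - 1) + 1] v = 1)
    (hp : ∀ v ∈ V, g ^ p * v = v * g ^ p) {v : G} (hv : v ∈ V) : g * v ^ p ^ n = v ^ p ^ n * g := by
  letI : CommGroup V := { (inferInstance : Group V) with mul_comm := fun a b => Subtype.ext (hV a a.2 b b.2) }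
  let σ : V →* V := MonoidHom.mk' (fun a => ⟨g * a * g⁻¹, hgV a a.2⟩) fun a b => Subtype.ext (by
    show g * ((a : G) * b) * g⁻¹ = g * a * g⁻¹ * (g * b * g⁻¹)
    group)
  let s : AddMonoid.End (Additive V) := MonoidHom.toAdditive σ
  set t := s - 1 with ht
  have hs : s = 1 + t := by rw [ht]; abel
  have hspow : ∀ (i : ℕ) (a : V), ((Additive.toMul ((s ^ i) (Additive.ofMul a)) : V) : G) = g ^ i * a * (g ^ i)⁻¹ := by
    intro i
    induction i with
    | zero => intro a; simp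
    | succ i ih =>
      intro a
      rw [pow_succ']
      show ((σ (Additive.toMul ((s ^ i) (Additive.ofMul a))) : V) : G) = _
      show g * ((Additive.toMul ((s ^ i) (Additive.ofMul a)) : V) : G) * g⁻¹ = _
      rw [ih, pow_succ' g i]
      group
  have h1 : (1 + t) ^ p = 1 := by
    rw [← hs]
    refine DFunLike.ext _ _ fun a => ?_
    obtain ⟨a, rfl⟩ := Additive.ofMul.surjective a
    refine Additive.toMul.injective (Subtype.ext ?_)
    rw [hspow, AddMonoid.End.coe_one, id, toMul_ofMul, hp a a.2, mul_inv_cancel_right]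
  have htpow : ∀ (i : ℕ) (a : V), ((Additive.toMul ((t ^ i) (Additive.ofMul a)) : V) : G) =
      (fun x => g * x * g⁻¹ * x⁻¹)^[i] (a : G) := by
    intro i
    induction i with
    | zero => intro a; simp
    | succ i ih =>
      intro a
      rw [pow_succ', Function.iterate_succ_apply', ← ih a]
      show ((σ (Additive.toMul ((t ^ i) (Additive.ofMul a))) / Additive.toMul ((t ^ i) (Additive.ofMul a)) : V) : G) = _
      rw [div_eq_mul_inv]
      rfl
  have hk : t ^ (n * (p - 1) + 1) = 0 := by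
    refine DFunLike.ext _ _ fun a => ?_
    obtain ⟨a, rfl⟩ := Additive.ofMul.surjective a
    refine Additive.toMul.injective (Subtype.ext ?_)
    rw [htpow, hit a a.2]
    rfl
  have h0 := prime_pow_mul_pow_eq_zero h1 hk n 1 le_rfl le_rfl
  rw [pow_one, ← Nat.cast_pow, ← nsmul_eq_mul] at h0
  have h2 : ((Additive.toMul ((p ^ n • t) (Additive.ofMul (⟨v, hv⟩ : V))) : V) : G) = 1 := by rw [h0]; rfl
  have h3 : (g * v * g⁻¹ * v⁻¹) ^ p ^ n = 1 := by
    have := htpow 1 ⟨v, hv⟩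
    rw [pow_one, Function.iterate_one] at this
    rw [show (p ^ n • t) (Additive.ofMul (⟨v, hv⟩ : V)) = p ^ n • t (Additive.ofMul (⟨v, hv⟩ : V)) from rfl,
      toMul_nsmul, SubgroupClass.coe_pow, this] at h2
    exact h2
  have hc : Commute (g * v * g⁻¹) v⁻¹ := hV _ (hgV v hv) _ (V.inv_mem hv)
  rw [hc.mul_pow, inv_pow, mul_inv_eq_one, conj_pow] at h3
  exact mul_inv_eq_iff_eq_mul.1 h3

/-- The `p^n`-th powers of the centre of the Sylow subgroup generate a normal subgroup. -/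
theorem powers_center_normal (n : ℕ) : ∀ (G : Type u) [Group G] [Finite G] (P : Sylow p G),
    Subgroup.centralizer ((Cfsg.pCore p G : Subgroup G) : Set G) ≤ Cfsg.pCore p G →
    (∀ g ∈ (P : Subgroup G), ∀ v ∈ (P : Subgroup G), (fun x => g * x * g⁻¹ * x⁻¹)^[n * (p - 1) + 1] v = 1) →
    (Subgroup.closure {y : G | ∃ w ∈ (P : Subgroup G), (∀ t ∈ (P : Subgroup G), t * w = w * t) ∧
      y = w ^ p ^ n}).Normal := by
  intro G _ _
  induction hn : Nat.card G using Nat.strong_induction_on generalizing G with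
  | _ N ih =>
  intro P hc hit
  set Y : Set G := {y : G | ∃ w ∈ (P : Subgroup G), (∀ t ∈ (P : Subgroup G), t * w = w * t) ∧ y = w ^ p ^ n}
    with hY
  suffices hinv : ∀ g : G, ∀ y ∈ Y, g * y * g⁻¹ ∈ Subgroup.closure Y by
    constructor
    intro x hx g
    have : Subgroup.closure Y ≤ (Subgroup.closure Y).comap (MulAut.conj g).toMonoidHom := by
      rw [Subgroup.closure_le]
      exact fun y hy => hinv g y hy
    exact this hx
  set K := Cfsg.pCore p G with hK
  haveI hKn : K.Normal := Cfsg.pCore_normal p G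
  have hKP : K ≤ P := CfsgLib.PCore.pCore_le_sylow P
  set V := (Subgroup.center ↥K).map K.subtype with hVdef
  have hVn : V.Normal := inferInstance
  have hVK : V ≤ K := Subgroup.map_subtype_le _
  have hVK' : ∀ v ∈ V, ∀ k ∈ K, k * v = v * k := by
    rintro _ ⟨v, hv, rfl⟩ k hk
    exact congrArg Subtype.val (Subgroup.mem_center_iff.1 hv ⟨k, hk⟩)
  by_cases hPK : (P : Subgroup G) ≤ K
  · -- `P` is normal
    rintro g _ ⟨w, hw, hwP, rfl⟩
    have hPn : ∀ z ∈ (P : Subgroup G), ∀ b : G, b * z * b⁻¹ ∈ (P : Subgroup G) := fun z hz b =>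
      hKP (hKn.conj_mem z (hPK hz) b)
    refine Subgroup.subset_closure ⟨g * w * g⁻¹, hPn w hw g, fun t ht => ?_, conj_pow.symm⟩
    have h1 := hwP _ (hPn t ht g⁻¹)
    calc t * (g * w * g⁻¹) = g * ((g⁻¹ * t * g⁻¹⁻¹) * w) * g⁻¹ := by group
      _ = g * (w * (g⁻¹ * t * g⁻¹⁻¹)) * g⁻¹ := by rw [h1]
      _ = g * w * g⁻¹ * t := by group
  obtain ⟨g₀, hg₀P, hg₀K⟩ := SetLike.not_le_iff_exists.1 hPK
  obtain ⟨a, haz, haK, hap⟩ : ∃ g ∈ Subgroup.zpowers g₀, g ∉ K ∧ g ^ p ∈ K := by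
    obtain ⟨m, hm⟩ := P.isPGroup' ⟨g₀, hg₀P⟩
    have hm' : g₀ ^ p ^ m ∈ K := by
      rw [show g₀ ^ p ^ m = 1 from congrArg Subtype.val hm]
      exact K.one_mem
    clear hm
    induction m with
    | zero => rw [pow_zero, pow_one] at hm'; exact absurd hm' hg₀K
    | succ m ihm =>
      by_cases h : g₀ ^ p ^ m ∈ K
      · exact ihm h
      · exact ⟨_, Subgroup.npow_mem_zpowers g₀ _, h, by rwa [← pow_mul, ← pow_succ]⟩
  have haP : a ∈ (P : Subgroup G) := (Subgroup.zpowers_le.2 hg₀P) haz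
  set X : Set G := {y | ∃ h : G, ∃ z ∈ Y, y = h * z * h⁻¹} with hX
  set Nn := Subgroup.centralizer X with hNdef
  have haN : a ∈ Nn := by
    refine Subgroup.mem_centralizer_iff.2 ?_
    rintro _ ⟨h, _, ⟨w, hw, hwP, rfl⟩, rfl⟩
    have hwK : w ∈ K := hc (Subgroup.mem_centralizer_iff.2 fun k hk => hwP k (hKP hk))
    have hwV : w ∈ V :=
      ⟨⟨w, hwK⟩, Subgroup.mem_center_iff.2 fun k => Subtype.ext (hwP k (hKP k.2)), rfl⟩
    rw [← conj_pow]
    exact (commute_pow_pow_of_iterate (fun x hx b hb => hVK' b hb x (hVK hx)) (fun v hv => hVn.conj_mem v hv a)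
      (fun v hv => hit a haP v (hKP (hVK hv))) (fun v hv => hVK' v hv _ hap) (hVn.conj_mem w hwV h)).symm
  haveI hNn : Nn.Normal := ⟨fun y hy b => Subgroup.mem_centralizer_iff.2 (by
    rintro _ ⟨h, z, hz, rfl⟩
    have h1 := Subgroup.mem_centralizer_iff.1 hy _ ⟨b⁻¹ * h, z, hz, rfl⟩
    calc h * z * h⁻¹ * (b * y * b⁻¹) = b * ((b⁻¹ * h * z * (b⁻¹ * h)⁻¹) * y) * b⁻¹ := by group
      _ = b * (y * (b⁻¹ * h * z * (b⁻¹ * h)⁻¹)) * b⁻¹ := by rw [h1]
      _ = b * y * b⁻¹ * (h * z * h⁻¹) := by group)⟩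
  set M := Subgroup.normalizer (((P : Subgroup G) ⊓ Nn : Subgroup G) : Set G) with hM
  have hPM : (P : Subgroup G) ≤ M := fun t ht => Subgroup.mem_normalizer_fintype fun y hy =>
    ⟨P.mul_mem (P.mul_mem ht hy.1) (P.inv_mem ht), hNn.conj_mem y hy.2 t⟩
  have hMtop : M ≠ ⊤ := by
    intro htop
    haveI hn' : ((P : Subgroup G) ⊓ Nn).Normal := Subgroup.normalizer_eq_top_iff.1 htop
    exact haK (CfsgLib.PCore.le_pCore hn' (P.isPGroup'.to_le inf_le_left) ⟨haP, haN⟩)
  have hlt : Nat.card M < N := hn ▸ lt_of_le_of_ne (Subgroup.card_le_card_group M)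
    fun h => hMtop (Subgroup.eq_top_of_card_eq M h)
  obtain ⟨U, hU⟩ := CfsgLib.Transfer.exists_sylow_map_eq_inf P Nn
  have hfr := Sylow.normalizer_sup_eq_top U
  rw [hU] at hfr
  let P' : Sylow p M := P.subtype hPM
  have hcM : Subgroup.centralizer ((Cfsg.pCore p M : Subgroup M) : Set M) ≤ Cfsg.pCore p M := by
    have hKM : K.subgroupOf M ≤ Cfsg.pCore p M := CfsgLib.PCore.le_pCore inferInstance
      ((CfsgLib.PCore.isPGroup_pCore p G).of_equiv (Subgroup.subgroupOfEquivOfLe (hKP.trans hPM)).symm)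
    refine fun y hy => hKM (hc (Subgroup.mem_centralizer_iff.2 fun k hk => ?_))
    exact congrArg Subtype.val (Subgroup.mem_centralizer_iff.1 hy ⟨k, hPM (hKP hk)⟩ (hKM hk))
  have hMn := ih _ hlt M rfl P' hcM fun b hb v hv => by
    refine Subtype.ext ?_
    have hsemi : ∀ (i : ℕ) (x : M), (((fun x => b * x * b⁻¹ * x⁻¹)^[i] x : M) : G) =
        (fun x => (b : G) * x * (b : G)⁻¹ * x⁻¹)^[i] (x : G) := fun i x =>
      Function.Semiconj.iterate_right (f := fun x : M => (x : G)) (fun y => rfl) i x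
    rw [hsemi]
    exact hit b hb v hv
  rintro g _ hy
  obtain ⟨w, hw, hwP, rfl⟩ := hy
  have hg : g ∈ (M ⊔ Nn : Subgroup G) := by rw [hfr]; trivial
  rw [← SetLike.mem_coe, Subgroup.mul_normal] at hg
  obtain ⟨m, hm, c, hc', rfl⟩ := Set.mem_mul.1 hg
  have hcw : c * w ^ p ^ n * c⁻¹ = w ^ p ^ n := by
    have := Subgroup.mem_centralizer_iff.1 hc' _ ⟨1, w ^ p ^ n, ⟨w, hw, hwP, rfl⟩, rfl⟩
    simp only [one_mul, inv_one, mul_one] at this
    rw [← this, mul_inv_cancel_right]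
  rw [show m * c * w ^ p ^ n * (m * c)⁻¹ = m * (c * w ^ p ^ n * c⁻¹) * m⁻¹ by group, hcw]
  have hmap : (Subgroup.closure {y : M | ∃ w ∈ (P' : Subgroup M), (∀ t ∈ (P' : Subgroup M), t * w = w * t) ∧
      y = w ^ p ^ n}).map M.subtype ≤ Subgroup.closure Y := by
    rw [MonoidHom.map_closure, Subgroup.closure_le]
    rintro _ ⟨_, ⟨w', hw', hw'P, rfl⟩, rfl⟩
    exact Subgroup.subset_closure ⟨w', hw',
      fun t ht => congrArg Subtype.val (hw'P ⟨t, hPM ht⟩ ht), rfl⟩
  refine hmap ⟨_, hMn.conj_mem (⟨w, hPM hw⟩ ^ p ^ n)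
    (Subgroup.subset_closure ⟨⟨w, hPM hw⟩, hw, fun t ht => Subtype.ext (hwP t ht), rfl⟩) ⟨m, hm⟩, rfl⟩

end CfsgLib.Fusion
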