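import Cfsg.Agent.Fusion.PowerCenterGroup
import Cfsg.Agent.Fusion.Control

/-!
When the class of `S` is small, high powers of `Z(S)` form a normal subgroup of every saturated system.
-/

set_option autoImplicit false
set_option linter.style.haveILetI false

open Cfsg

namespace CfsgLib.Fusion

open Cfsg.FusionSystem
open scoped commutatorElement

universe u

variable {Ω : Type u} [Group Ω] {S : Subgroup Ω} [Finite S] {F : Cfsg.FusionSystem S} {p : ℕ} [Fact p.Prime]

omit [Finite S] [Fact p.Prime] in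
lemma iterate_mem_lowerCentralSeries {g v : Ω} (hg : g ∈ S) (hv : v ∈ S) (i : ℕ) :
    (fun x => g * x * g⁻¹ * x⁻¹)^[i] v ∈ Subgroup.lowerCentralSeries S i := by
  induction i with
  | zero => exact hv
  | succ i ih =>
    rw [Function.iterate_succ_apply', Subgroup.lowerCentralSeries_succ, Subgroup.commutator_comm]
    rw [← commutatorElement_def g _]
    exact Subgroup.commutator_mem_commutator hg ih

theorem isNormal_powers_center (hS : IsPGroup p S) (hF : F.IsSaturated p) (n : ℕ)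
    (hcl : Subgroup.lowerCentralSeries S (n * (p - 1) + 1) = ⊥) :
    F.IsNormal (Cfsg.powerClosure p n (S ⊓ Subgroup.centralizer (S : Set Ω))) := by
  set K := Cfsg.powerClosure p n (S ⊓ Subgroup.centralizer (S : Set Ω)) with hK
  have hKS : K ≤ S := (Subgroup.closure_le _).2 (by rintro _ ⟨x, hx, rfl⟩; exact S.pow_mem hx.1 _)
  have hKZ : S ≤ Subgroup.centralizer (K : Set Ω) := by
    intro s hs
    refine Subgroup.mem_centralizer_iff.2 fun y hy => ?_
    induction hy using Subgroup.closure_induction with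
    | mem z hz =>
      obtain ⟨x, hx, rfl⟩ := hz
      exact ((show Commute s x from Subgroup.mem_centralizer_iff.1 hx.2 s hs).pow_right _).eq.symm
    | one => simp
    | mul a b _ _ ha hb => exact ((show Commute a s from ha).mul_left hb).eq
    | inv a _ ha => exact (show Commute a s from ha).inv_left.eq
  have hn : S ≤ Subgroup.normalizer (K : Set Ω) := hKZ.trans (Subgroup.centralizer_le_normalizer _)
  set E := normalSystem F hKS hn with hE
  suffices hall : ∀ d, ∀ R : Subgroup Ω, Nat.card S - Nat.card (normalizerIn S R) = d →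
      F.IsFullyNormalized R → F.IsCentric R → F.autGroup R ≤ E.autGroup R from
    isNormal_of_extends hKS fun P φ hφ =>
      (le_of_centricRadical hS hF E (fun R hR hc _ => hall _ R rfl hR hc) P hφ).2
  intro d
  induction d using Nat.strong_induction_on with
  | _ d ih =>
  intro R hd hR hRc α hα
  have hlarge : ∀ {Y : Subgroup Ω}, Y ≤ S → Nat.card (normalizerIn S R) < Nat.card (normalizerIn S Y) →
      F.autGroup Y ≤ E.autGroup Y := fun hY hlt =>
    autGroup_le_of_large hS hF E _ (fun R' hR' hc' hn' => ih _ (by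
      haveI := finite_normalizerIn (S := S) R'
      have : Nat.card (normalizerIn S R') ≤ Nat.card S := Subgroup.card_le_of_le inf_le_left
      omega) R' rfl hR' hc') hY hlt
  have hKR : K ≤ R := fun k hk =>
    hRc.2 R (IsConj.refl hR.1) ⟨hKS hk, Subgroup.mem_centralizer_iff.2 fun x hx =>
      (Subgroup.mem_centralizer_iff.1 (hKZ (hR.1 hx)) k hk).symm⟩
  have hm := (mem_autGroup hR.1).1 hα
  suffices hfix : ∀ x : R, (x : Ω) ∈ K → ((α x : R) : Ω) ∈ K by
    refine (mem_autGroup hR.1).2 ⟨hm, (R.subtype.comp α.toMonoidHom).comp (Subgroup.inclusion (sup_le le_rfl hKR)),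
      restrict hm _, fun x => rfl, fun k hk => hfix ⟨k, hKR hk⟩ hk⟩
  haveI := finite_normalizerIn (S := S) R
  set P := normalizerIn S R with hP
  obtain ⟨Q, hQ, L, _, ι, j, hcQ, hQc, hι, hji, hnorm, hcent, hreal, -⟩ := exists_local_group hS hF hRc
  haveI : Finite L := hι.1
  have hPS : P ≤ S := inf_le_left
  have hPp : IsPGroup p P := hS.to_le hPS
  have hRN : R ≤ P := le_inf hR.1 Subgroup.le_normalizer
  obtain ⟨T, hT⟩ := hι.2.2.1
  have hcardj : Nat.card j.range = p ^ (Nat.card L).factorization p := by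
    refine le_antisymm ?_ ?_
    · obtain ⟨T', hT'⟩ := (hPp.of_surjective j.rangeRestrict j.rangeRestrict_surjective).exists_le_sylow
      rw [← T'.card_eq_multiplicity]
      exact Subgroup.card_le_of_le hT'
    · rw [← T.card_eq_multiplicity, hT, ← Nat.card_congr (MonoidHom.ofInjective hji).toEquiv,
        ← Nat.card_congr (MonoidHom.ofInjective hι.2.1.1).toEquiv]
      exact hR.2 Q hcQ
  let T₀ : Sylow p L := Sylow.ofCard j.range hcardj
  let V : Subgroup L := (R.subgroupOf P).map j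
  have hVn : V.Normal := ⟨fun v hv g => by
    obtain ⟨r, hr, rfl⟩ := hv
    obtain ⟨y, hy, he⟩ := hnorm g r hr
    exact ⟨y, hy, he.symm⟩⟩
  have hVp : IsPGroup p V := (hPp.to_subgroup _).map j
  have hcon : Subgroup.centralizer ((Cfsg.pCore p L : Subgroup L) : Set L) ≤ Cfsg.pCore p L := by
    have hVW : V ≤ Cfsg.pCore p L := CfsgLib.PCore.le_pCore hVn hVp
    refine ((Subgroup.centralizer_le hVW).trans fun g hg => ?_).trans hVW
    obtain ⟨z, hz, hze⟩ := hcent g fun r hr => (Subgroup.mem_centralizer_iff.1 hg (j r) ⟨r, hr, rfl⟩).symm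
    exact ⟨z, hz, hze⟩
  -- the group theorem
  have hit : ∀ g ∈ (T₀ : Subgroup L), ∀ v ∈ (T₀ : Subgroup L),
      (fun x => g * x * g⁻¹ * x⁻¹)^[n * (p - 1) + 1] v = 1 := by
    intro g hg v hv
    rw [Sylow.coe_ofCard] at hg hv
    obtain ⟨g, rfl⟩ := hg
    obtain ⟨v, rfl⟩ := hv
    have h1 : ((fun x => g * x * g⁻¹ * x⁻¹)^[n * (p - 1) + 1] v : P) = 1 := by
      refine Subtype.ext ?_
      exact (Function.Semiconj.iterate_right (f := fun x : P => (x : Ω)) (ga := fun x : P => g * x * g⁻¹ * x⁻¹)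
        (gb := fun x => (g : Ω) * x * (g : Ω)⁻¹ * x⁻¹) (fun y => rfl) _ v).trans
        (Subgroup.mem_bot.1 (hcl ▸ iterate_mem_lowerCentralSeries (hPS g.2) (hPS v.2) _))
    refine (Function.Semiconj.iterate_right (f := fun x : P => j x) (ga := fun x : P => g * x * g⁻¹ * x⁻¹)
      (fun y => by simp) _ v).symm.trans ?_
    exact (congrArg j h1).trans (map_one j)
  have hnormal := powers_center_normal n L T₀ hcon hit
  set K₁ := Subgroup.closure {y : Ω | ∃ w ∈ P, (∀ t ∈ P, t * w = w * t) ∧ y = w ^ p ^ n} with hK₁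
  have hKK₁ : K ≤ K₁ := (Subgroup.closure_le _).2 (by
    rintro _ ⟨w, hw, rfl⟩
    exact Subgroup.subset_closure ⟨w, hRN (hRc.2 R (IsConj.refl hR.1) ⟨hw.1, Subgroup.mem_centralizer_iff.2
      fun y hy => Subgroup.mem_centralizer_iff.1 hw.2 y (hR.1 hy)⟩),
      fun t ht => Subgroup.mem_centralizer_iff.1 hw.2 t (hPS ht), rfl⟩)
  have hK₁R : K₁ ≤ R := (Subgroup.closure_le _).2 (by
    rintro _ ⟨w, hw, hwP, rfl⟩
    exact R.pow_mem (hRc.2 R (IsConj.refl hR.1) ⟨hPS hw, Subgroup.mem_centralizer_iff.2 fun y hy =>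
      hwP y (hRN hy)⟩) _)
  have hK₁P : K₁ ≤ P := hK₁R.trans hRN
  have hmapj : (K₁.subgroupOf P).map j = Subgroup.closure {y : L | ∃ w ∈ (T₀ : Subgroup L),
      (∀ t ∈ (T₀ : Subgroup L), t * w = w * t) ∧ y = w ^ p ^ n} := by
    have e : K₁.subgroupOf P = Subgroup.closure {y : P | ∃ w : P, (∀ t : P, t * w = w * t) ∧ y = w ^ p ^ n} := by
      apply Subgroup.map_injective P.subtype_injective
      rw [Subgroup.map_subgroupOf_eq_of_le hK₁P, MonoidHom.map_closure, hK₁]
      congr 1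
      ext y
      constructor
      · rintro ⟨w, hw, hwP, rfl⟩
        exact ⟨⟨w, hw⟩ ^ p ^ n, ⟨⟨w, hw⟩, fun t => Subtype.ext (hwP t t.2), rfl⟩, rfl⟩
      · rintro ⟨_, ⟨w, hwP, rfl⟩, rfl⟩
        exact ⟨w, w.2, fun t ht => congrArg Subtype.val (hwP ⟨t, ht⟩), rfl⟩
    rw [e, MonoidHom.map_closure, Sylow.coe_ofCard]
    congr 1
    ext y
    constructor
    · rintro ⟨_, ⟨w, hwP, rfl⟩, rfl⟩
      refine ⟨j w, ⟨w, rfl⟩, ?_, map_pow j w _⟩
      rintro _ ⟨t, rfl⟩
      rw [← map_mul, ← map_mul, hwP]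
    · rintro ⟨_, ⟨w, rfl⟩, hwP, rfl⟩
      exact ⟨w ^ p ^ n, ⟨w, fun t => hji (by rw [map_mul, map_mul]; exact hwP _ ⟨t, rfl⟩), rfl⟩, map_pow j w _⟩
  rw [← hmapj] at hnormal
  obtain ⟨g, hg⟩ := hreal α hα
  have hαK₁ : ∀ x : R, (x : Ω) ∈ K₁ → ((α x : R) : Ω) ∈ K₁ := by
    intro x hx
    obtain ⟨z, hz, hze⟩ := hnormal.conj_mem _ ⟨Subgroup.inclusion hRN x, hx, rfl⟩ g
    have : z = Subgroup.inclusion hRN (α x) := hji (hze.trans (hg x))
    subst this
    exact hz
  intro x hxK
  rcases eq_or_lt_of_le hPS with hPS' | hPS'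
  · have hK₁K : K₁ ≤ K := (Subgroup.closure_le _).2 (by
      rintro _ ⟨w, hw, hwP, rfl⟩
      refine Subgroup.subset_closure ⟨w, ⟨hPS hw, Subgroup.mem_centralizer_iff.2 fun t ht => ?_⟩, rfl⟩
      exact hwP t (hPS' ▸ ht))
    exact hK₁K (hαK₁ x (hKK₁ hxK))
  · have hPN : normalizerIn S P ≤ normalizerIn S K₁ := by
      refine fun y hy => ⟨hy.1, ?_⟩
      have key : ∀ y ∈ Subgroup.normalizer (P : Set Ω), ∀ z ∈ K₁, y * z * y⁻¹ ∈ K₁ := by
        intro y hy z hz
        have hle : K₁ ≤ K₁.comap (MulAut.conj y).toMonoidHom := (Subgroup.closure_le _).2 (by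
          rintro _ ⟨w, hw, hwP, rfl⟩
          refine Subgroup.subset_closure ⟨y * w * y⁻¹, conj_mem_of_normalizer hy hw, fun t ht => ?_, ?_⟩
          · have h1 := hwP _ (conj_inv_mem_of_normalizer hy ht)
            calc t * (y * w * y⁻¹) = y * ((y⁻¹ * t * y) * w) * y⁻¹ := by group
              _ = y * (w * (y⁻¹ * t * y)) * y⁻¹ := by rw [h1]
              _ = y * w * y⁻¹ * t := by group
          · exact conj_pow.symm)
        exact hle hz
      refine Subgroup.mem_normalizer_iff.2 fun z => ⟨key y hy.2 z, fun hz => ?_⟩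
      have := key y⁻¹ (inv_mem hy.2) _ hz
      simpa [mul_assoc] using this
    haveI := finite_normalizerIn (S := S) K₁
    have hlt : Nat.card P < Nat.card (normalizerIn S K₁) := by
      refine lt_of_lt_of_le ?_ (Subgroup.card_le_of_le hPN)
      haveI := finite_normalizerIn (S := S) P
      have h1 := lt_normalizerIn hS hPS'
      exact lt_of_le_of_ne (Subgroup.card_le_of_le h1.le)
        fun h => h1.ne (Subgroup.eq_of_le_of_card_ge h1.le h.ge)
    set ψ := (R.subtype.comp α.toMonoidHom).comp (Subgroup.inclusion hK₁R)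
    have hψ : ψ ∈ F.Hom K₁ := restrict hm _
    haveI := finite_of_le (hK₁P.trans hPS)
    have hr : ψ.range = K₁ := Subgroup.eq_of_le_of_card_ge (by rintro _ ⟨y, rfl⟩; exact hαK₁ _ y.2)
      (le_of_eq (Nat.card_congr (MonoidHom.ofInjective (F.injective_of_mem hψ)).toEquiv))
    have hβ := hlarge (hK₁P.trans hPS) hlt
      (mem_autGroup_of_eq hψ (α := isoOfHom (F.injective_of_mem hψ) hr) fun _ => rfl)
    obtain ⟨-, θ, -, hθβ, hθK⟩ := (mem_autGroup (hK₁P.trans hPS)).1 hβ
    have h1 := hθβ ⟨x, hKK₁ hxK⟩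
    have h2 := hθK x hxK
    rw [h1] at h2
    exact h2

end CfsgLib.Fusion
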