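import Cfsg.Prelude.Def_FusionComponents
import Cfsg.Agent.Fusion.Saturated

/-!
The direct product of two fusion systems, and its saturation.
-/

set_option autoImplicit false
set_option linter.style.haveILetI false

open Cfsg

namespace CfsgLib.Fusion

open Cfsg.FusionSystem

variable {Ω₁ Ω₂ : Type*} [Group Ω₁] [Group Ω₂] {S₁ : Subgroup Ω₁} {S₂ : Subgroup Ω₂}

local notation "π₁" => MonoidHom.fst Ω₁ Ω₂
local notation "π₂" => MonoidHom.snd Ω₁ Ω₂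

/-- The pair map on `P` given by maps on the two projections. -/
def pairHom (P : Subgroup (Ω₁ × Ω₂)) (φ₁ : P.map π₁ →* Ω₁) (φ₂ : P.map π₂ →* Ω₂) :
    P →* Ω₁ × Ω₂ :=
  (φ₁.comp (MonoidHom.subgroupMap π₁ P)).prod (φ₂.comp (MonoidHom.subgroupMap π₂ P))

lemma pairHom_apply {P : Subgroup (Ω₁ × Ω₂)} (φ₁ : P.map π₁ →* Ω₁) (φ₂ : P.map π₂ →* Ω₂) (x : P)
    (h₁ : (x : Ω₁ × Ω₂).1 ∈ P.map π₁) (h₂ : (x : Ω₁ × Ω₂).2 ∈ P.map π₂) :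
    pairHom P φ₁ φ₂ x = (φ₁ ⟨(x : Ω₁ × Ω₂).1, h₁⟩, φ₂ ⟨(x : Ω₁ × Ω₂).2, h₂⟩) := rfl

lemma fst_mem {P : Subgroup (Ω₁ × Ω₂)} (x : P) : (x : Ω₁ × Ω₂).1 ∈ P.map π₁ := ⟨x, x.2, rfl⟩

lemma snd_mem {P : Subgroup (Ω₁ × Ω₂)} (x : P) : (x : Ω₁ × Ω₂).2 ∈ P.map π₂ := ⟨x, x.2, rfl⟩

lemma range_fst {P : Subgroup (Ω₁ × Ω₂)} {φ : P →* Ω₁ × Ω₂} {φ₁ : P.map π₁ →* Ω₁}
    (h : ∀ x : P, (φ x).1 = φ₁ ⟨_, fst_mem x⟩) : φ.range.map π₁ = φ₁.range := by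
  ext a
  constructor
  · rintro ⟨_, ⟨x, rfl⟩, rfl⟩; exact ⟨_, (h x).symm⟩
  · rintro ⟨⟨_, x, hx, rfl⟩, rfl⟩; exact ⟨_, ⟨⟨x, hx⟩, rfl⟩, h ⟨x, hx⟩⟩

lemma range_snd {P : Subgroup (Ω₁ × Ω₂)} {φ : P →* Ω₁ × Ω₂} {φ₂ : P.map π₂ →* Ω₂}
    (h : ∀ x : P, (φ x).2 = φ₂ ⟨_, snd_mem x⟩) : φ.range.map π₂ = φ₂.range := by
  ext a
  constructor
  · rintro ⟨_, ⟨x, rfl⟩, rfl⟩; exact ⟨_, (h x).symm⟩
  · rintro ⟨⟨_, x, hx, rfl⟩, rfl⟩; exact ⟨_, ⟨⟨x, hx⟩, rfl⟩, h ⟨x, hx⟩⟩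

/-- The direct product of two fusion systems. -/
def productSystem (F₁ : Cfsg.FusionSystem S₁) (F₂ : Cfsg.FusionSystem S₂) :
    Cfsg.FusionSystem (S₁.prod S₂) where
  Hom P := {φ | P ≤ S₁.prod S₂ ∧
      ∃ φ₁ ∈ F₁.Hom (P.map π₁), ∃ φ₂ ∈ F₂.Hom (P.map π₂),
        ∀ (x : P) (h₁ : (x : Ω₁ × Ω₂).1 ∈ P.map π₁) (h₂ : (x : Ω₁ × Ω₂).2 ∈ P.map π₂),
          φ x = (φ₁ ⟨(x : Ω₁ × Ω₂).1, h₁⟩, φ₂ ⟨(x : Ω₁ × Ω₂).2, h₂⟩)}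
  le_of_mem := by
    rintro P φ ⟨hP, φ₁, h₁, φ₂, h₂, e⟩
    refine ⟨hP, fun x => ?_⟩
    rw [e x (fst_mem x) (snd_mem x)]
    exact ⟨val_mem h₁ _, val_mem h₂ _⟩
  injective_of_mem := by
    rintro P φ ⟨-, φ₁, h₁, φ₂, h₂, e⟩ x y hxy
    rw [e x (fst_mem x) (snd_mem x), e y (fst_mem y) (snd_mem y)] at hxy
    obtain ⟨hx, hy⟩ := Prod.mk.injEq .. ▸ hxy
    exact Subtype.ext (Prod.ext (congrArg Subtype.val (F₁.injective_of_mem h₁ hx))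
      (congrArg Subtype.val (F₂.injective_of_mem h₂ hy)))
  conj_mem := by
    intro P g hP hg
    refine ⟨hP, conjHom _ g.1, F₁.conj_mem ?_ hg.1, conjHom _ g.2, F₂.conj_mem ?_ hg.2,
      fun x _ _ => rfl⟩
    · rintro _ ⟨x, hx, rfl⟩; exact (hP hx).1
    · rintro _ ⟨x, hx, rfl⟩; exact (hP hx).2
  comp_mem := by
    rintro P Q φ ψ ⟨hP, φ₁, h₁, φ₂, h₂, e⟩ ⟨-, ψ₁, k₁, ψ₂, k₂, f⟩ h
    have m₁ : ∀ a : P.map π₁, φ₁ a ∈ Q.map π₁ := by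
      rintro ⟨_, x, hx, rfl⟩
      exact ⟨φ ⟨x, hx⟩, h _, congrArg Prod.fst (e ⟨x, hx⟩ (fst_mem _) (snd_mem _))⟩
    have m₂ : ∀ a : P.map π₂, φ₂ a ∈ Q.map π₂ := by
      rintro ⟨_, x, hx, rfl⟩
      exact ⟨φ ⟨x, hx⟩, h _, congrArg Prod.snd (e ⟨x, hx⟩ (fst_mem _) (snd_mem _))⟩
    refine ⟨hP, _, F₁.comp_mem h₁ k₁ m₁, _, F₂.comp_mem h₂ k₂ m₂, fun x a b => ?_⟩
    show ψ (φ.codRestrict Q h x) = _
    rw [f _ (fst_mem _) (snd_mem _)]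
    refine Prod.ext (congrArg ψ₁ (Subtype.ext ?_)) (congrArg ψ₂ (Subtype.ext ?_))
    · exact congrArg Prod.fst (e x a b)
    · exact congrArg Prod.snd (e x a b)
  inv_mem := by
    rintro P φ ⟨hP, φ₁, h₁, φ₂, h₂, e⟩
    obtain ⟨ψ₁, k₁, -, a₁, -⟩ := exists_inv h₁
      (range_fst fun x => congrArg Prod.fst (e x (fst_mem x) (snd_mem x))).symm
    obtain ⟨ψ₂, k₂, -, a₂, -⟩ := exists_inv h₂
      (range_snd fun x => congrArg Prod.snd (e x (fst_mem x) (snd_mem x))).symm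
    refine ⟨pairHom φ.range ψ₁ ψ₂, ⟨?_, ψ₁, k₁, ψ₂, k₂, pairHom_apply ψ₁ ψ₂⟩, fun x => ?_⟩
    · rintro _ ⟨x, rfl⟩
      rw [e x (fst_mem x) (snd_mem x)]
      exact ⟨val_mem h₁ _, val_mem h₂ _⟩
    · have e1 : (φ x).1 = φ₁ ⟨_, fst_mem x⟩ := congrArg Prod.fst (e x (fst_mem x) (snd_mem x))
      have e2 : (φ x).2 = φ₂ ⟨_, snd_mem x⟩ := congrArg Prod.snd (e x (fst_mem x) (snd_mem x))
      have m1 : φ₁ ⟨_, fst_mem x⟩ ∈ φ.range.map π₁ := ⟨φ x, ⟨x, rfl⟩, e1⟩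
      have m2 : φ₂ ⟨_, snd_mem x⟩ ∈ φ.range.map π₂ := ⟨φ x, ⟨x, rfl⟩, e2⟩
      refine Prod.ext ?_ ?_
      · refine Eq.trans ?_ (a₁ ⟨_, fst_mem x⟩ m1)
        exact congrArg ψ₁ (Subtype.ext e1)
      · refine Eq.trans ?_ (a₂ ⟨_, snd_mem x⟩ m2)
        exact congrArg ψ₂ (Subtype.ext e2)

theorem isProductSystem_productSystem (F₁ : Cfsg.FusionSystem S₁) (F₂ : Cfsg.FusionSystem S₂) :
    FusionSystem.IsProductSystem F₁ F₂ (productSystem F₁ F₂) := fun _ _ => Iff.rfl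

/-! ### Saturation -/

/-- Automorphisms of `Q` and of its image under `π` that commute with `π`. -/
def ProdCompat {Ω Ω' : Type*} [Group Ω] [Group Ω'] (π : Ω →* Ω') (Q : Subgroup Ω) (α : MulAut Q)
    (β : MulAut (Q.map π)) : Prop :=
  ∀ x : Q, β (π.subgroupMap Q x) = π.subgroupMap Q (α x)

lemma exists_compat_subgroup {Ω Ω' : Type*} [Group Ω] [Group Ω'] {S' : Subgroup Ω'} (π : Ω →* Ω')
    (F' : Cfsg.FusionSystem S') {Q : Subgroup Ω} {p : ℕ} [Fact p.Prime] (T : Subgroup (MulAut Q))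
    (hT : IsPGroup p T) (h : ∀ α ∈ T, ∃ β ∈ F'.autGroup (Q.map π), ProdCompat π Q α β) :
    ∃ X : Subgroup (MulAut (Q.map π)), IsPGroup p X ∧ X ≤ F'.autGroup (Q.map π) ∧
      ∀ α ∈ T, ∃ β ∈ X, ProdCompat π Q α β := by
  have hmul : ∀ {α α' β β'}, ProdCompat π Q α β → ProdCompat π Q α' β' → ProdCompat π Q (α * α') (β * β') := by
    intro α α' β β' ha hb x
    rw [MulAut.mul_apply, MulAut.mul_apply, hb, ha]
  have huniq : ∀ {β}, ProdCompat π Q 1 β → β = 1 := by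
    intro β hb
    ext a
    obtain ⟨x, rfl⟩ := π.subgroupMap_surjective Q a
    rw [hb x]; rfl
  let X : Subgroup (MulAut (Q.map π)) :=
    { carrier := {β | β ∈ F'.autGroup (Q.map π) ∧ ∃ α ∈ T, ProdCompat π Q α β}
      one_mem' := ⟨one_mem _, 1, one_mem _, fun _ => rfl⟩
      mul_mem' := fun ⟨h₁, α, hα, e₁⟩ ⟨h₂, α', hα', e₂⟩ =>
        ⟨mul_mem h₁ h₂, α * α', mul_mem hα hα', hmul e₁ e₂⟩
      inv_mem' := by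
        rintro β ⟨h₁, α, hα, e₁⟩
        refine ⟨inv_mem h₁, α⁻¹, inv_mem hα, fun x => ?_⟩
        have := e₁ (α⁻¹ x)
        rw [MulAut.apply_inv_self] at this
        rw [← this, MulAut.inv_apply_self] }
  refine ⟨X, ?_, fun β hβ => hβ.1, fun α hα => ?_⟩
  · rintro ⟨β, -, α, hα, e⟩
    obtain ⟨k, hk⟩ := hT ⟨α, hα⟩
    refine ⟨k, Subtype.ext ?_⟩
    have hk' : α ^ p ^ k = 1 := congrArg Subtype.val hk
    have : ∀ n : ℕ, ProdCompat π Q (α ^ n) (β ^ n) := by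
      intro n
      induction n with
      | zero => exact fun _ => rfl
      | succ n ih => rw [pow_succ, pow_succ]; exact hmul ih e
    refine huniq ?_
    rw [← hk']
    exact this _
  · obtain ⟨β, hβ, e⟩ := h α hα
    exact ⟨β, ⟨hβ, α, hα, e⟩, e⟩

variable {F₁ : Cfsg.FusionSystem S₁} {F₂ : Cfsg.FusionSystem S₂} {E : Cfsg.FusionSystem (S₁.prod S₂)}

lemma isReceptive_of_projections (hE : FusionSystem.IsProductSystem F₁ F₂ E) {Q : Subgroup (Ω₁ × Ω₂)}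
    (hQ : Q ≤ S₁.prod S₂) (h₁ : F₁.IsReceptive (Q.map π₁)) (h₂ : F₂.IsReceptive (Q.map π₂)) :
    E.IsReceptive Q := by
  refine ⟨hQ, fun R φ hφ hφQ => ?_⟩
  obtain ⟨hR, φ₁, hφ₁, φ₂, hφ₂, e⟩ := (hE R φ).1 hφ
  have r₁ : φ₁.range = Q.map π₁ := by
    rw [← hφQ, range_fst fun x => congrArg Prod.fst (e x (fst_mem x) (snd_mem x))]
  have r₂ : φ₂.range = Q.map π₂ := by
    rw [← hφQ, range_snd fun x => congrArg Prod.snd (e x (fst_mem x) (snd_mem x))]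
  obtain ⟨ψ₁, hψ₁, a₁⟩ := h₁.2 _ φ₁ hφ₁ r₁
  obtain ⟨ψ₂, hψ₂, a₂⟩ := h₂.2 _ φ₂ hφ₂ r₂
  set N := FusionSystem.extender (S₁.prod S₂) R φ
  have l₁ : N.map π₁ ≤ FusionSystem.extender S₁ (R.map π₁) φ₁ := by
    rintro _ ⟨g, hg, rfl⟩
    obtain ⟨hgS, hgR, h, hh, hx⟩ := mem_extender.1 hg
    refine mem_extender.2 ⟨hgS.1, ?_, h.1, hh.1, ?_⟩
    · exact Subgroup.le_normalizer_map π₁ ⟨g, hgR, rfl⟩
    · rintro ⟨_, x, hxR, rfl⟩ hmem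
      have h1 := hx ⟨x, hxR⟩ (conj_mem_of_normalizer hgR hxR)
      rw [e _ (fst_mem _) (snd_mem _), e _ (fst_mem _) (snd_mem _)] at h1
      exact congrArg Prod.fst h1
  have l₂ : N.map π₂ ≤ FusionSystem.extender S₂ (R.map π₂) φ₂ := by
    rintro _ ⟨g, hg, rfl⟩
    obtain ⟨hgS, hgR, h, hh, hx⟩ := mem_extender.1 hg
    refine mem_extender.2 ⟨hgS.2, ?_, h.2, hh.2, ?_⟩
    · exact Subgroup.le_normalizer_map π₂ ⟨g, hgR, rfl⟩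
    · rintro ⟨_, x, hxR, rfl⟩ hmem
      have h1 := hx ⟨x, hxR⟩ (conj_mem_of_normalizer hgR hxR)
      rw [e _ (fst_mem _) (snd_mem _), e _ (fst_mem _) (snd_mem _)] at h1
      exact congrArg Prod.snd h1
  refine ⟨pairHom N (ψ₁.comp (Subgroup.inclusion l₁)) (ψ₂.comp (Subgroup.inclusion l₂)),
    (hE _ _).2 ⟨(extender_le_normalizerIn φ).trans inf_le_left, _, restrict hψ₁ l₁, _,
      restrict hψ₂ l₂, pairHom_apply _ _⟩, fun x hxR hxN => ?_⟩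
  rw [e ⟨x, hxR⟩ (fst_mem _) (snd_mem _)]
  exact Prod.ext (a₁ _ (fst_mem (⟨x, hxR⟩ : R)) (l₁ (fst_mem (⟨x, hxN⟩ : N))))
    (a₂ _ (snd_mem (⟨x, hxR⟩ : R)) (l₂ (snd_mem (⟨x, hxN⟩ : N))))

theorem isSaturated_of_isProductSystem [Finite S₁] [Finite S₂] (p : ℕ) [Fact p.Prime]
    (hp₁ : IsPGroup p S₁) (hp₂ : IsPGroup p S₂) (hF₁ : F₁.IsSaturated p) (hF₂ : F₂.IsSaturated p)
    (hE : FusionSystem.IsProductSystem F₁ F₂ E) : E.IsSaturated p := by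
  haveI : Finite (S₁.prod S₂ : Subgroup (Ω₁ × Ω₂)) :=
    Finite.of_equiv _ (Subgroup.prodEquiv S₁ S₂).toEquiv.symm
  have hpS : IsPGroup p (S₁.prod S₂ : Subgroup (Ω₁ × Ω₂)) := by
    refine IsPGroup.of_equiv ?_ (Subgroup.prodEquiv S₁ S₂).symm
    rintro ⟨a, b⟩
    obtain ⟨i, hi⟩ := hp₁ a
    obtain ⟨j, hj⟩ := hp₂ b
    refine ⟨i + j, Prod.ext ?_ ?_⟩
    · show a ^ p ^ (i + j) = 1
      rw [pow_add, pow_mul, hi, one_pow]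
    · show b ^ p ^ (i + j) = 1
      rw [pow_add, mul_comm, pow_mul, hj, one_pow]
  intro P hP
  have hP₁ : P.map π₁ ≤ S₁ := by rintro _ ⟨x, hx, rfl⟩; exact (hP hx).1
  have hP₂ : P.map π₂ ≤ S₂ := by rintro _ ⟨x, hx, rfl⟩; exact (hP hx).2
  obtain ⟨Q₁, ⟨φ₁, hφ₁, r₁⟩, ha₁, hr₁⟩ := hF₁ _ hP₁
  obtain ⟨Q₂, ⟨φ₂, hφ₂, r₂⟩, ha₂, hr₂⟩ := hF₂ _ hP₂
  have hθ : pairHom P φ₁ φ₂ ∈ E.Hom P :=
    (hE _ _).2 ⟨hP, φ₁, hφ₁, φ₂, hφ₂, pairHom_apply φ₁ φ₂⟩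
  obtain ⟨Q₀, hPQ₀, q₁, q₂⟩ : ∃ Q₀, E.IsConj P Q₀ ∧ Q₀.map π₁ = Q₁ ∧ Q₀.map π₂ = Q₂ :=
    ⟨_, ⟨_, hθ, rfl⟩, (range_fst fun _ => rfl).trans r₁, (range_snd fun _ => rfl).trans r₂⟩
  subst q₁ q₂
  have hQ₀ := IsConj.le_right hPQ₀
  haveI := finite_mulAut hQ₀
  -- a Sylow subgroup of `Aut_E(Q₀)`, seen on the two projections
  obtain ⟨T⟩ : Nonempty (Sylow p (E.autGroup Q₀)) := inferInstance
  set T' := (T : Subgroup (E.autGroup Q₀)).map (E.autGroup Q₀).subtype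
  have hT'p : IsPGroup p T' := T.2.map _
  have hT'le : T' ≤ E.autGroup Q₀ := Subgroup.map_subtype_le _
  have hsplit : ∀ α ∈ T', (∃ β ∈ F₁.autGroup (Q₀.map π₁), ProdCompat π₁ Q₀ α β) ∧
      ∃ β ∈ F₂.autGroup (Q₀.map π₂), ProdCompat π₂ Q₀ α β := by
    intro α hα
    obtain ⟨-, a₁, h₁, a₂, h₂, e⟩ := (hE _ _).1 ((mem_autGroup hQ₀).1 (hT'le hα))
    have e1 : ∀ x : Q₀, ((α x : Q₀) : Ω₁ × Ω₂).1 = a₁ ⟨_, fst_mem x⟩ :=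
      fun x => congrArg Prod.fst (e x (fst_mem x) (snd_mem x))
    have e2 : ∀ x : Q₀, ((α x : Q₀) : Ω₁ × Ω₂).2 = a₂ ⟨_, snd_mem x⟩ :=
      fun x => congrArg Prod.snd (e x (fst_mem x) (snd_mem x))
    haveI := finite_of_le ha₁.1
    haveI := finite_of_le ha₂.1
    have m₁ : ∀ a, a₁ a ∈ Q₀.map π₁ := by
      rintro ⟨_, x, hx, rfl⟩; exact ⟨_, (α ⟨x, hx⟩).2, e1 ⟨x, hx⟩⟩
    have m₂ : ∀ a, a₂ a ∈ Q₀.map π₂ := by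
      rintro ⟨_, x, hx, rfl⟩; exact ⟨_, (α ⟨x, hx⟩).2, e2 ⟨x, hx⟩⟩
    have i₁ : Function.Injective (a₁.codRestrict _ m₁) := fun x y h =>
      F₁.injective_of_mem h₁ (congrArg Subtype.val h)
    have i₂ : Function.Injective (a₂.codRestrict _ m₂) := fun x y h =>
      F₂.injective_of_mem h₂ (congrArg Subtype.val h)
    exact ⟨⟨MulEquiv.ofBijective _ ⟨i₁, Finite.injective_iff_surjective.1 i₁⟩,
        mem_autGroup_of_eq h₁ fun _ => rfl, fun x => Subtype.ext (e1 x).symm⟩,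
      ⟨MulEquiv.ofBijective _ ⟨i₂, Finite.injective_iff_surjective.1 i₂⟩,
        mem_autGroup_of_eq h₂ fun _ => rfl, fun x => Subtype.ext (e2 x).symm⟩⟩
  obtain ⟨X₁, hX₁, hX₁F, hX₁T⟩ := exists_compat_subgroup π₁ F₁ T' hT'p fun α hα => (hsplit α hα).1
  obtain ⟨X₂, hX₂, hX₂F, hX₂T⟩ := exists_compat_subgroup π₂ F₂ T' hT'p fun α hα => (hsplit α hα).2
  obtain ⟨χ₁, hχ₁, hc₁⟩ := exists_conj_le_autInducedBy p ha₁ X₁ hX₁ hX₁F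
  obtain ⟨χ₂, hχ₂, hc₂⟩ := exists_conj_le_autInducedBy p ha₂ X₂ hX₂ hX₂F
  -- the conjugate
  set c₁ := (Q₀.map π₁).subtype.comp χ₁.toMonoidHom
  set c₂ := (Q₀.map π₂).subtype.comp χ₂.toMonoidHom
  set θ := pairHom Q₀ c₁ c₂
  have hθ' : θ ∈ E.Hom Q₀ := (hE _ _).2
    ⟨hQ₀, c₁, (mem_autGroup ha₁.1).1 hχ₁, c₂, (mem_autGroup ha₂.1).1 hχ₂, pairHom_apply c₁ c₂⟩
  have hQ : θ.range ≤ S₁.prod S₂ := range_le hθ'
  have p₁ : θ.range.map π₁ = Q₀.map π₁ := by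
    rw [range_fst (φ₁ := c₁) fun _ => rfl]
    ext y
    exact ⟨by rintro ⟨x, rfl⟩; exact (χ₁ x).2,
      fun hy => ⟨χ₁⁻¹ ⟨y, hy⟩, congrArg Subtype.val (MulAut.apply_inv_self _ χ₁ ⟨y, hy⟩)⟩⟩
  have p₂ : θ.range.map π₂ = Q₀.map π₂ := by
    rw [range_snd (φ₂ := c₂) fun _ => rfl]
    ext y
    exact ⟨by rintro ⟨x, rfl⟩; exact (χ₂ x).2,
      fun hy => ⟨χ₂⁻¹ ⟨y, hy⟩, congrArg Subtype.val (MulAut.apply_inv_self _ χ₂ ⟨y, hy⟩)⟩⟩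
  refine ⟨θ.range, IsConj.trans hPQ₀ ⟨θ, hθ', rfl⟩, ⟨hQ, ?_⟩,
    isReceptive_of_projections hE hQ (by rw [p₁]; exact hr₁) (by rw [p₂]; exact hr₂)⟩
  haveI := finite_mulAut hQ
  set f := isoOfHom (E.injective_of_mem hθ') (rfl : θ.range = θ.range)
  have hmap : T'.map (MulAut.congr f).toMonoidHom ≤ autInducedBy (S₁.prod S₂) θ.range := by
    rintro _ ⟨α, hα, rfl⟩
    obtain ⟨β₁, hβ₁, k₁⟩ := hX₁T α hα
    obtain ⟨β₂, hβ₂, k₂⟩ := hX₂T α hα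
    obtain ⟨g₁, hg₁, hgx₁⟩ := mem_autInducedBy.1 (hc₁ β₁ hβ₁)
    obtain ⟨g₂, hg₂, hgx₂⟩ := mem_autInducedBy.1 (hc₂ β₂ hβ₂)
    refine mem_autInducedBy.2 ⟨(g₁, g₂), ⟨hg₁, hg₂⟩, fun y => ?_⟩
    obtain ⟨x, rfl⟩ := f.surjective y
    show θ (α (f.symm (f x))) = (g₁, g₂) * θ x * (g₁, g₂)⁻¹
    rw [MulEquiv.symm_apply_apply]
    refine Prod.ext ?_ ?_
    · have h1 := hgx₁ (χ₁ (MonoidHom.subgroupMap π₁ Q₀ x))
      rw [MulAut.mul_apply, MulAut.mul_apply, MulAut.inv_apply_self, k₁] at h1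
      exact h1
    · have h2 := hgx₂ (χ₂ (MonoidHom.subgroupMap π₂ Q₀ x))
      rw [MulAut.mul_apply, MulAut.mul_apply, MulAut.inv_apply_self, k₂] at h2
      exact h2
  obtain ⟨R, hR⟩ := ((isPGroup_autInducedBy p hpS θ.range).of_equiv
      (Subgroup.subgroupOfEquivOfLe (autInducedBy_le_autGroup (F := E) hQ)).symm).exists_le_sylow
  refine ⟨R, (Subgroup.eq_of_le_of_card_ge hR ?_).symm⟩
  rw [Nat.card_congr (Subgroup.subgroupOfEquivOfLe (autInducedBy_le_autGroup (F := E) hQ)).toEquiv,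
    R.card_eq_multiplicity, ← map_autGroup hθ' rfl]
  refine le_trans (le_of_eq ?_) (Subgroup.card_le_of_le hmap)
  rw [Nat.card_congr ((E.autGroup Q₀).equivMapOfInjective _ (MulEquiv.injective _)).toEquiv.symm,
    Nat.card_congr (T'.equivMapOfInjective _ (MulEquiv.injective _)).toEquiv.symm,
    ← T.card_eq_multiplicity]
  exact Nat.card_congr ((T : Subgroup (E.autGroup Q₀)).equivMapOfInjective _
    Subtype.coe_injective).toEquiv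

end CfsgLib.Fusion
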