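import Cfsg.Agent.Fusion.AxiomaticThompson
import Cfsg.Agent.Transfer.Tate
import Cfsg.Agent.Fusion.Abelian

/-!
A system with an inner factor system by a normal subgroup inside the Frattini subgroup is inner.
-/

set_option autoImplicit false
set_option linter.style.haveILetI false

open Cfsg

namespace CfsgLib.Fusion

open Cfsg.FusionSystem

universe u w

variable {Ω : Type u} [Group Ω] {S : Subgroup Ω} {F : Cfsg.FusionSystem S}
variable {p : ℕ} [Fact p.Prime] {Q : Subgroup Ω}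

theorem le_inner_of_frattini [Finite S] (hS : IsPGroup p S) (hF : F.IsSaturated p) (hQ : F.IsNormal Q)
    (hQΦ : Q ≤ (frattini ↥S).map S.subtype) {Ω' : Type w} [Group Ω'] {θ : S →* Ω'}
    {E : Cfsg.FusionSystem θ.range} (hE : F.IsFactorSystem Q θ E)
    (hin : ∀ P' : Subgroup Ω', E.Hom P' = (Cfsg.innerFusionSystem θ.range).Hom P') :
    F ≤ Cfsg.innerFusionSystem S := by
  classical
  have hQsc := stronglyClosed_of_isNormal hQ
  obtain ⟨-, hker, -, -⟩ := id hE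
  set C := Q ⊔ centralizerIn S Q with hCdef
  have hC : F.IsNormal C := isNormal_sup_centralizer hS hF hQ hE hin
  have hCc : F.IsCentric C := by
    refine ⟨hC.1, ?_⟩
    rintro R ⟨φ, hφ, rfl⟩
    rw [(weaklyClosed_of_stronglyClosed (stronglyClosed_of_isNormal hC)).2 φ hφ]
    intro x hx
    exact Subgroup.mem_sup_right ⟨hx.1, Subgroup.centralizer_le (le_sup_left : Q ≤ C) hx.2⟩
  obtain ⟨G, _, ι, hM⟩ := exists_model hS (F := F) ⟨hF, C, hC, hCc⟩
  obtain ⟨hWCn, -⟩ := normal_of_model hS hM hC hCc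
  obtain ⟨hfin, hR, ⟨T, hT⟩, hKc⟩ := hM
  haveI : Finite G := hfin
  have hι := hR.1
  set W := imageAlong ι Q with hW
  have hWT : W ≤ ι.range := imageAlong_le Q
  haveI hWn : W.Normal := by
    refine ⟨?_⟩
    rintro _ ⟨q, hq, rfl⟩ g
    obtain ⟨φ, hφ, hφι⟩ := exists_hom_of_conj hR hC.1 g fun x =>
      imageAlong_le C (hWCn.conj_mem _ ⟨⟨x, hC.1 x.2⟩, x.2, rfl⟩ g)
    have hqC : (q : Ω) ∈ C := Subgroup.mem_sup_left hq
    exact ⟨⟨φ ⟨q, hqC⟩, val_mem hφ _⟩, stronglyClosed_mapsTo hQsc hφ _ hq, hφι ⟨q, hqC⟩ _⟩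
  -- the quotient by `W` has a normal complement
  have hqW : Cfsg.HasNormalPComplement p (G ⧸ W) := by
    refine CfsgLib.Transfer.hasNormalPComplement_of_control
      (T.mapSurjective (QuotientGroup.mk'_surjective W)) fun x hx g hgx => ?_
    rw [Sylow.coe_mapSurjective, hT] at hx hgx ⊢
    obtain ⟨_, ⟨s, rfl⟩, rfl⟩ := hx
    obtain ⟨g, rfl⟩ := QuotientGroup.mk'_surjective W g
    obtain ⟨_, ⟨t, rfl⟩, ht⟩ := hgx
    have hgs : g * ι s * g⁻¹ ∈ ι.range := by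
      have h1 : (ι t)⁻¹ * (g * ι s * g⁻¹) ∈ W := by
        rw [← QuotientGroup.eq_one_iff]
        show QuotientGroup.mk' W _ = 1
        rw [map_mul, map_inv, inv_mul_eq_one, map_mul, map_mul, map_inv]
        exact ht
      have := ι.range.mul_mem ⟨t, rfl⟩ (hWT h1)
      rwa [mul_inv_cancel_left] at this
    set P := Subgroup.zpowers (s : Ω) ⊔ Q with hP
    have hPS : P ≤ S := sup_le (Subgroup.zpowers_le.2 s.2) hQ.1
    have hPle : P ≤ (((ι.range).comap (MulAut.conj g).toMonoidHom).comap ι).map S.subtype :=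
      sup_le (Subgroup.zpowers_le.2 ⟨s, hgs, rfl⟩) fun x hx =>
        ⟨⟨x, hQ.1 hx⟩, hWT (hWn.conj_mem _ ⟨⟨x, hQ.1 hx⟩, hx, rfl⟩ g), rfl⟩
    obtain ⟨φ, hφ, hφι⟩ := exists_hom_of_conj hR hPS g fun x => by
      obtain ⟨y, hy, hyx⟩ := hPle x.2
      obtain rfl : y = ⟨x, hPS x.2⟩ := Subtype.ext hyx
      exact hy
    obtain ⟨z, hz⟩ := exists_conj_mod hQsc hE hin (le_sup_right : Q ≤ P) hφ
    have hsP : (s : Ω) ∈ P := Subgroup.mem_sup_left (Subgroup.mem_zpowers _)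
    have h2 := hz ⟨s, hsP⟩
    refine ⟨QuotientGroup.mk' W (ι z), ⟨_, ⟨z, rfl⟩, rfl⟩, ?_⟩
    set u : S := ⟨φ ⟨s, hsP⟩, val_mem hφ _⟩ with hu
    have h3 : ι u = g * ι s * g⁻¹ := hφι ⟨s, hsP⟩ _
    have h4 : ((u⁻¹ * (z * s * z⁻¹) : S) : Ω) ∈ Q := by
      refine (hker _).1 ?_
      rw [map_mul, map_inv, inv_mul_eq_one, map_mul, map_mul, map_inv]
      exact h2
    have h5 : (ι u)⁻¹ * (ι z * ι s * (ι z)⁻¹) ∈ W := ⟨u⁻¹ * (z * s * z⁻¹), h4, by simp⟩
    show QuotientGroup.mk' W (ι z * ι s * (ι z)⁻¹) = QuotientGroup.mk' W (g * ι s * g⁻¹)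
    rw [← h3]
    exact ((QuotientGroup.eq (s := W)).2 h5).symm
  -- Tate
  set π := QuotientGroup.mk' W with hπ
  haveI : (Cfsg.pResidual p (G ⧸ W)).Normal := CfsgLib.Transfer.pResidual_normal
  set N : Subgroup G := (Cfsg.pResidual p (G ⧸ W)).comap π with hN
  have hNT : N ⊓ (T : Subgroup G) ≤ W := fun x hx => by
    have h1 := (CfsgLib.Transfer.hasNormalPComplement_iff_inf
      (T.mapSurjective (QuotientGroup.mk'_surjective W))).1 hqW
    refine (QuotientGroup.eq_one_iff x).1 (Subgroup.mem_bot.1 ((le_of_eq h1) ⟨hx.1, ?_⟩))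
    rw [Sylow.coe_mapSurjective]
    exact ⟨x, hx.2, rfl⟩
  have hWΦ : W ≤ (frattini (T : Subgroup G)).map (T : Subgroup G).subtype := by
    rintro _ ⟨q, hq, rfl⟩
    let e : S →* (T : Subgroup G) := ι.codRestrict _ fun x => hT.ge ⟨x, rfl⟩
    have he : Function.Surjective e := fun y => by
      obtain ⟨x, hx⟩ := hT.le y.2
      exact ⟨x, Subtype.ext hx⟩
    obtain ⟨q', hq', hqq⟩ := hQΦ hq
    obtain rfl : q' = q := Subtype.ext hqq
    exact ⟨e q', frattini_le_comap_frattini_of_surjective he hq', rfl⟩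
  have hNc := CfsgLib.Transfer.tate T N (hNT.trans hWΦ)
  have hNp : IsPGroup p N :=
    CfsgLib.ZJ.isPGroup_of_hasNormalPComplement_normal N hNc (pPrimeCore_eq_bot_of_constrained hKc)
  have hG : IsPGroup p G := by
    have h1 : IsPGroup p (G ⧸ N) := by
      rw [← CfsgLib.Transfer.pResidual_le_iff, hN, ← Subgroup.map_le_iff_le_comap]
      exact CfsgLib.Transfer.map_pResidual_le π
    have h2 := IsPGroup.comap_of_ker_isPGroup (h1.to_subgroup ⊤) (QuotientGroup.mk' N)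
      (by rw [QuotientGroup.ker_mk']; exact hNp)
    rw [Subgroup.comap_top] at h2
    exact h2.of_equiv Subgroup.topEquiv
  intro P φ hφ
  obtain ⟨g, hg⟩ := exists_of_hom hR hφ
  obtain ⟨s, rfl⟩ : g ∈ ι.range := by
    rw [← hT, ← T.3 (hG.of_equiv Subgroup.topEquiv.symm) le_top]
    trivial
  refine ⟨le_of_hom hφ, s, s.2, fun x => ?_⟩
  have h1 := hg x
  rw [← map_inv, ← map_mul, ← map_mul] at h1
  exact congrArg Subtype.val (hι h1)

end CfsgLib.Fusion
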