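import Cfsg.Agent.Fusion.ResidualModel
import Cfsg.Agent.Fusion.SolvableExtension
import Cfsg.Agent.Fusion.PPowerIndexNormal
import Cfsg.Agent.Fusion.ResidualNormal
import Cfsg.Agent.Fusion.PrimeToPResidual
import Cfsg.Agent.Fusion.NormalTransitive
import Cfsg.Agent.Fusion.ResidualLimit
import Cfsg.Agent.Fusion.Model
import Cfsg.Agent.Fusion.Tate.Hyperfocal
import Cfsg.Agent.PCore.PSolvable
import Cfsg.Agent.S5124

/-!
Systems with terminating residual series are the constrained systems with `p`-solvable models.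
-/

set_option autoImplicit false
set_option linter.style.haveILetI false

open Cfsg
open scoped commutatorElement

namespace CfsgLib.Fusion

open Cfsg.FusionSystem

universe u

variable {Ω : Type u} [Group Ω] {S T : Subgroup Ω} {F : Cfsg.FusionSystem S}
variable {p : ℕ} [Fact p.Prime]

/-- The maps that are conjugations by elements of `S` modulo `T`. -/
def conjModSystem (F : Cfsg.FusionSystem S) (T : Subgroup Ω) (hn : S ≤ Subgroup.normalizer (T : Set Ω)) :
    Cfsg.FusionSystem S where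
  Hom P := {φ | φ ∈ F.Hom P ∧ ∃ s ∈ S, ∀ x : P, φ x * (s * (x : Ω) * s⁻¹)⁻¹ ∈ T}
  le_of_mem h := F.le_of_mem h.1
  injective_of_mem h := F.injective_of_mem h.1
  conj_mem := by
    intro P g hP hg
    refine ⟨F.conj_mem hP hg, g, hg, fun x => ?_⟩
    show g * (x : Ω) * g⁻¹ * (g * (x : Ω) * g⁻¹)⁻¹ ∈ T
    rw [mul_inv_cancel]
    exact T.one_mem
  comp_mem := by
    rintro P Q φ ψ ⟨hφ, s, hs, h1⟩ ⟨hψ, r, hr, h2⟩ h
    refine ⟨F.comp_mem hφ hψ h, r * s, S.mul_mem hr hs, fun x => ?_⟩
    show ψ ⟨φ x, h x⟩ * _ ∈ T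
    have h3 := T.mul_mem (h2 ⟨φ x, h x⟩) (conj_mem_of_normalizer (hn hr) (h1 x))
    have e : ψ ⟨φ x, h x⟩ * (r * φ x * r⁻¹)⁻¹ * (r * (φ x * (s * x * s⁻¹)⁻¹) * r⁻¹) =
        ψ ⟨φ x, h x⟩ * (r * s * x * (r * s)⁻¹)⁻¹ := by group
    exact e ▸ h3
  inv_mem := by
    rintro P φ ⟨hφ, s, hs, h1⟩
    obtain ⟨ψ, hψ, h⟩ := F.inv_mem hφ
    refine ⟨ψ, ⟨hψ, s⁻¹, S.inv_mem hs, ?_⟩, h⟩
    rintro ⟨_, x, rfl⟩
    rw [h x]
    show (x : Ω) * (s⁻¹ * φ x * s⁻¹⁻¹)⁻¹ ∈ T
    have h3 := conj_mem_of_normalizer (hn (S.inv_mem hs)) (T.inv_mem (h1 x))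
    have e : s⁻¹ * (φ x * (s * (x : Ω) * s⁻¹)⁻¹)⁻¹ * s⁻¹⁻¹ = (x : Ω) * (s⁻¹ * φ x * s⁻¹⁻¹)⁻¹ := by group
    exact e ▸ h3

/-- Modulo a normal subgroup containing the hyperfocal subgroup all maps are conjugations. -/
theorem le_conjModSystem [Finite S] (hS : IsPGroup p S) (hF : F.IsSaturated p)
    (hn : S ≤ Subgroup.normalizer (T : Set Ω)) (hT : F.hyperfocalSubgroup p ≤ T) :
    F ≤ conjModSystem F T hn := by
  refine le_of_centricRadical hS hF _ fun R hRn _ _ => ?_
  refine autGroup_le_of_residual (fullyAutomized_of_fullyNormalized hS hF hRn) ?_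
    (autInducedBy_le_autGroup hRn.1)
  rintro _ ⟨c, hc, rfl⟩
  refine (mem_autGroup hRn.1).2 ⟨(mem_autGroup hRn.1).1 c.2, 1, S.one_mem, fun x => ?_⟩
  have h1 := hT (inv_mul_mem_hyperfocal hRn.1 hc x)
  have h2 := conj_mem_of_normalizer (hn (hRn.1 x.2)) h1
  show (((c : MulAut R) x : R) : Ω) * (1 * (x : Ω) * 1⁻¹)⁻¹ ∈ T
  simpa [mul_assoc] using h2

/-- An extension of a solvable normal subsystem by a system of conjugations is solvable. -/
theorem solvable_of_conjMod [Finite S] (hS : IsPGroup p S) (hF : F.IsSaturated p) {E : Cfsg.FusionSystem T}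
    (hE : E.IsNormalIn F p) (hEsol : E.IsSolvableSystem)
    (hmod : ∀ (P : Subgroup Ω) (φ : P →* Ω), φ ∈ F.Hom P →
      ∃ s ∈ S, ∀ x : P, φ x * (s * (x : Ω) * s⁻¹)⁻¹ ∈ T) : F.IsSolvableSystem := by
  classical
  have hT := hE.1.2.2.2.1
  haveI hTn : (T.subgroupOf S).Normal :=
    (Subgroup.normal_subgroupOf_iff_le_normalizer hT.1).2 (le_normalizer_of_stronglyClosed hT)
  set θ : S →* S ⧸ T.subgroupOf S := QuotientGroup.mk' (T.subgroupOf S)
  have hker : ∀ s : S, θ s = 1 ↔ (s : Ω) ∈ T := fun s => QuotientGroup.eq_one_iff s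
  have hD := isFactorSystem_factorSystem (F := F) (θ := θ) hker hT
  refine (solvable_iff_extension hS hF hE hD).2 ⟨hEsol, ?_⟩
  set D := factorSystem F θ hker hT
  have hDs : D.IsSaturated p := isSaturated_factor hS hF hT hD
  haveI : Finite (S ⧸ T.subgroupOf S) := Finite.of_surjective θ (QuotientGroup.mk'_surjective _)
  have hq : IsPGroup p (S ⧸ T.subgroupOf S) := hS.of_surjective θ (QuotientGroup.mk'_surjective _)
  haveI : Group.IsNilpotent (S ⧸ T.subgroupOf S) := hq.isNilpotent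
  obtain ⟨m, hm⟩ := Group.IsSolvable.solvable (G := S ⧸ T.subgroupOf S)
  have htop : θ.range = ⊤ := MonoidHom.range_eq_top.2 (QuotientGroup.mk'_surjective _)
  refine solvable_of_series (hq.to_subgroup _) hDs (n := m) (T := fun i => derivedSeries (S ⧸ T.subgroupOf S) (m - i))
    (by simpa using hm) (by rw [htop]; simp) (fun i => ?_) (fun i hi => ?_)
  · haveI := (derivedSeries_normal (S ⧸ T.subgroupOf S) (m - i))
    refine ⟨htop ▸ le_top, ?_⟩
    rintro R hR φ' ⟨hP, φ, hφ, hP0, hφ0, hP1, hind⟩ x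
    obtain ⟨d, hd⟩ := exists_section hP x
    obtain ⟨s, hs, hsx⟩ := hmod _ φ hφ
    have hx : x = ⟨θ ⟨d, hP0 d.2⟩, hP1 d⟩ := Subtype.ext hd.symm
    rw [hx, hind]
    have he : θ ⟨φ d, hφ0 d⟩ = θ ⟨s, hs⟩ * θ ⟨d, hP0 d.2⟩ * (θ ⟨s, hs⟩)⁻¹ := by
      rw [← mul_inv_eq_one, ← map_inv θ ⟨s, hs⟩, ← map_mul, ← map_mul, ← map_inv, ← map_mul, hker]
      exact hsx d
    show θ ⟨φ d, hφ0 d⟩ ∈ derivedSeries (S ⧸ T.subgroupOf S) (m - i)
    rw [he]
    refine Subgroup.Normal.conj_mem inferInstance _ ?_ _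
    rw [hd]
    exact hR x.2
  · rw [show m - i = (m - (i + 1)) + 1 by omega, derivedSeries_succ]

/-- A system over the trivial subgroup is solvable. -/
lemma solvable_of_bot [Finite S] (hS : IsPGroup p S) (hF : F.IsSaturated p) (h : S = ⊥) : F.IsSolvableSystem :=
  solvable_of_series hS hF (n := 0) (T := fun _ => ⊥) rfl h.symm
    (fun _ => stronglyClosed_of_isNormal (isNormal_bot F)) (fun i hi => absurd hi (Nat.not_lt_zero i))

/-- Terminating residual series give solvable systems with `p`-solvable models. -/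
theorem of_terminating : ∀ {S : Subgroup Ω} {F : Cfsg.FusionSystem S} {p : ℕ}
    (_ : F.HasTerminatingResidualSeries p) [Fact p.Prime] [Finite S], IsPGroup p S → F.IsSaturated p →
      F.IsSolvableSystem ∧ ∀ (G : Type u) [Group G] (ι : S →* G), F.IsModel p G ι → Cfsg.IsPSolvable p G := by
  intro S F p h
  induction h with
  | @trivial S F p hbot =>
    intro _ _ hS hF
    refine ⟨solvable_of_bot hS hF hbot, fun G _ ι hG => ?_⟩
    obtain ⟨hfin, -, ⟨R, hR⟩, hC⟩ := hG
    subst hbot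
    have hbotR : (R : Subgroup G) = ⊥ := by
      rw [hR, eq_bot_iff]
      rintro _ ⟨x, rfl⟩
      rw [Subsingleton.elim x 1, map_one]
      exact Subgroup.one_mem _
    refine CfsgLib.PCore.isPSolvable_of_coprime ?_
    have h1 : ¬ p ∣ Nat.card G := fun hd => by
      have h2 := R.not_dvd_index
      rw [hbotR, Subgroup.index_bot] at h2
      exact h2 hd
    exact ((Fact.out : p.Prime).coprime_iff_not_dvd.2 h1).symm
  | @step S F E p D hE hD _ ih =>
    intro _ _ hS hF
    have hEs := hE.1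
    have hTS : E.hyperfocalSubgroup p ≤ S := hyperfocal_le_self E
    haveI := finite_of_le hTS
    obtain ⟨hDsol, hDmod⟩ := ih (hS.to_le hTS) hD.1
    have hTn := hyperfocal_normal (p := p) E
    have hDn : D.IsNormalIn E p := isNormalIn_of_pPowerIndex hS hEs hTS hTn le_rfl hD.1 hD.2
    have hEn : E.IsNormalIn F p := residual_isNormalIn hS (isNormalIn_self hF).1 hE
    have hn := (Subgroup.normal_subgroupOf_iff_le_normalizer hTS).1 hTn
    have hEsol : E.IsSolvableSystem := solvable_of_conjMod hS hEs hDn hDsol fun P φ hφ =>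
      (le_conjModSystem hS hEs hn le_rfl P hφ).2
    refine ⟨solvable_of_conjMod hS hF hEn hEsol fun P φ hφ => ⟨1, S.one_mem, fun x => ?_⟩, ?_⟩
    · exact S.mul_mem (val_mem hφ x) (S.inv_mem (S.mul_mem (S.mul_mem S.one_mem (le_of_hom hφ x.2)) (S.inv_mem S.one_mem)))
    intro G _ ι hG
    obtain ⟨ι₁, hM⟩ := residual_model hS hG hE
    obtain ⟨hfin, -, ⟨R, -⟩, -⟩ := hG
    obtain ⟨ι₂, hK⟩ := presidual_model hS hM hD
    have hKs := hDmod _ ι₂ hK
    haveI := CfsgLib.Transfer.pResidual_normal (p := p) (G := pElemGroup p G)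
    have hMs : Cfsg.IsPSolvable p (pElemGroup p G) := CfsgLib.PCore.isPSolvable_of_normal _ hKs
      (CfsgLib.PCore.isPSolvable_of_isPGroup ((CfsgLib.Transfer.pResidual_le_iff _).1 le_rfl))
    exact CfsgLib.PCore.isPSolvable_of_normal _ hMs (CfsgLib.PCore.isPSolvable_of_coprime
      (by rw [← Subgroup.index_eq_card]; exact index_pElemGroup_coprime R))

/-- A `p`-solvable group generated by its `p`-elements that equals `O^p` of itself is trivial. -/
lemma top_eq_bot_of_pResidual {M : Type u} [Group M] [Finite M] (hs : Cfsg.IsPSolvable p M)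
    (hgen : pElemGroup p M = ⊤) (hres : Cfsg.pResidual p M = ⊤) : (⊤ : Subgroup M) = ⊥ := by
  obtain ⟨n, H, h0, h1, hmono, hnorm, hfac⟩ := hs
  have hall : ∀ i, H i = ⊤ := by
    intro i
    induction i using Fin.reverseInduction with
    | last => exact h1
    | cast i ih =>
      haveI := hnorm i.castSucc
      have hfi := hfac i
      rw [ih, Subgroup.relIndex_top_right] at hfi
      rcases hfi with ⟨m, hm⟩ | hcop
      · refine eq_top_iff.2 (hres ▸ (CfsgLib.Transfer.pResidual_le_iff _).2 (IsPGroup.of_card (n := m) ?_))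
        rw [← Subgroup.index_eq_card, hm]
      · refine eq_top_iff.2 (hgen ▸ (Subgroup.closure_le _).2 ?_)
        rintro g ⟨k, hk⟩
        have h2 : orderOf (QuotientGroup.mk' (H i.castSucc) g) = 1 := by
          refine Nat.eq_one_of_dvd_coprimes ((hcop.pow_right k)) ?_ (hk ▸ orderOf_map_dvd _ g)
          rw [Subgroup.index_eq_card]
          exact orderOf_dvd_natCard _
        exact (QuotientGroup.eq_one_iff g).1 (orderOf_eq_one_iff.1 h2)
  rw [← hall 0, h0]

/-- Constrained systems with a `p`-solvable model have terminating residual series. -/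
theorem terminating_of_model : ∀ (n : ℕ) {S : Subgroup Ω} [Finite S] (F : Cfsg.FusionSystem S),
    Nat.card S < n → IsPGroup p S → F.IsSaturated p → ∀ (G : Type u) [Group G] (ι : S →* G),
      F.IsModel p G ι → Cfsg.IsPSolvable p G → F.HasTerminatingResidualSeries p := by
  intro n
  induction n with
  | zero => exact fun _ h => absurd h (Nat.not_lt_zero _)
  | succ n ih =>
    intro S _ F hn hS hF G _ ι hG hsolv
    by_cases hbot : S = ⊥
    · exact HasTerminatingResidualSeries.trivial F p hbot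
    obtain ⟨hEs, hEi, hEle⟩ := isPPrimeResidual_pPrimeResidualSystem hS F hF
    set E := pPrimeResidualSystem (p := p) F
    have hE : F.IsPPrimeResidual p E := ⟨hEs, hEi, hEle⟩
    obtain ⟨ι₁, hM⟩ := residual_model hS hG hE
    obtain ⟨hfinM, hRM, ⟨R, hR⟩, -⟩ := id hM
    haveI := hfinM
    haveI : Finite G := hG.1
    have hMsolv := CfsgLib.PCore.isPSolvable_subgroup hsolv (pElemGroup p G)
    have e := hyperfocal_realized hRM R hR
    have hD := isPResidual_subgroupSystem hM e
    obtain ⟨ι₂, hK⟩ := presidual_model hS hM hD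
    have hTS : E.hyperfocalSubgroup p ≤ S := hyperfocal_le_self E
    haveI := finite_of_le hTS
    refine HasTerminatingResidualSeries.step F E p _ hE hD (ih _ ?_ (hS.to_le hTS) hD.1 _ ι₂ hK
      (CfsgLib.PCore.isPSolvable_subgroup hMsolv _))
    refine lt_of_lt_of_le ?_ (Nat.lt_succ_iff.1 hn)
    refine lt_of_le_of_ne (Subgroup.card_le_of_le hTS) fun hc => hbot ?_
    have hTeq : E.hyperfocalSubgroup p = S := Subgroup.eq_of_le_of_card_ge hTS hc.ge
    haveI := CfsgLib.Transfer.pResidual_normal (p := p) (G := pElemGroup p G)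
    have hRK : (R : Subgroup (pElemGroup p G)) ≤ Cfsg.pResidual p (pElemGroup p G) := by
      rw [hR]
      rintro _ ⟨x, rfl⟩
      obtain ⟨_, hx⟩ := mem_preimageAlong.1 (e.ge (hTeq.ge x.2))
      exact hx
    have hgen : pElemGroup p (pElemGroup p G) = ⊤ := by
      rw [eq_top_iff]
      have hG' : ∀ g ∈ pElemGroup p G, g ∈ (pElemGroup p (pElemGroup p G)).map (pElemGroup p G).subtype := by
        intro g hg
        refine (Subgroup.closure_le _).2 ?_ hg
        rintro z ⟨k, hk⟩
        have hz : z ∈ pElemGroup p G := Subgroup.subset_closure ⟨k, hk⟩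
        exact ⟨⟨z, hz⟩, Subgroup.subset_closure ⟨k, by rw [Subgroup.orderOf_mk]; exact hk⟩, rfl⟩
      intro x _
      obtain ⟨y, hy, hyx⟩ := hG' x x.2
      rwa [← Subtype.ext hyx]
    have hres : Cfsg.pResidual p (pElemGroup p G) = ⊤ := by
      refine eq_top_iff.2 (hgen ▸ (Subgroup.closure_le _).2 ?_)
      rintro g ⟨k, hk⟩
      have hzp : IsPGroup p (Subgroup.zpowers g) := IsPGroup.of_card (n := k) (by rw [Nat.card_zpowers, hk])
      obtain ⟨R', hgR'⟩ := hzp.exists_le_sylow
      obtain ⟨c, hc⟩ := MulAction.exists_smul_eq (pElemGroup p G) R R'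
      have h3 : g ∈ (R' : Subgroup (pElemGroup p G)) := hgR' (Subgroup.mem_zpowers g)
      rw [← hc, Sylow.smul_def, Sylow.pointwise_smul_def] at h3
      obtain ⟨y, hy, rfl⟩ := h3
      exact Subgroup.Normal.conj_mem inferInstance _ (hRK hy) c
    have htb := top_eq_bot_of_pResidual (p := p) hMsolv hgen hres
    refine (Subgroup.eq_bot_iff_forall _).2 fun x hx => ?_
    have h4 : ι₁ ⟨x, hx⟩ ∈ (⊥ : Subgroup (pElemGroup p G)) := htb ▸ Subgroup.mem_top _
    exact congrArg Subtype.val (hRM.1 ((Subgroup.mem_bot.1 h4).trans (map_one ι₁).symm))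

/-- The characterization of systems with terminating residual series. -/
theorem terminating_iff [Finite S] (hS : IsPGroup p S) (hF : F.IsSaturated p) :
    F.HasTerminatingResidualSeries p ↔
      (F.IsConstrained p ∧ ∀ (G : Type u) [Group G] (ι : S →* G), F.IsModel p G ι → Cfsg.IsPSolvable p G) := by
  constructor
  · intro h
    obtain ⟨hsol, hmod⟩ := of_terminating h hS hF
    obtain ⟨n, C, h0, hn, -, hsc, hab⟩ := exists_series_of_solvable hS hF hsol (Nat.card S) ⊥
      (Nat.le_add_left _ _) (stronglyClosed_of_isNormal (isNormal_bot F))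
    exact ⟨isConstrained_of_series hS hF h0 hn hsc hab, hmod⟩
  · rintro ⟨hc, hmod⟩
    obtain ⟨G, _, ι, hG⟩ := exists_model hS hc
    exact terminating_of_model _ F (Nat.lt_succ_self _) hS hF G ι hG (hmod G ι hG)

end CfsgLib.Fusion
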