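import Cfsg.Agent.Fusion.GlaubermanFactor
import Cfsg.Agent.Fusion.RadicalLift

/-!
A saturated system is generated by the centralizer of the `p`-th powers of `Z(S)` and the normalizer of `J(S)`.
-/

set_option autoImplicit false
set_option linter.style.haveILetI false

open Cfsg

namespace CfsgLib.Fusion

open Cfsg.FusionSystem
open CfsgLib.ZJ
open scoped Pointwise

universe u

variable {Ω : Type u} [Group Ω] {S : Subgroup Ω} [Finite S] {F : Cfsg.FusionSystem S} {p : ℕ} [Fact p.Prime]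

omit [Finite S] [Fact p.Prime] in
/-- A partial conjugation by `g`, pulled back along `ι`. -/
lemma exists_pullback_conj {P : Subgroup Ω} {G : Type*} [Group G] (ι : P →* G) (hι : Function.Injective ι)
    (g : G) (D : Subgroup Ω) (hD : D ≤ P)
    (h : ∀ x : P, (x : Ω) ∈ D → g * ι x * g⁻¹ ∈ ι.range) :
    ∃ ψ : D →* Ω, ∀ x : D, ∃ hx : ψ x ∈ P, g * ι (Subgroup.inclusion hD x) * g⁻¹ = ι ⟨ψ x, hx⟩ := by
  let f : D →* P := ((MonoidHom.ofInjective hι).symm.toMonoidHom).comp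
    (((MulAut.conj g).toMonoidHom.comp (ι.comp (Subgroup.inclusion hD))).codRestrict ι.range
      fun x => h (Subgroup.inclusion hD x) x.2)
  refine ⟨P.subtype.comp f, fun x => ⟨(f x).2, ?_⟩⟩
  show _ = ι (f x)
  exact (congrArg Subtype.val ((MonoidHom.ofInjective hι).apply_symm_apply
    ⟨g * ι (Subgroup.inclusion hD x) * g⁻¹, h (Subgroup.inclusion hD x) x.2⟩)).symm

/-- A centric subgroup generated inside a fully normalized one by its Thompson subgroup. -/
lemma centralizerIn_thompson_le (hS : IsPGroup p S) {Y U P : Subgroup Ω} (hUY : U ≤ Y) (hYS : Y ≤ S)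
    (hYN : normalizerIn S Y ≤ P) (hP : P ≤ Subgroup.normalizer (U : Set Ω))
    (hCP : ∀ c ∈ P, c ∈ Subgroup.centralizer (U : Set Ω) → c ∈ U) : centralizerIn S U ≤ U := by
  set H := Y ⊔ centralizerIn S U with hH
  have hHS : H ≤ S := sup_le hYS inf_le_left
  have hYP : Y ≤ P := (le_inf hYS Subgroup.le_normalizer).trans hYN
  have hnC : Y ≤ Subgroup.normalizer ((centralizerIn S U : Subgroup Ω) : Set Ω) := by
    have key : ∀ y ∈ Y, ∀ c ∈ centralizerIn S U, y * c * y⁻¹ ∈ centralizerIn S U := by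
      intro y hy c hc
      refine ⟨S.mul_mem (S.mul_mem (hYS hy) hc.1) (S.inv_mem (hYS hy)), Subgroup.mem_centralizer_iff.2 fun u hu => ?_⟩
      have h1 := Subgroup.mem_centralizer_iff.1 hc.2 _ (conj_inv_mem_of_normalizer (hP (hYP hy)) hu)
      calc u * (y * c * y⁻¹) = y * (y⁻¹ * u * y * c) * y⁻¹ := by group
        _ = y * (c * (y⁻¹ * u * y)) * y⁻¹ := by rw [h1]
        _ = y * c * y⁻¹ * u := by group
    exact fun y hy => Subgroup.mem_normalizer_iff.2 fun c => ⟨key y hy c, fun hc => by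
      have := key y⁻¹ (Y.inv_mem hy) _ hc
      simpa [mul_assoc] using this⟩
  haveI := finite_of_le hHS
  have hHY : H = Y := by
    by_contra hne
    have hlt := lt_normalizerIn (hS.to_le hHS) (lt_of_le_of_ne le_sup_left (Ne.symm hne) : Y < H)
    obtain ⟨n, hn, hnY⟩ := SetLike.exists_of_lt hlt
    have hn1 : n ∈ ((Y : Set Ω) * (centralizerIn S U : Set Ω)) := by
      rw [← Subgroup.coe_mul_of_left_le_normalizer_right _ _ hnC]
      exact hn.1
    obtain ⟨y, hy, c, hc, rfl⟩ := Set.mem_mul.1 hn1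
    have hcP : c ∈ P := by
      rw [show c = y⁻¹ * (y * c) by group]
      exact P.mul_mem (P.inv_mem (hYP hy)) (hYN ⟨hHS hn.1, hn.2⟩)
    exact hnY (Y.mul_mem hy (hUY (hCP c hcP hc.2)))
  intro c hc
  exact hCP c (hYP (hHY.le (Subgroup.mem_sup_right hc))) hc.2

/-- Generation by `C_F(℧(Z(S)))` and `N_F(J(S))`. -/
theorem le_of_thompson_factor (hS : IsPGroup p S) (hF : F.IsSaturated p) (E : Cfsg.FusionSystem S)
    (hCE : ∀ X : Subgroup Ω,
      F.centralizerHom (Cfsg.powerClosure p 1 (S ⊓ Subgroup.centralizer (S : Set Ω))) X ⊆ E.Hom X)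
    (hNE : ∀ X : Subgroup Ω, F.normalizerHom (Cfsg.thompsonSubgroupAOf S) X ⊆ E.Hom X) :
    F ≤ E := by
  set K := Cfsg.powerClosure p 1 (S ⊓ Subgroup.centralizer (S : Set Ω)) with hK
  have hKS : K ≤ S := (Subgroup.closure_le _).2 (by rintro _ ⟨x, hx, rfl⟩; exact S.pow_mem hx.1 _)
  have hKZ : S ≤ Subgroup.centralizer (K : Set Ω) := by
    intro s hs
    refine Subgroup.mem_centralizer_iff.2 fun y hy => ?_
    induction hy using Subgroup.closure_induction with
    | mem z hz =>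
      obtain ⟨x, hx, rfl⟩ := hz
      exact ((show Commute s x from Subgroup.mem_centralizer_iff.1 hx.2 s hs).pow_right _).eq.symm
    | one => simp
    | mul a b _ _ ha hb => exact ((show Commute a s from ha).mul_left hb).eq
    | inv a _ ha => exact (show Commute a s from ha).inv_left.eq
  suffices key : ∀ k : ℕ, ∀ Y : Subgroup Ω, ∀ hY : F.IsFullyNormalized Y, F.IsCentric Y →
      (Nat.card S - Nat.card (normalizerIn S Y)) * (Nat.card S + 1) + (Nat.card S - Nat.card Y) = k →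
      ∀ (X : Subgroup Ω) (φ : X →* Ω), φ ∈ (normalizerSystem F hY.1).Hom X → φ ∈ E.Hom X by
    refine le_of_centricRadical hS hF E fun R hR hRc _ α hα => (mem_autGroup hR.1).2 ?_
    refine key _ R hR hRc rfl R _ ?_
    exact mem_normalizerSystem_of_invariant hR.1 ((mem_autGroup hR.1).1 hα) le_rfl le_rfl
      (le_inf hR.1 Subgroup.le_normalizer) fun y hy => (α ⟨y, hy⟩).2
  intro k
  induction k using Nat.strong_induction_on with
  | _ k ih =>
  intro Y hY hYc hk X φ hφ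
  set P := normalizerIn S Y with hP
  haveI : Finite P := finite_normalizerIn (S := S) Y
  have hPS : P ≤ S := inf_le_left
  have hYP : Y ≤ P := le_inf hY.1 Subgroup.le_normalizer
  have hrec : ∀ U : Subgroup Ω, ∀ hU : F.IsFullyNormalized U, F.IsCentric U →
      (Nat.card P < Nat.card (normalizerIn S U) ∨
        (Nat.card P ≤ Nat.card (normalizerIn S U) ∧ Nat.card Y < Nat.card U)) →
      ∀ (X : Subgroup Ω) (φ : X →* Ω), φ ∈ (normalizerSystem F hU.1).Hom X → φ ∈ E.Hom X := by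
    intro U hU hUc hlt
    refine ih _ ?_ U hU hUc rfl
    rw [← hk]
    haveI := finite_normalizerIn (S := S) U
    have h1 : Nat.card (normalizerIn S U) ≤ Nat.card S := Subgroup.card_le_of_le inf_le_left
    have h2 : Nat.card U ≤ Nat.card S := Subgroup.card_le_of_le hU.1
    rcases hlt with h | ⟨h, h'⟩
    · have h3 : (Nat.card S - Nat.card (normalizerIn S U) + 1) * (Nat.card S + 1) ≤
          (Nat.card S - Nat.card P) * (Nat.card S + 1) := Nat.mul_le_mul_right _ (by omega)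
      rw [Nat.add_mul, one_mul] at h3
      omega
    · have h3 : (Nat.card S - Nat.card (normalizerIn S U)) * (Nat.card S + 1) ≤
          (Nat.card S - Nat.card P) * (Nat.card S + 1) := Nat.mul_le_mul_right _ (by omega)
      omega
  -- the model
  have hTp : IsPGroup p P := hS.to_le hPS
  have hcons : (normalizerSystem F hY.1).IsConstrained p :=
    ⟨isSaturated_normalizerSystem hS hF hY, Y, isNormal_self_normalizerSystem hY.1,
      isCentric_self_normalizerSystem hY.1 hYc⟩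
  obtain ⟨L, _, ι, hι⟩ := exists_model hTp hcons
  obtain ⟨hnorm, -⟩ := normal_of_model hTp hι (isNormal_self_normalizerSystem hY.1)
    (isCentric_self_normalizerSystem hY.1 hYc)
  obtain ⟨hLfin, ⟨hinj, hreal⟩, ⟨T, hT⟩, hLc⟩ := hι
  haveI := hLfin
  suffices main : ∀ D g, D ≤ (T : Subgroup L) → (∀ x ∈ D, g * x * g⁻¹ ∈ (T : Subgroup L)) →
      ∀ (X : Subgroup Ω) (hX : X ≤ P) (φ : X →* Ω), (∀ x : X, ι (Subgroup.inclusion hX x) ∈ D) →
        (∀ x : X, ∃ h : φ x ∈ P, g * ι (Subgroup.inclusion hX x) * g⁻¹ = ι ⟨φ x, h⟩) → φ ∈ E.Hom X by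
    obtain ⟨hX, hφP⟩ := (normalizerSystem F hY.1).le_of_mem hφ
    obtain ⟨g, hg⟩ := (hreal X hX φ hφP).1 hφ
    refine main ((X.subgroupOf P).map ι) g ?_ ?_ X hX φ (fun x => ⟨_, x.2, rfl⟩)
      fun x => ⟨hφP x, (hg x).symm⟩
    · rw [hT]; rintro _ ⟨x, -, rfl⟩; exact ⟨x, rfl⟩
    · rintro _ ⟨x, hx, rfl⟩
      rw [hT]
      exact ⟨⟨_, hφP ⟨x, hx⟩⟩, hg ⟨x, hx⟩⟩
  -- conjugations between subgroups of `P` lie in the normalizer system
  have hmem : ∀ (D : Subgroup Ω) (hD : D ≤ P) (ψ : D →* Ω) (g : L),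
      (∀ x : D, ∃ h : ψ x ∈ P, g * ι (Subgroup.inclusion hD x) * g⁻¹ = ι ⟨ψ x, h⟩) →
      ψ ∈ (normalizerSystem F hY.1).Hom D := fun D hD ψ g h =>
    (hreal D hD ψ fun x => (h x).1).2 ⟨g, fun x => (h x).2.symm⟩
  refine fusion_factor L T hLc _ ?_ ?_ ?_
  · -- the centralizer part
    intro D g hD hDg hgC X hX φ hXD hφg
    have hKP : K ≤ P := fun y hy => ⟨hKS hy, Subgroup.mem_normalizer_iff.2 fun z => by
      constructor
      · intro hz
        have h1 := Subgroup.mem_centralizer_iff.1 (hKZ (hY.1 hz)) y hy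
        rwa [h1, mul_inv_cancel_right]
      · intro hz
        have h1 := Subgroup.mem_centralizer_iff.1 (hKZ (hY.1 hz)) y hy
        have : z = y * z * y⁻¹ := by
          have h2 : y⁻¹ * (y * z * y⁻¹) * y = z := by group
          calc z = y⁻¹ * (y * z * y⁻¹) * y := h2.symm
            _ = y⁻¹ * (y * (y * z * y⁻¹)) := by rw [h1, mul_assoc]
            _ = y * z * y⁻¹ := inv_mul_cancel_left _ _
        rw [this]
        exact hz⟩
    have hfixK : ∀ z : P, (z : Ω) ∈ K → g * ι z * g⁻¹ = ι z := by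
      intro z hz
      let G₀ : Subgroup Ω := (((Subgroup.centralizer {g}).comap ι).map P.subtype)
      have hle : K ≤ G₀ := (Subgroup.closure_le _).2 (by
        rintro _ ⟨w, hw, rfl⟩
        have hwP : w ∈ P := ⟨hw.1, Subgroup.mem_normalizer_iff.2 fun z => by
          constructor
          · intro hz
            rwa [← Subgroup.mem_centralizer_iff.1 hw.2 z (hY.1 hz), mul_inv_cancel_right]
          · intro hz
            have h1 := Subgroup.mem_centralizer_iff.1 hw.2 _ (hY.1 hz)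
            have : z = w * z * w⁻¹ := by
              calc z = w⁻¹ * (w * z * w⁻¹) * w := by group
                _ = w⁻¹ * (w * (w * z * w⁻¹)) := by rw [mul_assoc, h1]
                _ = w * z * w⁻¹ := inv_mul_cancel_left _ _
            rw [this]
            exact hz⟩
        refine ⟨⟨w, hwP⟩ ^ (p ^ 1), Subgroup.mem_centralizer_iff.2 ?_, rfl⟩
        intro g' hg'
        rw [Set.mem_singleton_iff.1 hg', map_pow, pow_one]
        refine hgC (ι ⟨w, hwP⟩) (hT.ge ⟨_, rfl⟩) fun t ht => ?_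
        obtain ⟨t, rfl⟩ := hT.le ht
        rw [← map_mul, ← map_mul]
        exact congrArg ι (Subtype.ext (Subgroup.mem_centralizer_iff.1 hw.2 t (hPS t.2))))
      obtain ⟨z', hz', hzz⟩ := hle hz
      obtain rfl : z' = z := Subtype.ext hzz
      rw [Subgroup.mem_centralizer_iff.1 hz' g rfl, mul_inv_cancel_right]
    have hDK : X ⊔ K ≤ P := sup_le hX hKP
    have hrange : ∀ z : P, (z : Ω) ∈ X ⊔ K → g * ι z * g⁻¹ ∈ ι.range := by
      have hle : X ⊔ K ≤ (((ι.range.comap (MulAut.conj g).toMonoidHom).comap ι).map P.subtype) :=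
        sup_le (fun x hx => ⟨⟨x, hX hx⟩, hT.le (hDg _ (hXD ⟨x, hx⟩)), rfl⟩)
          fun x hx => ⟨⟨x, hKP hx⟩, ⟨⟨x, hKP hx⟩, (hfixK ⟨x, hKP hx⟩ hx).symm⟩, rfl⟩
      intro z hz
      obtain ⟨z', hz', hzz⟩ := hle hz
      obtain rfl : z' = z := Subtype.ext hzz
      exact hz'
    obtain ⟨ψ, hψ⟩ := exists_pullback_conj ι hinj g (X ⊔ K) hDK hrange
    have hψF : ψ ∈ F.Hom (X ⊔ K) := normalizerSystem_sub hY.1 _ (hmem _ hDK ψ g hψ)
    have hag : ∀ x : X, ψ (Subgroup.inclusion le_sup_left x) = φ x := fun x => by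
      obtain ⟨h1, e1⟩ := hψ (Subgroup.inclusion le_sup_left x)
      obtain ⟨h2, e2⟩ := hφg x
      exact congrArg Subtype.val (hinj (e1.symm.trans e2) : (⟨_, h1⟩ : P) = ⟨_, h2⟩)
    refine hCE X ⟨mem_of_eq (restrict hψF le_sup_left) fun x => (hag x).symm,
      le_inf (hX.trans hPS) ((hX.trans hPS).trans hKZ),
      fun x => ⟨hPS (hφg x).1, hKZ (hPS (hφg x).1)⟩, ψ, hψF, hag, fun x => ?_⟩
    obtain ⟨h1, e1⟩ := hψ (Subgroup.inclusion le_sup_right x)
    exact congrArg Subtype.val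
      (hinj (e1.symm.trans (hfixK ⟨x, hKP x.2⟩ x.2)) : (⟨_, h1⟩ : P) = ⟨x, hKP x.2⟩)
  · -- the normalizer part
    intro D g hD hDg hgN X hX φ hXD hφg
    set J₀ := J p false (P : Subgroup Ω) with hJ₀
    have hJP : J₀ ≤ P := J_le P
    have hJι : J p false (T : Subgroup L) = (J₀.subgroupOf P).map ι := by
      have e : ι.range = (⊤ : Subgroup P).map ι := MonoidHom.range_eq_map ι
      rw [hT, e, J_map ι fun x _ hx => hinj (hx.trans (map_one ι).symm)]
      congr 1
      rw [hJ₀, J_eq_map_top P, Subgroup.subgroupOf, Subgroup.comap_map_eq_self_of_injective P.subtype_injective]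
    have hgJ : ∀ z : P, (z : Ω) ∈ J₀ → ∃ z' : P, (z' : Ω) ∈ J₀ ∧ g * ι z * g⁻¹ = ι z' := by
      intro z hz
      obtain ⟨z', hz', he⟩ := hJι.le ((Subgroup.mem_normalizer_iff.1 hgN (ι z)).1 (hJι.ge ⟨z, hz, rfl⟩))
      exact ⟨z', hz', he.symm⟩
    have hgY : ∀ z : P, (z : Ω) ∈ Y → ∃ z' : P, (z' : Ω) ∈ Y ∧ g * ι z * g⁻¹ = ι z' := by
      intro z hz
      obtain ⟨z', hz', he⟩ := hnorm.conj_mem _ (⟨z, hz, rfl⟩ : ι z ∈ imageAlong ι Y) g
      exact ⟨z', hz', he.symm⟩
    set D₂ := X ⊔ (Y ⊔ J₀) with hD₂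
    have hD₂P : D₂ ≤ P := sup_le hX (sup_le hYP hJP)
    have hrange : ∀ z : P, (z : Ω) ∈ D₂ → g * ι z * g⁻¹ ∈ ι.range := by
      have hle : D₂ ≤ (((ι.range.comap (MulAut.conj g).toMonoidHom).comap ι).map P.subtype) :=
        sup_le (fun x hx => ⟨⟨x, hX hx⟩, hT.le (hDg _ (hXD ⟨x, hx⟩)), rfl⟩) (sup_le
          (fun x hx => by
            obtain ⟨z', -, he⟩ := hgY ⟨x, hYP hx⟩ hx
            exact ⟨⟨x, hYP hx⟩, ⟨z', he.symm⟩, rfl⟩)
          fun x hx => by
            obtain ⟨z', -, he⟩ := hgJ ⟨x, hJP hx⟩ hx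
            exact ⟨⟨x, hJP hx⟩, ⟨z', he.symm⟩, rfl⟩)
      intro z hz
      obtain ⟨z', hz', hzz⟩ := hle hz
      obtain rfl : z' = z := Subtype.ext hzz
      exact hz'
    obtain ⟨ψ, hψ⟩ := exists_pullback_conj ι hinj g D₂ hD₂P hrange
    have hψF : ψ ∈ F.Hom D₂ := normalizerSystem_sub hY.1 _ (hmem _ hD₂P ψ g hψ)
    have hag : ∀ x : X, ψ (Subgroup.inclusion le_sup_left x) = φ x := fun x => by
      obtain ⟨h1, e1⟩ := hψ (Subgroup.inclusion le_sup_left x)
      obtain ⟨h2, e2⟩ := hφg x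
      exact congrArg Subtype.val (hinj (e1.symm.trans e2) : (⟨_, h1⟩ : P) = ⟨_, h2⟩)
    have hφF : φ ∈ F.Hom X := mem_of_eq (restrict hψF le_sup_left) fun x => (hag x).symm
    have hψY : ∀ y (hy : y ∈ Y), ψ ⟨y, Subgroup.mem_sup_right (Subgroup.mem_sup_left hy)⟩ ∈ Y := by
      intro y hy
      obtain ⟨h1, e1⟩ := hψ ⟨y, Subgroup.mem_sup_right (Subgroup.mem_sup_left hy)⟩
      obtain ⟨z', hz', he⟩ := hgY ⟨y, hYP hy⟩ hy
      have e : (⟨_, h1⟩ : P) = z' := hinj (e1.symm.trans he)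
      exact (congrArg Subtype.val e).symm.subst (motive := fun w : Ω => w ∈ _) hz'
    have hψJ : ∀ y (hy : y ∈ J₀), ψ ⟨y, Subgroup.mem_sup_right (Subgroup.mem_sup_right hy)⟩ ∈ J₀ := by
      intro y hy
      obtain ⟨h1, e1⟩ := hψ ⟨y, Subgroup.mem_sup_right (Subgroup.mem_sup_right hy)⟩
      obtain ⟨z', hz', he⟩ := hgJ ⟨y, hJP hy⟩ hy
      have e : (⟨_, h1⟩ : P) = z' := hinj (e1.symm.trans he)
      exact (congrArg Subtype.val e).symm.subst (motive := fun w : Ω => w ∈ _) hz'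
    have hnJ : ∀ Q : Subgroup Ω, normalizerIn S Q ≤ normalizerIn S (J p false Q) := fun Q =>
      inf_le_inf_left S (normalizer_le_normalizer_J Q)
    rcases eq_or_lt_of_le hPS with hPS' | hPS'
    · -- `P = S`
      have hJS : J₀ = Cfsg.thompsonSubgroupAOf S := by
        rw [hJ₀, hPS', thompsonSubgroupAOf_eq p]
      have hJS' : Cfsg.thompsonSubgroupAOf S ≤ S := hJS ▸ hJP.trans hPS
      have hSN : S ≤ normalizerIn S (Cfsg.thompsonSubgroupAOf S) := by
        rw [thompsonSubgroupAOf_eq p]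
        exact le_inf le_rfl (Subgroup.le_normalizer.trans (normalizer_le_normalizer_J S))
      have hle : X ⊔ Cfsg.thompsonSubgroupAOf S ≤ D₂ := sup_le le_sup_left (hJS ▸ le_sup_right.trans le_sup_right)
      refine hNE X ⟨hφF, (hX.trans hPS).trans hSN, fun x => hSN (val_mem hφF x),
        ψ.comp (Subgroup.inclusion hle), restrict hψF hle, hag, ?_⟩
      exact map_eq_of_invariant hJS' le_sup_right (restrict hψF hle) fun y hy => hJS.le (hψJ y (hJS.ge hy))
    -- `P < S`: the maps with large source lie in `E`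
    have hPS'' : Nat.card P < Nat.card S := lt_of_le_of_ne (Subgroup.card_le_of_le hPS) fun e =>
      hPS'.ne (Subgroup.eq_of_le_of_card_ge hPS e.ge)
    have hbig : ∀ {Z : Subgroup Ω} {χ : Z →* Ω}, χ ∈ F.Hom Z → Nat.card P ≤ Nat.card Z → χ ∈ E.Hom Z := by
      intro Z χ hχ hZ
      have hpos : 0 < Nat.card P := Nat.card_pos
      refine (le_of_centricRadical hS hF (largeSystem F E (Nat.card P - 1)) (fun R hR hRc _ α hα => ?_) Z hχ).2
        (by omega)
      refine (mem_autGroup hR.1).2 ⟨(mem_autGroup hR.1).1 hα, fun hn => ?_⟩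
      refine hrec R hR hRc (Or.inl ?_) R _ (mem_normalizerSystem_of_invariant hR.1 ((mem_autGroup hR.1).1 hα)
        le_rfl le_rfl (le_inf hR.1 Subgroup.le_normalizer) fun y hy => (α ⟨y, hy⟩).2)
      haveI := finite_normalizerIn (S := S) R
      rcases eq_or_lt_of_le hR.1 with hRS | hRS
      · haveI := finite_normalizerIn (S := S) S
        rw [hRS]
        exact lt_of_lt_of_le hPS'' (Subgroup.card_le_of_le (le_inf le_rfl Subgroup.le_normalizer))
      · exact lt_of_le_of_lt (by omega) (card_lt_of_lt_of_le (lt_normalizerIn hS hRS) inf_le_left)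
    -- a centric subgroup with smaller invariant
    suffices hU : ∃ U : Subgroup Ω, ∃ hU2 : U ≤ D₂, F.IsCentric U ∧ P ≤ normalizerIn S U ∧
        (∀ y (hy : y ∈ U), ψ ⟨y, hU2 hy⟩ ∈ U) ∧
        (Nat.card P < Nat.card (normalizerIn S U) ∨ Nat.card Y < Nat.card U) by
      obtain ⟨U, hU2, hUc, hPU, hψU, hmeas⟩ := hU
      obtain ⟨U', hc, hU'⟩ := exists_fullyNormalized (F := F) hUc.1
      obtain ⟨χ, hχ, hUN, hχU, hχN⟩ := exists_map_normalizer p hS (fullyAutomized_of_fullyNormalized hS hF hU')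
        (receptive_of_fullyNormalized hS hF hU') hc
      haveI := finite_normalizerIn (S := S) U
      have hcard : Nat.card P ≤ Nat.card (normalizerIn S U) := Subgroup.card_le_of_le hPU
      have hχE := hbig hχ hcard
      obtain ⟨χi, hχi, hχir, hχi1, -⟩ := exists_inv hχ (rfl : χ.range = χ.range)
      obtain ⟨χe, hχe, -, hχe1, -⟩ := exists_inv hχE (rfl : χ.range = χ.range)
      have hD₂N : D₂ ≤ normalizerIn S U := hD₂P.trans hPU
      set χ₂ := χ.comp (Subgroup.inclusion hD₂N) with hχ₂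
      obtain ⟨χ₂i, hχ₂i, hχ₂ir, hχ₂i1, -⟩ := exists_inv (restrict hχ hD₂N) (rfl : χ₂.range = χ₂.range)
      have hin : ∀ z : χ₂.range, χ₂i z ∈ D₂ := fun z => mem_of_range_eq hχ₂ir z
      have hin2 : ∀ z : χ₂.range, ψ ⟨χ₂i z, hin z⟩ ∈ normalizerIn S U := fun z => hPU (hψ _).1
      set θ : χ₂.range →* Ω := χ.comp ((ψ.comp (χ₂i.codRestrict D₂ hin)).codRestrict (normalizerIn S U) hin2)
      have hθ : θ ∈ F.Hom χ₂.range :=
        comp_of_eq (φ := ψ.comp (χ₂i.codRestrict D₂ hin)) (comp_of_eq hχ₂i hψF hin fun _ => rfl) hχ hin2 fun _ => rfl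
      have hθval : ∀ d : D₂, θ ⟨χ₂ d, ⟨d, rfl⟩⟩ = χ ⟨ψ d, hPU (hψ d).1⟩ := fun d => by
        show χ ⟨ψ ⟨χ₂i _, _⟩, _⟩ = _
        have e : (⟨χ₂i ⟨χ₂ d, ⟨d, rfl⟩⟩, hin _⟩ : D₂) = d := Subtype.ext (hχ₂i1 d ⟨d, rfl⟩)
        exact congrArg χ (Subtype.ext (congrArg ψ e))
      have hmemU : ∀ (z : normalizerIn S U), (z : Ω) ∈ U → χ z ∈ U' := fun z hz => hχU.le ⟨⟨z, hz⟩, rfl⟩
      have hU'θ : U' ≤ χ₂.range := by
        rw [← hχU]
        rintro _ ⟨z, rfl⟩
        exact ⟨⟨z, hU2 z.2⟩, rfl⟩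
      have hθU : ∀ y (hy : y ∈ U'), θ ⟨y, hU'θ hy⟩ ∈ U' := by
        intro y hy
        obtain ⟨z, rfl⟩ := hχU.ge hy
        exact (hθval ⟨z, hU2 z.2⟩).symm ▸ hmemU ⟨ψ ⟨z, hU2 z.2⟩, hPU (hψ _).1⟩ (hψU z z.2)
      set X₁ := (χ.comp (Subgroup.inclusion ((le_sup_left : X ≤ D₂).trans hD₂N))).range with hX₁
      have hX₁le : X₁ ≤ χ₂.range := by rintro _ ⟨x, rfl⟩; exact ⟨Subgroup.inclusion le_sup_left x, rfl⟩
      have hU'c : F.IsCentric U' := ⟨hU'.1, fun K hK => hUc.2 K (IsConj.trans hc hK)⟩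
      have hX₁N : X₁ ≤ normalizerIn S U' := by rintro _ ⟨x, rfl⟩; exact hχN _
      have hθE := hrec U' hU' hU'c (by
        have h1 := card_normalizerIn_le_of_map hχ hχN
        rcases hmeas with h | h
        · exact Or.inl (lt_of_lt_of_le h h1)
        · exact Or.inr ⟨hcard.trans h1, h.trans_eq (IsConj.card_eq hc)⟩) X₁ _
        (mem_normalizerSystem_of_invariant hU'.1 hθ hX₁le hU'θ hX₁N hθU)
      set χX := χ.comp (Subgroup.inclusion ((le_sup_left : X ≤ D₂).trans hD₂N))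
      have hχXE : χX ∈ E.Hom X := restrict hχE _
      have hm1 : ∀ x : X, χX x ∈ X₁ := fun x => ⟨x, rfl⟩
      have hstep : ∀ x : X, (θ.comp (Subgroup.inclusion hX₁le)) ⟨χX x, hm1 x⟩ =
          χ ⟨φ x, hPU (hφg x).1⟩ := fun x => by
        refine (hθval (Subgroup.inclusion le_sup_left x)).trans (congrArg χ (Subtype.ext (hag x)))
      set χY : X →* Ω := (θ.comp (Subgroup.inclusion hX₁le)).comp (χX.codRestrict X₁ hm1)
      have hχY : χY ∈ E.Hom X := comp_of_eq hχXE hθE hm1 fun _ => rfl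
      have hm2 : ∀ x : X, χY x ∈ χ.range := fun x => ⟨_, (hstep x).symm⟩
      refine comp_of_eq hχY hχe hm2 fun x => ?_
      have h3 := hχe1 ⟨φ x, hPU (hφg x).1⟩ ⟨_, rfl⟩
      exact h3.symm.trans (congrArg χe (Subtype.ext (hstep x).symm))
    by_cases hJY : J₀ ≤ Y
    · -- `U = J(P)`
      have hPJ : P ≤ normalizerIn S J₀ :=
        le_inf hPS (Subgroup.le_normalizer.trans (normalizer_le_normalizer_J P))
      haveI := finite_normalizerIn (S := S) J₀
      refine ⟨J₀, le_sup_right.trans le_sup_right, ?_, hPJ, hψJ, Or.inl ?_⟩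
      · have hJS : J₀ ≤ S := hJY.trans hY.1
        obtain ⟨U', hc, hU'⟩ := exists_fullyNormalized (F := F) hJS
        obtain ⟨χ, hχ, hUN, hχU, hχN⟩ := exists_map_normalizer p hS (fullyAutomized_of_fullyNormalized hS hF hU')
          (receptive_of_fullyNormalized hS hF hU') hc
        set χP := χ.comp (Subgroup.inclusion hPJ) with hχP
        set Y' := (χP.comp (Subgroup.inclusion hYP)).range with hY'
        have hY'c : F.IsConj Y Y' := ⟨_, restrict (restrict hχ hPJ) hYP, rfl⟩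
        have hle : χP.range ≤ normalizerIn S Y' := by
          rintro _ ⟨z, rfl⟩
          refine ⟨val_mem (restrict hχ hPJ) z, Subgroup.mem_normalizer_iff.2 fun w => ⟨?_, fun hw => ?_⟩⟩
          · rintro ⟨y, rfl⟩
            refine ⟨⟨(z : Ω) * y * (z : Ω)⁻¹, conj_mem_of_normalizer z.2.2 y.2⟩, ?_⟩
            show χP _ = χP z * χP _ * (χP z)⁻¹
            rw [← map_inv, ← map_mul, ← map_mul]
            rfl
          · obtain ⟨y, hy⟩ := hw
            refine ⟨⟨(z : Ω)⁻¹ * y * (z : Ω), conj_inv_mem_of_normalizer z.2.2 y.2⟩, ?_⟩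
            have : w = (χP z)⁻¹ * (χP z * w * (χP z)⁻¹) * χP z := by group
            rw [this, ← hy]
            show χP _ = (χP z)⁻¹ * χP _ * χP z
            rw [← map_inv, ← map_mul, ← map_mul]
            rfl
        haveI := finite_normalizerIn (S := S) Y'
        have heq : normalizerIn S Y' ≤ χP.range := by
          refine (Subgroup.eq_of_le_of_card_ge hle ?_).ge
          rw [← Nat.card_congr (MonoidHom.ofInjective (F.injective_of_mem (restrict hχ hPJ))).toEquiv]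
          exact hY.2 Y' hY'c
        have hU'Y : U' ≤ Y' := by
          rw [← hχU]
          rintro _ ⟨z, rfl⟩
          exact ⟨⟨z, hJY z.2⟩, rfl⟩
        have hCU : centralizerIn S U' ≤ U' := by
          refine centralizerIn_thompson_le hS hU'Y (IsConj.le_right hY'c) heq ?_ ?_
          · rintro _ ⟨z, rfl⟩
            exact (hχN _).2
          · rintro _ ⟨z, rfl⟩ hz
            obtain ⟨A, hA⟩ := maxGood_nonempty p false (⊤ : Subgroup P)
            have hAJ : ∀ a ∈ A, (a : Ω) ∈ J₀ := fun a ha => by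
              rw [hJ₀, J_eq_map_top]
              exact ⟨a, maxGood_le_J hA ha, rfl⟩
            have hzA : z ∈ A := mem_of_maxGood hA (Subgroup.mem_top z) (fun a ha => by
              have h1 := Subgroup.mem_centralizer_iff.1 hz (χP a) (hχU.le ⟨⟨a, hAJ a ha⟩, rfl⟩)
              rw [← map_mul, ← map_mul] at h1
              exact F.injective_of_mem (restrict hχ hPJ) h1) (by simp)
            exact hχU.le ⟨⟨z, hAJ z hzA⟩, rfl⟩
        have hcc := centric_sup_centralizerIn (fullyCentralized_of_fullyNormalized hS hF hU')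
        rw [sup_eq_left.2 hCU] at hcc
        exact ⟨hJS, fun K hK => hcc.2 K (IsConj.trans (IsConj.symm hc) hK)⟩
      · exact lt_of_lt_of_le (card_lt_of_lt_of_le (lt_normalizerIn hS hPS') inf_le_left)
          (Subgroup.card_le_of_le (hnJ P))
    · -- `U = Y J(P)`
      refine ⟨Y ⊔ J₀, le_sup_right, centric_of_le hYc le_sup_left ((sup_le hYP hJP).trans hPS),
        le_inf hPS ?_, fun y hy => ?_, Or.inr ?_⟩
      · have key : ∀ z ∈ P, ∀ w ∈ Y ⊔ J₀, z * w * z⁻¹ ∈ Y ⊔ J₀ := fun z hz w hw =>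
          (sup_le (fun v hv => Subgroup.mem_sup_left (conj_mem_of_normalizer hz.2 hv))
            (fun v hv => Subgroup.mem_sup_right
              (conj_mem_of_normalizer (normalizer_le_normalizer_J P (Subgroup.le_normalizer hz)) hv)) :
            Y ⊔ J₀ ≤ (Y ⊔ J₀).comap (MulAut.conj z).toMonoidHom) hw
        intro z hz
        refine Subgroup.mem_normalizer_iff.2 fun w => ⟨key z hz w, fun hw => ?_⟩
        have := key z⁻¹ (P.inv_mem hz) _ hw
        simpa [mul_assoc] using this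
      · have hle : Y ⊔ J₀ ≤ ((Y ⊔ J₀).comap ψ).map D₂.subtype := sup_le
          (fun w hw => ⟨⟨w, Subgroup.mem_sup_right (Subgroup.mem_sup_left hw)⟩,
            Subgroup.mem_sup_left (hψY w hw), rfl⟩)
          fun w hw => ⟨⟨w, Subgroup.mem_sup_right (Subgroup.mem_sup_right hw)⟩,
            Subgroup.mem_sup_right (hψJ w hw), rfl⟩
        obtain ⟨w, hw, hwy⟩ := hle hy
        obtain rfl : w = ⟨y, (le_sup_right : Y ⊔ J₀ ≤ D₂) hy⟩ := Subtype.ext hwy
        exact hw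
      · exact card_lt_of_lt_of_le (lt_of_le_of_ne le_sup_left fun e => hJY (e ▸ le_sup_right))
          ((sup_le hYP hJP).trans hPS)
  · -- composition
    intro D m n hD hDn hDmn h1 h2 X hX φ hXD hφg
    have hr1 : ∀ z : P, (z : Ω) ∈ X → n * ι z * n⁻¹ ∈ ι.range := fun z hz =>
      hT.le (hDn _ (hXD ⟨z, hz⟩))
    obtain ⟨φ₁, hφ₁⟩ := exists_pullback_conj ι hinj n X hX hr1
    have hφ₁E := h1 X hX φ₁ hXD hφ₁
    have hX₁ : φ₁.range ≤ P := by rintro _ ⟨x, rfl⟩; exact (hφ₁ x).1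
    have hr2 : ∀ z : P, (z : Ω) ∈ φ₁.range → m * ι z * m⁻¹ ∈ ι.range := by
      intro z hz
      obtain ⟨x, hx⟩ := hz
      obtain ⟨h', e⟩ := hφ₁ x
      obtain rfl : z = ⟨φ₁ x, h'⟩ := Subtype.ext hx.symm
      obtain ⟨h'', e''⟩ := hφg x
      exact ⟨⟨φ x, h''⟩, by rw [← e'', ← e]; group⟩
    obtain ⟨φ₂, hφ₂⟩ := exists_pullback_conj ι hinj m φ₁.range hX₁ hr2
    have hφ₂E := h2 φ₁.range hX₁ φ₂ (fun z => by
      obtain ⟨x, hx⟩ := z.2
      obtain ⟨h', e⟩ := hφ₁ x
      refine ⟨_, hXD x, ?_⟩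
      show n * _ * n⁻¹ = _
      rw [e]
      exact congrArg ι (Subtype.ext hx)) hφ₂
    refine comp_of_eq hφ₁E hφ₂E (fun x => ⟨x, rfl⟩) fun x => ?_
    obtain ⟨h₂, e₂⟩ := hφ₂ ⟨φ₁ x, x, rfl⟩
    obtain ⟨h₁, e₁⟩ := hφ₁ x
    obtain ⟨h₃, e₃⟩ := hφg x
    refine (congrArg Subtype.val (hinj ?_ : (⟨_, h₃⟩ : P) = ⟨_, h₂⟩))
    rw [← e₃, ← e₂, show ι (Subgroup.inclusion hX₁ ⟨φ₁ x, x, rfl⟩) = ι ⟨φ₁ x, h₁⟩ from rfl, ← e₁]
    group

end CfsgLib.Fusion
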