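import Cfsg.Agent.Fusion.FactorSat
import Cfsg.Agent.Fusion.Inner
import Cfsg.Prelude.Def_FusionComponents
import Cfsg.Agent.S5144

/-!
Transport of structure for fusion systems along an isomorphism of the underlying groups.
-/

set_option autoImplicit false
set_option linter.unusedSectionVars false

open Cfsg

namespace CfsgLib.Fusion.Transport

open Cfsg.FusionSystem CfsgLib.Fusion

universe u v

variable {Ω : Type u} [Group Ω] {Ω' : Type v} [Group Ω'] {S : Subgroup Ω} {S' : Subgroup Ω'}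

/-- The image of a subgroup under an isomorphism `S ≃* S'`. -/
def im (e : S ≃* S') (P : Subgroup Ω) : Subgroup Ω' :=
  (P.subgroupOf S).map (S'.subtype.comp e.toMonoidHom)

variable {e : S ≃* S'} {P Q : Subgroup Ω}

theorem mem_im_of {x : S} (hx : (x : Ω) ∈ P) : (e x : Ω') ∈ im e P := ⟨x, hx, rfl⟩

theorem coe_mem_im {x : S} : (e x : Ω') ∈ im e P ↔ (x : Ω) ∈ P := by
  refine ⟨?_, mem_im_of⟩
  rintro ⟨y, hy, h⟩
  exact e.injective (Subtype.ext h) ▸ hy

theorem exists_of_mem_im {y : Ω'} (hy : y ∈ im e P) : ∃ x : S, (x : Ω) ∈ P ∧ (e x : Ω') = y := by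
  obtain ⟨x, hx, h⟩ := hy
  exact ⟨x, hx, h⟩

theorem im_le (P : Subgroup Ω) : im e P ≤ S' := by
  intro y hy
  obtain ⟨x, -, rfl⟩ := exists_of_mem_im hy
  exact (e x).2

theorem im_mono (h : P ≤ Q) : im e P ≤ im e Q := fun y hy => by
  obtain ⟨x, hx, rfl⟩ := exists_of_mem_im hy
  exact mem_im_of (h hx)

theorem im_symm_im (hP : P ≤ S) : im e.symm (im e P) = P := by
  ext x
  constructor
  · intro hx
    obtain ⟨y, hy, rfl⟩ := exists_of_mem_im hx
    obtain ⟨z, hz, hzy⟩ := exists_of_mem_im hy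
    rw [← show e z = y from Subtype.ext hzy, e.symm_apply_apply]
    exact hz
  · intro hx
    have := mem_im_of (e := e.symm) (P := im e P) (x := e ⟨x, hP hx⟩) (mem_im_of hx)
    rwa [e.symm_apply_apply] at this

theorem im_im_symm {P' : Subgroup Ω'} (hP : P' ≤ S') : im e (im e.symm P') = P' := by
  have := im_symm_im (e := e.symm) hP
  rwa [MulEquiv.symm_symm] at this

theorem im_top : im e S = S' := le_antisymm (im_le _) fun y hy =>
  ⟨e.symm ⟨y, hy⟩, (e.symm ⟨y, hy⟩).2, by simp⟩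

theorem im_bot : im e (⊥ : Subgroup Ω) = ⊥ := by
  rw [eq_bot_iff]
  intro y hy
  obtain ⟨x, hx, rfl⟩ := exists_of_mem_im hy
  rw [show x = 1 from Subtype.ext (Subgroup.mem_bot.1 hx), map_one]
  exact one_mem _

theorem im_sup (hP : P ≤ S) (hQ : Q ≤ S) : im e (P ⊔ Q) = im e P ⊔ im e Q := by
  unfold im
  rw [Subgroup.subgroupOf_sup hP hQ, Subgroup.map_sup]

theorem mem_normalizer_im (hP : P ≤ S) (x : S) :
    (e x : Ω') ∈ Subgroup.normalizer (im e P : Set Ω') ↔ (x : Ω) ∈ Subgroup.normalizer (P : Set Ω) := by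
  rw [Subgroup.mem_normalizer_iff, Subgroup.mem_normalizer_iff]
  constructor
  · intro h z
    by_cases hz : z ∈ S
    · have := h (e ⟨z, hz⟩ : Ω')
      rwa [coe_mem_im, show (e x : Ω') * (e ⟨z, hz⟩ : Ω') * (e x : Ω')⁻¹ = (e (x * ⟨z, hz⟩ * x⁻¹) : Ω') by simp,
        coe_mem_im] at this
    · refine iff_of_false (fun h' => hz (hP h')) fun h' => hz ?_
      have := S.mul_mem (S.mul_mem (S.inv_mem x.2) (hP h')) x.2
      simpa [mul_assoc] using this
  · intro h z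
    by_cases hz : z ∈ S'
    · obtain ⟨w, hw⟩ := e.surjective ⟨z, hz⟩
      rw [show z = (e w : Ω') by rw [hw], coe_mem_im,
        show (e x : Ω') * (e w : Ω') * (e x : Ω')⁻¹ = (e (x * w * x⁻¹) : Ω') by simp, coe_mem_im]
      exact h w
    · refine iff_of_false (fun h' => hz (im_le _ h')) fun h' => hz ?_
      have := S'.mul_mem (S'.mul_mem (S'.inv_mem (e x).2) (im_le _ h')) (e x).2
      simpa [mul_assoc] using this

theorem mem_centralizer_im (hP : P ≤ S) (x : S) :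
    (e x : Ω') ∈ Subgroup.centralizer (im e P : Set Ω') ↔ (x : Ω) ∈ Subgroup.centralizer (P : Set Ω) := by
  rw [Subgroup.mem_centralizer_iff, Subgroup.mem_centralizer_iff]
  constructor
  · intro h z hz
    have := h (e ⟨z, hP hz⟩ : Ω') (mem_im_of hz)
    rw [← Subgroup.coe_mul, ← Subgroup.coe_mul, ← map_mul, ← map_mul] at this
    exact congrArg Subtype.val (e.injective (Subtype.ext this))
  · intro h z hz
    obtain ⟨w, hw, rfl⟩ := exists_of_mem_im hz
    rw [← Subgroup.coe_mul, ← Subgroup.coe_mul, ← map_mul, ← map_mul,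
      show w * x = x * w from Subtype.ext (h w hw)]

theorem im_centralizerIn {T : Subgroup Ω} (hT : T ≤ S) (hP : P ≤ S) :
    im e (centralizerIn T P) = centralizerIn (im e T) (im e P) := by
  ext y
  constructor
  · intro hy
    obtain ⟨x, hx, rfl⟩ := exists_of_mem_im hy
    exact ⟨mem_im_of hx.1, (mem_centralizer_im hP x).2 hx.2⟩
  · rintro ⟨h1, h2⟩
    obtain ⟨x, hx, rfl⟩ := exists_of_mem_im h1
    exact mem_im_of ⟨hx, (mem_centralizer_im hP x).1 h2⟩

/-! ### Transported systems -/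

variable {T : Subgroup Ω} {T' : Subgroup Ω'}

/-- `E'` is the system `E` carried along `e`. -/
structure Carries (e : S ≃* S') (E : Cfsg.FusionSystem T) (E' : Cfsg.FusionSystem T') : Prop where
  le : T ≤ S
  le' : T' ≤ S'
  mem : ∀ x : S, (e x : Ω') ∈ T' ↔ (x : Ω) ∈ T
  fwd : ∀ {P : Subgroup Ω} {φ : P →* Ω}, φ ∈ E.Hom P → ∃ φ' ∈ E'.Hom (im e P),
    ∀ (x : S) (hx : (x : Ω) ∈ P) (y : S), (y : Ω) = φ ⟨x, hx⟩ → φ' ⟨e x, mem_im_of hx⟩ = (e y : Ω')
  bwd : ∀ {P : Subgroup Ω'} {φ : P →* Ω'}, φ ∈ E'.Hom P → ∃ φ' ∈ E.Hom (im e.symm P),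
    ∀ (x : S') (hx : (x : Ω') ∈ P) (y : S'), (y : Ω') = φ ⟨x, hx⟩ → φ' ⟨e.symm x, mem_im_of hx⟩ = (e.symm y : Ω)

variable {E : Cfsg.FusionSystem T} {E' : Cfsg.FusionSystem T'}

theorem Carries.symm (h : Carries e E E') : Carries e.symm E' E where
  le := h.le'
  le' := h.le
  mem := fun x => by simpa using (h.mem (e.symm x)).symm
  fwd := h.bwd
  bwd := fun hφ => h.fwd hφ

theorem Carries.im_eq (h : Carries e E E') : im e T = T' := by
  ext y
  constructor
  · intro hy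
    obtain ⟨x, hx, rfl⟩ := exists_of_mem_im hy
    exact (h.mem x).2 hx
  · intro hy
    obtain ⟨x, hx⟩ := e.surjective ⟨y, h.le' hy⟩
    have : (e x : Ω') = y := by rw [hx]
    rw [← this] at hy ⊢
    exact mem_im_of ((h.mem x).1 hy)

/-- A map of `E` gives every map agreeing with its image. -/
theorem Carries.mem_of (h : Carries e E E') {φ : P →* Ω} (hφ : φ ∈ E.Hom P) {P' : Subgroup Ω'}
    (hP' : P' ≤ im e P) {φ' : P' →* Ω'}
    (hagree : ∀ (x : S) (hx : (x : Ω) ∈ P) (hx' : (e x : Ω') ∈ P') (y : S), (y : Ω) = φ ⟨x, hx⟩ →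
      φ' ⟨e x, hx'⟩ = (e y : Ω')) : φ' ∈ E'.Hom P' := by
  obtain ⟨ψ, hψ, hψ'⟩ := h.fwd hφ
  refine restrict_of_eq hψ hP' fun z => ?_
  obtain ⟨z, hz⟩ := z
  obtain ⟨x, hx, rfl⟩ := exists_of_mem_im (hP' hz)
  rw [hψ' x hx ⟨φ ⟨x, hx⟩, h.le (val_mem hφ _)⟩ rfl]
  exact hagree x hx hz _ rfl

/-- Image of the range of a map. -/
theorem Carries.range_fwd (h : Carries e E E') {φ : P →* Ω} (hφ : φ ∈ E.Hom P) {φ' : im e P →* Ω'}
    (hagree : ∀ (x : S) (hx : (x : Ω) ∈ P) (y : S), (y : Ω) = φ ⟨x, hx⟩ → φ' ⟨e x, mem_im_of hx⟩ = (e y : Ω')) :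
    φ'.range = im e φ.range := by
  ext y
  constructor
  · rintro ⟨⟨z, hz⟩, rfl⟩
    obtain ⟨x, hx, rfl⟩ := exists_of_mem_im hz
    rw [hagree x hx ⟨φ ⟨x, hx⟩, h.le (val_mem hφ _)⟩ rfl]
    exact mem_im_of ⟨_, rfl⟩
  · intro hy
    obtain ⟨w, ⟨⟨x, hx⟩, hxw⟩, rfl⟩ := exists_of_mem_im hy
    exact ⟨⟨e ⟨x, h.le (le_of_hom hφ hx)⟩, mem_im_of hx⟩, hagree ⟨x, h.le (le_of_hom hφ hx)⟩ hx w hxw.symm⟩

theorem fusionSystem_ext {E₁ E₂ : Cfsg.FusionSystem T} (h : ∀ P, E₁.Hom P = E₂.Hom P) : E₁ = E₂ := by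
  cases E₁; cases E₂
  have := funext h
  cases this
  rfl

theorem Carries.congr_point {e' : S ≃* S'} (h : Carries e E E') (he : ∀ x, e' x = e x) : Carries e' E E' := by
  have : e' = e := MulEquiv.ext he
  rwa [this]

/-- Two systems carried from the same one coincide. -/
theorem Carries.unique {E'' : Cfsg.FusionSystem T'} (h : Carries e E E') (h' : Carries e E E'') : E' = E'' := by
  refine fusionSystem_ext fun P => ?_
  have key : ∀ {A B : Cfsg.FusionSystem T'}, Carries e E A → Carries e E B → A.Hom P ⊆ B.Hom P := by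
    intro A B hA hB φ hφ
    obtain ⟨ψ, hψ, hψ'⟩ := hA.bwd hφ
    refine hB.mem_of hψ (by rw [im_im_symm ((le_of_hom hφ).trans hA.le')]) fun x hx hx' y hy => ?_
    have h1 := hψ' (e x) hx' ⟨φ ⟨e x, hx'⟩, hA.le' (val_mem hφ _)⟩ rfl
    simp only [MulEquiv.symm_apply_apply] at h1
    have h2 : y = e.symm ⟨φ ⟨e x, hx'⟩, hA.le' (val_mem hφ _)⟩ := Subtype.ext (hy.trans h1)
    rw [h2, MulEquiv.apply_symm_apply]
  exact Set.Subset.antisymm (key h h') (key h' h)

/-- Composition. -/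
theorem Carries.trans {Ω'' : Type*} [Group Ω''] {S'' : Subgroup Ω''} {T'' : Subgroup Ω''}
    {E'' : Cfsg.FusionSystem T''} {U : Subgroup Ω} {U' : Subgroup Ω'} {U'' : Subgroup Ω''}
    {e₁ : U ≃* U'} {E : Cfsg.FusionSystem T} {f : S' ≃* S''}
    (h₁ : Carries e₁ E E') (h₂ : Carries f E' E'') {g : U ≃* U''}
    (hU : U' ≤ S') (hU'' : U'' ≤ S'')
    (hg : ∀ (x : U), (g x : Ω'') = (f ⟨e₁ x, hU (e₁ x).2⟩ : Ω'')) : Carries g E E'' where
  le := h₁.le
  le' := by
    rw [← h₂.im_eq]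
    intro y hy
    obtain ⟨x, hx, rfl⟩ := exists_of_mem_im hy
    obtain ⟨w, hw⟩ := e₁.surjective ⟨x, h₁.le' hx⟩
    have : x = ⟨e₁ w, hU (e₁ w).2⟩ := Subtype.ext (by rw [hw])
    rw [this, ← hg]
    exact (g w).2
  mem := fun x => by rw [hg, h₂.mem, ← h₁.mem x]
  fwd := by
    intro P φ hφ
    obtain ⟨φ₁, hφ₁, h1⟩ := h₁.fwd hφ
    obtain ⟨φ₂, hφ₂, h2⟩ := h₂.fwd hφ₁
    have heq : im g P = im f (im e₁ P) := by
      ext y
      constructor
      · intro hy
        obtain ⟨x, hx, rfl⟩ := exists_of_mem_im hy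
        rw [hg]
        exact mem_im_of (mem_im_of hx)
      · intro hy
        obtain ⟨z, hz, rfl⟩ := exists_of_mem_im hy
        obtain ⟨x, hx, hxz⟩ := exists_of_mem_im hz
        have : z = ⟨e₁ x, hU (e₁ x).2⟩ := Subtype.ext hxz.symm
        rw [this, ← hg]
        exact mem_im_of hx
    refine ⟨φ₂.comp (Subgroup.inclusion heq.le), hom_congr hφ₂ heq.symm fun _ _ _ => rfl, fun x hx y hy => ?_⟩
    show φ₂ ⟨(g x : Ω''), _⟩ = (g y : Ω'')
    have h3 := h2 ⟨e₁ x, hU (e₁ x).2⟩ (mem_im_of hx) ⟨e₁ y, hU (e₁ y).2⟩ (h1 x hx y hy).symm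
    rw [hg y, ← h3]
    exact congrArg φ₂ (Subtype.ext (hg x))
  bwd := by
    intro P φ hφ
    obtain ⟨φ₁, hφ₁, h1⟩ := h₂.bwd hφ
    obtain ⟨φ₂, hφ₂, h2⟩ := h₁.bwd hφ₁
    have hgs : ∀ x : U'', f.symm ⟨x, hU'' x.2⟩ = ⟨e₁ (g.symm x), hU (e₁ (g.symm x)).2⟩ := by
      intro x
      apply f.injective
      apply Subtype.ext
      rw [f.apply_symm_apply]
      show (x : Ω'') = _
      rw [← hg, g.apply_symm_apply]
    have heq : im g.symm P ≤ im e₁.symm (im f.symm P) := by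
      intro y hy
      obtain ⟨x, hx, rfl⟩ := exists_of_mem_im hy
      have h3 : (e₁ (g.symm x) : Ω') ∈ im f.symm P := by
        have := mem_im_of (e := f.symm) (P := P) (x := ⟨x, hU'' x.2⟩) hx
        rwa [hgs] at this
      have := mem_im_of (e := e₁.symm) h3
      rwa [e₁.symm_apply_apply] at this
    refine ⟨φ₂.comp (Subgroup.inclusion heq), restrict hφ₂ heq, fun x hx y hy => ?_⟩
    show φ₂ ⟨(g.symm x : Ω), _⟩ = (g.symm y : Ω)
    have hxm : (e₁ (g.symm x) : Ω') ∈ im f.symm P := by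
      have := mem_im_of (e := f.symm) (P := P) (x := ⟨x, hU'' x.2⟩) hx
      rwa [hgs] at this
    have h3 := h1 ⟨x, hU'' x.2⟩ hx ⟨y, hU'' y.2⟩ hy
    have h3' : φ₁ ⟨(e₁ (g.symm x) : Ω'), hxm⟩ = (e₁ (g.symm y) : Ω') :=
      (congrArg φ₁ (Subtype.ext (congrArg Subtype.val (hgs x)).symm)).trans
        (h3.trans (congrArg Subtype.val (hgs y)))
    have h4 := h2 (e₁ (g.symm x)) hxm (e₁ (g.symm y)) h3'.symm
    simp only [MulEquiv.symm_apply_apply] at h4
    exact h4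

/-- The carried system is a factor system modulo `⊥`. -/
theorem Carries.isFactorSystem (h : Carries e E E') :
    E.IsFactorSystem ⊥ ((S'.subtype.comp e.toMonoidHom).comp (Subgroup.inclusion h.le)) E' := by
  set θ := (S'.subtype.comp e.toMonoidHom).comp (Subgroup.inclusion h.le) with hθ
  refine ⟨bot_le, fun s => ?_, ?_, fun P' φ' => ⟨fun hφ' => ?_, ?_⟩⟩
  · show (e (Subgroup.inclusion h.le s) : Ω') = 1 ↔ _
    rw [Subgroup.mem_bot, OneMemClass.coe_eq_one, EmbeddingLike.map_eq_one_iff, Subtype.ext_iff]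
    rfl
  · ext y
    constructor
    · rintro ⟨s, rfl⟩
      exact (h.mem _).2 s.2
    · intro hy
      obtain ⟨x, hx⟩ := e.surjective ⟨y, h.le' hy⟩
      have hy' : (e x : Ω') = y := by rw [hx]
      refine ⟨⟨x, (h.mem x).1 (hy' ▸ hy)⟩, ?_⟩
      show (e ⟨x, _⟩ : Ω') = y
      exact hy'
  · obtain ⟨ψ, hψ, hagree⟩ := h.bwd hφ'
    have hP' := le_of_hom hφ'
    have heq : preimageAlong θ P' = im e.symm P' := by
      ext x
      rw [mem_preimageAlong]
      constructor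
      · rintro ⟨hx, hx'⟩
        have := mem_im_of (e := e.symm) (P := P') (x := e ⟨x, h.le hx⟩) hx'
        rwa [e.symm_apply_apply] at this
      · intro hx
        obtain ⟨z, hz, rfl⟩ := exists_of_mem_im hx
        have h1 : ((e.symm z : S) : Ω) ∈ T := (h.mem _).1 (by rw [e.apply_symm_apply]; exact hP' hz)
        refine ⟨h1, ?_⟩
        show (e ⟨(e.symm z : Ω), _⟩ : Ω') ∈ P'
        rw [Subtype.coe_eta, e.apply_symm_apply]; exact hz
    refine ⟨hP', ψ.comp (Subgroup.inclusion heq.le), hom_congr hψ heq.symm fun _ _ _ => rfl,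
      preimageAlong_le _, fun x => val_mem hψ _, fun x => (mem_preimageAlong.1 x.2).2, fun x => ?_⟩
    have hxS : (x : Ω) ∈ S := h.le (preimageAlong_le _ x.2)
    have hmem : (e ⟨x, hxS⟩ : Ω') ∈ P' := (mem_preimageAlong.1 x.2).2
    show φ' ⟨(e ⟨x, hxS⟩ : Ω'), hmem⟩ = (e ⟨ψ (Subgroup.inclusion heq.le x), h.le (val_mem hψ _)⟩ : Ω')
    have h1 := hagree (e ⟨x, hxS⟩) hmem ⟨φ' ⟨e ⟨x, hxS⟩, hmem⟩, h.le' (val_mem hφ' _)⟩ rfl
    have h2 : (⟨ψ (Subgroup.inclusion heq.le x), h.le (val_mem hψ _)⟩ : S) =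
        e.symm ⟨φ' ⟨e ⟨x, hxS⟩, hmem⟩, h.le' (val_mem hφ' _)⟩ := by
      apply Subtype.ext
      rw [← h1]
      exact congrArg ψ (Subtype.ext (by simp))
    rw [h2, e.apply_symm_apply]
  · rintro ⟨hP', φ, hφ, hle, hv, hm, hag⟩
    refine h.mem_of hφ (fun y hy => ?_) fun x hx hx' y hy => ?_
    · obtain ⟨x, hx⟩ := e.surjective ⟨y, h.le' (hP' hy)⟩
      have hy' : (e x : Ω') = y := by rw [hx]
      rw [← hy'] at hy ⊢
      exact mem_im_of (mem_preimageAlong.2 ⟨(h.mem x).1 (hP' hy), hy⟩)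
    · have := hag ⟨x, hx⟩
      rw [show y = ⟨φ ⟨x, hx⟩, h.le (hv _)⟩ from Subtype.ext hy]
      exact this

/-- Conversely a factor system modulo `⊥` along the restriction of `e` is carried. -/
theorem carries_of_factor (hle : T ≤ S) (hle' : T' ≤ S')
    (hE : E.IsFactorSystem ⊥ ((S'.subtype.comp e.toMonoidHom).comp (Subgroup.inclusion hle)) E') :
    Carries e E E' := by
  obtain ⟨-, -, hrange, hhom⟩ := hE
  have hmem : ∀ x : S, (e x : Ω') ∈ T' ↔ (x : Ω) ∈ T := by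
    intro x
    rw [← hrange]
    constructor
    · rintro ⟨s, hs⟩
      have : e (Subgroup.inclusion hle s) = e x := Subtype.ext hs
      rw [← e.injective this]
      exact s.2
    · intro hx
      exact ⟨⟨x, hx⟩, rfl⟩
  refine ⟨hle, hle', hmem, fun {P φ} hφ => ?_, fun {P φ} hφ => ?_⟩
  · have hP := (le_of_hom hφ).trans hle
    let θ := S'.subtype.comp e.toMonoidHom
    let g : P →* Ω' := θ.comp (φ.codRestrict S fun x => hle (val_mem hφ x))
    let back : im e P →* P :=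
      MonoidHom.mk' (fun z => ⟨(e.symm ⟨z, im_le _ z.2⟩ : S), by
        obtain ⟨x, hx, hxz⟩ := exists_of_mem_im z.2
        rwa [show (⟨z, im_le _ z.2⟩ : S') = e x from Subtype.ext hxz.symm, e.symm_apply_apply]⟩)
        fun a b => Subtype.ext (by
          show ((e.symm ⟨((a * b : im e P) : Ω'), _⟩ : S) : Ω) = _
          rw [show (⟨((a * b : im e P) : Ω'), im_le _ (a * b).2⟩ : S') =
            ⟨a, im_le _ a.2⟩ * ⟨b, im_le _ b.2⟩ from rfl, map_mul]
          rfl)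
    refine ⟨g.comp back, (hhom _ _).2 ⟨?_, ?_⟩, fun x hx y hy => ?_⟩
    · intro z hz
      obtain ⟨x, hx, rfl⟩ := exists_of_mem_im hz
      exact (hmem x).2 (le_of_hom hφ hx)
    · set θ' := (S'.subtype.comp e.toMonoidHom).comp (Subgroup.inclusion hle)
      have heq : preimageAlong θ' (im e P) = P := by
        ext x
        rw [mem_preimageAlong]
        constructor
        · rintro ⟨hx, hx'⟩
          exact (coe_mem_im (e := e) (x := ⟨x, hle hx⟩)).1 hx'
        · exact fun hx => ⟨le_of_hom hφ hx, mem_im_of (x := ⟨x, hP hx⟩) hx⟩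
      refine ⟨φ.comp (Subgroup.inclusion heq.le), hom_congr hφ heq.symm fun _ _ _ => rfl,
        preimageAlong_le _, fun x => val_mem hφ _, fun x => (mem_preimageAlong.1 x.2).2, fun x => ?_⟩
      show (e ⟨φ (back _), _⟩ : Ω') = (e ⟨φ (Subgroup.inclusion heq.le x), _⟩ : Ω')
      refine congrArg (fun s : S => (e s : Ω')) (Subtype.ext (congrArg φ (Subtype.ext ?_)))
      show ((e.symm ⟨_, _⟩ : S) : Ω) = x
      erw [e.symm_apply_apply]
      rfl
    · show (e ⟨φ (back _), _⟩ : Ω') = (e y : Ω')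
      refine congrArg (fun s : S => (e s : Ω')) (Subtype.ext ?_)
      rw [hy]
      refine congrArg φ (Subtype.ext ?_)
      show ((e.symm ⟨(e x : Ω'), _⟩ : S) : Ω) = x
      rw [Subtype.coe_eta, e.symm_apply_apply]
  · obtain ⟨hP, ψ, hψ, h1, h2, h3, hag⟩ := (hhom P φ).1 hφ
    have heq : im e.symm P ≤ preimageAlong ((S'.subtype.comp e.toMonoidHom).comp (Subgroup.inclusion hle)) P := by
      intro y hy
      obtain ⟨z, hz, rfl⟩ := exists_of_mem_im hy
      refine mem_preimageAlong.2 ⟨(hmem _).1 (by rw [e.apply_symm_apply]; exact hP hz), ?_⟩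
      show (e ⟨(e.symm z : Ω), _⟩ : Ω') ∈ P
      rw [Subtype.coe_eta, e.apply_symm_apply]; exact hz
    refine ⟨ψ.comp (Subgroup.inclusion heq), restrict hψ heq, fun x hx y hy => ?_⟩
    have h4 := hag (Subgroup.inclusion heq ⟨e.symm x, mem_im_of hx⟩)
    show ψ (Subgroup.inclusion heq ⟨e.symm x, mem_im_of hx⟩) = (e.symm y : Ω)
    have h5 : (y : Ω') = (e ⟨ψ (Subgroup.inclusion heq ⟨e.symm x, mem_im_of hx⟩), hle (h2 _)⟩ : Ω') := by
      rw [hy]
      refine Eq.trans (congrArg φ (Subtype.ext ?_)) h4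
      show (x : Ω') = (e (⟨(e.symm x : Ω), (e.symm x).2⟩ : S) : Ω')
      simp
    rw [show y = e ⟨_, hle (h2 _)⟩ from Subtype.ext h5, e.symm_apply_apply]

/-- Carried systems exist. -/
theorem exists_carries [Finite S] (E : Cfsg.FusionSystem T) (hle : T ≤ S) :
    ∃ (T' : Subgroup Ω') (E' : Cfsg.FusionSystem T'), Carries e E E' := by
  haveI := finite_of_le hle
  set θ := (S'.subtype.comp e.toMonoidHom).comp (Subgroup.inclusion hle) with hθ
  have hker : ∀ s : T, θ s = 1 ↔ (s : Ω) ∈ (⊥ : Subgroup Ω) := fun s => by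
    show (e (Subgroup.inclusion hle s) : Ω') = 1 ↔ _
    rw [Subgroup.mem_bot, OneMemClass.coe_eq_one, EmbeddingLike.map_eq_one_iff, Subtype.ext_iff]
    rfl
  have hQ : E.StronglyClosed ⊥ := ⟨bot_le, fun R hR φ _ x => by
    rw [show x = 1 from Subtype.ext (Subgroup.mem_bot.1 (hR x.2)), map_one]; exact one_mem _⟩
  have hle' : θ.range ≤ S' := by
    rintro _ ⟨s, rfl⟩; exact (e _).2
  exact ⟨_, _, carries_of_factor hle hle' (isFactorSystem_factorSystem hker hQ)⟩

theorem Carries.finite' [Finite S] (h : Carries e E E') : Finite T' := by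
  haveI : Finite S' := Finite.of_equiv S e.toEquiv
  exact finite_of_le h.le'

/-! ### Automorphism groups -/

/-- `e` restricted to `P`. -/
noncomputable def resEquiv (e : S ≃* S') (hP : P ≤ S) : P ≃* im e P :=
  (MonoidHom.ofInjective (f := (S'.subtype.comp e.toMonoidHom).comp (Subgroup.inclusion hP))
    (fun a b h => Subgroup.inclusion_injective hP (e.injective (Subtype.ext h)))).trans
  (MulEquiv.subgroupCongr (by
    ext y
    constructor
    · rintro ⟨x, rfl⟩; exact mem_im_of (x := Subgroup.inclusion hP x) x.2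
    · intro hy
      obtain ⟨x, hx, rfl⟩ := exists_of_mem_im hy
      exact ⟨⟨x, hx⟩, rfl⟩))

theorem resEquiv_apply (hP : P ≤ S) (x : P) :
    (resEquiv e hP x : Ω') = (e ⟨x, hP x.2⟩ : Ω') := rfl

theorem Carries.congr_mem_autGroup (h : Carries e E E') (hP : P ≤ T) {α : MulAut P} (hα : α ∈ E.autGroup P) :
    MulAut.congr (resEquiv e (hP.trans h.le)) α ∈ E'.autGroup (im e P) := by
  have hP' : im e P ≤ T' := fun y hy => by
    obtain ⟨x, hx, rfl⟩ := exists_of_mem_im hy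
    exact (h.mem x).2 (hP hx)
  rw [mem_autGroup hP']
  refine h.mem_of ((mem_autGroup hP).1 hα) le_rfl fun x hx hx' y hy => ?_
  show ((resEquiv e (hP.trans h.le)) (α ((resEquiv e (hP.trans h.le)).symm ⟨e x, hx'⟩)) : Ω') = _
  have : (resEquiv e (hP.trans h.le)).symm ⟨e x, hx'⟩ = ⟨x, hx⟩ :=
    (MulEquiv.symm_apply_eq _).2 (Subtype.ext rfl)
  rw [this, resEquiv_apply]
  exact congrArg (fun s : S => (e s : Ω')) (Subtype.ext hy.symm)

end CfsgLib.Fusion.Transport
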