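import Cfsg.Agent.Fusion.Transport

/-!
Transport of normality, subnormality and quasisimplicity along isomorphisms of the underlying groups.
-/

set_option autoImplicit false
set_option linter.unusedSectionVars false
set_option linter.style.haveILetI false

open Cfsg

namespace CfsgLib.Fusion.Transport

open Cfsg.FusionSystem CfsgLib.Fusion

universe u v

variable {Ω : Type u} [Group Ω] {Ω' : Type v} [Group Ω'] {S : Subgroup Ω} {S' : Subgroup Ω'}
variable {e : S ≃* S'} {T U V : Subgroup Ω} {T' U' V' : Subgroup Ω'}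
variable {E : Cfsg.FusionSystem T} {E' : Cfsg.FusionSystem T'} {D : Cfsg.FusionSystem U} {D' : Cfsg.FusionSystem U'}
variable {F : Cfsg.FusionSystem V} {F' : Cfsg.FusionSystem V'} {p : ℕ}

theorem im_im_symm_le (P' : Subgroup Ω') : im e (im e.symm P') ≤ P' := by
  intro y hy
  obtain ⟨x, hx, rfl⟩ := exists_of_mem_im hy
  obtain ⟨z, hz, hzx⟩ := exists_of_mem_im hx
  rw [← show e.symm z = x from Subtype.ext hzx, e.apply_symm_apply]
  exact hz

theorem le_of_subsystem (h : E.IsSubsystemOf F) : T ≤ V := le_of_hom (h T (subtype_mem le_rfl))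

/-- Transport of inclusion of systems. -/
theorem Carries.subsystem {W : Subgroup Ω} {W' : Subgroup Ω'} {B : Cfsg.FusionSystem W} {B' : Cfsg.FusionSystem W'}
    (hA : Carries e E E') (hB : Carries e B B') (h : E.IsSubsystemOf B) : E'.IsSubsystemOf B' := by
  intro P φ hφ
  obtain ⟨ψ, hψ, hag⟩ := hA.bwd hφ
  refine hB.mem_of (h _ hψ) (by rw [im_im_symm ((le_of_hom hφ).trans hA.le')]) fun x hx hx' y hy => ?_
  have h1 := hag (e x) hx' ⟨φ ⟨e x, hx'⟩, hA.le' (val_mem hφ _)⟩ rfl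
  simp only [MulEquiv.symm_apply_apply] at h1
  rw [show y = e.symm ⟨φ ⟨e x, hx'⟩, hA.le' (val_mem hφ _)⟩ from Subtype.ext (hy.trans h1), e.apply_symm_apply]

/-- Automorphisms are transported. -/
theorem Carries.exists_aut (h : Carries e E E') {P : Subgroup Ω} (hP : P ≤ T) {P' : Subgroup Ω'} (hP' : im e P = P')
    {α : MulAut P} (hα : α ∈ E.autGroup P) :
    ∃ β ∈ E'.autGroup P', ∀ (x : S) (hx : (x : Ω) ∈ P) (hx' : (e x : Ω') ∈ P') (y : S),
      (y : Ω) = (α ⟨x, hx⟩ : P) → ((β ⟨e x, hx'⟩ : P') : Ω') = (e y : Ω') := by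
  subst hP'
  refine ⟨_, h.congr_mem_autGroup hP hα, fun x hx hx' y hy => ?_⟩
  show ((resEquiv e (hP.trans h.le)) (α ((resEquiv e (hP.trans h.le)).symm ⟨e x, hx'⟩)) : Ω') = _
  rw [show (resEquiv e (hP.trans h.le)).symm ⟨e x, hx'⟩ = ⟨x, hx⟩ from
    (MulEquiv.symm_apply_eq _).2 (Subtype.ext rfl), resEquiv_apply]
  exact congrArg (fun s : S => (e s : Ω')) (Subtype.ext hy.symm)

/-- Saturation is transported. -/
theorem Carries.isSaturated [Finite S] [Fact p.Prime] (h : Carries e E E') (hT : IsPGroup p T)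
    (hE : E.IsSaturated p) : E'.IsSaturated p := by
  haveI := finite_of_le h.le
  refine isSaturated_factor hT hE ⟨bot_le, fun R hR φ _ x => ?_⟩ h.isFactorSystem
  rw [show x = 1 from Subtype.ext (Subgroup.mem_bot.1 (hR x.2)), map_one]
  exact one_mem _

/-- Strong closure is transported. -/
theorem Carries.stronglyClosed (h : Carries e F F') {W : Subgroup Ω} (hW : F.StronglyClosed W) :
    F'.StronglyClosed (im e W) := by
  refine ⟨h.im_eq ▸ im_mono hW.1, fun R hR φ hφ x => ?_⟩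
  obtain ⟨ψ, hψ, hag⟩ := h.bwd hφ
  have hle : im e.symm R ≤ W := (im_mono hR).trans_eq (im_symm_im (hW.1.trans h.le))
  have hxS : (x : Ω') ∈ S' := h.le' (le_of_hom hφ x.2)
  have h1 := hag ⟨x, hxS⟩ x.2 ⟨φ x, h.le' (val_mem hφ _)⟩ rfl
  have h2 : (e.symm ⟨φ x, h.le' (val_mem hφ _)⟩ : Ω) ∈ W := h1 ▸ hW.2 _ hle ψ hψ _
  have h3 := mem_im_of (e := e) h2
  rwa [e.apply_symm_apply] at h3

/-- Normality is transported. -/
theorem Carries.isNormalIn [Finite S] [Fact p.Prime] (hS : IsPGroup p S) (hF : Carries e F F')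
    (hD : Carries e D D') (h : D.IsNormalIn F p) : D'.IsNormalIn F' p := by
  obtain ⟨⟨hDs, hFs, hsub, hclosed, hinv, hfrat⟩, hext⟩ := h
  have hUV : U ≤ V := hclosed.1
  have hU'V' : U' ≤ V' := by
    rw [← hD.im_eq, ← hF.im_eq]
    exact im_mono hUV
  refine ⟨⟨hD.isSaturated (hS.to_le hD.le) hDs, hF.isSaturated (hS.to_le hF.le) hFs, hD.subsystem hF hsub,
    hD.im_eq ▸ hF.stronglyClosed hclosed, ?_, ?_⟩, ?_⟩
  · intro P hPU' φ hφ α hα
    obtain ⟨φ₀, hφ₀, hag⟩ := hD.bwd hφ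
    have hP₀ : im e.symm P ≤ U := le_of_hom hφ₀
    obtain ⟨α₀, hα₀, hag₀⟩ := hF.symm.exists_aut hU'V' hD.symm.im_eq hα
    obtain ⟨χ₀, hχ₀, hval⟩ := hinv _ hP₀ φ₀ hφ₀ α₀ hα₀
    obtain ⟨χ₁, hχ₁, hag₁⟩ := hD.fwd hχ₀
    -- the source is the image of the source
    have key : ∀ (x : S') (hx : (x : Ω') ∈ P),
        ((α₀ ⟨e.symm x, hP₀ (mem_im_of hx)⟩ : U) : Ω) =
          (e.symm ⟨(α ⟨x, hPU' hx⟩ : U'), hD.le' (α ⟨x, hPU' hx⟩).2⟩ : Ω) := fun x hx => hag₀ x (hPU' hx) _ _ rfl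
    have hmem₀ : ∀ (x : S') (hx : (x : Ω') ∈ P),
        ((α₀ ⟨e.symm x, hP₀ (mem_im_of hx)⟩ : U) : Ω) ∈
          ((im e.symm P).subgroupOf U).map (U.subtype.comp α₀.toMonoidHom) :=
      fun x hx => ⟨⟨e.symm x, hP₀ (mem_im_of hx)⟩, mem_im_of hx, rfl⟩
    have hle : (P.subgroupOf U').map (U'.subtype.comp α.toMonoidHom) ≤
        im e (((im e.symm P).subgroupOf U).map (U.subtype.comp α₀.toMonoidHom)) := by
      rintro _ ⟨z, hz, rfl⟩
      have h1 := mem_im_of (e := e) (P := ((im e.symm P).subgroupOf U).map (U.subtype.comp α₀.toMonoidHom))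
        (x := e.symm ⟨(α z : U'), hD.le' (α z).2⟩) (key ⟨z, hD.le' z.2⟩ hz ▸ hmem₀ ⟨z, hD.le' z.2⟩ hz)
      rwa [e.apply_symm_apply] at h1
    refine ⟨χ₁.comp (Subgroup.inclusion hle), restrict hχ₁ hle, fun x hφx hαx => ?_⟩
    have hxS : (x : Ω') ∈ S' := hD.le' (hPU' x.2)
    have hφ₀x : φ₀ ⟨e.symm ⟨x, hxS⟩, mem_im_of x.2⟩ =
        (e.symm ⟨φ x, hD.le' hφx⟩ : Ω) := hag ⟨x, hxS⟩ x.2 ⟨φ x, hD.le' hφx⟩ rfl
    have h2 : ((α₀ ⟨φ₀ ⟨e.symm ⟨x, hxS⟩, mem_im_of x.2⟩, hφ₀x ▸ ((hD.symm.mem _).2 hφx)⟩ : U) : Ω) =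
        (e.symm ⟨(α ⟨φ x, hφx⟩ : U'), hD.le' (α ⟨φ x, hφx⟩).2⟩ : Ω) := by
      refine Eq.trans ?_ (hag₀ ⟨φ x, hD.le' hφx⟩ hφx ((hD.symm.mem _).2 hφx) _ rfl)
      exact congrArg (fun z : U => ((α₀ z : U) : Ω)) (Subtype.ext hφ₀x)
    have h3 := hval ⟨e.symm ⟨x, hxS⟩, mem_im_of x.2⟩ (hφ₀x ▸ ((hD.symm.mem _).2 hφx)) (hmem₀ ⟨x, hxS⟩ x.2)
    have h4 := hag₁ (e.symm ⟨(α ⟨x, hPU' x.2⟩ : U'), hD.le' (α _).2⟩) (key ⟨x, hxS⟩ x.2 ▸ hmem₀ ⟨x, hxS⟩ x.2)
      (e.symm ⟨(α ⟨φ x, hφx⟩ : U'), hD.le' (α _).2⟩)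
      (h2.symm.trans (h3.symm.trans (congrArg χ₀ (Subtype.ext (key ⟨x, hxS⟩ x.2)))))
    simp only [MulEquiv.apply_symm_apply] at h4
    exact h4
  · intro P hP φ hφ
    obtain ⟨φ₀, hφ₀, hag⟩ := hF.bwd hφ
    have hP₀ : im e.symm P ≤ U := (im_mono hP).trans_eq hD.symm.im_eq
    obtain ⟨α₀, hα₀, ψ₀, hψ₀, hfac⟩ := hfrat _ hP₀ φ₀ hφ₀
    obtain ⟨α, hα, hag₀⟩ := hF.exists_aut hUV hD.im_eq hα₀
    obtain ⟨ψ, hψ, hag₁⟩ := hD.fwd hψ₀
    have hPS : P ≤ S' := hP.trans hD.le'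
    have hle : P ≤ im e (im e.symm P) := (im_im_symm hPS).ge
    refine ⟨α, hα, ψ.comp (Subgroup.inclusion hle), restrict hψ hle, fun x hx => ?_⟩
    set x₀ := e.symm ⟨x, hPS x.2⟩ with hx₀
    have hx₀P : (x₀ : Ω) ∈ im e.symm P := mem_im_of x.2
    have h1 := hfac ⟨x₀, hx₀P⟩ (val_mem hψ₀ _)
    set y₀ : S := ⟨ψ₀ ⟨x₀, hx₀P⟩, hD.le (val_mem hψ₀ _)⟩ with hy₀
    have h2 : ψ (Subgroup.inclusion hle x) = (e y₀ : Ω') := by
      refine Eq.trans (congrArg ψ (Subtype.ext ?_)) (hag₁ x₀ hx₀P y₀ rfl)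
      show (x : Ω') = (e (e.symm ⟨x, _⟩) : Ω')
      rw [e.apply_symm_apply]
    have h3 := hag₀ y₀ (val_mem hψ₀ _) (h2 ▸ hx) (e.symm ⟨φ x, hF.le' (val_mem hφ _)⟩)
      ((hag ⟨x, hPS x.2⟩ x.2 ⟨φ x, hF.le' (val_mem hφ _)⟩ rfl).symm.trans h1)
    rw [e.apply_symm_apply] at h3
    refine h3.symm.trans ?_
    exact congrArg (fun z : U' => ((α z : U') : Ω')) (Subtype.ext h2.symm)
  · intro α hα
    obtain ⟨α₀, hα₀, hag₀⟩ := hD.symm.exists_aut le_rfl hD.symm.im_eq hα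
    obtain ⟨β₀, hβ₀, hβext, hβcom⟩ := hext α₀ hα₀
    have hUC : U ⊔ centralizerIn V U ≤ V := sup_le hUV inf_le_left
    have heq : im e (U ⊔ centralizerIn V U) = U' ⊔ centralizerIn V' U' := by
      rw [im_sup (Q := centralizerIn V U) hD.le (inf_le_left.trans hF.le), im_centralizerIn hF.le hD.le, hD.im_eq, hF.im_eq]
    obtain ⟨β, hβ, hag⟩ := hF.exists_aut hUC heq hβ₀
    refine ⟨β, hβ, fun x => ?_, fun c hc => ?_⟩
    · set x₀ := e.symm ⟨x, hD.le' x.2⟩ with hx₀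
      have hx₀U : (x₀ : Ω) ∈ U := (hD.symm.mem _).2 x.2
      have hx₀m : (x₀ : Ω) ∈ U ⊔ centralizerIn V U := Subgroup.mem_sup_left hx₀U
      have hx' : (e x₀ : Ω') ∈ U' ⊔ centralizerIn V' U' := by
        rw [hx₀, e.apply_symm_apply]; exact Subgroup.mem_sup_left x.2
      have h1 := hag x₀ hx₀m hx' (e.symm ⟨(α x : U'), hD.le' (α x).2⟩)
        ((hag₀ ⟨x, hD.le' x.2⟩ x.2 hx₀U _ rfl).symm.trans (hβext ⟨x₀, hx₀U⟩).symm)
      simp only [MulEquiv.apply_symm_apply] at h1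
      refine Eq.trans (congrArg (fun z : ↥(U' ⊔ centralizerIn V' U') => ((β z : ↥(U' ⊔ centralizerIn V' U')) : Ω'))
        (Subtype.ext ?_)) h1
      show (x : Ω') = (e (e.symm ⟨x, _⟩) : Ω')
      rw [e.apply_symm_apply]
    · obtain ⟨c₀, hc₀, hce⟩ := exists_of_mem_im (show (c : Ω') ∈ im e (centralizerIn V U) by
        rw [im_centralizerIn hF.le hD.le, hF.im_eq, hD.im_eq]; exact hc)
      have h1 := hβcom ⟨c₀, Subgroup.mem_sup_right hc₀⟩ hc₀
      set b₀ : S := ⟨_, hF.le (hUC (β₀ ⟨c₀, Subgroup.mem_sup_right hc₀⟩).2)⟩ with hb₀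
      have h2 : ((β c : ↥(U' ⊔ centralizerIn V' U')) : Ω') = (e b₀ : Ω') := by
        rw [show c = ⟨(e c₀ : Ω'), hce.symm ▸ c.2⟩ from Subtype.ext hce.symm]
        exact hag c₀ (Subgroup.mem_sup_right hc₀) _ b₀ rfl
      rw [h2, ← hce, show (e c₀ : Ω')⁻¹ * (e b₀ : Ω') = (e (c₀⁻¹ * b₀) : Ω') by simp]
      have h3 : ((c₀⁻¹ * b₀ : S) : Ω) ∈ U ⊓ Subgroup.centralizer (U : Set Ω) := h1
      exact ⟨(hD.mem _).2 h3.1, hD.im_eq ▸ (mem_centralizer_im hD.le _).2 h3.2⟩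

/-- Subnormality is transported. -/
theorem isSubnormalIn_transport [Finite S] (h : E.IsSubnormalIn F p) :
    p.Prime → IsPGroup p S → ∀ {V' : Subgroup Ω'} {F' : Cfsg.FusionSystem V'} {T' : Subgroup Ω'}
      {E' : Cfsg.FusionSystem T'}, Carries e F F' → Carries e E E' → E'.IsSubnormalIn F' p := by
  induction h with
  | refl F₀ =>
    intro hp hS V' F' T' E' hF hE
    obtain rfl : T' = V' := hE.im_eq.symm.trans hF.im_eq
    rw [hE.unique hF]
    exact IsSubnormalIn.refl F' _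
  | step hsn hn ih =>
    intro hp hS V' F' T' E' hF hE
    haveI : Fact (Nat.Prime _) := ⟨hp⟩
    obtain ⟨W', D'', hD''⟩ := exists_carries (e := e) _ ((hn.1.2.2.2.1.1).trans hF.le)
    exact IsSubnormalIn.step (ih hp hS hD'' hE) (hF.isNormalIn hS hD'' hn)

theorem Carries.isSubnormalIn [Finite S] [hp : Fact p.Prime] (hS : IsPGroup p S) (h : E.IsSubnormalIn F p)
    (hF : Carries e F F') (hE : Carries e E E') : E'.IsSubnormalIn F' p :=
  isSubnormalIn_transport h hp.out hS hF hE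

/-- Central subgroups are transported. -/
theorem Carries.isCentral (h : Carries e E E') {A : Subgroup Ω} (hA : E.IsCentral A) :
    E'.IsCentral (im e A) := by
  refine ⟨h.im_eq ▸ im_mono hA.1, fun P φ hφ => ?_⟩
  obtain ⟨φ₀, hφ₀, hag⟩ := h.bwd hφ
  obtain ⟨ψ₀, hψ₀, hext, hfix⟩ := hA.2 _ φ₀ hφ₀
  obtain ⟨ψ, hψ, hag₁⟩ := h.fwd hψ₀
  have hPS : P ≤ S' := (le_of_hom hφ).trans h.le'
  have hle : P ⊔ im e A ≤ im e (im e.symm P ⊔ A) :=
    sup_le ((im_im_symm hPS).ge.trans (im_mono le_sup_left)) (im_mono le_sup_right)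
  refine ⟨ψ.comp (Subgroup.inclusion hle), restrict hψ hle, fun x => ?_, fun x => ?_⟩
  · set x₀ := e.symm ⟨x, hPS x.2⟩ with hx₀
    have hm : (x₀ : Ω) ∈ im e.symm P := mem_im_of x.2
    have h1 := hag₁ x₀ (Subgroup.mem_sup_left hm) (e.symm ⟨φ x, h.le' (val_mem hφ _)⟩)
      ((hag ⟨x, hPS x.2⟩ x.2 ⟨φ x, h.le' (val_mem hφ _)⟩ rfl).symm.trans (hext ⟨x₀, hm⟩).symm)
    simp only [MulEquiv.apply_symm_apply] at h1
    refine Eq.trans (congrArg ψ (Subtype.ext ?_)) h1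
    show (x : Ω') = (e (e.symm ⟨x, _⟩) : Ω')
    rw [e.apply_symm_apply]
  · obtain ⟨a, ha, hae⟩ := exists_of_mem_im x.2
    have h1 := hag₁ a (Subgroup.mem_sup_right ha) a (hfix ⟨a, ha⟩).symm
    rw [← hae]
    refine Eq.trans (congrArg ψ (Subtype.ext ?_)) h1
    exact hae.symm

/-- The centre is transported. -/
theorem Carries.im_center [Finite S] (h : Carries e E E') : im e E.center = E'.center := by
  haveI := finite_of_le h.le
  haveI := h.finite'
  have h1 := le_sSup (s := {Q | E'.IsCentral Q}) (h.isCentral (Cfsg.Agent.S5144.result E))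
  have h2 := le_sSup (s := {Q | E.IsCentral Q}) (h.symm.isCentral (Cfsg.Agent.S5144.result E'))
  refine le_antisymm h1 ?_
  have h3 : im e (im e.symm E'.center) ≤ im e E.center := im_mono h2
  rwa [im_im_symm ((Cfsg.Agent.S5144.result E').1.trans h.le')] at h3

/-- A central subgroup is strongly closed. -/
theorem stronglyClosed_of_central {A : Subgroup Ω} (hA : E.IsCentral A) : E.StronglyClosed A := by
  refine ⟨hA.1, fun R hR φ hφ x => ?_⟩
  obtain ⟨ψ, -, hext, hfix⟩ := hA.2 R φ hφ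
  rw [← hext x]
  exact (congrArg ψ (Subtype.ext rfl)).trans (hfix ⟨x, hR x.2⟩) ▸ hR x.2

/-- The automorphism groups correspond. -/
noncomputable def Carries.autHom (h : Carries e E E') {P : Subgroup Ω} (hP : P ≤ T) :
    E.autGroup P →* E'.autGroup (im e P) :=
  MonoidHom.codRestrict ((MulAut.congr (resEquiv e (hP.trans h.le))).toMonoidHom.comp (E.autGroup P).subtype) _
    fun α => h.congr_mem_autGroup hP α.2

/-- Full hyperfocal subgroup is transported. -/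
theorem Carries.hyperfocal_eq (h : Carries e E E') (hT : E.hyperfocalSubgroup p = T) :
    E'.hyperfocalSubgroup p = T' := by
  refine le_antisymm ?_ ?_
  · refine (Subgroup.closure_le _).2 ?_
    rintro _ ⟨P, α, x, hP, -, rfl⟩
    exact T'.mul_mem (T'.inv_mem (hP x.2)) (hP ((α : MulAut P) x).2)
  · have key : T ≤ im e.symm (E'.hyperfocalSubgroup p) := by
      refine hT.ge.trans ((Subgroup.closure_le _).2 ?_)
      rintro _ ⟨P, α, x, hP, hα, rfl⟩
      have hP' : im e P ≤ T' := h.im_eq ▸ im_mono hP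
      have hres : h.autHom hP α ∈ pResidual p (E'.autGroup (im e P)) := by
        have : (pResidual p (E.autGroup P)).map (h.autHom hP) ≤ pResidual p (E'.autGroup (im e P)) := by
          unfold pResidual
          rw [MonoidHom.map_closure]
          refine Subgroup.closure_mono ?_
          rintro _ ⟨g, hg, rfl⟩
          exact Nat.Coprime.coprime_dvd_left (orderOf_map_dvd _ g) hg
        exact this ⟨α, hα, rfl⟩
      set x' : S := ⟨x, h.le (hP x.2)⟩ with hx'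
      set y' : S := ⟨((α : MulAut P) x : P), h.le (hP ((α : MulAut P) x).2)⟩ with hy'
      have h1 : (e (x'⁻¹ * y') : Ω') ∈ E'.hyperfocalSubgroup p := by
        refine Subgroup.subset_closure ⟨im e P, h.autHom hP α, ⟨e x', mem_im_of x.2⟩, hP', hres, ?_⟩
        rw [map_mul, map_inv, Subgroup.coe_mul, Subgroup.coe_inv]
        congr 1
        show (e y' : Ω') = ((resEquiv e (hP.trans h.le)) ((α : MulAut P)
          ((resEquiv e (hP.trans h.le)).symm ⟨e x', _⟩)) : Ω')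
        rw [show (resEquiv e (hP.trans h.le)).symm ⟨e x', mem_im_of x.2⟩ = x from
          (MulEquiv.symm_apply_eq _).2 (Subtype.ext rfl), resEquiv_apply]
      have h2 := mem_im_of (e := e.symm) h1
      rw [e.symm_apply_apply] at h2
      exact h2
    have h3 := (im_mono (e := e) key).trans (im_im_symm_le _)
    rwa [h.im_eq] at h3

/-! ### Factor systems of carried systems -/

variable {X : Type*} [Group X] {X' : Type*} [Group X'] {W : Subgroup X} {W' : Subgroup X'}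
variable {G : Cfsg.FusionSystem W} {G' : Cfsg.FusionSystem W'} {θ : T →* X} {θ' : T' →* X'}
variable {Z : Subgroup Ω} {Z' : Subgroup Ω'} {f : W ≃* W'}

theorem factor_fwd (h : Carries e E E') (hG : E.IsFactorSystem Z θ G) (hG' : E'.IsFactorSystem Z' θ' G')
    (hf : ∀ (s : T) (s' : T') (w : W), (w : X) = θ s → (e ⟨s, h.le s.2⟩ : Ω') = s' → (f w : X') = θ' s')
    {P : Subgroup X} {φ : P →* X} (hφ : φ ∈ G.Hom P) :
    ∃ φ' ∈ G'.Hom (im f P), ∀ (x : W) (hx : (x : X) ∈ P) (y : W), (y : X) = φ ⟨x, hx⟩ →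
      φ' ⟨f x, mem_im_of hx⟩ = (f y : X') := by
  obtain ⟨-, -, hr, hhom⟩ := hG
  obtain ⟨-, -, hr', hhom'⟩ := hG'
  obtain ⟨hP, ψ, hψ, hind⟩ := (hhom P φ).1 hφ
  obtain ⟨ψ', hψ', hag⟩ := h.fwd hψ
  have hle : preimageAlong θ' (im f P) ≤ im e (preimageAlong θ P) := by
    intro d hd
    obtain ⟨hd', hdP⟩ := mem_preimageAlong.1 hd
    obtain ⟨s, hs⟩ := e.surjective ⟨d, h.le' hd'⟩
    have hse : (e s : Ω') = d := by rw [hs]
    have hsT : (s : Ω) ∈ T := (h.mem s).1 (hse.symm ▸ hd')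
    have hw : θ ⟨s, hsT⟩ ∈ W := hr.le ⟨_, rfl⟩
    have h1 := hf ⟨s, hsT⟩ ⟨d, hd'⟩ ⟨_, hw⟩ rfl hse
    rw [← h1] at hdP
    rw [← hse]
    exact mem_im_of (mem_preimageAlong.2 ⟨hsT, coe_mem_im.1 hdP⟩)
  let φ' : im f P →* X' := (W'.subtype.comp f.toMonoidHom).comp
    ((φ.codRestrict W fun x => val_mem hφ x).comp (resEquiv f hP).symm.toMonoidHom)
  have hφ'val : ∀ (x : W) (hx : (x : X) ∈ P) (y : W), (y : X) = φ ⟨x, hx⟩ →
      φ' ⟨f x, mem_im_of hx⟩ = (f y : X') := by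
    intro x hx y hy
    show (f ⟨φ ((resEquiv f hP).symm ⟨f x, _⟩), _⟩ : X') = _
    refine congrArg (fun w : W => (f w : X')) (Subtype.ext ?_)
    rw [hy]
    refine congrArg φ ?_
    rw [MulEquiv.symm_apply_eq]
    exact Subtype.ext rfl
  refine ⟨φ', (hhom' _ _).2 ⟨im_le _, ψ'.comp (Subgroup.inclusion hle), restrict hψ' hle,
    preimageAlong_le _, fun x => val_mem (restrict hψ' hle) x, fun x => (mem_preimageAlong.1 x.2).2, ?_⟩, hφ'val⟩
  rintro ⟨d, hd⟩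
  have hd' : d ∈ T' := preimageAlong_le _ hd
  obtain ⟨s, hs, hse⟩ := exists_of_mem_im (hle hd)
  obtain ⟨hsT, hsP⟩ := mem_preimageAlong.1 hs
  set w : W := ⟨θ ⟨s, hsT⟩, hr.le ⟨_, rfl⟩⟩ with hw
  set w₁ : W := ⟨θ ⟨ψ ⟨s, hs⟩, val_mem hψ _⟩, hr.le ⟨_, rfl⟩⟩ with hw₁
  have h1 : (f w : X') = θ' ⟨d, hd'⟩ := hf _ _ w rfl hse
  have h2 : φ ⟨w, hsP⟩ = (w₁ : X) := induced_apply hind hs (val_mem hψ _) rfl
  have h3 := hφ'val w hsP w₁ h2.symm
  have h4 : (f w₁ : X') = θ' ⟨ψ'.comp (Subgroup.inclusion hle) ⟨d, hd⟩, val_mem (restrict hψ' hle) _⟩ := by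
    refine hf _ _ w₁ rfl ?_
    show (e ⟨ψ ⟨s, hs⟩, _⟩ : Ω') = ψ' ⟨d, _⟩
    refine ((hag s hs ⟨ψ ⟨s, hs⟩, h.le (val_mem hψ _)⟩ rfl).symm.trans ?_)
    exact congrArg ψ' (Subtype.ext hse)
  refine Eq.trans (congrArg φ' (Subtype.ext ?_)) (h3.trans h4)
  exact h1.symm

/-- The factor systems of carried systems are carried. -/
theorem carries_factor (h : Carries e E E') (hG : E.IsFactorSystem Z θ G) (hG' : E'.IsFactorSystem Z' θ' G')
    (hf : ∀ (s : T) (s' : T') (w : W), (w : X) = θ s → (e ⟨s, h.le s.2⟩ : Ω') = s' → (f w : X') = θ' s') :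
    Carries f G G' where
  le := le_rfl
  le' := le_rfl
  mem := fun x => iff_of_true (f x).2 x.2
  fwd := fun hφ => factor_fwd h hG hG' hf hφ
  bwd := fun hφ => by
    refine factor_fwd h.symm hG' hG (fun s' s w hw hse => ?_) hφ
    have hsS : (e ⟨s, h.le s.2⟩ : Ω') = s' := by
      rw [show (⟨s, h.le s.2⟩ : S) = e.symm ⟨s', h.le' s'.2⟩ from Subtype.ext hse.symm, e.apply_symm_apply]
    have h1 := hf s s' ⟨θ s, hG.2.2.1.le ⟨s, rfl⟩⟩ rfl hsS
    rw [← hw] at h1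
    rw [← Subtype.ext h1, f.symm_apply_apply]

/-- Simplicity is transported. -/
theorem Carries.isSimple [Finite S] [Fact p.Prime] (hS : IsPGroup p S) (h : Carries e E E') (hE : E.IsSimple p) :
    E'.IsSimple p := by
  obtain ⟨hsat, hne, hnorm⟩ := hE
  refine ⟨h.isSaturated (hS.to_le h.le) hsat, fun hbot => hne ?_, fun R' D' hD' => ?_⟩
  · rw [← h.symm.im_eq, hbot, im_bot]
  · haveI : Finite S' := Finite.of_equiv S e.toEquiv
    have hR' : R' ≤ S' := hD'.1.2.2.2.1.1.trans h.le'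
    obtain ⟨R, D, hD⟩ := exists_carries (e := e.symm) D' hR'
    have hnD := h.symm.isNormalIn (hS.of_equiv e) hD hD'
    rcases hnorm R D hnD with hR | ⟨hR, hhom⟩
    · left
      rw [← hD.symm.im_eq, hR]
      exact im_bot
    · right
      subst hR
      obtain rfl : D = E := fusionSystem_ext hhom
      have hD'' : Carries e D D' := hD.symm
      obtain rfl : R' = T' := hD''.im_eq.symm.trans h.im_eq
      exact ⟨rfl, fun P => by rw [hD''.unique h]⟩

/-- Quasisimplicity is transported. -/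
theorem Carries.quasisimple [Finite S] [Fact p.Prime] (hS : IsPGroup p S) (h : Carries e E E')
    (hE : E.Quasisimple p) : E'.Quasisimple p := by
  obtain ⟨hsat, hhyp, hsimple⟩ := hE
  haveI := finite_of_le h.le
  haveI := h.finite'
  have hT : IsPGroup p T := hS.to_le h.le
  refine ⟨h.isSaturated hT hsat, h.hyperfocal_eq hhyp, fun G' hG' => ?_⟩
  have hZS : E.StronglyClosed E.center := stronglyClosed_of_central (Cfsg.Agent.S5144.result E)
  set θ₀ := QuotientGroup.mk' ((E.center).subgroupOf T) with hθ₀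
  have hker : ∀ s : T, θ₀ s = 1 ↔ (s : Ω) ∈ E.center := fun s => by
    rw [hθ₀, QuotientGroup.mk'_apply, QuotientGroup.eq_one_iff, Subgroup.mem_subgroupOf]
  obtain ⟨G, hG⟩ : ∃ G : Cfsg.FusionSystem (⊤ : Subgroup (T ⧸ (E.center).subgroupOf T)),
      E.IsFactorSystem E.center θ₀ G := by
    have hr : θ₀.range = ⊤ := MonoidHom.range_eq_top.2 (QuotientGroup.mk'_surjective _)
    rw [← hr]
    exact ⟨_, isFactorSystem_factorSystem hker hZS⟩
  -- the isomorphism of the quotients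
  set εT : T ≃* T' := (resEquiv e h.le).trans (MulEquiv.subgroupCongr h.im_eq) with hεT
  have hεv : ∀ s : T, (εT s : Ω') = (e ⟨s, h.le s.2⟩ : Ω') := fun s => rfl
  have hmap : ((E.center).subgroupOf T).map εT.toMonoidHom = (E'.center).subgroupOf T' := by
    ext z
    rw [Subgroup.mem_subgroupOf, ← h.im_center]
    constructor
    · rintro ⟨s, hs, rfl⟩
      exact mem_im_of (e := e) (P := E.center) (x := ⟨s, h.le s.2⟩) hs
    · intro hz
      obtain ⟨x, hx, hxe⟩ := exists_of_mem_im hz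
      have hxT : (x : Ω) ∈ T := (Cfsg.Agent.S5144.result E).1 hx
      exact ⟨⟨x, hxT⟩, hx, Subtype.ext hxe⟩
  set ε := QuotientGroup.congr ((E.center).subgroupOf T) ((E'.center).subgroupOf T') εT hmap with hε
  set f : (⊤ : Subgroup (T ⧸ (E.center).subgroupOf T)) ≃* (⊤ : Subgroup (T' ⧸ (E'.center).subgroupOf T')) :=
    Subgroup.topEquiv.trans (ε.trans Subgroup.topEquiv.symm) with hf
  have hc : Carries f G G' := by
    refine carries_factor h hG hG' fun s s' w hw hse => ?_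
    show ε (w : T ⧸ (E.center).subgroupOf T) = _
    rw [hw]
    show ε (QuotientGroup.mk s) = _
    exact congrArg (QuotientGroup.mk (s := (E'.center).subgroupOf T'))
      (show εT s = s' from Subtype.ext ((hεv s).trans hse))
  haveI : Finite (⊤ : Subgroup (T ⧸ (E.center).subgroupOf T)) := inferInstance
  exact hc.isSimple ((hT.to_quotient _).of_equiv Subgroup.topEquiv.symm) (hsimple G hG)

/-- Components are transported. -/
theorem Carries.isComponentIn [Finite S] [Fact p.Prime] (hS : IsPGroup p S) (hF : Carries e F F')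
    (hE : Carries e E E') (h : E.IsComponentIn F p) : E'.IsComponentIn F' p :=
  ⟨isSubnormalIn_transport h.1 Fact.out hS hF hE, hE.quasisimple hS h.2⟩

/-! ### Self-maps -/

/-- An automorphism in an invariant subsystem's overgroup carries the subsystem to itself. -/
theorem carries_of_invariant {W₀ W : Subgroup Ω} {D₀ : Cfsg.FusionSystem W} {F₀ : Cfsg.FusionSystem W₀}
    (h : D₀.IsInvariantIn F₀) {α : MulAut W} (hα : α ∈ F₀.autGroup W) : Carries (α : W ≃* W) D₀ D₀ := by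
  have key : ∀ {β : MulAut W}, β ∈ F₀.autGroup W → ∀ {P : Subgroup Ω} {φ : P →* Ω}, φ ∈ D₀.Hom P →
      ∃ φ' ∈ D₀.Hom (im (β : W ≃* W) P), ∀ (x : W) (hx : (x : Ω) ∈ P) (y : W), (y : Ω) = φ ⟨x, hx⟩ →
        φ' ⟨(β : W ≃* W) x, mem_im_of hx⟩ = ((β : W ≃* W) y : Ω) := by
    intro β hβ P φ hφ
    obtain ⟨χ, hχ, hval⟩ := h.2.2.1 P (le_of_hom hφ) φ hφ β hβ
    refine ⟨χ, hχ, fun x hx y hy => ?_⟩
    refine (hval ⟨x, hx⟩ (val_mem hφ _) (mem_im_of hx)).trans ?_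
    exact congrArg (fun z : W => ((β z : W) : Ω)) (Subtype.ext hy.symm)
  exact ⟨le_rfl, le_rfl, fun x => iff_of_true (α x).2 x.2, key hα, key (inv_mem hα)⟩

/-- An automorphism of the underlying group that is in the system carries the system to itself. -/
theorem carries_self {W : Subgroup Ω} {F₀ : Cfsg.FusionSystem W} {α : MulAut W} (hα : α ∈ F₀.autGroup W) :
    Carries (α : W ≃* W) F₀ F₀ := by
  have key : ∀ {β : MulAut W}, β ∈ F₀.autGroup W → ∀ {P : Subgroup Ω} {φ : P →* Ω}, φ ∈ F₀.Hom P →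
      ∃ φ' ∈ F₀.Hom (im (β : W ≃* W) P), ∀ (x : W) (hx : (x : Ω) ∈ P) (y : W), (y : Ω) = φ ⟨x, hx⟩ →
        φ' ⟨(β : W ≃* W) x, mem_im_of hx⟩ = ((β : W ≃* W) y : Ω) := by
    intro β hβ P φ hφ
    have hP := le_of_hom hφ
    have hinv : β⁻¹ ∈ F₀.autGroup W := inv_mem hβ
    set g : im (β : W ≃* W) P →* Ω := (W.subtype.comp ((β⁻¹ : MulAut W) : W ≃* W).toMonoidHom).comp
      (Subgroup.inclusion (im_le P)) with hg
    have hgm : g ∈ F₀.Hom (im (β : W ≃* W) P) := restrict ((mem_autGroup le_rfl).1 hinv) _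
    have hgP : ∀ z, g z ∈ P := by
      rintro ⟨z, hz⟩
      obtain ⟨x, hx, rfl⟩ := exists_of_mem_im hz
      show ((β⁻¹ : MulAut W) (β x) : Ω) ∈ P
      rwa [MulAut.inv_apply_self]
    have h1 := F₀.comp_mem hgm hφ hgP
    have h2 := F₀.comp_mem h1 ((mem_autGroup le_rfl).1 hβ) (fun z => val_mem h1 z)
    refine ⟨_, h2, fun x hx y hy => ?_⟩
    show ((β ⟨φ ⟨_, _⟩, _⟩ : W) : Ω) = ((β y : W) : Ω)
    refine congrArg (fun z : W => ((β z : W) : Ω)) (Subtype.ext ?_)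
    rw [hy]
    refine congrArg φ (Subtype.ext ?_)
    show ((β⁻¹ : MulAut W) (β x) : Ω) = (x : Ω)
    rw [MulAut.inv_apply_self]
  exact ⟨le_rfl, le_rfl, fun x => iff_of_true (α x).2 x.2, key hα, key (inv_mem hα)⟩

theorem subnormal_le (h : E.IsSubnormalIn F p) : T ≤ V := by
  induction h with
  | refl => exact le_rfl
  | step _ h2 ih => exact ih.trans h2.1.2.2.2.1.1

/-- Every conjugate of a subnormal subsystem is subnormal. -/
theorem exists_conjugate {S₀ T₀ : Subgroup Ω} [Finite S₀] [Fact p.Prime] (hS : IsPGroup p S₀)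
    {F₀ : Cfsg.FusionSystem S₀} {C : Cfsg.FusionSystem T₀} (hC : C.IsSubnormalIn F₀ p)
    {γ : T₀ →* Ω} (hγ : γ ∈ F₀.Hom T₀) :
    ∃ (R : Subgroup Ω) (E₀ : Cfsg.FusionSystem R) (g : T₀ ≃* R),
      (∀ x, (g x : Ω) = γ x) ∧ Carries g C E₀ ∧ E₀.IsSubnormalIn F₀ p := by
  have hp : p.Prime := Fact.out
  have hfin : Finite S₀ := inferInstance
  revert hfin hp hS γ
  induction hC with
  | @refl F₁ p =>
    intro hS γ hγ hp hfin
    haveI := hfin
    have hr : γ.range = T₀ := Subgroup.eq_of_le_of_card_ge (range_le hγ)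
      (Nat.card_congr (MonoidHom.ofInjective (F₁.injective_of_mem hγ)).toEquiv).le
    set g : MulAut T₀ := isoOfHom (F₁.injective_of_mem hγ) hr with hgdef
    have hg : g ∈ F₁.autGroup T₀ := mem_autGroup_of_eq hγ fun y => isoOfHom_apply _ _ _
    exact ⟨T₀, F₁, g, fun x => isoOfHom_apply _ _ _, carries_self hg, IsSubnormalIn.refl F₁ p⟩
  | @step W S₁ C₁ D₁ F₁ p hsn hn ih =>
    intro hS γ hγ hp hfin
    haveI := hfin
    haveI : Fact p.Prime := ⟨hp⟩
    have hWS : W ≤ S₁ := hn.1.2.2.2.1.1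
    haveI := finite_of_le hWS
    have hTW : T₀ ≤ W := subnormal_le hsn
    obtain ⟨α, hα, γ₀, hγ₀, hfac⟩ := hn.1.2.2.2.2.2 T₀ hTW γ hγ
    obtain ⟨R₀, E₀, g₀, hg₀, hc₀, hsn₀⟩ := ih (hS.to_le hWS) hγ₀ hp inferInstance
    have hR₀ : R₀ ≤ W := by
      intro z hz
      rw [show z = (g₀ (g₀.symm ⟨z, hz⟩) : Ω) by rw [g₀.apply_symm_apply], hg₀]
      exact val_mem hγ₀ _
    have hcD := carries_of_invariant hn.1.2.2 hα
    obtain ⟨R, E₁, hE₁⟩ := exists_carries (e := (α : W ≃* W)) E₀ hR₀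
    have hsn₁ : E₁.IsSubnormalIn D₁ p := isSubnormalIn_transport hsn₀ Fact.out (hS.to_le hWS) hcD hE₁
    obtain rfl : im (α : W ≃* W) R₀ = R := hE₁.im_eq
    refine ⟨_, E₁, g₀.trans (resEquiv (α : W ≃* W) hR₀), fun x => ?_, ?_, IsSubnormalIn.step hsn₁ hn⟩
    · refine Eq.trans ?_ (hfac x (val_mem hγ₀ x)).symm
      exact congrArg (fun z : W => ((α z : W) : Ω)) (Subtype.ext (hg₀ x))
    · exact Carries.trans hc₀ hE₁ hR₀ (im_le _) fun x => rfl

end CfsgLib.Fusion.Transport
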