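import Cfsg.Agent.Fusion.InnerFactor
import Cfsg.Agent.Fusion.SolvableSystem
import Cfsg.Agent.Fusion.Inner
import Cfsg.Agent.Fusion.Tate.Hyperfocal
import Cfsg.Agent.PReduced.Hom

/-!
A nilpotency criterion for saturated fusion systems: all subgroups of one order weakly embedded and
without automorphisms of order prime to `p`.
-/

set_option autoImplicit false
set_option linter.style.haveILetI false
set_option linter.unusedSectionVars false

open Cfsg

namespace CfsgLib.Fusion.WeakEmb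

open Cfsg.FusionSystem

universe u

variable {Ω : Type u} [Group Ω] {S : Subgroup Ω} [Finite S] {F : Cfsg.FusionSystem S}
variable {p : ℕ} [Fact p.Prime]

/-- Every subgroup of order `p ^ d` is weakly embedded. -/
def AllWeak (F : Cfsg.FusionSystem S) (p d : ℕ) : Prop :=
  ∀ Q : Subgroup Ω, Q ≤ S → Nat.card Q = p ^ d →
    ∃ P : Subgroup Ω, F.StronglyClosed P ∧ F.StronglyClosed (Q ⊔ P) ∧ F.StronglyClosed (Q ⊓ P)

/-- An automorphism of order prime to `p` fixing a normal subgroup of order `p ^ d` is trivial. -/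
def NoPrimeAut (F : Cfsg.FusionSystem S) (p d : ℕ) : Prop :=
  ∀ X H : Subgroup Ω, H ≤ X → X ≤ S → X ≤ Subgroup.normalizer (H : Set Ω) → Nat.card H = p ^ d →
    ∀ α ∈ F.autGroup X, ¬ p ∣ orderOf α → (∀ x : X, (x : Ω) ∈ H → ((α x : X) : Ω) ∈ H) → α = 1

lemma finite_below {X : Subgroup Ω} (hX : X ≤ S) : {Y : Subgroup Ω | Y ≤ X}.Finite := by
  haveI := finite_of_le hX
  exact (Set.finite_range fun K : Subgroup X => K.map X.subtype).subset fun Y hY =>
    ⟨Y.subgroupOf X, Subgroup.map_subgroupOf_eq_of_le hY⟩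

lemma sc_inf {A B : Subgroup Ω} (hA : F.StronglyClosed A) (hB : F.StronglyClosed B) :
    F.StronglyClosed (A ⊓ B) :=
  ⟨inf_le_left.trans hA.1, fun R hR φ hφ x =>
    ⟨hA.2 R (hR.trans inf_le_left) φ hφ x, hB.2 R (hR.trans inf_le_right) φ hφ x⟩⟩

lemma sc_self : F.StronglyClosed S := ⟨le_rfl, fun _ _ _ hφ x => val_mem hφ x⟩

lemma normalizes_of_conj {X Y : Subgroup Ω} (h : ∀ g ∈ X, ∀ y ∈ Y, g * y * g⁻¹ ∈ Y) :
    X ≤ Subgroup.normalizer (Y : Set Ω) := fun g hg => Subgroup.mem_normalizer_iff.2 fun y =>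
  ⟨h g hg y, fun hy => by
    have := h g⁻¹ (X.inv_mem hg) _ hy
    simpa [mul_assoc] using this⟩

lemma normalizes_inf {X Y Z : Subgroup Ω} (hY : X ≤ Subgroup.normalizer (Y : Set Ω))
    (hZ : X ≤ Subgroup.normalizer (Z : Set Ω)) : X ≤ Subgroup.normalizer ((Y ⊓ Z : Subgroup Ω) : Set Ω) :=
  normalizes_of_conj fun g hg y hy =>
    ⟨conj_mem_of_normalizer (hY hg) hy.1, conj_mem_of_normalizer (hZ hg) hy.2⟩

lemma normalizes_sup {X Y Z : Subgroup Ω} (hYX : Y ≤ X) (hZX : Z ≤ X)
    (hY : X ≤ Subgroup.normalizer (Y : Set Ω)) (hZ : X ≤ Subgroup.normalizer (Z : Set Ω)) :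
    X ≤ Subgroup.normalizer ((Y ⊔ Z : Subgroup Ω) : Set Ω) := by
  haveI := (Subgroup.normal_subgroupOf_iff_le_normalizer hYX).2 hY
  haveI := (Subgroup.normal_subgroupOf_iff_le_normalizer hZX).2 hZ
  have h : ((Y ⊔ Z).subgroupOf X).Normal := by
    rw [Subgroup.subgroupOf_sup hYX hZX]; infer_instance
  exact (Subgroup.normal_subgroupOf_iff_le_normalizer (sup_le hYX hZX)).1 h

lemma mem_sup_split {Q P : Subgroup Ω} (hQ : Q ≤ Subgroup.normalizer (P : Set Ω)) {x : Ω} (hx : x ∈ Q ⊔ P) :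
    ∃ q ∈ Q, ∃ y ∈ P, x = q * y := by
  rw [← SetLike.mem_coe, Subgroup.coe_mul_of_left_le_normalizer_right Q P hQ] at hx
  obtain ⟨q, hq, y, hy, rfl⟩ := hx
  exact ⟨q, hq, y, hy, rfl⟩

lemma exists_card_pow (hS : IsPGroup p S) {T : Subgroup Ω} (hT : T ≤ S) : ∃ a, Nat.card T = p ^ a := by
  haveI := finite_of_le hT
  exact IsPGroup.iff_card.1 (hS.to_le hT)

lemma card_lt_of_lt {A B : Subgroup Ω} (hB : B ≤ S) (h : A < B) : Nat.card A < Nat.card B := by
  haveI := finite_of_le hB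
  exact lt_of_le_of_ne (Subgroup.card_le_of_le h.le) fun e =>
    h.ne (Subgroup.eq_of_le_of_card_ge h.le e.ge)

lemma exists_between (hS : IsPGroup p S) {H T : Subgroup Ω} (hHT : H ≤ T) (hT : T ≤ S) {m : ℕ}
    (h1 : Nat.card H ≤ p ^ m) (h2 : p ^ m ≤ Nat.card T) :
    ∃ K : Subgroup Ω, H ≤ K ∧ K ≤ T ∧ Nat.card K = p ^ m := by
  haveI := finite_of_le hT
  obtain ⟨a, ha⟩ := exists_card_pow hS (hHT.trans hT)
  obtain ⟨t, ht⟩ := exists_card_pow hS hT
  have hp : 1 < p := (Fact.out : p.Prime).one_lt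
  have hdvd : p ^ m ∣ Nat.card T := ht ▸ Nat.pow_dvd_pow p ((Nat.pow_le_pow_iff_right hp).1 (ht ▸ h2))
  have hH : Nat.card (H.subgroupOf T) = p ^ a := by
    rw [Nat.card_congr (Subgroup.subgroupOfEquivOfLe hHT).toEquiv, ha]
  obtain ⟨K, hK, hHK⟩ := Sylow.exists_subgroup_card_pow_prime_le p hdvd (H.subgroupOf T) hH
    ((Nat.pow_le_pow_iff_right hp).1 (ha ▸ h1))
  refine ⟨K.map T.subtype, fun x hx => ⟨⟨x, hHT hx⟩, hHK hx, rfl⟩, Subgroup.map_subtype_le K, ?_⟩
  rw [Subgroup.card_map_of_injective T.subtype_injective, hK]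

lemma exists_pPart {G : Type*} [Group G] [Finite G] (a : G) : ∃ k, ¬ p ∣ orderOf (a ^ p ^ k) := by
  refine ⟨(orderOf a).factorization p, ?_⟩
  rw [orderOf_pow, Nat.gcd_eq_right (Nat.ordProj_dvd _ _)]
  exact Nat.not_dvd_ordCompl (Fact.out : p.Prime) (orderOf_pos a).ne'

lemma eq_one_of_pow {G : Type*} [Group G] {a : G} {k : ℕ} (h : a ^ p ^ k = 1) (hord : ¬ p ∣ orderOf a) :
    a = 1 := by
  have hco : Nat.gcd (p ^ k) (orderOf a) = 1 :=
    Nat.Coprime.pow_left k ((Fact.out : p.Prime).coprime_iff_not_dvd.2 hord)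
  have := (pow_gcd_eq_one (a := a)).2 ⟨h, pow_orderOf_eq_one a⟩
  rwa [hco, pow_one] at this

lemma pow_stable {X H : Subgroup Ω} {α : MulAut X} (h : ∀ x : X, (x : Ω) ∈ H → ((α x : X) : Ω) ∈ H) :
    ∀ (m : ℕ) (x : X), (x : Ω) ∈ H → (((α ^ m) x : X) : Ω) ∈ H
  | 0, _, hx => hx
  | m + 1, x, hx => by rw [pow_succ', MulAut.mul_apply]; exact h _ (pow_stable h m x hx)

lemma pow_fix {G : Type*} [Group G] {α : MulAut G} {x : G} (h : α x = x) : ∀ m : ℕ, (α ^ m) x = x
  | 0 => rfl
  | m + 1 => by rw [pow_succ', MulAut.mul_apply, pow_fix h m, h]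

/-- An automorphism of order prime to `p` of a subgroup of order at least `p ^ d` is trivial. -/
lemma aut_eq_one_of_card_ge (hS : IsPGroup p S) {d : ℕ} (hW : AllWeak F p d) (hNP : NoPrimeAut F p d)
    {X : Subgroup Ω} (hX : X ≤ S) (hcard : p ^ d ≤ Nat.card X) {α : MulAut X} (hα : α ∈ F.autGroup X)
    (hord : ¬ p ∣ orderOf α) : α = 1 := by
  by_contra hne
  let Inv : Subgroup Ω → Prop := fun Y => Y ≤ X ∧ X ≤ Subgroup.normalizer (Y : Set Ω) ∧
    ∀ x : X, (x : Ω) ∈ Y → ((α x : X) : Ω) ∈ Y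
  have hφ := (mem_autGroup hX).1 hα
  have inv_sc : ∀ P, F.StronglyClosed P → Inv (X ⊓ P) := fun P hP =>
    ⟨inf_le_left, normalizes_inf Subgroup.le_normalizer (hX.trans (le_normalizer_of_stronglyClosed hP)),
      fun x hx => ⟨(α x).2, stronglyClosed_mapsTo hP hφ x hx.2⟩⟩
  have inv_inf : ∀ Y Z, Inv Y → Inv Z → Inv (Y ⊓ Z) := fun Y Z hY hZ =>
    ⟨inf_le_left.trans hY.1, normalizes_inf hY.2.1 hZ.2.1, fun x hx => ⟨hY.2.2 x hx.1, hZ.2.2 x hx.2⟩⟩
  have inv_sup : ∀ Y Z, Inv Y → Inv Z → Inv (Y ⊔ Z) := fun Y Z hY hZ =>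
    ⟨sup_le hY.1 hZ.1, normalizes_sup hY.1 hZ.1 hY.2.1 hZ.2.1, fun x hx => by
      have hle : Y ⊔ Z ≤ ((Y ⊔ Z).comap (X.subtype.comp α.toMonoidHom)).map X.subtype :=
        sup_le (fun y hy => ⟨⟨y, hY.1 hy⟩, Subgroup.mem_sup_left (hY.2.2 _ hy), rfl⟩)
          fun y hy => ⟨⟨y, hZ.1 hy⟩, Subgroup.mem_sup_right (hZ.2.2 _ hy), rfl⟩
      obtain ⟨w, hw, hwx⟩ := hle hx
      obtain rfl : w = x := Subtype.ext hwx
      exact hw⟩
  have inv_bot : Inv ⊥ := ⟨bot_le, normalizes_of_conj fun g _ y hy => by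
      rw [Subgroup.mem_bot.1 hy, mul_one, mul_inv_cancel]; exact one_mem _,
    fun x hx => by
      obtain rfl : x = 1 := Subtype.ext (Subgroup.mem_bot.1 hx)
      rw [map_one]; exact one_mem _⟩
  have hp : 1 < p := (Fact.out : p.Prime).one_lt
  obtain ⟨A0, ⟨hA0, hA0c⟩, hmax⟩ :=
    ((finite_below hX).subset (s := {Y | Y ≤ X}) (t := {Y | Inv Y ∧ Nat.card Y ≤ p ^ d})
      fun Y hY => hY.1.1).exists_maximalFor id _ ⟨⊥, inv_bot, by simpa using Nat.one_le_pow _ _ (by omega)⟩
  have hA0d : Nat.card A0 < p ^ d := lt_of_le_of_ne hA0c fun e =>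
    hne (hNP X A0 hA0.1 hX hA0.2.1 e α hα hord hA0.2.2)
  have hA0X : A0 < X := lt_of_le_of_ne hA0.1 (by rintro rfl; omega)
  obtain ⟨B0, ⟨hB0, hAB⟩, hmin⟩ :=
    ((finite_below hX).subset (s := {Y | Y ≤ X}) (t := {Y | Inv Y ∧ A0 < Y})
      fun Y hY => hY.1.1).exists_minimalFor id _
        ⟨X, ⟨le_rfl, Subgroup.le_normalizer, fun x _ => (α x).2⟩, hA0X⟩
  have hB0d : p ^ d < Nat.card B0 := by
    by_contra h
    exact hAB.not_ge (hmax (j := B0) ⟨hB0, not_lt.1 h⟩ hAB.le)
  have hchief : ∀ Y, Inv Y → A0 ≤ Y → Y ≤ B0 → Y = A0 ∨ Y = B0 := by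
    intro Y hY h1 h2
    rcases eq_or_lt_of_le h1 with e | h
    · exact Or.inl e.symm
    · exact Or.inr (le_antisymm h2 (hmin (j := Y) ⟨hY, h⟩ h2))
  have hB0S : B0 ≤ S := hB0.1.trans hX
  obtain ⟨Q, hA0Q, hQB, hQc⟩ := exists_between hS hAB.le hB0S hA0c hB0d.le
  have hQne : Q ≠ A0 := fun e => by rw [e] at hQc; omega
  have hBQ : ¬ B0 ≤ Q := fun h => by
    haveI := finite_of_le (hQB.trans hB0S)
    have := Subgroup.card_le_of_le h
    omega
  obtain ⟨P, hP, hQP, hA⟩ := hW Q (hQB.trans hB0S) hQc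
  have hQX : Q ≤ X := hQB.trans hB0.1
  have hAinv : Inv (Q ⊓ P) := by
    have e : Q ⊓ P = X ⊓ (Q ⊓ P) := (inf_eq_right.2 (inf_le_left.trans hQX)).symm
    rw [e]; exact inv_sc _ hA
  have hAle : Q ⊓ P ≤ A0 := by
    rcases hchief _ (inv_sup _ _ hA0 hAinv) le_sup_left (sup_le hAB.le (inf_le_left.trans hQB)) with h | h
    · exact le_sup_right.trans h.le
    · exact absurd (h.ge.trans (sup_le hA0Q inf_le_left)) hBQ
  have hSP : S ≤ Subgroup.normalizer (P : Set Ω) := le_normalizer_of_stronglyClosed hP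
  have hC := inv_inf _ _ hB0 (inv_sc P hP)
  rcases hchief _ (inv_sup _ _ hA0 hC) le_sup_left (sup_le hAB.le inf_le_left) with h | h
  · refine hBQ fun x hx => ?_
    have hD := inv_inf _ _ hB0 (inv_sc _ hQP)
    have hQD : Q ≤ B0 ⊓ (X ⊓ (Q ⊔ P)) := le_inf hQB (le_inf hQX le_sup_left)
    rcases hchief _ hD (hA0Q.trans hQD) inf_le_left with h' | h'
    · exact absurd (le_antisymm (hQD.trans h'.le) hA0Q) hQne
    · obtain ⟨q, hq, y, hy, rfl⟩ := mem_sup_split ((hQB.trans hB0S).trans hSP) ((h'.ge hx).2.2)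
      have hyB : y ∈ B0 := by simpa using B0.mul_mem (B0.inv_mem (hQB hq)) hx
      exact Q.mul_mem hq (hA0Q (h.le (Subgroup.mem_sup_right
        (show y ∈ B0 ⊓ (X ⊓ P) from ⟨hyB, hB0.1 hyB, hy⟩))))
  · refine hQne (le_antisymm (fun q hq => ?_) hA0Q)
    obtain ⟨a, ha, c, hc, rfl⟩ := mem_sup_split (hA0.1.trans hC.2.1) (h.ge (hQB hq))
    refine A0.mul_mem ha (hAle ⟨?_, hc.2.2⟩)
    simpa using Q.mul_mem (Q.inv_mem (hA0Q ha)) hq

/-- A system is inner when centric subgroups have no automorphisms of order prime to `p`. -/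
lemma eq_inner_of_centric (hS : IsPGroup p S) (hF : F.IsSaturated p)
    (h : ∀ P : Subgroup Ω, P ≤ S → F.IsCentric P → ∀ α ∈ F.autGroup P, ¬ p ∣ orderOf α → α = 1) :
    F = Cfsg.innerFusionSystem S := by
  have hle : F ≤ Cfsg.innerFusionSystem S := by
    refine le_of_centricRadical hS hF _ fun P hn hc _ => ?_
    haveI := finite_mulAut (S := S) hn.1
    have hp : IsPGroup p (F.autGroup P) := by
      rintro ⟨a, ha⟩
      obtain ⟨k, hk⟩ := exists_pPart (p := p) a
      exact ⟨k, Subtype.ext (h P hn.1 hc _ (Subgroup.pow_mem _ ha _) hk)⟩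
    obtain ⟨-, R, hR⟩ := fullyAutomized_of_fullyNormalized hS hF hn
    have htop : (R : Subgroup (F.autGroup P)) = ⊤ :=
      (R.3 (hp.of_equiv Subgroup.topEquiv.symm) le_top).symm
    rw [hR, Subgroup.subgroupOf_eq_top] at htop
    exact htop.trans (autInducedBy_le_autGroup hn.1)
  exact ext_hom fun P => Set.Subset.antisymm (hle P) (inner_le F P)

lemma centralizer_le_of_centric {P : Subgroup Ω} (hP : P ≤ S) (hc : F.IsCentric P) :
    centralizerIn S S ≤ P := fun x hx =>
  hc.2 P (IsConj.refl hP) ⟨hx.1, Subgroup.centralizer_le (s := (P : Set Ω)) hP hx.2⟩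

lemma eq_inner_of_center (hS : IsPGroup p S) (hF : F.IsSaturated p) {d : ℕ} (hW : AllWeak F p d)
    (hNP : NoPrimeAut F p d) (hc : p ^ d ≤ Nat.card (centralizerIn S S)) :
    F = Cfsg.innerFusionSystem S :=
  eq_inner_of_centric hS hF fun P hP hPc α hα hord => aut_eq_one_of_card_ge hS hW hNP hP (by
    haveI := finite_of_le hP
    exact hc.trans (Subgroup.card_le_of_le (centralizer_le_of_centric hP hPc))) hα hord

/-- The partner of a subgroup meeting a minimal strongly closed subgroup. -/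
lemma exists_partner {d : ℕ} (hW : AllWeak F p d) {N : Subgroup Ω} (hN : F.StronglyClosed N)
    (hmin : ∀ M, F.StronglyClosed M → M ≤ N → M ≠ ⊥ → M = N) {Q : Subgroup Ω} (hQ : Q ≤ S)
    (hQc : Nat.card Q = p ^ d) (hmeet : Q ⊓ N ≠ ⊥) (hNQ : ¬ N ≤ Q) :
    ∃ P, F.StronglyClosed P ∧ P ⊓ N = ⊥ ∧ N ≤ Q ⊔ P ∧ P ≠ ⊥ := by
  obtain ⟨P, hP, hQP, hA⟩ := hW Q hQ hQc
  have hAN : Q ⊓ P ⊓ N = ⊥ := by
    by_contra h
    exact hNQ ((hmin _ (sc_inf hA hN) inf_le_right h).ge.trans (inf_le_left.trans inf_le_left))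
  have hPN : P ⊓ N = ⊥ := by
    by_contra h
    have hNP' : N ≤ P := (hmin _ (sc_inf hP hN) inf_le_right h).ge.trans inf_le_left
    refine hmeet (le_bot_iff.1 (le_trans ?_ hAN.le))
    exact le_inf (le_inf inf_le_left (inf_le_right.trans hNP')) inf_le_right
  have hle : N ≤ Q ⊔ P := by
    have h : (Q ⊔ P) ⊓ N ≠ ⊥ := fun h => hmeet (le_bot_iff.1
      (le_trans (inf_le_inf_right N le_sup_left) h.le))
    exact (hmin _ (sc_inf hQP hN) inf_le_right h).ge.trans inf_le_left
  refine ⟨P, hP, hPN, hle, fun h => hNQ ?_⟩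
  rw [h, sup_bot_eq] at hle
  exact hle

lemma card_minimal_le (hS : IsPGroup p S) {d : ℕ} (hd : 1 ≤ d) (hW : AllWeak F p d) {N : Subgroup Ω}
    (hN : F.StronglyClosed N) (hmin : ∀ M, F.StronglyClosed M → M ≤ N → M ≠ ⊥ → M = N) :
    Nat.card N ≤ p ^ d := by
  by_contra hlt
  have hp : 1 < p := (Fact.out : p.Prime).one_lt
  obtain ⟨Q, -, hQN, hQc⟩ := exists_between hS (bot_le : ⊥ ≤ N) hN.1 (m := d)
    (by simpa using Nat.one_le_pow _ _ (by omega)) (not_le.1 hlt).le
  have hQne : Q ≠ ⊥ := fun h => by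
    rw [h, Subgroup.card_bot] at hQc
    have := Nat.one_lt_pow (show d ≠ 0 by omega) hp
    omega
  have hNQ : ¬ N ≤ Q := fun h => by
    haveI := finite_of_le (hQN.trans hN.1)
    have := Subgroup.card_le_of_le h
    omega
  obtain ⟨P, hP, hPN, hle, -⟩ := exists_partner hW hN hmin (hQN.trans hN.1) hQc
    (by rwa [inf_eq_left.2 hQN]) hNQ
  refine hNQ fun n hn => ?_
  obtain ⟨q, hq, y, hy, rfl⟩ := mem_sup_split
    ((hQN.trans hN.1).trans (le_normalizer_of_stronglyClosed hP)) (hle hn)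
  have hy1 : y = 1 := Subgroup.mem_bot.1 (hPN ▸ (show y ∈ P ⊓ N from
    ⟨hy, by simpa using N.mul_mem (N.inv_mem (hQN hq)) hn⟩))
  simpa [hy1] using hq

lemma exists_orderOf_eq_p (hS : IsPGroup p S) {Y : Subgroup Ω} (hY : Y ≤ S) (hne : Y ≠ ⊥) :
    ∃ z ∈ Y, orderOf z = p := by
  haveI := finite_of_le hY
  obtain ⟨a, ha⟩ := exists_card_pow hS hY
  have hdvd : p ∣ Nat.card Y := by
    rw [ha]
    refine dvd_pow_self p fun h0 => hne (Subgroup.eq_bot_of_card_eq Y (by rw [ha, h0, pow_zero]))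
  obtain ⟨z, hz⟩ := exists_prime_orderOf_dvd_card' p hdvd
  exact ⟨z, z.2, (Subgroup.orderOf_coe z).trans hz⟩

lemma inf_centralizer_ne_bot (hS : IsPGroup p S) {P : Subgroup Ω} (hP : F.StronglyClosed P) (hne : P ≠ ⊥) :
    P ⊓ centralizerIn S S ≠ ⊥ := by
  haveI : (P.subgroupOf S).Normal :=
    (Subgroup.normal_subgroupOf_iff_le_normalizer hP.1).2 (le_normalizer_of_stronglyClosed hP)
  have h1 : P.subgroupOf S ≠ ⊥ := fun h => hne (by
    have := congrArg (Subgroup.map S.subtype) h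
    rwa [Subgroup.map_subgroupOf_eq_of_le hP.1, Subgroup.map_bot] at this)
  obtain ⟨⟨w, hw, hwc⟩, hw1⟩ :=
    Subgroup.ne_bot_iff_exists_ne_one.1 (CfsgLib.PReduced.inf_center_ne_bot hS h1)
  intro h
  refine hw1 (Subtype.ext (Subtype.ext (Subgroup.mem_bot.1 (h ▸ (show (w : Ω) ∈ P ⊓ centralizerIn S S from
    ⟨hw, w.2, Subgroup.mem_centralizer_iff.2 fun g hg => congrArg Subtype.val
      (Subgroup.mem_center_iff.1 hwc ⟨g, hg⟩)⟩)))))

lemma card_mul_le_of_inf_eq_bot {A B T : Subgroup Ω} (hT : T ≤ S) (hA : A ≤ T) (hB : B ≤ T) (h : A ⊓ B = ⊥) :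
    Nat.card A * Nat.card B ≤ Nat.card T := by
  haveI := finite_of_le hT
  rw [← Nat.card_prod]
  refine Nat.card_le_card_of_injective (fun x : A × B => (⟨x.1 * x.2, T.mul_mem (hA x.1.2) (hB x.2.2)⟩ : T)) ?_
  rintro ⟨a, b⟩ ⟨a', b'⟩ he
  have he' : (a : Ω) * b = a' * b' := congrArg Subtype.val he
  have h1 : (a' : Ω)⁻¹ * a = b' * (b : Ω)⁻¹ := by
    rw [eq_mul_inv_iff_mul_eq, mul_assoc, he', inv_mul_cancel_left]
  have h2 : (a' : Ω)⁻¹ * a ∈ A ⊓ B :=
    ⟨A.mul_mem (A.inv_mem a'.2) a.2, h1 ▸ B.mul_mem b'.2 (B.inv_mem b.2)⟩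
  rw [h, Subgroup.mem_bot] at h2
  obtain rfl : a' = a := Subtype.ext (inv_mul_eq_one.1 h2)
  rw [mul_left_cancel_iff] at he'
  exact Prod.ext rfl (Subtype.ext he')

/-- A minimal strongly closed subgroup of order `p ^ d` is central. -/
lemma le_centralizer_of_card (hS : IsPGroup p S) {d : ℕ} (hd : 2 ≤ d) (hW : AllWeak F p d)
    (hlt : p ^ d < Nat.card S) {N : Subgroup Ω} (hN : F.StronglyClosed N) (hNc : Nat.card N = p ^ d)
    (hmin : ∀ M, F.StronglyClosed M → M ≤ N → M ≠ ⊥ → M = N) : N ≤ centralizerIn S S := by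
  have hp : 1 < p := (Fact.out : p.Prime).one_lt
  haveI := finite_of_le hN.1
  have hdd : p ^ (d + 1) = p ^ d * p := pow_succ p d
  obtain ⟨s, hs⟩ := exists_card_pow hS (le_refl S)
  have hds : d + 1 ≤ s := (Nat.pow_lt_pow_iff_right hp).1 (hs ▸ hlt)
  obtain ⟨T, hNT, hTS, hTc⟩ := exists_between hS hN.1 le_rfl (m := d + 1)
    (by rw [hNc]; exact Nat.pow_le_pow_right (by omega) (by omega))
    (by rw [hs]; exact Nat.pow_le_pow_right (by omega) hds)
  obtain ⟨x, hxT, hxN⟩ : ∃ x ∈ T, x ∉ N := by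
    by_contra h
    push Not at h
    have := Subgroup.card_le_of_le (show T ≤ N from h)
    rw [hTc, hNc] at this
    nlinarith [Nat.one_le_pow d p (by omega)]
  haveI := finite_of_le hTS
  have hxle : Subgroup.zpowers x ≤ T := Subgroup.zpowers_le.2 hxT
  obtain ⟨j, hj⟩ := exists_card_pow hS (hxle.trans hTS)
  -- a second subgroup of order `p ^ d` in `T`
  obtain ⟨Q, hQT, hQc, hxQ⟩ : ∃ Q ≤ T, Nat.card Q = p ^ d ∧ x ∈ Q := by
    rcases le_or_gt j d with hjd | hjd
    · obtain ⟨Q, h1, h2, h3⟩ := exists_between hS hxle hTS (m := d)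
        (by rw [hj]; exact Nat.pow_le_pow_right (by omega) hjd)
        (by rw [hTc]; exact Nat.pow_le_pow_right (by omega) (by omega))
      exact ⟨Q, h2, h3, h1 (Subgroup.mem_zpowers x)⟩
    exfalso
    have hTx : T = Subgroup.zpowers x := (Subgroup.eq_of_le_of_card_ge hxle (by
      rw [hj, hTc]; exact Nat.pow_le_pow_right (by omega) hjd)).symm
    haveI : IsCyclic T := by rw [hTx]; infer_instance
    haveI : IsCyclic N := isCyclic_of_injective (Subgroup.inclusion hNT) (Subgroup.inclusion_injective hNT)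
    obtain ⟨g, hg⟩ := IsCyclic.exists_generator (α := N)
    have hgo : orderOf (g : Ω) = p ^ d := by
      rw [Subgroup.orderOf_coe, orderOf_eq_card_of_forall_mem_zpowers hg, hNc]
    set R := Subgroup.zpowers ((g : Ω) ^ p ^ (d - 1)) with hR
    have hd' : p ^ (d - 1) * p = p ^ d := by rw [← pow_succ, show d - 1 + 1 = d by omega]
    have hgp : ((g : Ω) ^ p ^ (d - 1)) ^ p = 1 := by
      rw [← pow_mul, hd', ← hgo, pow_orderOf_eq_one]
    have hRN : R ≤ N := Subgroup.zpowers_le.2 (N.pow_mem g.2 _)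
    have hgne : (g : Ω) ^ p ^ (d - 1) ≠ 1 := pow_ne_one_of_lt_orderOf (pow_ne_zero _ (by omega))
      (hgo ▸ Nat.pow_lt_pow_right hp (by omega))
    have hRsc : F.StronglyClosed R := by
      refine ⟨hRN.trans hN.1, fun U hU φ hφ y => ?_⟩
      have hyN : φ y ∈ N := hN.2 U (hU.trans hRN) φ hφ y
      obtain ⟨i, hi⟩ := Subgroup.mem_zpowers_iff.1 (hg ⟨φ y, hyN⟩)
      have hi' : (g : Ω) ^ i = φ y := by rw [← Subgroup.coe_zpow, hi]
      have hyp : φ y ^ p = 1 := by
        rw [← map_pow, show y ^ p = 1 from ?_, map_one]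
        obtain ⟨k, hk⟩ := Subgroup.mem_zpowers_iff.1 (hU y.2)
        refine Subtype.ext ?_
        rw [Subgroup.coe_pow, ← hk, ← zpow_natCast, ← zpow_mul, mul_comm, zpow_mul, zpow_natCast, hgp,
          one_zpow]
        rfl
      rw [← hi', ← zpow_natCast, ← zpow_mul, ← orderOf_dvd_iff_zpow_eq_one, hgo, ← hd', Nat.cast_mul] at hyp
      obtain ⟨k, hk⟩ := (mul_dvd_mul_iff_right (Nat.cast_ne_zero.2 (by omega) : (p : ℤ) ≠ 0)).1 hyp
      exact Subgroup.mem_zpowers_iff.2 ⟨k, by rw [← zpow_natCast, ← zpow_mul, ← hk, hi']⟩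
    have hRne : R ≠ ⊥ := fun h => hgne (Subgroup.zpowers_eq_bot.1 h)
    have hRc : Nat.card R = p := by rw [hR, Nat.card_zpowers]; exact orderOf_eq_prime hgp hgne
    have := congrArg (fun K : Subgroup Ω => Nat.card K) (hmin R hRsc hRN hRne)
    simp only [hRc, hNc] at this
    have : p ^ 1 < p ^ d := Nat.pow_lt_pow_right hp (by omega)
    rw [pow_one] at this
    omega
  have hQS := hQT.trans hTS
  have hNQ : ¬ N ≤ Q := fun h => by
    haveI := finite_of_le hQS
    exact hxN ((Subgroup.eq_of_le_of_card_ge h (by rw [hQc, hNc])).ge hxQ)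
  have hmeet : Q ⊓ N ≠ ⊥ := fun h => by
    have := card_mul_le_of_inf_eq_bot hTS hQT hNT h
    rw [hQc, hNc, hTc, ← pow_add] at this
    have := (Nat.pow_le_pow_iff_right hp).1 this
    omega
  obtain ⟨P, hP, hPN, -, hPne⟩ := exists_partner hW hN hmin hQS hQc hmeet hNQ
  obtain ⟨z, hz, hzp⟩ := exists_orderOf_eq_p hS (inf_le_left.trans hP.1) (inf_centralizer_ne_bot hS hP hPne)
  have hzN : z ∉ N := fun h => by
    have : z = 1 := Subgroup.mem_bot.1 (hPN ▸ (show z ∈ P ⊓ N from ⟨hz.1, h⟩))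
    rw [this, orderOf_one] at hzp
    omega
  by_contra hnc
  -- a maximal subgroup of `N` above the central part
  obtain ⟨M, hKM, hMN, hMc⟩ := exists_between hS (inf_le_left : N ⊓ centralizerIn S S ≤ N) hN.1 (m := d - 1)
    (by
      obtain ⟨a, ha⟩ := exists_card_pow hS ((inf_le_left : N ⊓ centralizerIn S S ≤ N).trans hN.1)
      have hlt' := card_lt_of_lt hN.1 (lt_of_le_of_ne (inf_le_left : N ⊓ centralizerIn S S ≤ N)
        fun e => hnc (e.ge.trans inf_le_right))
      rw [ha, hNc] at hlt'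
      rw [ha]
      exact Nat.pow_le_pow_right (by omega) (by have := (Nat.pow_lt_pow_iff_right hp).1 hlt'; omega))
    (by rw [hNc]; exact Nat.pow_le_pow_right (by omega) (by omega))
  have hzS : z ∈ S := hz.2.1
  have hzc : ∀ g ∈ S, g * z = z * g := fun g hg => Subgroup.mem_centralizer_iff.1 hz.2.2 g hg
  have hMS : M ≤ S := hMN.trans hN.1
  have hcomm : ∀ (m : M) (w : Subgroup.zpowers z), Commute (M.subtype m) ((Subgroup.zpowers z).subtype w) := by
    rintro m ⟨_, i, rfl⟩
    exact Commute.zpow_right (hzc _ (hMS m.2)) i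
  have hdisj : M ⊓ Subgroup.zpowers z = ⊥ := by
    by_contra h
    haveI : Fact (Nat.card (Subgroup.zpowers z)).Prime := ⟨by rw [Nat.card_zpowers, hzp]; exact Fact.out⟩
    rcases ((M ⊓ Subgroup.zpowers z).subgroupOf (Subgroup.zpowers z)).eq_bot_or_eq_top_of_prime_card with h' | h'
    · refine h ?_
      have := congrArg (Subgroup.map (Subgroup.zpowers z).subtype) h'
      rwa [Subgroup.map_subgroupOf_eq_of_le inf_le_right, Subgroup.map_bot] at this
    · exact hzN (hMN ((Subgroup.subgroupOf_eq_top.1 h') (Subgroup.mem_zpowers z)).1)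
  set f := MonoidHom.noncommCoprod M.subtype (Subgroup.zpowers z).subtype hcomm with hf
  have hrange : f.range = M ⊔ Subgroup.zpowers z := by
    rw [hf, MonoidHom.noncommCoprod_range, Subgroup.range_subtype, Subgroup.range_subtype]
  have hfinj : Function.Injective f :=
    (MonoidHom.noncommCoprod_injective _ _ hcomm).2 ⟨M.subtype_injective, (Subgroup.zpowers z).subtype_injective,
      by rw [Subgroup.range_subtype, Subgroup.range_subtype]; exact disjoint_iff.2 hdisj⟩
  have hQ'c : Nat.card (M ⊔ Subgroup.zpowers z : Subgroup Ω) = p ^ d := by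
    rw [← hrange, ← Nat.card_congr (MonoidHom.ofInjective hfinj).toEquiv, Nat.card_prod, hMc, Nat.card_zpowers,
      hzp, ← pow_succ, show d - 1 + 1 = d by omega]
  have hQ'S : M ⊔ Subgroup.zpowers z ≤ S := sup_le hMS (Subgroup.zpowers_le.2 hzS)
  have hNQ' : ¬ N ≤ M ⊔ Subgroup.zpowers z := fun h => by
    haveI := finite_of_le hQ'S
    exact hzN ((Subgroup.eq_of_le_of_card_ge h (by rw [hQ'c, hNc])).ge
      (Subgroup.mem_sup_right (Subgroup.mem_zpowers z)))
  have hmeet' : (M ⊔ Subgroup.zpowers z) ⊓ N ≠ ⊥ := fun h => by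
    have hM : M = ⊥ := le_bot_iff.1 (h ▸ le_inf le_sup_left hMN)
    rw [hM, Subgroup.card_bot] at hMc
    have : 1 < p ^ (d - 1) := Nat.one_lt_pow (by omega) hp
    omega
  obtain ⟨P', hP', hP'N, hle, -⟩ := exists_partner hW hN hmin hQ'S hQ'c hmeet' hNQ'
  obtain ⟨n, hn, hnM⟩ : ∃ n ∈ N, n ∉ M := by
    by_contra h
    push Not at h
    haveI := finite_of_le hMS
    have := Subgroup.card_le_of_le (show N ≤ M from h)
    rw [hNc, hMc] at this
    have := (Nat.pow_le_pow_iff_right hp).1 this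
    omega
  have hSP' : S ≤ Subgroup.normalizer (P' : Set Ω) := le_normalizer_of_stronglyClosed hP'
  obtain ⟨q, hq, y, hy, rfl⟩ := mem_sup_split (hQ'S.trans hSP') (hle hn)
  obtain ⟨⟨m, ⟨w, hw⟩⟩, rfl⟩ := hrange.ge hq
  have hwc : ∀ g ∈ S, g * w = w * g := fun g hg => by
    obtain ⟨i, rfl⟩ := Subgroup.mem_zpowers_iff.1 hw
    exact Commute.zpow_right (hzc g hg) i
  have hwS : w ∈ S := Subgroup.zpowers_le.2 hzS hw
  have hv : w * y ∈ N := by
    have := N.mul_mem (N.inv_mem (hMN m.2)) hn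
    simpa [hf, mul_assoc] using this
  refine hnM ?_
  have hvc : w * y ∈ centralizerIn S S := by
    refine ⟨hN.1 hv, Subgroup.mem_centralizer_iff.2 fun g hg => ?_⟩
    have h1 : g * (w * y) * g⁻¹ * (w * y)⁻¹ ∈ N :=
      N.mul_mem (conj_mem_of_normalizer (le_normalizer_of_stronglyClosed hN hg) hv) (N.inv_mem hv)
    have h2 : g * (w * y) * g⁻¹ * (w * y)⁻¹ = w * (g * y * g⁻¹ * y⁻¹) * w⁻¹ := by
      rw [← mul_assoc g w y, hwc g hg]; group
    have h3 : g * (w * y) * g⁻¹ * (w * y)⁻¹ ∈ P' ⊓ N :=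
      ⟨h2 ▸ conj_mem_of_normalizer (hSP' hwS)
        (P'.mul_mem (conj_mem_of_normalizer (hSP' hg) hy) (P'.inv_mem hy)), h1⟩
    rw [hP'N, Subgroup.mem_bot, mul_inv_eq_one, mul_inv_eq_iff_eq_mul] at h3
    exact h3
  have := M.mul_mem m.2 (hKM ⟨hv, hvc⟩)
  simpa [hf, mul_assoc] using this

/-- If a factor system is inner, automorphisms of order prime to `p` act trivially on the cosets. -/
lemma mem_of_factor (hS : IsPGroup p S) (hF : F.IsSaturated p) {N : Subgroup Ω} (hN : F.StronglyClosed N)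
    {Ω' : Type u} [Group Ω'] {S' : Subgroup Ω'} {θ : S →* Ω'} {E : Cfsg.FusionSystem S'}
    (hE : F.IsFactorSystem N θ E) (hin : E = Cfsg.innerFusionSystem S')
    {P : Subgroup Ω} (hP : P ≤ S) {α : MulAut P} (hα : α ∈ F.autGroup P) (hord : ¬ p ∣ orderOf α) (x : P) :
    (x : Ω)⁻¹ * (α x : P) ∈ N := by
  obtain ⟨φ', hφ', hi⟩ := (isSurjectiveMorphism_factor hS hF hN hE).1.2 P _ ((mem_autGroup hP).1 hα)
  obtain ⟨-, hker, hrange, -⟩ := hE
  obtain ⟨hPS, hv, hP', hi'⟩ := hi
  rw [hin] at hφ'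
  obtain ⟨-, s', hs', hsx⟩ := hφ'
  obtain ⟨s, rfl⟩ := hrange.ge hs'
  let π : P → Ω' := fun x => θ ⟨x, hP x.2⟩
  have hstep : ∀ x : P, π (α x) = θ s * π x * (θ s)⁻¹ := fun x => (hi' x).symm.trans (hsx _)
  have hiter : ∀ (m : ℕ) (x : P), π ((α ^ m) x) = θ s ^ m * π x * (θ s ^ m)⁻¹ := by
    intro m
    induction m with
    | zero => intro x; simp
    | succ m ih =>
      intro x
      rw [pow_succ', MulAut.mul_apply, hstep, ih, pow_succ']
      group
  obtain ⟨l, hl⟩ := hS s
  have hs1 : θ s ^ p ^ l = 1 := by rw [← map_pow, hl, map_one]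
  have hco : Nat.Coprime (p ^ l) (orderOf α) :=
    Nat.Coprime.pow_left l ((Fact.out : p.Prime).coprime_iff_not_dvd.2 hord)
  have hsc : Commute (θ s) (π x) := by
    have hcomm : θ s ^ orderOf α * π x * (θ s ^ orderOf α)⁻¹ = π x := by
      rw [← hiter, pow_orderOf_eq_one, MulAut.one_apply]
    have h2 : Commute (θ s ^ orderOf α) (π x) := mul_inv_eq_iff_eq_mul.1 hcomm
    obtain ⟨m, hm⟩ := exists_pow_eq_self_of_coprime (x := θ s) (n := orderOf α)
      (hco.symm.coprime_dvd_right (orderOf_dvd_of_pow_eq_one hs1))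
    rw [← hm]
    exact h2.pow_left m
  have h3 : π (α x) = π x := by rw [hstep, hsc.eq, mul_inv_cancel_right]
  refine (hker ((⟨x, hP x.2⟩ : S)⁻¹ * ⟨α x, hP (α x).2⟩)).1 ?_
  rw [map_mul, map_inv, inv_mul_eq_one]
  exact h3.symm

lemma eq_one_of_fix_of_mem {N P : Subgroup Ω} (hS : IsPGroup p S) (hP : P ≤ S) {α : MulAut P}
    (hord : ¬ p ∣ orderOf α) (hfix : ∀ x : P, (x : Ω) ∈ N → α x = x)
    (hmod : ∀ x : P, (x : Ω)⁻¹ * (α x : P) ∈ N) : α = 1 := by
  refine MulEquiv.ext fun x => ?_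
  have hpow : ∀ m : ℕ, (α ^ m) x = x * (x⁻¹ * α x) ^ m := by
    intro m
    induction m with
    | zero => simp
    | succ m ih =>
      rw [pow_succ', MulAut.mul_apply, ih, map_mul, map_pow, hfix (x⁻¹ * α x) (by simpa using hmod x), pow_succ', ← mul_assoc,
        mul_inv_cancel_left]
  have h5 := hpow (orderOf α)
  rw [pow_orderOf_eq_one, MulAut.one_apply, left_eq_mul] at h5
  obtain ⟨j, hj⟩ := (hS.to_le hP) (x⁻¹ * α x)
  have h6 := (pow_gcd_eq_one (a := x⁻¹ * α x)).2 ⟨hj, h5⟩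
  rw [(Nat.Coprime.pow_left j ((Fact.out : p.Prime).coprime_iff_not_dvd.2 hord) :
    Nat.gcd (p ^ j) (orderOf α) = 1), pow_one] at h6
  exact (inv_mul_eq_one.1 h6).symm

lemma exists_minimal_sc {M : Subgroup Ω} (hM : F.StronglyClosed M) (hne : M ≠ ⊥) :
    ∃ N, F.StronglyClosed N ∧ N ≤ M ∧ N ≠ ⊥ ∧ ∀ K, F.StronglyClosed K → K ≤ N → K ≠ ⊥ → K = N := by
  obtain ⟨N, ⟨h1, h2, h3⟩, hmin⟩ :=
    ((finite_below hM.1).subset (s := {Y | Y ≤ M}) (t := {Y | F.StronglyClosed Y ∧ Y ≤ M ∧ Y ≠ ⊥})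
      fun Y hY => hY.2.1).exists_minimalFor id _ ⟨M, hM, le_rfl, hne⟩
  exact ⟨N, h1, h2, h3, fun K hK hKN hK1 => le_antisymm hKN (hmin (j := K) ⟨hK, hKN.trans h2, hK1⟩ hKN)⟩

/-- The quotient by a small strongly closed subgroup inherits the hypotheses. -/
lemma factor_hyp (hS : IsPGroup p S) {N : Subgroup Ω} (hN : F.StronglyClosed N) {e d : ℕ}
    (hNc : Nat.card N = p ^ e) (hed : e ≤ d) (hW : AllWeak F p d) (hNP : NoPrimeAut F p d)
    [(N.subgroupOf S).Normal] {E : Cfsg.FusionSystem (⊤ : Subgroup (S ⧸ N.subgroupOf S))}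
    (hE : F.IsFactorSystem N (QuotientGroup.mk' (N.subgroupOf S)) E) :
    AllWeak E p (d - e) ∧ NoPrimeAut E p (d - e) := by
  classical
  have hp : 1 < p := (Fact.out : p.Prime).one_lt
  set θ : S →* S ⧸ N.subgroupOf S := QuotientGroup.mk' (N.subgroupOf S) with hθ
  have hsurj : Function.Surjective θ := QuotientGroup.mk'_surjective _
  have hker := hE.2.1
  have hpre : ∀ Q' : Subgroup (S ⧸ N.subgroupOf S),
      Nat.card (preimageAlong θ Q') = p ^ e * Nat.card Q' := fun Q' => by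
    rw [preimageAlong, Subgroup.card_map_of_injective S.subtype_injective]
    have h1 := Subgroup.card_mul_index (Q'.comap θ)
    rw [Subgroup.index_comap_of_surjective _ hsurj] at h1
    have h2 := Subgroup.card_mul_index Q'
    have h3 := Subgroup.card_eq_card_quotient_mul_card_subgroup (N.subgroupOf S)
    rw [Nat.card_congr (Subgroup.subgroupOfEquivOfLe hN.1).toEquiv, hNc, ← h2] at h3
    have hi : 0 < Q'.index := Nat.pos_of_ne_zero Subgroup.index_ne_zero_of_finite
    refine Nat.eq_of_mul_eq_mul_right hi ?_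
    rw [h1, h3]; ring
  have hde : p ^ e * p ^ (d - e) = p ^ d := by rw [← pow_add, Nat.add_sub_cancel' hed]
  refine ⟨fun Q' _ hQ' => ?_, fun X' H' hHX hX' hnorm hH' α' hα' hord hfix => ?_⟩
  · set Q := preimageAlong θ Q' with hQdef
    have hQS : Q ≤ S := preimageAlong_le _
    obtain ⟨P, hP, h1, h2⟩ := hW Q hQS (by rw [hQdef, hpre, hQ', hde])
    have himg : imageAlong θ Q = Q' := by
      ext y
      constructor
      · rintro ⟨a, ha, rfl⟩; exact (mem_preimageAlong.1 ha).2
      · intro hy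
        obtain ⟨a, rfl⟩ := hsurj y
        exact ⟨a, mem_preimageAlong.2 ⟨a.2, hy⟩, rfl⟩
    refine ⟨imageAlong θ P, stronglyClosed_imageAlong hE hP, ?_, ?_⟩
    · have : Q' ⊔ imageAlong θ P = imageAlong θ (Q ⊔ P) := by
        rw [← himg]
        unfold Cfsg.FusionSystem.imageAlong
        rw [← Subgroup.map_sup, Subgroup.subgroupOf_sup hQS hP.1]
      rw [this]; exact stronglyClosed_imageAlong hE h1
    · have : Q' ⊓ imageAlong θ P = imageAlong θ (Q ⊓ P) := by
        ext y
        constructor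
        · rintro ⟨hy, a, ha, rfl⟩
          exact ⟨a, ⟨mem_preimageAlong.2 ⟨a.2, hy⟩, ha⟩, rfl⟩
        · rintro ⟨a, ha, rfl⟩
          exact ⟨(mem_preimageAlong.1 ha.1).2, a, ha.2, rfl⟩
      rw [this]; exact stronglyClosed_imageAlong hE h2
  · set X := preimageAlong θ X' with hXdef
    set H := preimageAlong θ H' with hHdef
    have hXS : X ≤ S := preimageAlong_le _
    haveI := finite_of_le hXS
    haveI := finite_mulAut hXS
    obtain ⟨-, φ, hφ, hi⟩ := (hE.2.2.2 _ _).1 ((mem_autGroup hX').1 hα')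
    have hr : φ.range = X := Subgroup.eq_of_le_of_card_ge (by
      rintro _ ⟨x, rfl⟩
      refine mem_preimageAlong.2 ⟨val_mem hφ x, ?_⟩
      rw [← induced_apply hi x.2 (val_mem hφ x) (x := ⟨_, (mem_preimageAlong.1 x.2).2⟩) rfl]
      exact (α' _).2) (Nat.card_congr (MonoidHom.ofInjective (F.injective_of_mem hφ)).toEquiv).le
    set α : MulAut X := isoOfHom (F.injective_of_mem hφ) hr
    have hαF : α ∈ F.autGroup X := mem_autGroup_of_eq hφ fun x => isoOfHom_apply _ _ _
    have hit : ∀ (m : ℕ) (x : X), ((α' ^ m) ⟨_, (mem_preimageAlong.1 x.2).2⟩ : X') =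
        (⟨_, (mem_preimageAlong.1 ((α ^ m) x).2).2⟩ : X') := by
      intro m
      induction m with
      | zero => intro x; rfl
      | succ m ihm =>
        intro x
        rw [pow_succ', MulAut.mul_apply, ihm]
        refine Subtype.ext ((induced_apply hi ((α ^ m) x).2 (val_mem hφ _) rfl).trans ?_)
        exact congrArg θ (Subtype.ext (by rw [pow_succ']; rfl))
    have hst : ∀ x : X, (x : Ω) ∈ H → ((α x : X) : Ω) ∈ H := fun x hx => by
      refine mem_preimageAlong.2 ⟨hXS (α x).2, ?_⟩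
      have h1 := hfix ⟨_, (mem_preimageAlong.1 x.2).2⟩ (mem_preimageAlong.1 hx).2
      have h2 := hit 1 x
      simp only [pow_one] at h2
      rw [h2] at h1
      exact h1
    have hnH : X ≤ Subgroup.normalizer (H : Set Ω) := normalizes_of_conj fun g hg y hy => by
      obtain ⟨hgS, hgX⟩ := mem_preimageAlong.1 hg
      obtain ⟨hyS, hyH⟩ := mem_preimageAlong.1 hy
      refine mem_preimageAlong.2 ⟨S.mul_mem (S.mul_mem hgS hyS) (S.inv_mem hgS), ?_⟩
      have := conj_mem_of_normalizer (hnorm hgX) hyH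
      rw [← map_inv, ← map_mul, ← map_mul] at this
      exact this
    obtain ⟨k, hk⟩ := exists_pPart (p := p) α
    have h1 : α ^ p ^ k = 1 := hNP X H (preimageAlong_mono hHX) hXS hnH (by rw [hHdef, hpre, hH', hde]) _
      (Subgroup.pow_mem _ hαF _) hk (pow_stable hst _)
    refine eq_one_of_pow (k := k) (MulEquiv.ext fun y => ?_) hord
    obtain ⟨x, hx⟩ := exists_section (θ := θ) (P' := X') (fun z _ => hsurj z) y
    obtain rfl : y = ⟨_, (mem_preimageAlong.1 x.2).2⟩ := Subtype.ext hx.symm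
    rw [hit, h1]
    rfl

/-- Weakly embedded subgroups of one order without automorphisms of order prime to `p` force an inner system. -/
theorem eq_inner (p : ℕ) [Fact p.Prime] :
    ∀ (n : ℕ) (Ω : Type u) [Group Ω] (S : Subgroup Ω) [Finite S] (F : Cfsg.FusionSystem S) (d : ℕ),
      Nat.card S < n → IsPGroup p S → F.IsSaturated p → 1 ≤ d → p ^ d < Nat.card S → AllWeak F p d →
      NoPrimeAut F p d → F = Cfsg.innerFusionSystem S := by
  intro n
  induction n with
  | zero => intro Ω _ S _ F d h; exact absurd h (Nat.not_lt_zero _)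
  | succ n ih =>
    intro Ω _ S _ F d hn hS hF hd hlt hW hNP
    have hp : 1 < p := (Fact.out : p.Prime).one_lt
    have hSne : S ≠ ⊥ := fun h => by
      have h1 : Nat.card S = 1 := by subst h; exact Subgroup.card_bot
      have := Nat.one_lt_pow (show d ≠ 0 by omega) hp
      omega
    rcases eq_or_lt_of_le hd with hd1 | hd2
    · refine eq_inner_of_center hS hF hW hNP ?_
      obtain ⟨z, hz, hzp⟩ := exists_orderOf_eq_p hS (inf_le_left : S ⊓ centralizerIn S S ≤ S)
        (inf_centralizer_ne_bot hS (F := F) sc_self hSne)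
      haveI := finite_centralizerIn (S := S) S
      rw [← hd1, pow_one, ← hzp, ← Nat.card_zpowers]
      exact Subgroup.card_le_of_le (Subgroup.zpowers_le.2 hz.2)
    -- automorphisms act trivially modulo a small strongly closed subgroup
    have hfac : ∀ N, F.StronglyClosed N → N ≠ ⊥ → Nat.card N < p ^ d →
        ∀ P, P ≤ S → ∀ α ∈ F.autGroup P, ¬ p ∣ orderOf α → ∀ x : P, (x : Ω)⁻¹ * (α x : P) ∈ N := by
      intro N hN hNne hNd P hP α hα hord x
      obtain ⟨e, he⟩ := exists_card_pow hS hN.1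
      have hed : e < d := (Nat.pow_lt_pow_iff_right hp).1 (he ▸ hNd)
      have he1 : 1 < Nat.card N := by
        haveI := finite_of_le hN.1
        exact Finite.one_lt_card_iff_nontrivial.2 ((Subgroup.nontrivial_iff_ne_bot N).2 hNne)
      haveI hNn : (N.subgroupOf S).Normal :=
        (Subgroup.normal_subgroupOf_iff_le_normalizer hN.1).2 (le_normalizer_of_stronglyClosed hN)
      set θ : S →* S ⧸ N.subgroupOf S := QuotientGroup.mk' (N.subgroupOf S) with hθ
      have hker : ∀ s : S, θ s = 1 ↔ (s : Ω) ∈ N := fun s => QuotientGroup.eq_one_iff s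
      have htop : θ.range = ⊤ := MonoidHom.range_eq_top.2 (QuotientGroup.mk'_surjective _)
      set E := retarget (factorSystem F θ hker hN) htop with hEdef
      have hE : F.IsFactorSystem N θ E := ⟨hN.1, hker, htop, fun P' φ' => by
        refine ((isFactorSystem_factorSystem hker hN).2.2.2 P' φ').trans ?_
        simp only [htop]⟩
      obtain ⟨hW', hNP'⟩ := factor_hyp hS hN he hed.le hW hNP hE
      have hc : Nat.card S = p ^ e * Nat.card (⊤ : Subgroup (S ⧸ N.subgroupOf S)) := by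
        rw [Subgroup.card_top, Subgroup.card_eq_card_quotient_mul_card_subgroup (N.subgroupOf S),
          Nat.card_congr (Subgroup.subgroupOfEquivOfLe hN.1).toEquiv, he, mul_comm]
      have hde : p ^ d = p ^ e * p ^ (d - e) := by rw [← pow_add, Nat.add_sub_cancel' hed.le]
      refine mem_of_factor hS hF hN hE (ih (S ⧸ N.subgroupOf S) ⊤ E (d - e) ?_ ((hS.to_quotient _).to_subgroup ⊤)
        (isSaturated_factor hS hF hN hE) (by omega) ?_ hW' hNP') hP hα hord x
      · rw [he] at he1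
        have : 0 < Nat.card (⊤ : Subgroup (S ⧸ N.subgroupOf S)) := Nat.card_pos
        nlinarith
      · rw [hc, hde] at hlt
        exact Nat.lt_of_mul_lt_mul_left hlt
    have hbig : ∀ N, F.StronglyClosed N → (∀ K, F.StronglyClosed K → K ≤ N → K ≠ ⊥ → K = N) →
        ¬ Nat.card N < p ^ d → F = Cfsg.innerFusionSystem S := by
      intro N hN hmin hNd
      have hNc : Nat.card N = p ^ d := le_antisymm (card_minimal_le hS hd hW hN hmin) (not_lt.1 hNd)
      have hle := le_centralizer_of_card hS hd2 hW hlt hN hNc hmin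
      refine eq_inner_of_center hS hF hW hNP ?_
      haveI := finite_centralizerIn (S := S) S
      exact hNc ▸ Subgroup.card_le_of_le hle
    obtain ⟨N, hN, -, hNne, hmin⟩ := exists_minimal_sc (F := F) sc_self hSne
    by_cases hNd : Nat.card N < p ^ d
    swap
    · exact hbig N hN hmin hNd
    by_cases hother : ∃ M, F.StronglyClosed M ∧ M ≠ ⊥ ∧ ¬ N ≤ M
    · obtain ⟨M, hM, hMne, hNM⟩ := hother
      obtain ⟨N', hN', hN'M, hN'ne, hmin'⟩ := exists_minimal_sc hM hMne
      by_cases hN'd : Nat.card N' < p ^ d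
      swap
      · exact hbig N' hN' hmin' hN'd
      have hdisj : N ⊓ N' = ⊥ := by
        by_contra h
        exact hNM ((hmin _ (sc_inf hN hN') inf_le_left h).ge.trans (inf_le_right.trans hN'M))
      refine eq_inner_of_centric hS hF fun P hP _ α hα hord => MulEquiv.ext fun x => ?_
      have h1 : (x : Ω)⁻¹ * (α x : P) ∈ N ⊓ N' :=
        ⟨hfac N hN hNne hNd P hP α hα hord x, hfac N' hN' hN'ne hN'd P hP α hα hord x⟩
      rw [hdisj, Subgroup.mem_bot, inv_mul_eq_one] at h1
      exact (Subtype.ext h1).symm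
    push Not at hother
    have hmeet : ∀ Q, Q ≤ S → Nat.card Q = p ^ d → Q ⊓ N ≠ ⊥ → N ≤ Q := by
      intro Q hQ hQc hQN
      by_contra h
      obtain ⟨P, hP, hPN, -, hPne⟩ := exists_partner hW hN hmin hQ hQc hQN h
      exact hNne (le_bot_iff.1 (hPN ▸ le_inf (hother P hP hPne) le_rfl))
    obtain ⟨e, he⟩ := exists_card_pow hS hN.1
    have hed : e < d := (Nat.pow_lt_pow_iff_right hp).1 (he ▸ hNd)
    rcases lt_or_ge e 2 with he2 | he2
    · -- `N` is central of order `p`
      haveI := finite_of_le hN.1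
      have hNp : (Nat.card N).Prime := by
        rcases e with _ | _ | e
        · exact absurd (Subgroup.eq_bot_of_card_eq N (by rw [he, pow_zero])) hNne
        · rw [he, zero_add, pow_one]; exact Fact.out
        · omega
      have hNc : N ≤ centralizerIn S S := by
        haveI : Fact (Nat.card N).Prime := ⟨hNp⟩
        rcases ((N ⊓ centralizerIn S S).subgroupOf N).eq_bot_or_eq_top_of_prime_card with h | h
        · refine absurd ?_ (inf_centralizer_ne_bot hS hN hNne)
          have := congrArg (Subgroup.map N.subtype) h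
          rwa [Subgroup.map_subgroupOf_eq_of_le inf_le_left, Subgroup.map_bot] at this
        · exact fun x hx => ((Subgroup.subgroupOf_eq_top.1 h) hx).2
      refine eq_inner_of_centric hS hF fun P hP hPc α hα hord => eq_one_of_fix_of_mem (N := N) hS hP hord ?_
        fun x => hfac N hN hNne hNd P hP α hα hord x
      have hNP' : N ≤ P := hNc.trans (centralizer_le_of_centric hP hPc)
      have hφ := restrict ((mem_autGroup hP).1 hα) hNP'
      set φ := (P.subtype.comp α.toMonoidHom).comp (Subgroup.inclusion hNP') with hφdef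
      have hr : φ.range = N := Subgroup.eq_of_le_of_card_ge
        (by rintro _ ⟨y, rfl⟩; exact stronglyClosed_mapsTo hN hφ y y.2)
        (Nat.card_congr (MonoidHom.ofInjective (F.injective_of_mem hφ)).toEquiv).le
      obtain ⟨ψ, hψ, hag⟩ := (receptive_of_fullyNormalized hS hF
        (isFullyNormalized_of_le_normalizer hN.1 (le_normalizer_of_stronglyClosed hN))).2 N φ hφ hr
      have hle : S ≤ extender S N φ := fun g hg => centralizerIn_le_extender
        ⟨hg, Subgroup.mem_centralizer_iff.2 fun y hy =>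
          (Subgroup.mem_centralizer_iff.1 (hNc hy).2 g hg).symm⟩
      have hψS := restrict hψ hle
      have hrS : (ψ.comp (Subgroup.inclusion hle)).range = S := Subgroup.eq_of_le_of_card_ge (range_le hψS)
        (Nat.card_congr (MonoidHom.ofInjective (F.injective_of_mem hψS)).toEquiv).le
      set β : MulAut S := isoOfHom (F.injective_of_mem hψS) hrS
      have hβ : β ∈ F.autGroup S := mem_autGroup_of_eq hψS fun _ => rfl
      haveI := finite_mulAut (S := S) (le_refl S)
      obtain ⟨k, hk⟩ := exists_pPart (p := p) β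
      have hβ1 : β ^ p ^ k = 1 :=
        aut_eq_one_of_card_ge hS hW hNP le_rfl hlt.le (Subgroup.pow_mem _ hβ _) hk
      have hres : ∀ (m : ℕ) (y : N),
          (((β ^ m) ⟨y, hN.1 y.2⟩ : S) : Ω) = ((α ^ m) ⟨y, hNP' y.2⟩ : P) := by
        intro m
        induction m with
        | zero => intro y; rfl
        | succ m ihm =>
          intro y
          rw [pow_succ, pow_succ, MulAut.mul_apply, MulAut.mul_apply]
          have e1 := ihm ⟨φ y, hr.le ⟨y, rfl⟩⟩
          have e2 : β ⟨y, hN.1 y.2⟩ = ⟨φ y, hN.1 (hr.le ⟨y, rfl⟩)⟩ := Subtype.ext (hag y y.2 _)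
          rw [e2]
          exact e1
      intro x hx
      have hxk : (α ^ p ^ k) x = x := by
        refine Subtype.ext ?_
        have := hres (p ^ k) ⟨x, hx⟩
        rw [hβ1] at this
        exact this.symm
      obtain ⟨m, hm⟩ := exists_pow_eq_self_of_coprime (x := α) (n := p ^ k)
        ((Nat.Coprime.pow_left k ((Fact.out : p.Prime).coprime_iff_not_dvd.2 hord)))
      rw [← hm]
      exact pow_fix hxk m
    -- `N` lies in the Frattini subgroup: Tate
    have hΦ : N ≤ (frattini ↥S).map S.subtype := by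
      suffices h : N.subgroupOf S ≤ frattini ↥S by
        intro x hx; exact ⟨⟨x, hN.1 hx⟩, h hx, rfl⟩
      refine le_iInf₂ fun K hK => ?_
      obtain ⟨s, hs⟩ := exists_card_pow hS (le_refl S)
      have hds : d < s := (Nat.pow_lt_pow_iff_right hp).1 (hs ▸ hlt)
      obtain ⟨t, ht⟩ := exists_card_pow hS (Subgroup.map_subtype_le K)
      have hKlt : Nat.card (K.map S.subtype) < Nat.card S := card_lt_of_lt le_rfl
        (lt_of_le_of_ne (Subgroup.map_subtype_le K) fun h => hK.1 (by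
          refine top_unique fun x _ => ?_
          obtain ⟨w, hw, he⟩ := h.ge x.2
          exact (Subtype.ext he : w = x) ▸ hw))
      rw [ht, hs] at hKlt
      have hts := (Nat.pow_lt_pow_iff_right hp).1 hKlt
      obtain ⟨M, hKM, hMS, hMc⟩ := exists_between hS (Subgroup.map_subtype_le K) (le_refl S) (m := s - 1)
        (by rw [ht]; exact Nat.pow_le_pow_right (by omega) (by omega))
        (by rw [hs]; exact Nat.pow_le_pow_right (by omega) (by omega))
      have hMK : M.subgroupOf S = K := by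
        have h1 : K ≤ M.subgroupOf S := fun x hx => hKM ⟨x, hx, rfl⟩
        refine (hK.le_iff_eq ?_).1 h1
        intro h
        rw [Subgroup.subgroupOf_eq_top] at h
        haveI := finite_of_le hMS
        have := Subgroup.eq_of_le_of_card_ge (H := M) (K := S) hMS (Subgroup.card_le_of_le h)
        rw [this, hs] at hMc
        have := Nat.pow_right_injective (by omega : 2 ≤ p) hMc
        omega
      rw [← hMK]
      refine fun x hx => ?_
      have hMN : M ⊓ N ≠ ⊥ := fun h => by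
        have := card_mul_le_of_inf_eq_bot le_rfl hMS hN.1 h
        rw [hMc, he, hs, ← pow_add] at this
        have := (Nat.pow_le_pow_iff_right hp).1 this
        omega
      obtain ⟨Q, hQ1, hQM, hQc⟩ := exists_between hS (inf_le_left : M ⊓ N ≤ M) hMS (m := d)
        (by
          haveI := finite_of_le hN.1
          exact (Subgroup.card_le_of_le inf_le_right).trans hNd.le)
        (by rw [hMc]; exact Nat.pow_le_pow_right (by omega) (by omega))
      exact hQM (hmeet Q (hQM.trans hMS) hQc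
        (fun h => hMN (le_bot_iff.1 (h ▸ le_inf hQ1 inf_le_right))) hx)
    have hhyp : F.hyperfocalSubgroup p ≤ N := by
      rw [Cfsg.FusionSystem.hyperfocalSubgroup, Subgroup.closure_le]
      rintro _ ⟨P, α, x, hP, hα, rfl⟩
      haveI := finite_mulAut (S := S) hP
      revert x
      unfold Cfsg.pResidual at hα
      induction hα using Subgroup.closure_induction with
      | mem β hβ =>
        intro x
        refine hfac N hN hNne hNd P hP β β.2 ?_ x
        rw [Subgroup.orderOf_coe]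
        exact fun h => (Fact.out : p.Prime).ne_one
          (Nat.eq_one_of_dvd_coprimes (Nat.Coprime.symm hβ) dvd_rfl h)
      | one => intro x; simp
      | mul a b _ _ iha ihb =>
        intro x
        have := N.mul_mem (ihb x) (iha ((b : MulAut P) x))
        simpa [mul_assoc] using this
      | inv a _ iha =>
        intro x
        have := N.inv_mem (iha ((a : MulAut P)⁻¹ x))
        simpa [mul_assoc, mul_inv_rev] using this
    have hsub : (Cfsg.innerFusionSystem S).IsSubsystemOf F := fun P => inner_le F P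
    have hfoc : F.focalSubgroup = (Cfsg.innerFusionSystem S).focalSubgroup :=
      focalSubgroup_eq_of_frattini hS hF hsub (by
        rw [focalSubgroup_eq hS hF]
        exact sup_le ((hhyp.trans hΦ).trans le_sup_left)
          ((commutator_le_focalSubgroup _).trans le_sup_right))
    have hbot : F.hyperfocalSubgroup p = ⊥ := le_bot_iff.1
      ((hyperfocal_le_of_focal hS hF (isSaturated_inner hS) hsub hfoc).trans (le_of_eq (by
        rw [Cfsg.FusionSystem.hyperfocalSubgroup, Subgroup.closure_eq_bot_iff]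
        rintro _ ⟨P, α, x, hP, hα, rfl⟩
        haveI := finite_mulAut (S := S) hP
        have hA : IsPGroup p ((Cfsg.innerFusionSystem S).autGroup P) := by
          rw [autGroup_innerFS hP]; exact isPGroup_autInducedBy p hS P
        have : α = 1 := by
          unfold Cfsg.pResidual at hα
          induction hα using Subgroup.closure_induction with
          | mem β hβ =>
            obtain ⟨k, hk⟩ := hA β
            exact eq_one_of_pow hk ((Fact.out : p.Prime).coprime_iff_not_dvd.1 (Nat.Coprime.symm hβ))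
          | one => rfl
          | mul a b _ _ iha ihb => rw [iha, ihb, one_mul]
          | inv a _ iha => rw [iha, inv_one]
        simp [this])))
    refine eq_inner_of_centric hS hF fun P hP _ α hα hord => MulEquiv.ext fun x => ?_
    have h1 : (x : Ω)⁻¹ * (α x : P) ∈ F.hyperfocalSubgroup p := by
      haveI := finite_mulAut (S := S) hP
      refine Subgroup.subset_closure ⟨P, ⟨α, hα⟩, x, hP, ?_, rfl⟩
      refine CfsgLib.Transfer.mem_pResidual_of_coprime ?_
      rw [← Subgroup.orderOf_coe]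
      exact ((Fact.out : p.Prime).coprime_iff_not_dvd.2 hord).symm
    rw [hbot, Subgroup.mem_bot, inv_mul_eq_one] at h1
    exact (Subtype.ext h1).symm

end CfsgLib.Fusion.WeakEmb
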