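import Cfsg.Agent.Fusion.Tate.Focal
import Cfsg.Agent.Fusion.AxiomaticThompson
import Cfsg.Agent.Yoshida.Tower

/-!
Yoshida's theorem for saturated fusion systems.
-/

set_option autoImplicit false
set_option linter.style.haveILetI false

open Cfsg

namespace CfsgLib.Fusion

open Cfsg.FusionSystem
open CfsgLib.Biset
open scoped commutatorElement

universe u

variable {Ω : Type u} [Group Ω] {S : Subgroup Ω} [Finite S] {F : Cfsg.FusionSystem S} {p : ℕ} [Fact p.Prime]

/-- Without a quotient `C_p ≀ C_p`, the normalizer system of `S` controls transfer. -/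
theorem focal_eq_of_no_wreath (hS : IsPGroup p S) (hF : F.IsSaturated p)
    (hw : ¬ ∃ (W : Sylow p (Equiv.Perm (Fin (p ^ 2)))) (f : S →* (W : Subgroup (Equiv.Perm (Fin (p ^ 2))))),
      Function.Surjective f) :
    (normalizerSystem F (le_refl S)).focalSubgroup = F.focalSubgroup := by
  classical
  have hSS : S ≤ normalizerIn S S := le_inf le_rfl Subgroup.le_normalizer
  have e : normalizerIn S S = S := le_antisymm inf_le_left hSS
  set H := retarget (normalizerSystem F (le_refl S)) e with hHdef
  have hsub : H.IsSubsystemOf F := fun P φ h => h.1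
  have hfoc : (normalizerSystem F (le_refl S)).focalSubgroup = H.focalSubgroup := rfl
  rw [hfoc]
  refine (focalSubgroup_eq_of_frattini hS hF hsub ?_).symm
  by_contra hle
  obtain ⟨y, hy, hyX⟩ := SetLike.not_le_iff_exists.1 hle
  set X : Subgroup S := ((frattini ↥S).map S.subtype ⊔ H.focalSubgroup).subgroupOf S with hXdef
  have hΦX : frattini ↥S ≤ X := fun z hz => Subgroup.mem_sup_left ⟨z, hz, rfl⟩
  have hcX : commutator S ≤ X := (CfsgLib.CoprimeAction.commutator_le_frattini' hS).trans hΦX
  haveI : X.Normal := ⟨fun n hn g => by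
    have h1 := X.mul_mem (hcX (Subgroup.commutator_mem_commutator (Subgroup.mem_top g) (Subgroup.mem_top n))) hn
    rwa [commutatorElement_def, inv_mul_cancel_right] at h1⟩
  obtain ⟨f, hfX, hfy⟩ := CfsgLib.Yoshida.exists_hom_ne_one (p := p) hS hcX
    (fun x => hΦX (CfsgLib.CoprimeAction.pow_mem_frattini hS x))
    (y := (⟨y, focalSubgroup_le F hy⟩ : S)) hyX
  obtain ⟨k, ⟨hk, hfk⟩, hmin⟩ := Set.exists_min_image {z : S | (z : Ω) ∈ F.focalSubgroup ∧ f z ≠ 1} orderOf
    (Set.toFinite _) ⟨_, hy, hfy⟩
  have hsmall : ∀ z : S, (z : Ω) ∈ F.focalSubgroup → orderOf z < orderOf k → f z = 1 := by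
    intro z hz hlt
    by_contra h
    exact absurd (hmin z ⟨hz, h⟩) (not_le.2 hlt)
  have hk1 : orderOf k ≠ 1 := fun h => hfk (by rw [orderOf_eq_one_iff.1 h, map_one])
  obtain ⟨n, hn, hst, hdeg⟩ := exists_stable hS hF
  have hp1 : ∀ a : Multiplicative (ZMod p), a ^ p = 1 := fun a => by
    apply Multiplicative.toAdd.injective
    rw [toAdd_pow, nsmul_eq_mul, ZMod.natCast_self, zero_mul, toAdd_one]
  have ht : btransfer hn f k = f k ^ degree n := by
    rw [← sum_index hn, ← Finset.prod_pow_eq_pow_sum, btransfer, MonoidHom.finsetProd_apply]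
    refine Finset.prod_congr rfl fun j _ => ?_
    obtain ⟨U, φ, hφ, hjφ⟩ := isFGraph_index hn j
    by_cases hR : sndR j.1 = ⊤
    · rw [show (sndR j.1).index = 1 from Subgroup.index_eq_one.2 hR, pow_one]
      have hUS : S ≤ U := by
        haveI := finite_of_le (le_of_hom hφ)
        refine (Subgroup.eq_of_le_of_card_ge (le_of_hom hφ) (le_of_eq ?_)).ge
        rw [← card_gsub hφ, ← hjφ, ← Subgroup.card_top (G := S), ← hR]
        exact (Nat.card_congr (Equiv.ofBijective _ ⟨snd_injOn (isFGraph_index hn j),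
          MonoidHom.subgroupMap_surjective _ _⟩)).symm
      have hback : ∀ r : sndR j.1, f (back (isFGraph_index hn j) r) = f (r : S) := by
        intro r
        have hm := back_mem (isFGraph_index hn j) r
        obtain ⟨hu, hur⟩ := hjφ.le hm
        have h1 := mem_normalizerSystem_of_invariant (M := F) le_rfl hφ le_rfl hUS ((le_of_hom hφ).trans hSS)
          fun z hz => val_mem hφ _
        have h2 : f ((back (isFGraph_index hn j) r)⁻¹ * (r : S)) = 1 := hfX _ (Subgroup.mem_sup_right
          (Subgroup.subset_closure ⟨U, _, ⟨_, hu⟩, h1, congrArg (fun z : Ω => ((back (isFGraph_index hn j) r : S) : Ω)⁻¹ * z) hur.symm⟩))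
        rw [map_mul, map_inv, inv_mul_eq_one] at h2
        exact h2
      haveI : (sndR j.1).FiniteIndex := inferInstance
      letI : Fintype (Quotient (MulAction.orbitRel (Subgroup.zpowers k) (S ⧸ sndR j.1))) := Fintype.ofFinite _
      haveI : Subsingleton (S ⧸ sndR j.1) := by
        rw [hR]
        exact QuotientGroup.subsingleton_quotient_top
      haveI : Subsingleton (Quotient (MulAction.orbitRel (Subgroup.zpowers k) (S ⧸ sndR j.1))) :=
        Quotient.mk_surjective.subsingleton
      rw [MonoidHom.transfer_eq_prod_quotient_orbitRel_zpowers_quot,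
        Fintype.prod_subsingleton _ (Quotient.mk'' ((1 : S) : S ⧸ sndR j.1))]
      refine (hback _).trans ?_
      rw [map_mul, map_mul, map_inv, map_pow, mul_right_comm, inv_mul_cancel, one_mul]
      rw [show ∀ q : S ⧸ sndR j.1, Function.minimalPeriod (k • ·) q = 1 from fun q =>
        Function.minimalPeriod_eq_one_iff_isFixedPt.2 (Subsingleton.elim _ _), pow_one]
    · rw [CfsgLib.Yoshida.transfer_eq_one_of_proper hS hw hR _ fun g m hm h => ?_]
      · obtain ⟨b, hb⟩ := IsPGroup.iff_card.1 hS
        have hdvd : (sndR j.1).index ∣ p ^ b := hb ▸ (sndR j.1).index_dvd_card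
        obtain ⟨c, -, hc⟩ := (Nat.dvd_prime_pow (Fact.out : p.Prime)).1 hdvd
        obtain ⟨d, rfl⟩ : ∃ d, c = d + 1 := ⟨c - 1, by
          rcases Nat.eq_zero_or_pos c with rfl | h
          · exact absurd (Subgroup.index_eq_one.1 (by rw [hc, pow_zero])) hR
          · omega⟩
        rw [hc, pow_succ, pow_mul]
        exact (hp1 _).symm
      show f (back _ _) = 1
      have hm1 := back_mem (isFGraph_index hn j) (⟨_, h⟩ : sndR j.1)
      set a := back (isFGraph_index hn j) (⟨_, h⟩ : sndR j.1) with ha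
      obtain ⟨hu, hur⟩ := hjφ.le hm1
      have hz : ((g⁻¹ * k ^ m * g : S) : Ω) ∈ F.focalSubgroup := by
        have h1 : ((g⁻¹ * k ^ m * g : S) : Ω) = ((k ^ m : S) : Ω) * ⁅((k ^ m : S) : Ω)⁻¹, (g : Ω)⁻¹⁆ := by
          simp [commutatorElement_def, mul_assoc]
        rw [h1]
        refine Subgroup.mul_mem _ ?_ (commutator_le_focalSubgroup F
          (Subgroup.commutator_mem_commutator (S.inv_mem (k ^ m : S).2) (S.inv_mem g.2)))
        simpa using F.focalSubgroup.pow_mem hk m
      have haf : (a : Ω) ∈ F.focalSubgroup := by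
        have h1 : (a : Ω)⁻¹ * φ ⟨a, hu⟩ ∈ F.focalSubgroup := Subgroup.subset_closure ⟨U, φ, ⟨a, hu⟩, hφ, rfl⟩
        rw [hur] at h1
        have h2 := Subgroup.mul_mem _ hz (Subgroup.inv_mem _ h1)
        simpa [mul_assoc] using h2
      refine hsmall a haf ?_
      have ho : orderOf a = orderOf (k ^ m) := by
        rw [← Subgroup.orderOf_coe a, show ((a : Ω)) = U.subtype ⟨(a : Ω), hu⟩ from rfl,
          orderOf_injective U.subtype U.subtype_injective, ← orderOf_injective φ (F.injective_of_mem hφ), hur,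
          Subgroup.orderOf_coe]
        have h3 := orderOf_injective (MulAut.conj g⁻¹).toMonoidHom (MulAut.conj g⁻¹).injective (k ^ m)
        simpa using h3
      rw [ho]
      obtain ⟨b, hb⟩ := IsPGroup.iff_orderOf.1 hS k
      rcases Nat.eq_zero_or_pos b with rfl | hb0
      · exact absurd (by rw [hb, pow_zero]) hk1
      obtain ⟨m', rfl⟩ := hm
      rw [pow_mul]
      refine lt_of_le_of_lt (Nat.le_of_dvd (orderOf_pos _) (orderOf_pow_dvd m')) ?_
      rw [orderOf_pow, hb, Nat.gcd_eq_right (dvd_pow_self p hb0.ne')]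
      exact Nat.div_lt_self (pow_pos (Fact.out : p.Prime).pos b) (Fact.out : p.Prime).one_lt
  rw [btransfer_focal hn hst f hk] at ht
  refine hfk (orderOf_eq_one_iff.1 (Nat.eq_one_of_dvd_coprimes ?_ (orderOf_dvd_of_pow_eq_one (hp1 (f k)))
    (orderOf_dvd_of_pow_eq_one ht.symm)))
  exact (Nat.Prime.coprime_iff_not_dvd Fact.out).2 hdeg

end CfsgLib.Fusion
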